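import Cfsg.Agent.Blocks.TwoGen.Gen
import Cfsg.Agent.Blocks.Modular.Block
import Cfsg.Agent.Blocks.Dihedral.Main
import Cfsg.Agent.Blocks.Defect.Quotient
import Cfsg.Agent.Blocks.Subsection.QuotientBlock
import Cfsg.Agent.Blocks.Subsection.Major
import Cfsg.Agent.Blocks.BrauerBasis.Section
import Cfsg.Agent.Blocks.HeightZero.MinMax
import Cfsg.Agent.FusionTwo.Common

/-!
# The members of a block trivial on a central element

The restriction of a character to the regular elements is an integral combination of the members of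
its block trivial on a central `z` of order `p`; for a quaternion or semidihedral defect group of
order `2 ^ (m + 1)` there are `2 ^ (m - 2) + 3` of these.
-/

set_option autoImplicit false
open scoped MonoidAlgebra

namespace CfsgLib.Blocks.TwoGen

open Cfsg CfsgLib CfsgLib.Blocks CfsgLib.Blocks.Modular
open scoped ComplexConjugate

universe u

variable {M : Ideal AlgInt} {p : ℕ} {K : Type u} [Group K] [Fintype K]
  {b : Set (IrrCharacter K)} {z : K}

/-- On the regular elements a member is an integral combination of those trivial on `z`. -/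
theorem exists_int_inflated (hM : IsPModular p M) (hb : IsPBlock M b)
    (hz : z ∈ Subgroup.center K) (hzp : orderOf z = p) {ξ : IrrCharacter K} (hξ : ξ ∈ b) :
    ∃ c : IrrCharacter K → ℤ, (∀ η, c η ≠ 0 → η ∈ b ∧ (η : K → ℂ) z = (η : K → ℂ) 1) ∧
      ∀ s, IsPRegular p s → (ξ : K → ℂ) s =
        ∑ η ∈ b.toFinite.toFinset, (c η : ℂ) * (η : K → ℂ) s := by
  classical
  haveI : Fact p.Prime := ⟨hM.1⟩
  haveI := isMaximal_of_isPModular hM
  haveI := charP_kres hM
  obtain ⟨S⟩ := exists_idemSys (M := M) (G := K)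
  set θ : K → ℂ := fun x => (ξ : K → ℂ) (x ^ regExp p K) with hθ
  have hθc : IsClassFunction K θ := fun g h => by
    simp only [hθ]
    rw [conj_pow, Chars.isClassFunction_coe ξ]
  -- integrality
  have hint : ∀ η : IrrCharacter K, ∃ k : ℤ, classInner θ (η : K → ℂ) = (k : ℂ) := by
    intro η
    choose d hd using fun c => exists_nat_dec S (Chars.isCharacter_coe ξ) c
    choose k hk using fun c => exists_int_classInner (S.gen_phi hM c) (Chars.isCharacter_coe η)
    refine ⟨∑ c, (d c : ℤ) * k c, ?_⟩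
    have he : θ = fun x => ∑ c, (d c : ℂ) * S.phi p c x := funext fun x => by
      simp only [hθ, S.apply_pow_eq_sum hM (Chars.isCharacter_coe ξ) x, hd]
    push_cast
    simp only [← hk, he, classInner, Finset.sum_mul, Finset.mul_sum]
    rw [Finset.sum_comm]
    exact Finset.sum_congr rfl fun c _ => Finset.sum_congr rfl fun x _ => by ring
  -- invariance under translation by `z`
  have hinv : ∀ x, θ (z * x) = θ x := fun x => by
    simp only [hθ]
    rw [(show Commute z x from (Subgroup.mem_center_iff.1 hz x).symm).mul_pow,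
      pow_regExp_of_pElement (e := 1) (hzp.trans (pow_one p).symm), one_mul]
  have hvan : ∀ η : IrrCharacter K, (η : K → ℂ) z ≠ (η : K → ℂ) 1 →
      classInner θ (η : K → ℂ) = 0 := by
    intro η hη
    have h1 : classInner θ (η : K → ℂ) =
        conj ((η : K → ℂ) z / (η : K → ℂ) 1) * classInner θ (η : K → ℂ) := by
      conv_lhs => rw [classInner, ← Equiv.sum_comp (Equiv.mulLeft z) (fun x => θ x * conj ((η : K → ℂ) x))]
      simp only [Equiv.coe_mulLeft, hinv, Chars.map_mul_of_mem_center η hz, map_mul]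
      simp only [classInner, Finset.mul_sum]
      exact Finset.sum_congr rfl fun x _ => by ring
    by_contra h0
    have h2 := mul_right_cancel₀ h0 ((one_mul _).trans h1)
    have h3 := congrArg conj h2
    rw [Complex.conj_conj, map_one] at h3
    exact hη ((div_eq_one_iff_eq (Chars.map_one_ne_zero η)).1 h3.symm)
  choose k hk using hint
  refine ⟨fun η => if η ∈ b then k η else 0, fun η hη => ?_, fun s hs => ?_⟩
  · have hb' : η ∈ b := by
      by_contra h
      exact hη (if_neg h)
    refine ⟨hb', ?_⟩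
    by_contra h
    have h0 := hvan η h
    rw [hk, Int.cast_eq_zero] at h0
    exact hη (by simp [hb', h0])
  · have e1 : (ξ : K → ℂ) s = blockPart b θ s := by
      rw [show (ξ : K → ℂ) s = blockPart b (ξ : K → ℂ) s by
        rw [blockPart_irr, Set.indicator_of_mem hξ]]
      exact BrauerBasis.blockPart_congr_regular hM hb (fun c hc => by
        show (ξ : K → ℂ) c = (ξ : K → ℂ) (c ^ regExp p K)
        rw [pow_regExp_of_regular hc]) hs
    rw [e1]
    simp only [blockPart]
    rw [finsum_mem_eq_finite_toFinset_sum _ b.toFinite]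
    refine Finset.sum_congr rfl fun η hη => ?_
    simp only [if_pos ((Set.Finite.mem_toFinset _).1 hη)]
    rw [← hk η]
    congr 2
    exact Subsingleton.elim _ _

/-- Some member trivial on `z` has height zero. -/
theorem exists_inflated_height_zero (hM : IsPModular p M) (hb : IsPBlock M b)
    (hz : z ∈ Subgroup.center K) (hzp : orderOf z = p) :
    ∃ η : IrrCharacter K, η ∈ b ∧ (η : K → ℂ) z = (η : K → ℂ) 1 ∧
      blockHeight p b (η : K → ℂ) = 0 := by
  classical
  haveI : Fact p.Prime := ⟨hM.1⟩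
  haveI := isMaximal_of_isPModular hM
  obtain ⟨ξ, hξ, hξ0⟩ := HeightZero.exists_height_zero (p := p) hb
  obtain ⟨c, hc, hs⟩ := exists_int_inflated hM hb hz hzp hξ
  by_contra hcon
  push Not at hcon
  set v := HeightZero.minExp p b
  have hdvd : ∀ η, c η ≠ 0 → p ^ (v + 1) ∣ charDegree (η : K → ℂ) := by
    intro η hη
    obtain ⟨hηb, hηz⟩ := hc η hη
    have h := HeightZero.minExp_lt_of_height_ne_zero hηb (hcon η hηb hηz)
    exact (pow_dvd_pow p h).trans (Nat.ordProj_dvd _ p)
  have h1 := hs 1 (by simp [IsPRegular, hM.1.ne_one])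
  simp only [← Chars.coe_charDegree] at h1
  have h2 : ((charDegree (ξ : K → ℂ) : ℤ)) =
      ∑ η ∈ b.toFinite.toFinset, c η * (charDegree (η : K → ℂ) : ℤ) := by exact_mod_cast h1
  have h3 : ((p ^ (v + 1) : ℕ) : ℤ) ∣ (charDegree (ξ : K → ℂ) : ℤ) := by
    rw [h2]
    refine Finset.dvd_sum fun η _ => ?_
    by_cases h : c η = 0
    · simp [h]
    · exact Dvd.dvd.mul_left (Int.natCast_dvd_natCast.2 (hdvd η h)) _
  have h4 := (hM.1.pow_dvd_iff_le_factorization (Chars.charDegree_pos ξ).ne').1
    (Int.natCast_dvd_natCast.1 h3)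
  rw [(HeightZero.blockHeight_eq_zero_iff' hξ).1 hξ0] at h4
  omega

/-- For a quaternion or semidihedral defect group there are `2 ^ (m - 2) + 3` members trivial on the
central involution. -/
theorem card_inflated (hM : IsPModular 2 M) (hb : IsPBlock M b) {P : Subgroup K}
    (hP : IsDefectGroup 2 M b P) {m : ℕ} {s : ℤ} {x y : K} (h : IsGen P m s x y) (hm : 3 ≤ m)
    (hz : x ^ 2 ^ (m - 1) ∈ Subgroup.center K) :
    Nat.card {η : IrrCharacter K // η ∈ b ∧ (η : K → ℂ) (x ^ 2 ^ (m - 1)) = (η : K → ℂ) 1} =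
      2 ^ (m - 2) + 3 := by
  classical
  haveI : Fact (Nat.Prime 2) := ⟨Nat.prime_two⟩
  haveI := isMaximal_of_isPModular hM
  haveI := charP_kres hM
  set z := x ^ 2 ^ (m - 1) with hzdef
  have hzp : orderOf z = 2 := h.orderOf_z
  haveI := Contrib.zpowers_normal_of_center hz
  set N := Subgroup.zpowers z with hN
  haveI : Fintype (K ⧸ N) := Fintype.ofFinite _
  obtain ⟨η₀, hη₀b, hη₀z, hη₀h⟩ := exists_inflated_height_zero hM hb hz hzp
  have hker : ∀ η : IrrCharacter K, (η : K → ℂ) z = (η : K → ℂ) 1 →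
      ∃ θ : IrrCharacter (K ⧸ N), Chars.inflate N θ = η := fun η hη =>
    Chars.exists_inflate_eq _ η (Subgroup.zpowers_le.2
      ((Chars.mem_charKer_iff (Chars.isCharacter_coe η)).2 hη))
  obtain ⟨θ₀, hθ₀⟩ := hker η₀ hη₀z
  set Bbar := blockOf M (θ₀ : K ⧸ N → ℂ) with hBdef
  have hB : IsPBlock M Bbar := ⟨θ₀, rfl⟩
  have hmem : ∀ θ : IrrCharacter (K ⧸ N), θ ∈ Bbar ↔ Chars.inflate N θ ∈ b := by
    intro θ
    rw [eq_blockOf_of_mem hb hη₀b, ← hθ₀]
    show SameBlock M _ _ ↔ SameBlock M _ _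
    rw [Contrib.sameBlock_inflate_iff hM hz hzp]
  have hone : ∀ θ : IrrCharacter (K ⧸ N),
      (Chars.inflate N θ : K → ℂ) z = (Chars.inflate N θ : K → ℂ) 1 := fun θ => by
    rw [Chars.inflate_apply, Chars.inflate_apply,
      (QuotientGroup.eq_one_iff z).2 (Subgroup.mem_zpowers z), QuotientGroup.mk_one]
  have hcount : Nat.card {η : IrrCharacter K // η ∈ b ∧ (η : K → ℂ) z = (η : K → ℂ) 1} =
      Nat.card Bbar := by
    refine (Nat.card_eq_of_bijective
      (fun θ : Bbar => (⟨Chars.inflate N θ.1, (hmem θ.1).1 θ.2, hone θ.1⟩ :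
        {η : IrrCharacter K // η ∈ b ∧ (η : K → ℂ) z = (η : K → ℂ) 1})) ⟨?_, ?_⟩).symm
    · exact fun a a' e => Subtype.ext (Chars.inflate_injective N (congrArg Subtype.val e))
    · rintro ⟨η, hηb, hηz⟩
      obtain ⟨θ, hθ⟩ := hker η hηz
      exact ⟨⟨θ, (hmem θ).2 (hθ ▸ hηb)⟩, Subtype.ext hθ⟩
  -- the defect
  have hdeg : ∀ θ : IrrCharacter (K ⧸ N),
      charDegree (Chars.inflate N θ : K → ℂ) = charDegree (θ : K ⧸ N → ℂ) :=
    fun θ => Chars.charDegree_inflate N θ
  have hmin : HeightZero.minExp 2 Bbar = HeightZero.minExp 2 b := by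
    refine le_antisymm ?_ ?_
    · refine (HeightZero.minExp_le ((hmem θ₀).2 (hθ₀ ▸ hη₀b))).trans ?_
      rw [← hdeg, hθ₀, (HeightZero.blockHeight_eq_zero_iff' hη₀b).1 hη₀h]
    · obtain ⟨θ, hθ, hθ0⟩ := HeightZero.exists_height_zero (p := 2) hB
      rw [← (HeightZero.blockHeight_eq_zero_iff' hθ).1 hθ0, ← hdeg]
      exact HeightZero.minExp_le ((hmem θ).1 hθ)
  have hdb : blockDefect 2 b = m + 1 := by
    have := Contrib.natCard_defectGroup hM hb hP
    rw [h.card] at this
    exact (Nat.pow_right_injective le_rfl this).symm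
  have hcard : (Nat.card K).factorization 2 = (Nat.card (K ⧸ N)).factorization 2 + 1 := by
    rw [← Subgroup.index_eq_card, ← Subgroup.card_mul_index N, hN, Nat.card_zpowers, hzp,
      Nat.factorization_mul two_ne_zero Subgroup.index_ne_zero_of_finite, Finsupp.add_apply,
      Nat.prime_two.factorization_self, add_comm]
  have hdB : blockDefect 2 Bbar = m := by
    rw [HeightZero.blockDefect_eq, hmin]
    rw [HeightZero.blockDefect_eq, hcard] at hdb
    omega
  -- the defect group
  obtain ⟨Dbar, hD⟩ := HeightZero.exists_defectGroup hM hB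
  obtain ⟨P', hP', hle⟩ := Quot.exists_defectGroup_map hM hb hB
    (fun θ hθ => (hmem θ).1 hθ) hD
  obtain ⟨g, hg⟩ := HeightZero.defectGroup_conj_eq hM hb hP hP'
  set π := QuotientGroup.mk' N with hπ
  set Pb := P.map π with hPb
  have hzP : z ∈ P := P.pow_mem h.x_mem _
  have hPbcard : Nat.card Pb = 2 ^ m := by
    have h1 := Subgroup.card_mul_index ((π.comp P.subtype).ker)
    rw [Subgroup.index_ker, MonoidHom.range_comp, Subgroup.range_subtype, h.card] at h1
    have h2 : Nat.card (π.comp P.subtype).ker = 2 := by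
      rw [← hzp, ← Nat.card_zpowers, ← MonoidHom.comap_ker, hπ, QuotientGroup.ker_mk']
      exact Nat.card_congr (Subgroup.subgroupOfEquivOfLe (Subgroup.zpowers_le.2 hzP)).toEquiv
    rw [h2, pow_succ'] at h1
    exact Nat.eq_of_mul_eq_mul_left two_pos h1
  have hDeq : Dbar = Pb.map (MulAut.conj (π g)).toMonoidHom := by
    have himg : P'.map π = Pb.map (MulAut.conj (π g)).toMonoidHom := by
      rw [← hg, hPb, Subgroup.map_map, Subgroup.map_map]
      congr 1
    rw [← himg]
    refine Subgroup.eq_of_le_of_card_ge hle (le_of_eq ?_)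
    rw [Contrib.natCard_defectGroup hM hB hD, hdB, himg,
      Subgroup.card_map_of_injective (MulEquiv.injective _), hPbcard]
  -- the dihedral image
  have hm1 : (2 : ℕ) ^ (m - 1) ≠ 0 := pow_ne_zero _ two_ne_zero
  haveI : NeZero (2 ^ (m - 1)) := ⟨hm1⟩
  have hzN : π z = 1 := (QuotientGroup.eq_one_iff z).2 (Subgroup.mem_zpowers z)
  have hxo : orderOf (π x) = 2 ^ (m - 1) := by
    obtain ⟨j, hj⟩ : ∃ j, m - 1 = j + 1 := ⟨m - 2, by omega⟩
    rw [hj]
    refine orderOf_eq_prime_pow (fun hc => ?_) (by rw [← map_pow, ← hj]; exact hzN)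
    rw [← map_pow, hπ, QuotientGroup.mk'_apply, QuotientGroup.eq_one_iff, hN] at hc
    have h1 := orderOf_dvd_of_mem_zpowers hc
    rw [orderOf_pow' _ (pow_ne_zero _ two_ne_zero), h.ox,
      Nat.gcd_eq_right (pow_dvd_pow 2 (by omega : j ≤ m)),
      Nat.pow_div (by omega) two_pos, hzp] at h1
    have h2 := Nat.le_of_dvd two_pos h1
    have h3 : 2 ^ 2 ≤ 2 ^ (m - j) := Nat.pow_le_pow_right two_pos (by omega)
    omega
  have hyy : π y * π y = 1 := by
    rw [← map_mul]
    rcases h.kind with ⟨-, hy⟩ | ⟨-, -, hy⟩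
    · rw [hy, ← h.z_zpow]; exact hzN
    · rw [hy, map_one]
  have hyx : π y * π x * (π y)⁻¹ = (π x)⁻¹ := by
    rw [← map_inv π y, ← map_mul, ← map_mul, h.rel, map_zpow, ← zpow_neg_one, ← mul_inv_eq_one,
      ← zpow_neg, ← zpow_add, ← orderOf_dvd_iff_zpow_eq_one, hxo]
    rcases h.kind with ⟨hs, -⟩ | ⟨-, hs, -⟩
    · rw [hs]; norm_num
    · rw [hs]; push_cast; norm_num
  have hyn : π y ∉ Subgroup.zpowers (π x) := by
    rintro ⟨i, hi⟩
    have hi' : π (x ^ i) = π y := by rw [map_zpow]; exact hi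
    rw [hπ, QuotientGroup.mk'_apply, QuotientGroup.mk'_apply, QuotientGroup.eq] at hi'
    obtain ⟨j, hj⟩ := hi'
    refine h.y_not_mem ?_
    rw [show y = x ^ i * z ^ j by
      rw [show z ^ j = (x ^ i)⁻¹ * y from hj, mul_inv_cancel_left]]
    exact mul_mem (Subgroup.zpow_mem_zpowers x i)
      (zpow_mem (pow_mem (Subgroup.mem_zpowers x) _) j)
  obtain ⟨f, hf, hfr⟩ := FusionTwo.exists_dihedral_hom hxo hyy hyx hyn
  have hcl : Subgroup.closure {π x, π y} = Pb := by
    refine le_antisymm ((Subgroup.closure_le _).2 ?_) ?_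
    · rintro w (rfl | rfl)
      exacts [⟨x, h.x_mem, rfl⟩, ⟨y, h.y_mem, rfl⟩]
    · rintro _ ⟨q, hq, rfl⟩
      obtain ⟨i, rfl | rfl⟩ := h.mem_cases hq
      · rw [map_zpow]
        exact zpow_mem (Subgroup.subset_closure (Set.mem_insert _ _)) i
      · rw [map_mul, map_zpow]
        exact mul_mem (zpow_mem (Subgroup.subset_closure (Set.mem_insert _ _)) i)
          (Subgroup.subset_closure (Set.mem_insert_of_mem _ rfl))
  let e : Dbar ≃* DihedralGroup (2 ^ (m - 1)) :=
    ((MulEquiv.subgroupCongr hDeq).trans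
      (Subgroup.equivMapOfInjective Pb _ (MulEquiv.injective _)).symm).trans
      ((MonoidHom.ofInjective hf).trans (MulEquiv.subgroupCongr (hfr.trans hcl))).symm
  rw [hcount]
  exact (DihedralBlk.dihedral_invariants hM hB hD hm e).1

end CfsgLib.Blocks.TwoGen
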