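import Cfsg.Agent.Blocks.TwoGen.RotData

/-!
# The columns at the elements outside `zpowers x`

When `x ^ j * y` is not conjugate as a pair into `zpowers x` its column is an integral vector with
the values `1`, `-1` on the four members of height zero and `0` elsewhere.
-/

set_option autoImplicit false
set_option maxHeartbeats 1000000
open scoped MonoidAlgebra ComplexConjugate

namespace CfsgLib.Blocks.TwoGen

open Cfsg CfsgLib CfsgLib.Blocks CfsgLib.Blocks.NilSection CfsgLib.Blocks.DihedralBlk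

universe u

variable {G : Type u} [Group G] [Fintype G] {M : Ideal AlgInt} [hMmax : M.IsMaximal]
  [hp : Fact (Nat.Prime 2)] [CharP (kres M) 2] {B : Set (IrrCharacter G)} {D : Subgroup G}
  {g : (kres M)[G]}

section Loc

variable {H : Subgroup G} [Fintype H] {b : Set (IrrCharacter H)} {P : Subgroup H}
  {gH : (kres M)[H]} {ψ : IrrCharacter H}

/-- The column of an element of the defect group of the local block. -/
theorem loc_rankOne (hl : Loc M B D g H b P gH ψ) {v : H} (hv : v ∈ P)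
    (hC : Subgroup.centralizer ({(v : G)} : Set G) ≤ H) :
    RankOne D g (v : G) fun χ => pFn b P gH ψ χ v := by
  classical
  obtain ⟨b', hb', hbe, t, ht, ht0⟩ := loc_section hl hv
  have hmem : ∀ u : cz (v : G), (u : G) ∈ H := fun u => hC (by rw [← cz_eq_centralizer]; exact u.2)
  have hmem' : ∀ u : cz (v : G), (⟨(u : G), hmem u⟩ : H) ∈ cz v := fun u => by
    rw [cz_eq_centralizer, Subgroup.mem_centralizer_singleton_iff, Subtype.ext_iff]
    exact Subgroup.mem_centralizer_singleton_iff.1 (cz_eq_centralizer (v : G) ▸ u.2)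
  refine ⟨fun u => if hu : u ∈ cz (v : G) then lFn b' ψ ⟨⟨u, hmem ⟨u, hu⟩⟩, hmem' ⟨u, hu⟩⟩ else 0,
    fun χ u hu => ?_, ?_⟩
  · have hu' : IsPRegular 2 (⟨⟨(u : G), hmem u⟩, hmem' u⟩ : cz v) := by
      show ¬ 2 ∣ orderOf _
      rw [Subgroup.orderOf_mk, Subgroup.orderOf_mk, Subgroup.orderOf_coe]
      exact hu
    simp only [dif_pos u.2]
    have e := loc_lval hl χ hv hC hb' hbe hu'
    simp only [Subgroup.coe_mul] at e
    exact e
  · have htm : ((t : H) : G) ∈ cz (v : G) := by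
      rw [cz_eq_centralizer, Subgroup.mem_centralizer_singleton_iff]
      exact congrArg Subtype.val
        (Subgroup.mem_centralizer_singleton_iff.1 ((cz_eq_centralizer v).le t.2))
    refine ⟨⟨_, htm⟩, ?_, ?_⟩
    · show ¬ 2 ∣ orderOf _
      rw [Subgroup.orderOf_mk, Subgroup.orderOf_coe, Subgroup.orderOf_coe]
      exact ht
    · simp only [dif_pos htm]
      exact ht0

/-- The values at the inverse. -/
theorem pFn_inv (hl : Loc M B D g H b P gH ψ) (χ : IrrCharacter G) {v : H} (hv : v ∈ P) :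
    pFn b P gH ψ χ v⁻¹ = conj (pFn b P gH ψ χ v) := by
  classical
  haveI := Fintype.ofFinite P
  haveI := Fintype.ofFinite (IrrCharacter P)
  obtain ⟨n, hn⟩ := loc_coef hl χ
  rw [hn, hn, finsum_eq_sum_of_fintype, finsum_eq_sum_of_fintype, map_sum]
  refine Finset.sum_congr rfl fun ζ _ => ?_
  have e1 : charExt P ζ v = (ζ : P → ℂ) ⟨v, hv⟩ := charExt_coe P ζ ⟨v, hv⟩
  have e2 : charExt P ζ v⁻¹ = (ζ : P → ℂ) (⟨v, hv⟩⁻¹ : P) := charExt_coe P ζ (⟨v, hv⟩⁻¹)
  rw [map_mul, Complex.conj_natCast, e1, e2, Chars.map_inv_eq_conj (Chars.isCharacter_coe ζ)]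

/-- At an element with `v ^ 4 = 1` the values are Gaussian integers. -/
theorem pFn_gaussian (hl : Loc M B D g H b P gH ψ) (χ : IrrCharacter G) {v : H} (hv : v ∈ P)
    (h4 : v ^ 4 = 1) :
    ∃ a b' : ℤ, pFn b P gH ψ χ v = (a : ℂ) + (b' : ℂ) * Complex.I := by
  classical
  haveI := Fintype.ofFinite P
  haveI := Fintype.ofFinite (IrrCharacter P)
  obtain ⟨n, hn⟩ := loc_coef hl χ
  have hone : ∀ ζ : IrrCharacter P,
      ∃ a b' : ℤ, charExt P ζ v = (a : ℂ) + (b' : ℂ) * Complex.I := by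
    intro ζ
    obtain ⟨r, hr, -, hval⟩ := Chars.exists_roots (Chars.isCharacter_coe ζ) (⟨v, hv⟩ : P)
    have e := hval 1
    simp only [pow_one, Multiset.map_id'] at e
    rw [show v = ((⟨v, hv⟩ : P) : H) from rfl, charExt_coe, e]
    have hr' : ∀ w ∈ r, w ^ 4 = 1 := fun w hw => by
      obtain ⟨d, hd⟩ := orderOf_dvd_of_pow_eq_one (show (⟨v, hv⟩ : P) ^ 4 = 1 from Subtype.ext h4)
      rw [hd, pow_mul, hr w hw, one_pow]
    clear e hval hr
    induction r using Multiset.induction_on with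
    | empty => exact ⟨0, 0, by simp⟩
    | cons w r ih =>
      obtain ⟨a, b', he⟩ := ih fun w' h' => hr' w' (Multiset.mem_cons_of_mem h')
      have hw := hr' w (Multiset.mem_cons_self w r)
      have hfac : (w - 1) * (w + 1) * ((w - Complex.I) * (w + Complex.I)) = 0 := by
        linear_combination hw + (1 - w * w) * Complex.I_mul_I
      rw [Multiset.sum_cons, he]
      rcases mul_eq_zero.1 hfac with h1 | h1 <;> rcases mul_eq_zero.1 h1 with h2 | h2
      · exact ⟨a + 1, b', by push_cast; linear_combination h2⟩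
      · exact ⟨a - 1, b', by push_cast; linear_combination h2⟩
      · exact ⟨a, b' + 1, by push_cast; linear_combination h2⟩
      · exact ⟨a, b' - 1, by push_cast; linear_combination h2⟩
  choose a b' hab using hone
  refine ⟨∑ ζ, (n ζ : ℤ) * a ζ, ∑ ζ, (n ζ : ℤ) * b' ζ, ?_⟩
  rw [hn, finsum_eq_sum_of_fintype]
  push_cast
  rw [Finset.sum_mul, ← Finset.sum_add_distrib]
  exact Finset.sum_congr rfl fun ζ _ => by rw [hab]; ring

end Loc

variable {m : ℕ} {s : ℤ} {x y : G}

/-- **The column at an element outside that is not conjugate into `zpowers x`.** -/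
theorem exists_reflCol (hM : IsPModular 2 M) (hB : IsPBlock M B)
    (hmax : IsMaxPairIdem 2 ⊤ (topEl M B) D g) (h : IsGen D m s x y) {j : ℤ}
    (hnot : ∀ w ∈ Subgroup.zpowers x, ¬ PairConj D g (x ^ j * y) w)
    (h4 : Nat.card {χ : IrrCharacter G // χ ∈ B ∧ blockHeight 2 B (χ : G → ℂ) = 0} = 4) :
    ∃ r : IrrCharacter G → ℤ, RankOne D g (x ^ j * y) (fun χ => (r χ : ℂ)) ∧
      (∀ χ, r χ ≠ 0 ↔ χ ∈ B ∧ blockHeight 2 B (χ : G → ℂ) = 0) ∧
      ∀ χ, r χ = 1 ∨ r χ = -1 ∨ r χ = 0 := by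
  classical
  haveI := Fintype.ofFinite (IrrCharacter G)
  set c := x ^ j * y with hc
  have hcD : c ∈ D := h.refl_mem j
  set H := Subgroup.centralizer ({c} : Set G) with hH
  haveI := Fintype.ofFinite H
  have hfull : ∀ t : G, Carries 2 D g (Subgroup.zpowers c) t →
      t * c * t⁻¹ ≠ x ^ 2 ^ (m - 1) ∧
        Nat.card (D ⊓ Subgroup.centralizer ({t * c * t⁻¹} : Set G) : Subgroup G) ≤ 4 := by
    rintro t ⟨f, hf, hft⟩
    have hpc : PairConj D g c (t * c * t⁻¹) := by
      refine ⟨t, rfl, ?_⟩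
      rw [fBelow_eq hmax.1.1 hf, zpowers_conj_eq_map, fBelow_eq hmax.1.1 hft]
    have htD : t * c * t⁻¹ ∈ D := hft.le ⟨c, Subgroup.mem_zpowers c, by simp⟩
    have hout : t * c * t⁻¹ ∉ Subgroup.zpowers x := fun hmem => hnot _ hmem hpc
    refine ⟨fun e => hout (e ▸ Subgroup.pow_mem _ (Subgroup.mem_zpowers x) _), ?_⟩
    obtain ⟨i, e | e⟩ := h.mem_cases htD
    · exact absurd ⟨i, e.symm⟩ hout
    · rw [e, h.card_centralizer_refl i]
  obtain ⟨b, gH, ψ, P, hl, hPdef, -⟩ := exists_loc_centralizer hM hB hmax h hfull hH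
  set cH : H := ⟨c, Subgroup.mem_centralizer_singleton_iff.2 rfl⟩ with hcH
  have hcP : cH ∈ P := by rw [hPdef]; exact ⟨hcD, cH.2⟩
  have hcard : Nat.card (P ⊓ cz cH : Subgroup H) = 4 := by
    have hle : P ≤ cz cH := fun w _ => by
      rw [cz_eq_centralizer, Subgroup.mem_centralizer_singleton_iff, Subtype.ext_iff]
      exact Subgroup.mem_centralizer_singleton_iff.1 w.2
    rw [inf_eq_left.2 hle, hPdef, Nat.card_congr (Subgroup.subgroupOfEquivOfLe inf_le_right).toEquiv,
      h.card_centralizer_refl j]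
  have hzz : x ^ 2 ^ (m - 1) * x ^ 2 ^ (m - 1) = 1 := by
    have := pow_orderOf_eq_one (x ^ 2 ^ (m - 1))
    rwa [h.orderOf_z, pow_two] at this
  have hc4 : cH ^ 4 = 1 := Subtype.ext (by
    simp only [Subgroup.coe_pow, Subgroup.coe_one, hcH]
    rw [show 4 = 2 + 2 from rfl, pow_add, pow_two]
    rcases h.sq_refl j with e | e <;> rw [← hc] at e <;> rw [e]
    · exact one_mul 1
    · exact hzz)
  have hC : Subgroup.centralizer ({(cH : G)} : Set G) ≤ H := le_rfl
  have hC' : Subgroup.centralizer ({((cH⁻¹ : H) : G)} : Set G) ≤ H := by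
    intro k hk
    rw [Subgroup.mem_centralizer_singleton_iff] at hk ⊢
    exact (Commute.inv_right_iff.1 hk)
  set p : IrrCharacter G → ℂ := fun χ => pFn b P gH ψ χ cH with hp'
  have hrk : RankOne D g c p := loc_rankOne hl hcP hC
  have hrk' : RankOne D g c⁻¹ fun χ => conj (p χ) := by
    have e := loc_rankOne hl (P.inv_mem hcP) hC'
    rw [show (fun χ => conj (p χ)) = fun χ => pFn b P gH ψ χ cH⁻¹ from
      funext fun χ => (pFn_inv hl χ hcP).symm]
    exact e
  have hconj : PairConj D g c c⁻¹ := by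
    rcases h.sq_refl j with e | e <;> rw [← hc] at e
    · rw [inv_eq_of_mul_eq_one_right e]
      simpa using pairConj_of_mem hmax hcD D.one_mem
    · have e' : c⁻¹ = x ^ 2 ^ (m - 2) * c * (x ^ 2 ^ (m - 2))⁻¹ := by
        rw [hc, h.i_conj_refl, ← hc]
        refine inv_eq_of_mul_eq_one_right ?_
        have hcomm : c * x ^ 2 ^ (m - 1) = x ^ 2 ^ (m - 1) * c := by
          rw [← e]
          exact (mul_assoc c c c).symm
        rw [← mul_assoc, hcomm, mul_assoc, e, hzz]
      rw [e']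
      exact pairConj_of_mem hmax hcD (D.pow_mem h.x_mem _)
  obtain ⟨lam, hlam⟩ := hrk.proportional hM hB hmax (D.inv_mem hcD) hrk' hconj
  choose a b' hab using fun χ => pFn_gaussian hl χ hcP hc4
  have hn : ∀ χ, p χ * conj (p χ) = ((a χ ^ 2 + b' χ ^ 2 : ℤ) : ℂ) := fun χ => by
    simp only [hp', hab, map_add, map_mul, Complex.conj_I, map_intCast]
    push_cast
    linear_combination (-(b' χ : ℂ) ^ 2) * Complex.I_mul_I
  have hoff : ∀ χ, χ ∉ B → p χ = 0 := fun χ hχ => loc_eq_zero hl hχ hcP hC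
  have hpos : ∀ χ, χ ∈ B → blockHeight 2 B (χ : G → ℂ) = 0 → 1 ≤ a χ ^ 2 + b' χ ^ 2 := by
    intro χ hχ h0
    by_contra hlt
    have h1 : a χ = 0 := by nlinarith [sq_nonneg (b' χ), sq_nonneg (a χ)]
    have h2 : b' χ = 0 := by nlinarith [sq_nonneg (b' χ), sq_nonneg (a χ)]
    refine (loc_unit hl hχ).2 h0 ((loc_congr hl χ hcP).mem_iff.1 ?_)
    rw [hab, h1, h2]
    simpa using (memLocalIdeal_intCast_iff hM 0).2 (dvd_zero _)
  have hsum : ∑ χ : IrrCharacter G, (a χ ^ 2 + b' χ ^ 2) = 4 := by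
    have e := loc_orth hl hcP hcP
      (fun k hk => hC (Subgroup.mem_centralizer_singleton_iff.2 hk))
      (fun k hk => hC (Subgroup.mem_centralizer_singleton_iff.2 (by
        calc k * (cH : G) = k * (cH : G) * k⁻¹ * k := by group
          _ = _ := by rw [hk])))
    rw [if_pos (IsConj.refl _), hcard] at e
    rw [Finset.sum_congr rfl fun χ _ => (hn χ)] at e
    rw [← Int.cast_inj (α := ℂ)]
    push_cast at e ⊢
    exact e
  set S := Finset.univ.filter fun χ : IrrCharacter G => χ ∈ B ∧ blockHeight 2 B (χ : G → ℂ) = 0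
  have hScard : S.card = 4 := by
    rw [← h4, ← Nat.card_eq_finsetCard]
    exact Nat.card_congr (Equiv.subtypeEquivRight fun χ => by simp [S])
  have hval : ∀ χ, a χ ^ 2 + b' χ ^ 2 = if χ ∈ S then 1 else 0 := by
    have hle : ∀ χ ∈ (Finset.univ : Finset (IrrCharacter G)),
        (if χ ∈ S then 1 else 0) ≤ a χ ^ 2 + b' χ ^ 2 := by
      intro χ _
      split_ifs with hχ
      · simp only [S, Finset.mem_filter, Finset.mem_univ, true_and] at hχ
        exact hpos χ hχ.1 hχ.2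
      · positivity
    intro χ
    refine ((Finset.sum_eq_sum_iff_of_le hle).1 ?_ χ (Finset.mem_univ χ)).symm
    rw [hsum, Finset.sum_boole]
    simp [hScard]
  have hiff : ∀ χ, χ ∈ S ↔ χ ∈ B ∧ blockHeight 2 B (χ : G → ℂ) = 0 := fun χ => by simp [S]
  obtain ⟨χ₀, hχ₀⟩ : S.Nonempty := Finset.card_pos.1 (by omega)
  have h00 : p χ₀ * conj (p χ₀) = 1 := by rw [hn, hval, if_pos hχ₀]; norm_num
  have hreal : ∀ χ, conj (p χ * conj (p χ₀)) = p χ * conj (p χ₀) := fun χ => by
    rw [map_mul, Complex.conj_conj, hlam χ, hlam χ₀]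
    ring
  have hint : ∀ χ, ∃ r : ℤ, p χ * conj (p χ₀) = r ∧ r ^ 2 = a χ ^ 2 + b' χ ^ 2 := by
    intro χ
    refine ⟨a χ * a χ₀ + b' χ * b' χ₀, ?_, ?_⟩
    · rw [← Complex.conj_eq_iff_re.1 (hreal χ)]
      simp [hp', hab]
    · have e : p χ * conj (p χ₀) * conj (p χ * conj (p χ₀)) =
          ((a χ ^ 2 + b' χ ^ 2 : ℤ) : ℂ) := by
        rw [map_mul, Complex.conj_conj, ← hn]
        linear_combination (p χ * conj (p χ)) * h00
      rw [hreal χ] at e
      rw [← Int.cast_inj (α := ℂ), ← e]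
      have e2 : p χ * conj (p χ₀) = ((a χ * a χ₀ + b' χ * b' χ₀ : ℤ) : ℂ) := by
        rw [← Complex.conj_eq_iff_re.1 (hreal χ)]
        simp [hp', hab]
      rw [e2]
      push_cast
      ring
  choose r hr hr2 using hint
  have hr3 : ∀ χ, r χ ≠ 0 ↔ χ ∈ S := fun χ => by
    rw [← pow_ne_zero_iff (n := 2) two_ne_zero, hr2, hval]
    split_ifs with hχ <;> simp [hχ]
  refine ⟨r, ?_, fun χ => (hr3 χ).trans (hiff χ), fun χ => ?_⟩
  · obtain ⟨l, hl', t, ht, ht0⟩ := hrk
    refine ⟨fun u => p χ₀ * l u, fun χ u hu => ?_, t, ht,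
      mul_ne_zero (fun e => by rw [e, zero_mul] at h00; exact one_ne_zero h00.symm) ht0⟩
    show _ = (r χ : ℂ) * (p χ₀ * l u)
    rw [hl' χ u hu, ← hr]
    linear_combination (-(p χ * l u)) * h00
  · have := hr2 χ
    rw [hval] at this
    split_ifs at this with hχ
    · rcases mul_self_eq_one_iff.1 (show r χ * r χ = 1 by linear_combination this) with e | e
      · exact Or.inl e
      · exact Or.inr (Or.inl e)
    · exact Or.inr (Or.inr (pow_eq_zero_iff two_ne_zero |>.1 this))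

end CfsgLib.Blocks.TwoGen
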