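import Cfsg.Agent.Blocks.TwoGen.Columns
import Cfsg.Agent.Blocks.TwoGen.Refl
import Cfsg.Agent.Blocks.TwoGen.Inflated

/-!
# A block with a central involution in a quaternion or semidihedral defect group

The members trivial on the involution `z` are the four members of height zero and one point for
each `vv`.  Twice the pairing with the regular values is the identity on the integral vectors on
them orthogonal to `Xv`, the `vv` and the columns outside `zpowers x`; these vectors have an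
orthogonal basis of at most three, which gives all regular values.
-/

set_option autoImplicit false
set_option maxHeartbeats 1000000
open scoped MonoidAlgebra ComplexConjugate

namespace CfsgLib.Blocks.TwoGen

open Cfsg CfsgLib CfsgLib.Blocks CfsgLib.Blocks.NilSection CfsgLib.Blocks.Contrib CfsgLib.Blocks.HeightZero

universe u

/-- The vector with coordinates `t` on four points, balanced at the further points. -/
def pointVec {ι : Type*} [DecidableEq ι] {N : ℕ} (X : ι → ℤ) (a b c d : ι) (w : Fin N → ι)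
    (η : Fin N → ℤ) (ta tb tc td : ℤ) (p : ι) : ℤ :=
  (if p = a then X a * ta else 0) + (if p = b then X b * tb else 0) +
    (if p = c then X c * tc else 0) + (if p = d then X d * td else 0) +
    ∑ k, if p = w k then -(η k * (ta + tb)) else 0

theorem pointVec_sum {ι : Type*} [DecidableEq ι] {R : Type*} [CommRing R] {N : ℕ} {S : Finset ι}
    {X : ι → ℤ} {a b c d : ι} {w : Fin N → ι} {η : Fin N → ℤ} (ha : a ∈ S) (hb : b ∈ S)
    (hc : c ∈ S) (hd : d ∈ S) (hw : ∀ k, w k ∈ S) (ta tb tc td : ℤ) (f : ι → R) :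
    ∑ p ∈ S, (pointVec X a b c d w η ta tb tc td p : R) * f p =
      (ta : R) * ((X a : R) * f a) + (tb : R) * ((X b : R) * f b) + (tc : R) * ((X c : R) * f c) +
        (td : R) * ((X d : R) * f d) - ((ta : R) + (tb : R)) * ∑ k, (η k : R) * f (w k) := by
  simp only [pointVec, Int.cast_add, Int.cast_sum, Int.cast_ite, Int.cast_zero, add_mul,
    Finset.sum_mul, ite_mul, zero_mul, Finset.sum_add_distrib, Finset.sum_ite_eq', ha, hb, hc, hd,
    if_true]
  rw [Finset.sum_comm]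
  simp only [Finset.sum_ite_eq', hw, if_true]
  rw [sub_eq_add_neg, Finset.mul_sum, Finset.mul_sum, ← Finset.sum_add_distrib,
    ← Finset.sum_neg_distrib]
  congr 1
  · push_cast; ring
  · exact Finset.sum_congr rfl fun k _ => by push_cast; ring

variable {K : Type u} [Group K] [Fintype K] {M : Ideal AlgInt} [hMmax : M.IsMaximal]
  [hp : Fact (Nat.Prime 2)] [CharP (kres M) 2] {b : Set (IrrCharacter K)} {P : Subgroup K}
  {gb : (kres M)[K]} {m : ℕ} {s : ℤ} {x y : K} {μ : ℂ}
  {c : IrrCharacter K → ZMod (2 ^ m) → ℤ} {F : IrrCharacter K → ZMod (2 ^ m) → ℂ} {β : ℤ}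
  {e : ℕ} {rep : Fin e → ℤ} {r : Fin e → IrrCharacter K → ℤ}

/-- The members of `b` trivial on `z`. -/
noncomputable def inflatedSet (b : Set (IrrCharacter K)) (z : K) : Finset (IrrCharacter K) :=
  open scoped Classical in b.toFinite.toFinset.filter fun η => (η : K → ℂ) z = (η : K → ℂ) 1

theorem mem_inflatedSet {b : Set (IrrCharacter K)} {z : K} {η : IrrCharacter K} :
    η ∈ inflatedSet b z ↔ η ∈ b ∧ (η : K → ℂ) z = (η : K → ℂ) 1 := by
  simp [inflatedSet]

theorem apply_z_mul {b : Set (IrrCharacter K)} {z : K} (hz : z ∈ Subgroup.center K)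
    {η : IrrCharacter K} (hη : η ∈ inflatedSet b z) (t : K) :
    (η : K → ℂ) (z * t) = (η : K → ℂ) t := by
  rw [Chars.map_mul_of_mem_center η hz, (mem_inflatedSet.1 hη).2,
    div_self (Chars.map_one_ne_zero η), one_mul]

theorem regPair_eq_regSum (f : K → ℂ) (η : IrrCharacter K) :
    regPair 2 f (η : K → ℂ) = ∑ q ∈ regSet 2 K, f q * conj ((η : K → ℂ) q) := by
  rw [regPair_eq_sum, regSet, Finset.sum_filter]
  refine Finset.sum_congr rfl fun q _ => ?_
  by_cases h : 2 ∣ orderOf q <;>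
    simp [IsPRegular, h, Chars.map_inv_eq_conj (Chars.isCharacter_coe η)]

/-- The values of a vector on the regular elements. -/
noncomputable def gam (b : Set (IrrCharacter K)) (g : IrrCharacter K → ℤ) (t : K) : ℂ :=
  ∑ η ∈ b.toFinite.toFinset, (g η : ℂ) * conj ((η : K → ℂ) t)

/-- The data. -/
structure Cen (M : Ideal AlgInt) [M.IsMaximal] (b : Set (IrrCharacter K)) (P : Subgroup K)
    (gb : (kres M)[K]) (m : ℕ) (s : ℤ) (x y : K) (μ : ℂ)
    (c : IrrCharacter K → ZMod (2 ^ m) → ℤ) (F : IrrCharacter K → ZMod (2 ^ m) → ℂ) (β : ℤ) (e : ℕ)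
    (rep : Fin e → ℤ) (r : Fin e → IrrCharacter K → ℤ) : Prop where
  hM : IsPModular 2 M
  hb : IsPBlock M b
  hdef : IsDefectGroup 2 M b P
  hmax : IsMaxPairIdem 2 ⊤ (topEl M b) P gb
  h : IsGen P m s x y
  hz : x ^ 2 ^ (m - 1) ∈ Subgroup.center K
  hr : RotData b P gb m s x μ c F
  hβ : IsShift m s β
  hf : FusionData P gb x y e rep
  hrk : ∀ i, RankOne P gb (x ^ rep i * y) fun χ => (r i χ : ℂ)
  hr0 : ∀ i χ, r i χ ≠ 0 ↔ χ ∈ b ∧ blockHeight 2 b (χ : K → ℂ) = 0
  hr1 : ∀ i χ, r i χ = 1 ∨ r i χ = -1 ∨ r i χ = 0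

/-- Orthogonal to `Xv`, the `vv` and the columns outside. -/
def Cen.Perp (_C : Cen M b P gb m s x y μ c F β e rep r) (φ : IrrCharacter K → ℂ) : Prop :=
  (∑ χ ∈ b.toFinite.toFinset, φ χ * (Xv c χ : ℂ) = 0) ∧
    (∀ k, ∑ χ ∈ b.toFinite.toFinset, φ χ * (vv c k χ : ℂ) = 0) ∧
    ∀ i, ∑ χ ∈ b.toFinite.toFinset, φ χ * (r i χ : ℂ) = 0

theorem exists_cen (hM : IsPModular 2 M) (hb : IsPBlock M b) (hdef : IsDefectGroup 2 M b P)
    (hmax : IsMaxPairIdem 2 ⊤ (topEl M b) P gb) (h : IsGen P m s x y)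
    (hz : x ^ 2 ^ (m - 1) ∈ Subgroup.center K) :
    ∃ (μ : ℂ) (c : IrrCharacter K → ZMod (2 ^ m) → ℤ) (F : IrrCharacter K → ZMod (2 ^ m) → ℂ)
      (β : ℤ) (e : ℕ) (rep : Fin e → ℤ) (r : Fin e → IrrCharacter K → ℤ),
      Cen M b P gb m s x y μ c F β e rep r := by
  obtain ⟨c, F, hr⟩ := exists_rotData hM hb hmax h
    (Complex.isPrimitiveRoot_exp (2 ^ m) (pow_ne_zero _ two_ne_zero))
  obtain ⟨β, hβ⟩ := exists_shift h
  obtain ⟨e, rep, hf⟩ := exists_fusion hmax h
  choose r hrk hr0 hr1 using fun i => exists_reflCol hM hb hmax h (j := rep i)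
    (fun w hw hc => hf.unfused i ⟨w, hw, hc⟩) (hr.card_height_zero hM hb hmax h)
  exact ⟨_, c, F, β, e, rep, r, hM, hb, hdef, hmax, h, hz, hr, hβ, hf, hrk, hr0, hr1⟩

namespace Cen

theorem regular_orth (C : Cen M b P gb m s x y μ c F β e rep r) {t t' : K} (ht : IsPRegular 2 t)
    (ht' : IsPRegular 2 t') :
    ∑ ξ ∈ b.toFinite.toFinset,
      (ξ : K → ℂ) (x ^ 2 ^ (m - 1) * t) * conj ((ξ : K → ℂ) t') = 0 := by
  classical
  haveI := Fintype.ofFinite (IrrCharacter K)
  set z := x ^ 2 ^ (m - 1) with hz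
  have hzP : z ∈ P := P.pow_mem C.h.x_mem _
  have hne : ¬ PairConj P gb z 1 := fun ⟨w, hw, _⟩ => by
    have : z = 1 := by simpa using hw
    have h2 := C.h.orderOf_z
    rw [← hz, this, orderOf_one] at h2
    omega
  have htz : t ∈ cz z := by
    rw [cz_eq_centralizer, Subgroup.mem_centralizer_singleton_iff]
    exact Subgroup.mem_center_iff.1 C.hz t
  have ht1 : t' ∈ cz (1 : K) := by
    rw [cz_eq_centralizer, Subgroup.mem_centralizer_singleton_iff, one_mul, mul_one]
  have e := pair_orth C.hM C.hb C.hmax hzP P.one_mem hne (s := ⟨t, htz⟩) (s' := ⟨t', ht1⟩)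
    (by show ¬ 2 ∣ orderOf _; rw [Subgroup.orderOf_mk]; exact ht)
    (by show ¬ 2 ∣ orderOf _; rw [Subgroup.orderOf_mk]; exact ht')
  rw [fBelow_central C.hb C.hmax C.hz hzP,
    fBelow_central C.hb C.hmax (Subgroup.center K).one_mem P.one_mem] at e
  simp only [lval_topEl C.hM (Chars.isClassFunction_coe _) C.hb, one_mul] at e
  rw [← e]
  refine (Finset.sum_congr rfl fun ξ hξ => ?_).trans
    (Finset.sum_subset (Finset.subset_univ b.toFinite.toFinset) fun ξ _ hξ => ?_)
  · rw [blockPart_eq_self ((Set.Finite.mem_toFinset _).1 hξ)]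
  · have hξ' : ξ ∉ b := fun h' => hξ ((Set.Finite.mem_toFinset _).2 h')
    rw [blockPart_irr, Set.indicator_of_notMem hξ']
    simp

/-- The inflated members carry half the products of the regular values. -/
theorem sum_inflated (C : Cen M b P gb m s x y μ c F β e rep r) {t t' : K} (ht : IsPRegular 2 t)
    (ht' : IsPRegular 2 t') :
    2 * ∑ η ∈ inflatedSet b (x ^ 2 ^ (m - 1)), (η : K → ℂ) t * conj ((η : K → ℂ) t') =
      ∑ ξ ∈ b.toFinite.toFinset, (ξ : K → ℂ) t * conj ((ξ : K → ℂ) t') := by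
  classical
  set z := x ^ 2 ^ (m - 1) with hz
  have hzz : z * z = 1 := by
    have := pow_orderOf_eq_one z
    rwa [C.h.orderOf_z, pow_two] at this
  have hω : ∀ ξ : IrrCharacter K, (ξ : K → ℂ) (z * t) =
      (if (ξ : K → ℂ) z = (ξ : K → ℂ) 1 then 1 else -1) * (ξ : K → ℂ) t := by
    intro ξ
    have h1 := Chars.map_one_ne_zero ξ
    rw [Chars.map_mul_of_mem_center ξ C.hz t]
    congr 1
    split_ifs with hi
    · rw [hi, div_self h1]
    · have e := Chars.map_mul_of_mem_center ξ C.hz z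
      rw [← hz, hzz] at e
      have hsq : (ξ : K → ℂ) z / (ξ : K → ℂ) 1 * ((ξ : K → ℂ) z / (ξ : K → ℂ) 1) = 1 := by
        field_simp at e ⊢
        linear_combination -e
      rcases mul_self_eq_one_iff.1 hsq with r | r
      · exact absurd ((div_eq_one_iff_eq h1).1 r) hi
      · exact r
  rw [inflatedSet, Finset.sum_filter, Finset.mul_sum, ← sub_eq_zero, ← Finset.sum_sub_distrib]
  refine (Finset.sum_congr rfl fun ξ _ => ?_).trans (C.regular_orth ht ht')
  rw [hω]
  split_ifs <;> ring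

/-- The pairing of an inflated member with the regular values. -/
theorem sum_pairing (C : Cen M b P gb m s x y μ c F β e rep r) {η : IrrCharacter K} (hη : η ∈ b)
    {t : K} (ht : IsPRegular 2 t) :
    ∑ ξ ∈ b.toFinite.toFinset,
        (∑ q ∈ regSet 2 K, (ξ : K → ℂ) q * conj ((η : K → ℂ) q)) * conj ((ξ : K → ℂ) t) =
      (Nat.card K : ℂ) * conj ((η : K → ℂ) t) := by
  classical
  have h1 : ∀ ξ : IrrCharacter K, classInner (pRegularPart 2 (η : K → ℂ)) (ξ : K → ℂ) =
      (Nat.card K : ℂ)⁻¹ * ∑ q ∈ regSet 2 K, (η : K → ℂ) q * conj ((ξ : K → ℂ) q) := fun ξ => by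
    rw [classInner_pRegularPart_eq _ (Chars.isCharacter_coe ξ), regPair_eq_regSum]
  have h2 := congrFun (blockPart_pRegularPart C.hM C.hb (η : K → ℂ)) t
  rw [blockPart_eq_self hη, blockPart_apply_eq, Finset.sum_apply] at h2
  simp only [Pi.smul_apply, smul_eq_mul, h1] at h2
  rw [show pRegularPart 2 (η : K → ℂ) t = (η : K → ℂ) t by simp [pRegularPart, ht]] at h2
  rw [← h2, map_sum, Finset.mul_sum]
  refine Finset.sum_congr rfl fun ξ _ => ?_
  simp only [map_mul, map_inv₀, map_natCast, map_sum, Complex.conj_conj]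
  rw [← mul_assoc, ← mul_assoc, mul_inv_cancel₀ Chars.natCard_ne_zero, one_mul]
  congr 1
  exact Finset.sum_congr rfl fun q _ => mul_comm _ _

/-- An integral vector is supported on the inflated members when the two kinds of vectors are. -/
theorem vectors_support (C : Cen M b P gb m s x y μ c F β e rep r) {χ : IrrCharacter K}
    (hχ : χ ∈ b) :
    (χ ∈ inflatedSet b (x ^ 2 ^ (m - 1)) → ∀ k, uv β c k χ = 0) ∧
      (χ ∉ inflatedSet b (x ^ 2 ^ (m - 1)) → Xv c χ = 0 ∧ ∀ k, vv c k χ = 0) := by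
  obtain ⟨η₀, hη₀, hη1, hη0⟩ := exists_inflated_height_zero C.hM C.hb C.hz C.h.orderOf_z
  obtain ⟨h1, h2⟩ := C.hr.twist_vectors C.hM C.hb C.hmax C.h C.hβ C.hz hη₀ hη1 hη0 hχ
  exact ⟨fun hi => h1 (mem_inflatedSet.1 hi).2, fun hn => h2 fun e' => hn (mem_inflatedSet.2 ⟨hχ, e'⟩)⟩

theorem r_support (C : Cen M b P gb m s x y μ c F β e rep r) {χ : IrrCharacter K}
    (hχ : χ ∉ inflatedSet b (x ^ 2 ^ (m - 1))) (i : Fin e) : r i χ = 0 := by
  by_contra h0
  obtain ⟨hb', h00⟩ := (C.hr0 i χ).1 h0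
  exact (C.hr.height_zero_iff C.hM C.hb C.hmax C.h hb').1 h00 ((C.vectors_support hb').2 hχ).1

/-- A vector on the inflated members without regular values and orthogonal to the columns is
zero. -/
theorem eq_zero_of_perp (C : Cen M b P gb m s x y μ c F β e rep r) {φ : IrrCharacter K → ℂ}
    (hsupp : ∀ χ, χ ∉ inflatedSet b (x ^ 2 ^ (m - 1)) → φ χ = 0) (hperp : C.Perp φ)
    (hreg : ∀ t, IsPRegular 2 t → ∑ χ ∈ b.toFinite.toFinset, φ χ * (χ : K → ℂ) t = 0)
    (χ : IrrCharacter K) : φ χ = 0 := by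
  classical
  by_cases hχ : χ ∈ b
  swap
  · exact hsupp χ fun h => hχ (mem_inflatedSet.1 h).1
  obtain ⟨hX, hv, hr⟩ := hperp
  refine eq_zero_of_colZero C.hM C.hb C.hmax (colZero_all C.hM C.hb C.hmax C.h C.hf ?_ fun i =>
    colZero_of_rankOne (C.hrk i) (hr i)) hχ
  refine C.hr.colZero_zpowers C.h C.hβ hX hv (fun k => Finset.sum_eq_zero fun q hq => ?_)
    (colZero_one C.hM C.hb C.hmax hreg)
    (colZero_central C.hM C.hb C.hmax C.hz (P.pow_mem C.h.x_mem _) fun t ht => ?_)
  · by_cases hi : q ∈ inflatedSet b (x ^ 2 ^ (m - 1))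
    · rw [(C.vectors_support ((Set.Finite.mem_toFinset _).1 hq)).1 hi k, Int.cast_zero, mul_zero]
    · rw [hsupp q hi, zero_mul]
  · rw [← hreg t ht]
    refine Finset.sum_congr rfl fun q _ => ?_
    by_cases hi : q ∈ inflatedSet b (x ^ 2 ^ (m - 1))
    · rw [apply_z_mul C.hz hi]
    · rw [hsupp q hi, zero_mul, zero_mul]

/-- The regular values on the inflated members are orthogonal to the columns. -/
theorem perp_regular (C : Cen M b P gb m s x y μ c F β e rep r) {t : K} (ht : IsPRegular 2 t) :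
    C.Perp fun χ => open scoped Classical in
      if χ ∈ inflatedSet b (x ^ 2 ^ (m - 1)) then (χ : K → ℂ) t else 0 := by
  classical
  haveI := Fintype.ofFinite (IrrCharacter K)
  obtain ⟨e1, e2, -⟩ := C.hr.sum_vectors C.h C.hβ (fun χ => (χ : K → ℂ) t)
    fun a ha ha' => C.hr.sum_regular C.hM C.hb C.hmax C.h ht ha ha'
  refine ⟨?_, fun k => ?_, fun i => ?_⟩
  · refine (Finset.sum_congr rfl fun χ hχ => ?_).trans e1
    dsimp only
    split_ifs with hi
    · rfl
    · rw [((C.vectors_support ((Set.Finite.mem_toFinset _).1 hχ)).2 hi).1]; simp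
  · refine (Finset.sum_congr rfl fun χ hχ => ?_).trans (e2 k)
    dsimp only
    split_ifs with hi
    · rfl
    · rw [((C.vectors_support ((Set.Finite.mem_toFinset _).1 hχ)).2 hi).2 k]; simp
  · have hne : x ^ rep i * y ≠ 1 := fun e' => C.h.zpow_mul_y_ne (rep i) 0 (by rw [e', zpow_zero])
    have e3 := sum_regular_mul_rep ((C.hrk i).rep C.hM C.hb C.hmax (C.h.refl_mem _)) (p := 2)
      (fun k hk => even_orderOf_of_ppart hne hk) ht
    refine ((Finset.sum_subset (Finset.subset_univ b.toFinite.toFinset) fun χ _ hχ => by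
      rw [C.r_support (fun h' => hχ ((Set.Finite.mem_toFinset _).2 (mem_inflatedSet.1 h').1)) i]
      simp).trans (Finset.sum_congr rfl fun χ _ => ?_)).trans e3
    dsimp only
    split_ifs with hi
    · exact mul_comm _ _
    · rw [C.r_support hi i]; simp

/-- **Twice the pairing is the identity.** -/
theorem half_proj (C : Cen M b P gb m s x y μ c F β e rep r) {g : IrrCharacter K → ℤ}
    (hsupp : ∀ χ, g χ ≠ 0 → χ ∈ inflatedSet b (x ^ 2 ^ (m - 1)))
    (hperp : C.Perp fun χ => (g χ : ℂ)) {η : IrrCharacter K}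
    (hη : η ∈ inflatedSet b (x ^ 2 ^ (m - 1))) :
    2 * ∑ q ∈ regSet 2 K, (η : K → ℂ) q * gam b g q = (Nat.card K : ℂ) * (g η : ℂ) := by
  classical
  set z := x ^ 2 ^ (m - 1) with hz
  set φ : IrrCharacter K → ℂ := fun χ => if χ ∈ inflatedSet b z then
    2 * ∑ q ∈ regSet 2 K, (χ : K → ℂ) q * gam b g q - (Nat.card K : ℂ) * (g χ : ℂ) else 0 with hφ
  have hlin : ∀ (f : IrrCharacter K → ℂ),
      (∀ χ ∈ b.toFinite.toFinset, χ ∉ inflatedSet b z → f χ = 0) →
      ∑ χ ∈ b.toFinite.toFinset, φ χ * f χ =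
        2 * ∑ q ∈ regSet 2 K, (∑ χ ∈ b.toFinite.toFinset,
          (if χ ∈ inflatedSet b z then (χ : K → ℂ) q else 0) * f χ) * gam b g q -
          (Nat.card K : ℂ) * ∑ χ ∈ b.toFinite.toFinset, (g χ : ℂ) * f χ := by
    intro f hf
    simp only [Finset.sum_mul, Finset.mul_sum]
    rw [Finset.sum_comm, ← Finset.sum_sub_distrib]
    refine Finset.sum_congr rfl fun χ hχ => ?_
    by_cases hi : χ ∈ inflatedSet b z
    · simp only [hφ, if_pos hi, sub_mul, Finset.mul_sum, Finset.sum_mul]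
      congr 1
      · exact Finset.sum_congr rfl fun q _ => by ring
      · ring
    · simp [hf χ hχ hi]
  have hzero : ∀ χ, φ χ = 0 := by
    refine C.eq_zero_of_perp (fun χ hχ => if_neg hχ) ⟨?_, fun k => ?_, fun i => ?_⟩ ?_
    · rw [hlin _ fun χ hχ hi => by
          rw [((C.vectors_support ((Set.Finite.mem_toFinset _).1 hχ)).2 hi).1, Int.cast_zero],
        Finset.sum_eq_zero fun q hq => by rw [(C.perp_regular (mem_regSet.1 hq)).1, zero_mul],
        hperp.1]
      ring
    · rw [hlin _ fun χ hχ hi => by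
          rw [((C.vectors_support ((Set.Finite.mem_toFinset _).1 hχ)).2 hi).2 k, Int.cast_zero],
        Finset.sum_eq_zero fun q hq => by rw [(C.perp_regular (mem_regSet.1 hq)).2.1 k, zero_mul],
        hperp.2.1 k]
      ring
    · rw [hlin _ fun χ _ hi => by rw [C.r_support hi i, Int.cast_zero],
        Finset.sum_eq_zero fun q hq => by rw [(C.perp_regular (mem_regSet.1 hq)).2.2 i, zero_mul],
        hperp.2.2 i]
      ring
    · intro t ht
      have hinv : IsPRegular 2 t⁻¹ := by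
        show ¬ 2 ∣ orderOf t⁻¹
        rwa [orderOf_inv]
      rw [Finset.sum_congr rfl (g := fun χ => φ χ *
          (if χ ∈ inflatedSet b z then conj ((χ : K → ℂ) t⁻¹) else 0)) fun χ _ => ?_]
      swap
      · by_cases hi : χ ∈ inflatedSet b z
        · rw [if_pos hi, ← Chars.map_inv_eq_conj (Chars.isCharacter_coe χ), inv_inv]
        · simp [hφ, hi]
      rw [hlin _ fun χ _ hi => if_neg hi]
      have e1 : ∀ q ∈ regSet 2 K, 2 * ((∑ χ ∈ b.toFinite.toFinset,
          (if χ ∈ inflatedSet b z then (χ : K → ℂ) q else 0) *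
            if χ ∈ inflatedSet b z then conj ((χ : K → ℂ) t⁻¹) else 0) * gam b g q) =
          (∑ ξ ∈ b.toFinite.toFinset, (ξ : K → ℂ) q * conj ((ξ : K → ℂ) t⁻¹)) * gam b g q := by
        intro q hq
        rw [← mul_assoc]
        congr 1
        rw [← C.sum_inflated (mem_regSet.1 hq) hinv]
        congr 1
        rw [inflatedSet, Finset.sum_filter]
        exact Finset.sum_congr rfl fun χ hχ => by
          simp only [inflatedSet, Finset.mem_filter, hχ, true_and]
          split_ifs <;> simp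
      rw [Finset.mul_sum, Finset.sum_congr rfl e1]
      simp only [gam, Finset.mul_sum]
      rw [Finset.sum_comm, ← Finset.sum_sub_distrib]
      refine Finset.sum_eq_zero fun η' hη' => ?_
      by_cases hi : η' ∈ inflatedSet b z
      swap
      · have h0 : g η' = 0 := by
          by_contra h'
          exact hi (hsupp η' h')
        simp [h0]
      rw [if_pos hi, sub_eq_zero, mul_left_comm,
        ← C.sum_pairing ((Set.Finite.mem_toFinset _).1 hη') hinv, Finset.mul_sum]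
      simp only [Finset.sum_mul, Finset.mul_sum]
      rw [Finset.sum_comm]
      exact Finset.sum_congr rfl fun ξ _ => Finset.sum_congr rfl fun q _ => by ring
  have := hzero η
  simp only [hφ, if_pos hη, sub_eq_zero] at this
  exact this

/-- Every inflated member is a point of `Xv` or of some `vv`. -/
theorem no_extra (C : Cen M b P gb m s x y μ c F β e rep r) {q : IrrCharacter K}
    (hq : q ∈ inflatedSet b (x ^ 2 ^ (m - 1))) (hX : Xv c q = 0) (hv : ∀ k, vv c k q = 0) :
    False := by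
  classical
  have hqb := (mem_inflatedSet.1 hq).1
  have hqS : q ∈ b.toFinite.toFinset := (Set.Finite.mem_toFinset _).2 hqb
  obtain ⟨η₀, hη₀, hη1, hη0⟩ := exists_inflated_height_zero C.hM C.hb C.hz C.h.orderOf_z
  have hne : η₀ ≠ q := fun e' => (C.hr.height_zero_iff C.hM C.hb C.hmax C.h hη₀).1 hη0 (e' ▸ hX)
  set g : IrrCharacter K → ℤ := fun χ => if χ = q then 1 else 0 with hg
  have hperp : C.Perp fun χ => (g χ : ℂ) := by
    have key : ∀ f : IrrCharacter K → ℂ,
        ∑ χ ∈ b.toFinite.toFinset, (g χ : ℂ) * f χ = f q := fun f => by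
      simp [hg, hqb]
    refine ⟨by rw [key, hX, Int.cast_zero], fun k => by rw [key, hv k, Int.cast_zero], fun i => ?_⟩
    have h0 : r i q = 0 := by
      by_contra h'
      exact (C.hr.height_zero_iff C.hM C.hb C.hmax C.h hqb).1 ((C.hr0 i q).1 h').2 hX
    rw [key, h0, Int.cast_zero]
  have h1 := C.half_proj (fun χ hχ => by
      by_cases e' : χ = q
      · exact e' ▸ hq
      · exact absurd (if_neg e') hχ) hperp (mem_inflatedSet.2 ⟨hη₀, hη1⟩)
  have hgam : ∀ t, gam b g t = conj ((q : K → ℂ) t) := fun t => by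
    simp [gam, hg, hqb]
  simp only [hgam] at h1
  simp only [hg, if_neg hne, Int.cast_zero, mul_zero] at h1
  rw [← regPair_eq_regSum, mul_eq_zero, or_iff_right two_ne_zero] at h1
  exact not_memLocalIdeal_regPair_of_height_zero C.hM C.hb hη₀ hη0 hqb
    (by rw [h1, zero_div]; exact memLocalIdeal_zero)

/-- The points. -/
theorem exists_points (C : Cen M b P gb m s x y μ c F β e rep r) :
    ∃ (pa pb pc pd : IrrCharacter K) (w : Fin (nv m) → IrrCharacter K),
      (pa ∈ inflatedSet b (x ^ 2 ^ (m - 1)) ∧ pb ∈ inflatedSet b (x ^ 2 ^ (m - 1)) ∧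
        pc ∈ inflatedSet b (x ^ 2 ^ (m - 1)) ∧ pd ∈ inflatedSet b (x ^ 2 ^ (m - 1)) ∧
          ∀ k, w k ∈ inflatedSet b (x ^ 2 ^ (m - 1))) ∧
      (pa ≠ pb ∧ pa ≠ pc ∧ pa ≠ pd ∧ pb ≠ pc ∧ pb ≠ pd ∧ pc ≠ pd) ∧
      (Xv c pa ≠ 0 ∧ Xv c pb ≠ 0 ∧ Xv c pc ≠ 0 ∧ Xv c pd ≠ 0) ∧
      (Function.Injective w ∧ ∀ k, VShape b.toFinite.toFinset (Xv c) (vv c k) pa pb (w k)) ∧
      (∀ i, Xv c pa * r i pa + Xv c pb * r i pb = 0 ∧ Xv c pc * r i pc + Xv c pd * r i pd = 0) ∧
      (∀ i : Fin e, (i : ℕ) = 0 → Xv c pc * r i pc = -(Xv c pa * r i pa)) ∧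
      ∀ η ∈ inflatedSet b (x ^ 2 ^ (m - 1)), η = pa ∨ η = pb ∨ η = pc ∨ η = pd ∨ ∃ k, η = w k := by
  classical
  haveI := Fintype.ofFinite (IrrCharacter K)
  set S := b.toFinite.toFinset with hS
  have hlat := C.hr.lat C.hM C.hb C.hmax C.h C.hβ
  have hJ : ∀ p, p ∈ b → (Xv c p ≠ 0 ∨ ∃ k, vv c k p ≠ 0) →
      p ∈ inflatedSet b (x ^ 2 ^ (m - 1)) := by
    intro p hp hne
    by_contra hn
    obtain ⟨h1, h2⟩ := (C.vectors_support hp).2 hn
    rcases hne with e' | ⟨k, e'⟩
    · exact e' h1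
    · exact e' (h2 k)
  have hR : ∀ i : Fin e, (∀ p ∈ S, Xv c p ≠ 0 → (Xv c p * r i p = 1 ∨ Xv c p * r i p = -1)) ∧
      (∀ p ∈ S, Xv c p = 0 → r i p = 0) ∧ ∑ p ∈ S, r i p * Xv c p = 0 ∧
      ∀ k, ∑ p ∈ S, r i p * vv c k p = 0 := by
    intro i
    have hs := C.hr.sum_vectors_rankOne C.hM C.hb C.hmax C.h C.hβ (C.h.refl_mem (rep i)) (C.hrk i)
      fun a _ _ hc => C.hf.unfused i ⟨xp x a, Subgroup.pow_mem _ (Subgroup.mem_zpowers x) _, hc.symm⟩
    refine ⟨fun p hp hX => ?_, fun p hp hX => ?_, hs.1, hs.2.1⟩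
    · have h0 := (C.hr.height_zero_iff C.hM C.hb C.hmax C.h ((Set.Finite.mem_toFinset _).1 hp)).2 hX
      have h' := (C.hr0 i p).2 ⟨(Set.Finite.mem_toFinset _).1 hp, h0⟩
      rcases hlat.X_cases hp with e1 | e1 | e1 <;> rcases C.hr1 i p with e2 | e2 | e2 <;>
        rw [e1, e2] <;> simp_all
    · by_contra h0
      exact (C.hr.height_zero_iff C.hM C.hb C.hmax C.h ((Set.Finite.mem_toFinset _).1 hp)).1
        ((C.hr0 i p).1 h0).2 hX
  obtain ⟨pa, pb, w, ha, hb, hab, Xa, Xb, hinj, hw, hRab⟩ : ∃ (pa pb : IrrCharacter K)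
      (w : Fin (nv m) → IrrCharacter K), pa ∈ S ∧ pb ∈ S ∧ pa ≠ pb ∧ Xv c pa ≠ 0 ∧ Xv c pb ≠ 0 ∧
        Function.Injective w ∧ (∀ k, VShape S (Xv c) (vv c k) pa pb (w k)) ∧
          ∀ i, Xv c pa * r i pa + Xv c pb * r i pb = 0 := by
    rcases Nat.eq_zero_or_pos (nv m) with hN | hN
    · have h4 := hlat.card_four
      obtain ⟨pa, hpa⟩ := Finset.card_pos.1 (lt_of_lt_of_eq (by norm_num) h4.symm)
      obtain ⟨pa0, Xa⟩ := Finset.mem_filter.1 hpa
      set T := S.filter fun p => Xv c p ≠ 0 with hT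
      have hval : ∀ i, ∀ p ∈ T, Xv c p * r i p = 1 ∨ Xv c p * r i p = -1 := fun i p hp =>
        (hR i).1 p (Finset.mem_filter.1 hp).1 (Finset.mem_filter.1 hp).2
      have hone : ∀ i, ∑ p ∈ T, Xv c p * r i p = 0 := fun i => by
        rw [← (hR i).2.2.1, hT, Finset.sum_filter]
        refine Finset.sum_congr rfl fun p _ => ?_
        split_ifs with h' <;> [ring; (rw [not_not] at h'; rw [h']; ring)]
      have htwo : ∀ i j, i ≠ j → ∑ p ∈ T, (Xv c p * r i p) * (Xv c p * r j p) = 0 := by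
        intro i j hij
        have e' := (C.hrk i).orth C.hM C.hb C.hmax (C.h.refl_mem _) (C.h.refl_mem _) (C.hrk j)
          (C.hf.sep i j hij)
        simp only [map_intCast] at e'
        have e'' : ∑ p : IrrCharacter K, r i p * r j p = 0 := by exact_mod_cast e'
        rw [← e'', ← Finset.sum_subset (Finset.subset_univ T) fun p _ hp => ?_]
        · refine Finset.sum_congr rfl fun p hp => ?_
          linear_combination (r i p * r j p) *
            hlat.X_sq (Finset.mem_filter.1 hp).1 (Finset.mem_filter.1 hp).2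
        · by_contra h'
          obtain ⟨hpb, h00⟩ := (C.hr0 i p).1 (left_ne_zero_of_mul h')
          exact hp (Finset.mem_filter.2 ⟨(Set.Finite.mem_toFinset _).2 hpb,
            (C.hr.height_zero_iff C.hM C.hb C.hmax C.h hpb).1 h00⟩)
      have h4' : (∑ _p ∈ T, (1 : ℤ)) = 4 := by rw [Finset.sum_const, h4]; rfl
      obtain ⟨pb, hpb, hab, hopp⟩ : ∃ p ∈ T, p ≠ pa ∧
          ∀ i, Xv c pa * r i pa + Xv c p * r i p = 0 := by
        have he := C.hf.le_two
        by_contra hcon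
        push Not at hcon
        have hz : ∀ p ∈ T, p = pa ∨ ∃ i, Xv c p * r i p = Xv c pa * r i pa := fun p hp => by
          by_cases hpe : p = pa
          · exact Or.inl hpe
          obtain ⟨i, hi⟩ := hcon p hp hpe
          refine Or.inr ⟨i, ?_⟩
          rcases hval i p hp with e1 | e1 <;> rcases hval i pa hpa with e2 | e2 <;>
            rw [e1, e2] at hi ⊢ <;> omega
        interval_cases e
        · obtain ⟨p, hp, hne⟩ := Finset.exists_mem_ne (show 1 < T.card by omega) pa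
          exact (hz p hp).elim hne fun ⟨i, _⟩ => i.elim0
        · have hs : ∑ p ∈ T, Xv c p * r 0 p = ∑ _p ∈ T, Xv c pa * r 0 pa :=
            Finset.sum_congr rfl fun p hp => by
              rcases hz p hp with rfl | ⟨i, hi⟩
              · rfl
              · rwa [Subsingleton.elim i 0] at hi
          rw [hone 0, Finset.sum_const, h4] at hs
          rcases hval 0 pa hpa with e1 | e1 <;> rw [e1] at hs <;> simp at hs
        · set A := Xv c pa * r 0 pa
          set A' := Xv c pa * r 1 pa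
          have hs : ∑ p ∈ T, (1 - A * (Xv c p * r 0 p)) * (1 - A' * (Xv c p * r 1 p)) = 0 :=
            Finset.sum_eq_zero fun p hp => by
              have hA : A * A = 1 := by rcases hval 0 pa hpa with e1 | e1 <;> simp [A, e1]
              have hA' : A' * A' = 1 := by rcases hval 1 pa hpa with e1 | e1 <;> simp [A', e1]
              rcases hz p hp with rfl | ⟨i, hi⟩
              · rw [show A * (Xv c p * r 0 p) = 1 from hA]; ring
              · fin_cases i
                · simp only [Fin.zero_eta] at hi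
                  rw [hi, show A * (Xv c pa * r 0 pa) = 1 from hA]; ring
                · simp only [Fin.mk_one] at hi
                  rw [hi, show A' * (Xv c pa * r 1 pa) = 1 from hA']; ring
          rw [Finset.sum_congr rfl (g := fun p => 1 - A * (Xv c p * r 0 p) -
              A' * (Xv c p * r 1 p) + A * A' * ((Xv c p * r 0 p) * (Xv c p * r 1 p)))
              fun p _ => by ring] at hs
          simp only [Finset.sum_add_distrib, Finset.sum_sub_distrib, ← Finset.mul_sum, hone,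
            htwo 0 1 (by decide), h4'] at hs
          norm_num at hs
      obtain ⟨pb0, Xb⟩ := Finset.mem_filter.1 hpb
      have he : IsEmpty (Fin (nv m)) := by rw [hN]; infer_instance
      exact ⟨pa, pb, he.elim, pa0, pb0, hab.symm, Xa, Xb, fun k => he.elim k, he.elim, hopp⟩
    · rcases hlat.v_config with ⟨pa, pb, w, hinj, hw⟩ | ⟨h2, a', b', w, hw⟩
      · have h0 := hw ⟨0, hN⟩
        refine ⟨pa, pb, w, h0.ha, h0.hb, h0.hab, h0.Xa, h0.Xb, hinj, hw, fun i => ?_⟩
        have e' := (hR i).2.2.2 ⟨0, hN⟩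
        rw [Finset.sum_congr rfl fun p _ => mul_comm (r i p) (vv c ⟨0, hN⟩ p), h0.sum_mul,
          (hR i).2.1 _ h0.hw h0.Xw, mul_zero, add_zero] at e'
        exact e'
      · exfalso
        have hm : 3 ≤ m := by
          by_contra hcon
          have : nv m = 0 := by
            rw [nv, show m - 2 = 0 by have := C.h.two_le; omega]
            rfl
          omega
        have hcard := card_inflated C.hM C.hb C.hdef C.h hm C.hz
        have hsub : inflatedSet b (x ^ 2 ^ (m - 1)) ⊆ insert w (S.filter fun p => Xv c p ≠ 0) := by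
          intro η hη
          by_contra hn
          simp only [Finset.mem_insert, Finset.mem_filter, not_or, not_and, not_not] at hn
          have hηS : η ∈ S := (Set.Finite.mem_toFinset _).2 (mem_inflatedSet.1 hη).1
          have hX := hn.2 hηS
          exact C.no_extra hη hX fun k =>
            (hw k).supp η hηS (fun r' => (hw k).Xa (r' ▸ hX)) (fun r' => (hw k).Xb (r' ▸ hX)) hn.1
        have h5 := Finset.card_le_card hsub
        have h6 := Finset.card_insert_le w (S.filter fun p => Xv c p ≠ 0)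
        rw [hlat.card_four] at h6
        have h7 : (inflatedSet b (x ^ 2 ^ (m - 1))).card = 2 ^ (m - 2) + 3 := by
          rw [← hcard, ← Nat.card_eq_finsetCard]
          exact Nat.card_congr (Equiv.subtypeEquivRight fun η => mem_inflatedSet)
        have h8 : nv m = 2 ^ (m - 2) - 1 := rfl
        omega
  obtain ⟨pc, pd, hc, hd, Xc, Xd, hcd, hac, had, hbc, hbd, hall, hsum⟩ :=
    hlat.exists_cd ha hb hab Xa Xb
  have hRcd : ∀ i, Xv c pc * r i pc + Xv c pd * r i pd = 0 := fun i => by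
    have e1 := hsum (r i)
    rw [(hR i).2.2.1] at e1
    linear_combination -e1 - hRab i
  have hcase : ∀ η ∈ inflatedSet b (x ^ 2 ^ (m - 1)),
      η = pa ∨ η = pb ∨ η = pc ∨ η = pd ∨ ∃ k, η = w k := by
    intro η hη
    have hηS : η ∈ S := (Set.Finite.mem_toFinset _).2 (mem_inflatedSet.1 hη).1
    by_cases hX : Xv c η = 0
    · obtain ⟨k, hk⟩ : ∃ k, vv c k η ≠ 0 := by
        by_contra hn
        push Not at hn
        exact C.no_extra hη hX hn
      refine Or.inr (Or.inr (Or.inr (Or.inr ⟨k, ?_⟩)))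
      by_contra hne
      exact hk ((hw k).supp η hηS (fun r' => Xa (r' ▸ hX)) (fun r' => Xb (r' ▸ hX)) hne)
    · rcases hall η hηS hX with e' | e' | e' | e' <;> simp [e']
  have mJ : ∀ p ∈ S, Xv c p ≠ 0 → p ∈ inflatedSet b (x ^ 2 ^ (m - 1)) := fun p hp hX =>
    hJ p ((Set.Finite.mem_toFinset _).1 hp) (Or.inl hX)
  have wJ : ∀ k, w k ∈ inflatedSet b (x ^ 2 ^ (m - 1)) := fun k =>
    hJ _ ((Set.Finite.mem_toFinset _).1 (hw k).hw) (Or.inr ⟨k, by
      rcases (hw k).vw with e' | e' <;> rw [e'] <;> norm_num⟩)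
  by_cases hswap : ∀ i : Fin e, (i : ℕ) = 0 → Xv c pc * r i pc = -(Xv c pa * r i pa)
  · exact ⟨pa, pb, pc, pd, w, ⟨mJ _ ha Xa, mJ _ hb Xb, mJ _ hc Xc, mJ _ hd Xd, wJ⟩,
      ⟨hab, hac, had, hbc, hbd, hcd⟩, ⟨Xa, Xb, Xc, Xd⟩, ⟨hinj, hw⟩,
      fun i => ⟨hRab i, hRcd i⟩, hswap, hcase⟩
  · refine ⟨pa, pb, pd, pc, w, ⟨mJ _ ha Xa, mJ _ hb Xb, mJ _ hd Xd, mJ _ hc Xc, wJ⟩,
      ⟨hab, had, hac, hbd, hbc, hcd.symm⟩, ⟨Xa, Xb, Xd, Xc⟩, ⟨hinj, hw⟩,
      fun i => ⟨hRab i, by rw [add_comm]; exact hRcd i⟩, fun i hi => ?_, fun η hη => ?_⟩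
    · push Not at hswap
      obtain ⟨i', hi', hne⟩ := hswap
      obtain rfl : i = i' := Fin.ext (hi.trans hi'.symm)
      have := hRcd i
      rcases (hR i).1 pa ha Xa with e1 | e1 <;> rcases (hR i).1 pc hc Xc with e2 | e2 <;>
        rw [e1, e2] at hne <;> (rw [e1]; rw [e2] at this; omega)
    · rcases hcase η hη with r' | r' | r' | r' | r' <;> simp [r']

end Cen

/-- An orthogonal basis of the vectors on the inflated members. -/
structure CenBasis (b : Set (IrrCharacter K)) (z : K) (L : ℕ) (e : ℕ) (ν : ℕ)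
    (d1 d2 d3 : IrrCharacter K → ℤ) : Prop where
  hν : ν = if e = 0 then 2 else 4
  supp : ∀ χ, χ ∉ inflatedSet b z → d1 χ = 0 ∧ d2 χ = 0 ∧ d3 χ = 0
  half : ∀ d, d = d1 ∨ d = d2 ∨ d = d3 → ∀ η ∈ inflatedSet b z,
    2 * ∑ q ∈ regSet 2 K, (η : K → ℂ) q * gam b d q = (Nat.card K : ℂ) * (d η : ℂ)
  n1 : ∑ χ ∈ b.toFinite.toFinset, d1 χ * d1 χ = if e < 2 then (ν : ℤ) else 0
  n2 : ∑ χ ∈ b.toFinite.toFinset, d2 χ * d2 χ = if e = 0 then (ν : ℤ) else 0
  n3 : ∑ χ ∈ b.toFinite.toFinset, d3 χ * d3 χ = (L : ℤ)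
  o12 : ∑ χ ∈ b.toFinite.toFinset, d1 χ * d2 χ = 0
  o13 : ∑ χ ∈ b.toFinite.toFinset, d1 χ * d3 χ = 0
  o23 : ∑ χ ∈ b.toFinite.toFinset, d2 χ * d3 χ = 0
  expand : ∀ η ∈ inflatedSet b z, ∀ q, IsPRegular 2 q → (η : K → ℂ) q =
    conj (gam b d1 q) / (ν : ℂ) * (d1 η : ℂ) + conj (gam b d2 q) / (ν : ℂ) * (d2 η : ℂ) +
      conj (gam b d3 q) / (L : ℂ) * (d3 η : ℂ)
  even : e < 2 → ∀ χ, (2 : ℤ) ∣ d1 χ + d2 χ + d3 χ

theorem Cen.exists_basis (C : Cen M b P gb m s x y μ c F β e rep r) :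
    ∃ (ν : ℕ) (d1 d2 d3 : IrrCharacter K → ℤ),
      CenBasis b (x ^ 2 ^ (m - 1)) (2 ^ m) e ν d1 d2 d3 := by
  classical
  haveI := Fintype.ofFinite (IrrCharacter K)
  obtain ⟨pa, pb, pc, pd, w, ⟨ja, jb, jc, jd, jw⟩, ⟨hab, hac, had, hbc, hbd, hcd⟩,
    ⟨Xa, Xb, Xc, Xd⟩, ⟨hinj, hw⟩, hR, hR0, hcase⟩ := C.exists_points
  set S := b.toFinite.toFinset with hS
  have hlat := C.hr.lat C.hM C.hb C.hmax C.h C.hβ
  set X := Xv c with hXdef
  set J := inflatedSet b (x ^ 2 ^ (m - 1)) with hJdef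
  have hS' : ∀ p, p ∈ J → p ∈ S := fun p hp => (Set.Finite.mem_toFinset _).2 (mem_inflatedSet.1 hp).1
  set η : Fin (nv m) → ℤ := fun k => vv c k (w k) with hη
  have hη2 : ∀ k, η k * η k = 1 := fun k => by
    rcases (hw k).vw with e' | e' <;> simp [hη, e']
  set mk := pointVec X pa pb pc pd w η with hmk
  have wne : ∀ k, w k ≠ pa ∧ w k ≠ pb ∧ w k ≠ pc ∧ w k ≠ pd := fun k =>
    ⟨fun r' => Xa (r' ▸ (hw k).Xw), fun r' => Xb (r' ▸ (hw k).Xw), fun r' => Xc (r' ▸ (hw k).Xw),
      fun r' => Xd (r' ▸ (hw k).Xw)⟩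
  have vals : ∀ ta tb tc td, mk ta tb tc td pa = X pa * ta ∧ mk ta tb tc td pb = X pb * tb ∧
      mk ta tb tc td pc = X pc * tc ∧ mk ta tb tc td pd = X pd * td ∧
      ∀ k, mk ta tb tc td (w k) = -(η k * (ta + tb)) := by
    intro ta tb tc td
    refine ⟨?_, ?_, ?_, ?_, fun k => ?_⟩
    · simp [hmk, pointVec, hab, hac, had, fun k => (wne k).1.symm]
    · simp [hmk, pointVec, hab.symm, hbc, hbd, fun k => (wne k).2.1.symm]
    · simp [hmk, pointVec, hac.symm, hbc.symm, hcd, fun k => (wne k).2.2.1.symm]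
    · simp [hmk, pointVec, had.symm, hbd.symm, hcd.symm, fun k => (wne k).2.2.2.symm]
    · simp [hmk, pointVec, (wne k).1, (wne k).2.1, (wne k).2.2.1, (wne k).2.2.2, hinj.eq_iff]
  have mksupp : ∀ ta tb tc td χ, χ ∉ J → mk ta tb tc td χ = 0 := by
    intro ta tb tc td χ hχ
    have h1 : χ ≠ pa := fun r' => hχ (r' ▸ ja)
    have h2 : χ ≠ pb := fun r' => hχ (r' ▸ jb)
    have h3 : χ ≠ pc := fun r' => hχ (r' ▸ jc)
    have h4 : χ ≠ pd := fun r' => hχ (r' ▸ jd)
    have h5 : ∀ k, χ ≠ w k := fun k r' => hχ (r' ▸ jw k)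
    simp [hmk, pointVec, h1, h2, h3, h4, h5]
  have hsum : ∀ ta tb tc td (f : IrrCharacter K → ℂ),
      ∑ p ∈ S, (mk ta tb tc td p : ℂ) * f p = (ta : ℂ) * ((X pa : ℂ) * f pa) +
        (tb : ℂ) * ((X pb : ℂ) * f pb) + (tc : ℂ) * ((X pc : ℂ) * f pc) +
        (td : ℂ) * ((X pd : ℂ) * f pd) - ((ta : ℂ) + (tb : ℂ)) * ∑ k, (η k : ℂ) * f (w k) :=
    fun ta tb tc td f => pointVec_sum (hS' _ ja) (hS' _ jb) (hS' _ jc) (hS' _ jd)
      (fun k => hS' _ (jw k)) ta tb tc td f
  have X2 : ∀ p ∈ J, X p ≠ 0 → X p * X p = 1 := fun p hp h0 => hlat.X_sq (hS' p hp) h0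
  -- products
  have hdot : ∀ ta tb tc td ta' tb' tc' td', ∑ p ∈ S, mk ta tb tc td p * mk ta' tb' tc' td' p =
      ta * ta' + tb * tb' + tc * tc' + td * td' + (nv m : ℤ) * ((ta + tb) * (ta' + tb')) := by
    intro ta tb tc td ta' tb' tc' td'
    have e1 := pointVec_sum (R := ℤ) (X := X) (η := η) (hS' _ ja) (hS' _ jb) (hS' _ jc) (hS' _ jd)
      (fun k => hS' _ (jw k)) ta tb tc td (mk ta' tb' tc' td')
    obtain ⟨v1, v2, v3, v4, v5⟩ := vals ta' tb' tc' td'
    simp only [Int.cast_id, ← hmk, v1, v2, v3, v4, v5] at e1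
    rw [e1, Finset.sum_congr rfl (g := fun _ => -(ta' + tb')) fun k _ => by
      linear_combination (-(ta' + tb')) * hη2 k, Finset.sum_const, Finset.card_univ,
      Fintype.card_fin, nsmul_eq_mul]
    linear_combination (ta * ta') * X2 pa ja Xa + (tb * tb') * X2 pb jb Xb +
      (tc * tc') * X2 pc jc Xc + (td * td') * X2 pd jd Xd
  have rw0 : ∀ i k, r i (w k) = 0 := fun i k => by
    by_contra h0
    obtain ⟨hpb, h00⟩ := (C.hr0 i (w k)).1 h0
    exact (C.hr.height_zero_iff C.hM C.hb C.hmax C.h hpb).1 h00 (hw k).Xw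
  have hperp : ∀ ta tb tc td, ta + tb + tc + td = 0 →
      (∀ i, ta * (X pa * r i pa) + tb * (X pb * r i pb) + tc * (X pc * r i pc) +
        td * (X pd * r i pd) = 0) → C.Perp fun χ => (mk ta tb tc td χ : ℂ) := by
    intro ta tb tc td h0 hr'
    have hc : ∀ p ∈ J, X p ≠ 0 → (X p : ℂ) * (X p : ℂ) = 1 := fun p hp hne => by
      exact_mod_cast X2 p hp hne
    refine ⟨?_, fun k => ?_, fun i => ?_⟩
    · rw [hsum, Finset.sum_eq_zero fun k _ => by
        rw [show Xv c (w k) = 0 from (hw k).Xw, Int.cast_zero, mul_zero]]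
      have : (ta : ℂ) + tb + tc + td = 0 := by exact_mod_cast h0
      linear_combination this + (ta : ℂ) * hc pa ja Xa + (tb : ℂ) * hc pb jb Xb +
        (tc : ℂ) * hc pc jc Xc + (td : ℂ) * hc pd jd Xd
    · have vc : vv c k pc = 0 := (hw k).supp pc (hS' _ jc) hac.symm hbc.symm (wne k).2.2.1.symm
      have vd : vv c k pd = 0 := (hw k).supp pd (hS' _ jd) had.symm hbd.symm (wne k).2.2.2.symm
      rw [hsum, Finset.sum_eq_single k (fun l _ hl => by
          rw [(hw k).supp (w l) (hS' _ (jw l)) (wne l).1 (wne l).2.1 fun r' => hl (hinj r'),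
            Int.cast_zero, mul_zero]) (fun hn => absurd (Finset.mem_univ k) hn),
        (hw k).va, (hw k).vb, vc, vd]
      have e2 : (η k : ℂ) * (vv c k (w k) : ℂ) = 1 := by exact_mod_cast hη2 k
      push_cast
      linear_combination (ta : ℂ) * hc pa ja Xa + (tb : ℂ) * hc pb jb Xb -
        ((ta : ℂ) + tb) * e2
    · rw [hsum, Finset.sum_eq_zero fun k _ => by rw [rw0 i k, Int.cast_zero, mul_zero]]
      rw [mul_zero, sub_zero]
      exact_mod_cast hr' i
  have hL : ((2 ^ m : ℕ) : ℤ) = 4 * ((nv m : ℤ) + 1) := by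
    rw [nv_cast C.h]
    push_cast
    rw [C.h.two_pow_eq.1]
    ring
  -- the values of the three cases
  have he := C.hf.le_two
  obtain ⟨ν, u1, u2, hν, hu⟩ : ∃ (ν : ℕ) (u1 u2 : ℤ), (ν = if e = 0 then 2 else 4) ∧
      ((e = 0 ∧ u1 = 1 ∧ u2 = 0) ∨ (e = 1 ∧ u1 = 1 ∧ u2 = 1) ∨ (e = 2 ∧ u1 = 0 ∧ u2 = 0)) := by
    interval_cases e
    · exact ⟨2, 1, 0, rfl, Or.inl ⟨rfl, rfl, rfl⟩⟩
    · exact ⟨4, 1, 1, rfl, Or.inr (Or.inl ⟨rfl, rfl, rfl⟩)⟩
    · exact ⟨4, 0, 0, rfl, Or.inr (Or.inr ⟨rfl, rfl, rfl⟩)⟩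
  set t2 : ℤ := if e = 0 then 1 else 0 with ht2
  set d1 := mk u1 (-u1) u2 (-u2) with hd1
  set d2 := mk 0 0 t2 (-t2) with hd2
  set d3 := mk 1 1 (-1) (-1) with hd3
  have p1 : C.Perp fun χ => (d1 χ : ℂ) := hperp _ _ _ _ (by ring) fun i => by
    obtain ⟨e1, e2⟩ := hR i
    rcases hu with ⟨h0, -, -⟩ | ⟨h1, hu1, hu2⟩ | ⟨-, hu1, hu2⟩
    · exact absurd i.isLt (by omega)
    · have e3 := hR0 i (by have := i.isLt; omega)
      rw [hu1, hu2]
      linear_combination -e1 - e2 + 2 * e3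
    · rw [hu1, hu2]; ring
  have p2 : C.Perp fun χ => (d2 χ : ℂ) := hperp _ _ _ _ (by ring) fun i => by
    have : t2 = 0 := if_neg (by have := i.isLt; omega)
    rw [this]; ring
  have p3 : C.Perp fun χ => (d3 χ : ℂ) := hperp _ _ _ _ (by ring) fun i => by
    linear_combination (hR i).1 - (hR i).2
  have supp : ∀ χ, χ ∉ J → d1 χ = 0 ∧ d2 χ = 0 ∧ d3 χ = 0 := fun χ hχ =>
    ⟨mksupp _ _ _ _ _ hχ, mksupp _ _ _ _ _ hχ, mksupp _ _ _ _ _ hχ⟩
  refine ⟨ν, d1, d2, d3, hν, supp, ?_, ?_, ?_, ?_, ?_, ?_, ?_, ?_, ?_⟩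
  · have key : ∀ ta tb tc td, C.Perp (fun χ => (mk ta tb tc td χ : ℂ)) → ∀ η ∈ J,
        2 * ∑ q ∈ regSet 2 K, (η : K → ℂ) q * gam b (mk ta tb tc td) q =
          (Nat.card K : ℂ) * (mk ta tb tc td η : ℂ) := fun ta tb tc td hp η' hη' =>
      C.half_proj (fun χ hχ => by
        by_contra hn
        exact hχ (mksupp _ _ _ _ χ hn)) hp hη'
    rintro d (rfl | rfl | rfl)
    · exact key _ _ _ _ p1
    · exact key _ _ _ _ p2
    · exact key _ _ _ _ p3
  · rw [hdot]
    rcases hu with ⟨h0, hu1, hu2⟩ | ⟨h1, hu1, hu2⟩ | ⟨h2, hu1, hu2⟩ <;> rw [hu1, hu2, hν] <;>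
      simp_all
  · rw [hdot, ht2, hν]
    split_ifs <;> simp_all
  · rw [hdot, hL]; ring
  · rw [hdot]
    rcases hu with ⟨h0, hu1, hu2⟩ | ⟨h1, hu1, hu2⟩ | ⟨h2, hu1, hu2⟩ <;>
      simp [ht2, hu1, hu2, *]
  · rw [hdot]; ring
  · rw [hdot]; ring
  · intro η' hη' q hq
    obtain ⟨hX, hv, hr'⟩ := C.perp_regular hq
    set φ : IrrCharacter K → ℂ := fun χ => if χ ∈ J then (χ : K → ℂ) q else 0 with hφ
    have hφJ : ∀ p ∈ J, φ p = (p : K → ℂ) q := fun p hp => if_pos hp
    set Ga := (X pa : ℂ) * φ pa with hGa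
    set Gb := (X pb : ℂ) * φ pb with hGb
    set Gc := (X pc : ℂ) * φ pc with hGc
    set Gd := (X pd : ℂ) * φ pd with hGd
    have hcast : ∀ p ∈ J, X p ≠ 0 → (X p : ℂ) * (X p : ℂ) = 1 := fun p hp hne => by
      exact_mod_cast X2 p hp hne
    have hXc : ∀ f : IrrCharacter K → ℂ, ∑ p ∈ S, f p * (X p : ℂ) =
        f pa * X pa + f pb * X pb + f pc * X pc + f pd * X pd := by
      intro f
      rw [← Finset.sum_subset (show ({pa, pb, pc, pd} : Finset _) ⊆ S from by
          simp [Finset.insert_subset_iff, hS' _ ja, hS' _ jb, hS' _ jc, hS' _ jd]) fun p hp hn => by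
        simp only [Finset.mem_insert, Finset.mem_singleton, not_or] at hn
        have h0 : X p = 0 := by
          by_contra h'
          have hpJ : p ∈ J := by
            by_contra hn'
            exact h' ((C.vectors_support ((Set.Finite.mem_toFinset _).1 hp)).2 hn').1
          rcases hcase p hpJ with r' | r' | r' | r' | ⟨k, r'⟩
          · exact hn.1 r'
          · exact hn.2.1 r'
          · exact hn.2.2.1 r'
          · exact hn.2.2.2 r'
          · exact h' (r' ▸ (hw k).Xw)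
        rw [h0, Int.cast_zero, mul_zero],
        Finset.sum_insert (by simp [hab, hac, had]), Finset.sum_insert (by simp [hbc, hbd]),
        Finset.sum_pair hcd]
      ring
    have g0 : Ga + Gb + Gc + Gd = 0 := by
      have e' := hX
      rw [hXc φ] at e'
      linear_combination e'
    have gw : ∀ k, φ (w k) = -(η k : ℂ) * (Ga + Gb) := by
      intro k
      have e' : ∑ χ ∈ S, φ χ * (vv c k χ : ℂ) = 0 := hv k
      rw [← Finset.sum_subset (show ({pa, pb, w k} : Finset _) ⊆ S from by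
          simp [Finset.insert_subset_iff, hS' _ ja, hS' _ jb, hS' _ (jw k)]) fun p hp hn => by
        simp only [Finset.mem_insert, Finset.mem_singleton, not_or] at hn
        rw [(hw k).supp p hp hn.1 hn.2.1 hn.2.2, Int.cast_zero, mul_zero],
        Finset.sum_insert (by simp [hab, (wne k).1.symm]),
        Finset.sum_pair (wne k).2.1.symm, (hw k).va, (hw k).vb] at e'
      have e2 : (η k : ℂ) * (η k : ℂ) = 1 := by exact_mod_cast hη2 k
      have e3 : (η k : ℂ) = (vv c k (w k) : ℂ) := rfl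
      rw [← e3] at e'
      linear_combination (η k : ℂ) * e' - φ (w k) * e2
    have gs : ∑ k, (η k : ℂ) * φ (w k) = -((nv m : ℂ) * (Ga + Gb)) := by
      rw [Finset.sum_congr rfl (g := fun _ => -(Ga + Gb)) fun k _ => ?_, Finset.sum_const,
        Finset.card_univ, Fintype.card_fin, nsmul_eq_mul, mul_neg]
      rw [gw k]
      have e2 : (η k : ℂ) * (η k : ℂ) = 1 := by exact_mod_cast hη2 k
      linear_combination (-(Ga + Gb)) * e2
    have hconj : ∀ ta tb tc td, conj (gam b (mk ta tb tc td) q) =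
        (ta : ℂ) * Ga + (tb : ℂ) * Gb + (tc : ℂ) * Gc + (td : ℂ) * Gd +
          ((ta : ℂ) + tb) * ((nv m : ℂ) * (Ga + Gb)) := by
      intro ta tb tc td
      have e' : conj (gam b (mk ta tb tc td) q) = ∑ p ∈ S, (mk ta tb tc td p : ℂ) * φ p := by
        rw [gam, map_sum]
        refine Finset.sum_congr rfl fun p _ => ?_
        rw [map_mul, map_intCast, Complex.conj_conj]
        by_cases hp' : p ∈ J
        · rw [hφJ p hp']
        · rw [mksupp _ _ _ _ p hp']; simp
      rw [e', hsum, gs]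
      ring
    have hνC : (ν : ℂ) ≠ 0 := by
      rw [hν]; split_ifs <;> norm_num
    have hLC : ((2 ^ m : ℕ) : ℂ) = 4 * ((nv m : ℂ) + 1) := by exact_mod_cast hL
    have hL0 : ((2 ^ m : ℕ) : ℂ) ≠ 0 := Nat.cast_ne_zero.2 (pow_ne_zero _ two_ne_zero)
    set α1 := conj (gam b d1 q) / (ν : ℂ) with hα1
    set α2 := conj (gam b d2 q) / (ν : ℂ) with hα2
    set γ := conj (gam b d3 q) / ((2 ^ m : ℕ) : ℂ) with hγ
    have hg : γ = (Ga + Gb) / 2 := by
      rw [hγ, hd3, hconj, div_eq_iff hL0, hLC]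
      push_cast
      linear_combination -g0
    have hr0 : ∀ i : Fin e, Ga * ((X pa * r i pa : ℤ) : ℂ) + Gb * ((X pb * r i pb : ℤ) : ℂ) +
        Gc * ((X pc * r i pc : ℤ) : ℂ) + Gd * ((X pd * r i pd : ℤ) : ℂ) = 0 := by
      intro i
      have e' : ∑ p ∈ S, (φ p * (X p : ℂ) * (r i p : ℂ)) * (X p : ℂ) = 0 := by
        rw [← hr' i]
        refine Finset.sum_congr rfl fun p hp => ?_
        by_cases h0 : X p = 0
        · have : r i p = 0 := by
            by_contra h'
            exact (C.hr.height_zero_iff C.hM C.hb C.hmax C.h ((Set.Finite.mem_toFinset _).1 hp)).1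
              ((C.hr0 i p).1 h').2 h0
          simp [this]
        · have : (X p : ℂ) * (X p : ℂ) = 1 := by exact_mod_cast hlat.X_sq hp h0
          linear_combination (φ p * (r i p : ℂ)) * this
      rw [hXc] at e'
      push_cast
      linear_combination e'
    have ha : u1 * α1 = (Ga - Gb) / 2 ∧ u2 * α1 + t2 * α2 = (Gc - Gd) / 2 := by
      rw [hα1, hα2, hd1, hd2, hconj, hconj, hν, ht2]
      rcases hu with ⟨h0, hu1, hu2⟩ | ⟨h1, hu1, hu2⟩ | ⟨h2, hu1, hu2⟩
      · subst h0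
        rw [hu1, hu2]
        norm_num
        constructor <;> ring
      · subst h1
        rw [hu1, hu2]
        norm_num
        have e3 := hR0 0 rfl
        obtain ⟨e1, e2⟩ := hR 0
        have h' := hr0 0
        rw [show X pb * r 0 pb = -(X pa * r 0 pa) by linarith, e3,
          show X pd * r 0 pd = X pa * r 0 pa by linarith] at h'
        push_cast at h'
        have hne : ((X pa : ℂ) * (r 0 pa : ℂ)) ≠ 0 := by
          have : X pa * r 0 pa ≠ 0 := mul_ne_zero Xa ((C.hr0 0 pa).2 ⟨(mem_inflatedSet.1 ja).1,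
            (C.hr.height_zero_iff C.hM C.hb C.hmax C.h (mem_inflatedSet.1 ja).1).2 Xa⟩)
          exact_mod_cast this
        have h'' : Ga - Gb - Gc + Gd = 0 := by
          refine (mul_eq_zero.1 (?_ : (Ga - Gb - Gc + Gd) * ((X pa : ℂ) * (r 0 pa : ℂ)) = 0)).resolve_right
            hne
          linear_combination h'
        constructor
        · linear_combination (-(1 : ℂ) / 4) * h''
        · linear_combination (1 / 4 : ℂ) * h''
      · subst h2
        rw [hu1, hu2]
        norm_num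
        have h' := hr0 0
        have h'' := hr0 1
        obtain ⟨a1, a2⟩ := hR 0
        obtain ⟨b1, b2⟩ := hR 1
        have e3 := hR0 0 rfl
        rw [show X pb * r 0 pb = -(X pa * r 0 pa) by linarith, e3,
          show X pd * r 0 pd = X pa * r 0 pa by linarith] at h'
        rw [show X pb * r 1 pb = -(X pa * r 1 pa) by linarith,
          show X pd * r 1 pd = -(X pc * r 1 pc) by linarith] at h''
        -- the second vector is the other pattern
        have horth := (C.hrk 0).orth C.hM C.hb C.hmax (C.h.refl_mem _) (C.h.refl_mem _) (C.hrk 1)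
          (C.hf.sep 0 1 (by decide))
        simp only [map_intCast] at horth
        have h01 : ∑ p ∈ S, r 0 p * r 1 p = 0 := by
          rw [Finset.sum_subset (Finset.subset_univ S) fun p _ hp => by
            rw [C.r_support (fun h' => hp (hS' p h')) 0, zero_mul]]
          exact_mod_cast horth
        have hc' : X pc * r 1 pc = X pa * r 1 pa := by
          have hRX : ∑ p ∈ S, (r 0 p * r 1 p * X p) * X p = 0 := by
            rw [← h01]
            refine Finset.sum_congr rfl fun p hp => ?_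
            by_cases h0 : X p = 0
            · have : r 0 p = 0 := by
                by_contra h'
                exact (C.hr.height_zero_iff C.hM C.hb C.hmax C.h ((Set.Finite.mem_toFinset _).1 hp)).1
                  ((C.hr0 0 p).1 h').2 h0
              rw [this, h0]; ring
            · linear_combination (r 0 p * r 1 p) * hlat.X_sq hp h0
          have e5 := hXc fun p => ((r 0 p * r 1 p * X p : ℤ) : ℂ)
          have e6 : ((r 0 pa * r 1 pa * X pa * X pa + r 0 pb * r 1 pb * X pb * X pb +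
              r 0 pc * r 1 pc * X pc * X pc + r 0 pd * r 1 pd * X pd * X pd : ℤ) : ℂ) = ((0 : ℤ) : ℂ) := by
            rw [← hRX]
            push_cast
            push_cast at e5
            linear_combination -e5
          have e7 := Int.cast_injective e6
          have hb1 : X pb * r 1 pb = -(X pa * r 1 pa) := by linarith
          have hd1' : X pd * r 1 pd = -(X pc * r 1 pc) := by linarith
          have hb0 : X pb * r 0 pb = -(X pa * r 0 pa) := by linarith
          have hd0 : X pd * r 0 pd = X pa * r 0 pa := by linarith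
          have e8 : (X pa * r 0 pa) * (2 * (X pa * r 1 pa) - 2 * (X pc * r 1 pc)) = 0 := by
            linear_combination e7 - (X pb * r 1 pb) * hb0 + (X pa * r 0 pa) * hb1 -
              (X pc * r 1 pc) * e3 - (X pd * r 1 pd) * hd0 - (X pa * r 0 pa) * hd1'
          rcases mul_eq_zero.1 e8 with e9 | e9
          · exact absurd e9 (mul_ne_zero Xa ((C.hr0 0 pa).2 ⟨(mem_inflatedSet.1 ja).1,
              (C.hr.height_zero_iff C.hM C.hb C.hmax C.h (mem_inflatedSet.1 ja).1).2 Xa⟩))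
          · linarith
        rw [hc'] at h''
        push_cast at h' h''
        have hne : ∀ i : Fin 2, ((X pa : ℂ) * (r i pa : ℂ)) ≠ 0 := fun i => by
          have : X pa * r i pa ≠ 0 := mul_ne_zero Xa ((C.hr0 i pa).2 ⟨(mem_inflatedSet.1 ja).1,
            (C.hr.height_zero_iff C.hM C.hb C.hmax C.h (mem_inflatedSet.1 ja).1).2 Xa⟩)
          exact_mod_cast this
        have k1 : Ga - Gb - Gc + Gd = 0 := by
          refine (mul_eq_zero.1 (?_ : (Ga - Gb - Gc + Gd) * ((X pa : ℂ) * (r 0 pa : ℂ)) = 0)).resolve_right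
            (hne 0)
          linear_combination h'
        have k2 : Ga - Gb + Gc - Gd = 0 := by
          refine (mul_eq_zero.1 (?_ : (Ga - Gb + Gc - Gd) * ((X pa : ℂ) * (r 1 pa : ℂ)) = 0)).resolve_right
            (hne 1)
          linear_combination h''
        constructor
        · linear_combination (-(1 : ℂ) / 4) * (k1 + k2)
        · linear_combination (-(1 : ℂ) / 4) * (k2 - k1)
    obtain ⟨ha1, ha2⟩ := ha
    rw [← hφJ η' hη']
    have hx : ∀ p ∈ J, X p ≠ 0 → φ p = (X p : ℂ) * ((X p : ℂ) * φ p) := fun p hp hne => by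
      rw [← mul_assoc, hcast p hp hne, one_mul]
    obtain ⟨w1, w2, w3, w4, w5⟩ := vals u1 (-u1) u2 (-u2)
    obtain ⟨y1, y2, y3, y4, y5⟩ := vals 0 0 t2 (-t2)
    obtain ⟨z1, z2, z3, z4, z5⟩ := vals 1 1 (-1) (-1)
    simp only [hd1, hd2, hd3]
    rcases hcase η' hη' with rfl | rfl | rfl | rfl | ⟨k, rfl⟩
    · rw [w1, y1, z1, hg, hx _ ja Xa, ← hGa]
      push_cast
      linear_combination (-(X η' : ℂ)) * ha1
    · rw [w2, y2, z2, hg, hx _ jb Xb, ← hGb]
      push_cast
      linear_combination (X η' : ℂ) * ha1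
    · rw [w3, y3, z3, hg, hx _ jc Xc, ← hGc]
      push_cast
      linear_combination (-(X η' : ℂ)) * ha2 + ((X η' : ℂ) / 2) * g0
    · rw [w4, y4, z4, hg, hx _ jd Xd, ← hGd]
      push_cast
      linear_combination (X η' : ℂ) * ha2 + ((X η' : ℂ) / 2) * g0
    · rw [w5, y5, z5, hg, gw k]
      push_cast
      ring
  · intro he2 χ
    have hu12 : (u1 = 1 ∧ u2 + t2 = 1) := by
      rcases hu with ⟨h0, hu1, hu2⟩ | ⟨h1, hu1, hu2⟩ | ⟨h2, -, -⟩
      · exact ⟨hu1, by simp [ht2, h0, hu2]⟩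
      · exact ⟨hu1, by simp [ht2, h1, hu2]⟩
      · omega
    obtain ⟨hu1, hu2⟩ := hu12
    by_cases hχ : χ ∈ J
    swap
    · obtain ⟨s1, s2, s3⟩ := supp χ hχ
      rw [s1, s2, s3]; norm_num
    obtain ⟨w1, w2, w3, w4, w5⟩ := vals u1 (-u1) u2 (-u2)
    obtain ⟨y1, y2, y3, y4, y5⟩ := vals 0 0 t2 (-t2)
    obtain ⟨z1, z2, z3, z4, z5⟩ := vals 1 1 (-1) (-1)
    simp only [hd1, hd2, hd3]
    rcases hcase χ hχ with rfl | rfl | rfl | rfl | ⟨k, rfl⟩
    · rw [w1, y1, z1, hu1]; exact ⟨X χ, by ring⟩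
    · rw [w2, y2, z2, hu1]; exact ⟨0, by ring⟩
    · rw [w3, y3, z3]; exact ⟨0, by linear_combination (X χ) * hu2⟩
    · rw [w4, y4, z4]; exact ⟨-X χ, by linear_combination (-(X χ)) * hu2⟩
    · rw [w5, y5, z5]; exact ⟨-η k, by ring⟩

end CfsgLib.Blocks.TwoGen
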