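import Cfsg.Agent.Blocks.TwoGen.HeightBound

/-!
# The columns determine the members of a block

A combination of the members with no column at the pairs below the maximal pair vanishes; the
elements outside `zpowers x` give at most two classes of pairs.
-/

set_option autoImplicit false
set_option maxHeartbeats 1000000
open scoped MonoidAlgebra ComplexConjugate

namespace CfsgLib.Blocks.TwoGen

open Cfsg CfsgLib CfsgLib.Blocks CfsgLib.Blocks.NilSection

universe u

variable {G : Type u} [Group G] [Fintype G] {M : Ideal AlgInt} [hMmax : M.IsMaximal]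
  [hp : Fact (Nat.Prime 2)] [CharP (kres M) 2] {B : Set (IrrCharacter G)} {D : Subgroup G}
  {g : (kres M)[G]} {m : ℕ} {s : ℤ} {x y : G} {μ : ℂ}
  {c : IrrCharacter G → ZMod (2 ^ m) → ℤ} {F : IrrCharacter G → ZMod (2 ^ m) → ℂ}

/-- The coefficients `φ` give nothing at the pair of `v`. -/
def ColZero (B : Set (IrrCharacter G)) (D : Subgroup G) (g : (kres M)[G])
    (φ : IrrCharacter G → ℂ) (v : G) : Prop :=
  ∀ s : cz v, IsPRegular 2 s → ∑ χ ∈ B.toFinite.toFinset,
    φ χ * lval (χ : G → ℂ) (v * (s : G)) (fBelow 2 D g (Subgroup.zpowers v)) = 0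

theorem ColZero.of_pairConj (hM : IsPModular 2 M) (hB : IsPBlock M B)
    (hmax : IsMaxPairIdem 2 ⊤ (topEl M B) D g) {φ : IrrCharacter G → ℂ} {v w : G} (hv : v ∈ D)
    (h : ColZero B D g φ w) (hc : PairConj D g v w) : ColZero B D g φ v := by
  obtain ⟨t, h1, h2⟩ := hc
  intro s hs
  have hs' : IsPRegular 2 (⟨t * (s : G) * t⁻¹, h1 ▸ conj_mem_cz s⟩ : cz w) := by
    show ¬ 2 ∣ orderOf _
    rw [Subgroup.orderOf_mk, ← MulAut.conj_apply, MulEquiv.orderOf_eq, Subgroup.orderOf_coe]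
    exact hs
  rw [← h ⟨_, _⟩ hs']
  exact Finset.sum_congr rfl fun χ _ => by rw [lval_transport hM hB hmax hv h1 h2 χ hs]

/-- A column with one function. -/
theorem colZero_of_rankOne {φ : IrrCharacter G → ℂ} {v : G} {p : IrrCharacter G → ℂ}
    (hp' : RankOne D g v p) (h : ∑ χ ∈ B.toFinite.toFinset, φ χ * p χ = 0) :
    ColZero B D g φ v := by
  obtain ⟨l, hl, -⟩ := hp'
  intro s hs
  rw [Finset.sum_congr rfl fun χ _ => by rw [hl χ s hs, ← mul_assoc], ← Finset.sum_mul, h, zero_mul]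

/-- At the identity the columns are the regular values. -/
theorem colZero_one (hM : IsPModular 2 M) (hB : IsPBlock M B)
    (hmax : IsMaxPairIdem 2 ⊤ (topEl M B) D g) {φ : IrrCharacter G → ℂ}
    (h : ∀ t : G, IsPRegular 2 t → ∑ χ ∈ B.toFinite.toFinset, φ χ * (χ : G → ℂ) t = 0) :
    ColZero B D g φ 1 := by
  intro s hs
  rw [one_mul, fBelow_central hB hmax (Subgroup.center G).one_mem D.one_mem]
  have hs' : IsPRegular 2 (s : G) := by
    show ¬ 2 ∣ orderOf _
    rw [Subgroup.orderOf_coe]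
    exact hs
  rw [← h s hs']
  exact Finset.sum_congr rfl fun χ hχ => by
    rw [lval_topEl hM (Chars.isClassFunction_coe χ) hB,
      blockPart_eq_self ((Set.Finite.mem_toFinset _).1 hχ)]

/-- At a central involution the columns are the translated regular values. -/
theorem colZero_central (hM : IsPModular 2 M) (hB : IsPBlock M B)
    (hmax : IsMaxPairIdem 2 ⊤ (topEl M B) D g) {φ : IrrCharacter G → ℂ} {z : G}
    (hz : z ∈ Subgroup.center G) (hzD : z ∈ D)
    (h : ∀ t : G, IsPRegular 2 t → ∑ χ ∈ B.toFinite.toFinset, φ χ * (χ : G → ℂ) (z * t) = 0) :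
    ColZero B D g φ z := by
  intro s hs
  rw [fBelow_central hB hmax hz hzD]
  have hs' : IsPRegular 2 (s : G) := by
    show ¬ 2 ∣ orderOf _
    rw [Subgroup.orderOf_coe]
    exact hs
  rw [← h s hs']
  exact Finset.sum_congr rfl fun χ hχ => by
    rw [lval_topEl hM (Chars.isClassFunction_coe χ) hB,
      blockPart_eq_self ((Set.Finite.mem_toFinset _).1 hχ)]

/-- **A combination without columns is zero.** -/
theorem eq_zero_of_colZero (hM : IsPModular 2 M) (hB : IsPBlock M B)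
    (hmax : IsMaxPairIdem 2 ⊤ (topEl M B) D g) {φ : IrrCharacter G → ℂ}
    (h : ∀ v ∈ D, ColZero B D g φ v) {χ : IrrCharacter G} (hχ : χ ∈ B) : φ χ = 0 := by
  classical
  haveI := Fintype.ofFinite (IrrCharacter G)
  have h0 := sum_eq_zero_of_orth hM hB hmax φ fun v hv k hk => by
    subst hk
    obtain ⟨r, hr, hcomm, -, hreg⟩ := isPPart_ppart (p := 2) k
    have hrC : r ∈ cz (ppart 2 k) := by
      rw [cz_eq_centralizer, Subgroup.mem_centralizer_singleton_iff]
      exact hcomm.eq.symm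
    have := h _ hv ⟨r, hrC⟩ (by
      show ¬ 2 ∣ orderOf _
      rw [Subgroup.orderOf_mk]
      exact hreg)
    simpa only [hr] using this
  set ψ : IrrCharacter G → ℂ := fun ξ => if ξ ∈ B then φ ξ else 0
  have hfun : (∑ ξ : IrrCharacter G, ψ ξ • (ξ : G → ℂ)) = 0 := by
    funext k
    rw [Finset.sum_apply, Pi.zero_apply, ← h0 k]
    symm
    refine (Finset.sum_congr rfl fun ξ hξ => ?_).trans
      (Finset.sum_subset (Finset.subset_univ _) fun ξ _ hξ => ?_)
    · simp [ψ, (Set.Finite.mem_toFinset _).1 hξ]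
    · simp [ψ, show ξ ∉ B from fun h' => hξ ((Set.Finite.mem_toFinset _).2 h')]
  have e := Chars.classInner_sum_smul ψ χ
  have e' : classInner (0 : G → ℂ) (χ : G → ℂ) = ψ χ := by
    rw [← hfun]
    convert e
  simpa [ψ, hχ, classInner] using e'.symm

/-- The members of `zpowers x`. -/
theorem zpowers_cases (h : IsGen D m s x y) {v : G} (hv : v ∈ Subgroup.zpowers x) :
    v = 1 ∨ v = x ^ 2 ^ (m - 1) ∨ ∃ a : ZMod (2 ^ m), a ≠ 0 ∧ a ≠ half m ∧ v = xp x a := by
  obtain ⟨i, rfl⟩ := hv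
  show x ^ i = 1 ∨ x ^ i = x ^ 2 ^ (m - 1) ∨ ∃ a : ZMod (2 ^ m), a ≠ 0 ∧ a ≠ half m ∧ x ^ i = xp x a
  rw [← xp_intCast h i]
  by_cases h0 : (i : ZMod (2 ^ m)) = 0
  · left
    rw [h0, xp_zero]
  by_cases hH : (i : ZMod (2 ^ m)) = half m
  · right; left
    rw [hH, xp_half h]
  · exact Or.inr (Or.inr ⟨_, h0, hH, rfl⟩)

/-- Orthogonality to the vectors gives orthogonality to the columns. -/
theorem RotData.sum_F_eq_zero (hr : RotData B D g m s x μ c F) (h : IsGen D m s x y) {β : ℤ}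
    (hβ : IsShift m s β) {φ : IrrCharacter G → ℂ}
    (hX : ∑ χ ∈ B.toFinite.toFinset, φ χ * (Xv c χ : ℂ) = 0)
    (hv : ∀ k, ∑ χ ∈ B.toFinite.toFinset, φ χ * (vv c k χ : ℂ) = 0)
    (hu : ∀ k, ∑ χ ∈ B.toFinite.toFinset, φ χ * (uv β c k χ : ℂ) = 0)
    {a : ZMod (2 ^ m)} (ha : a ≠ 0) (ha' : a ≠ half m) :
    ∑ χ ∈ B.toFinite.toFinset, φ χ * F χ a = 0 := by
  classical
  set o := odRep m β 0
  have key : ∀ j, ∑ χ ∈ B.toFinite.toFinset,
      φ χ * ((c χ j - c χ (if half m * j = 0 then 0 else o) : ℤ) : ℂ) = 0 := by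
    intro j
    have hsym : ∀ χ ∈ B.toFinite.toFinset, ∀ i : ZMod (2 ^ m),
        c χ ((s : ZMod (2 ^ m)) * i) = c χ i := fun χ hχ i => hr.cols.coeff_sym hχ i
    have hne : half m ≠ 0 := fun e0 => by
      have := hr.cols.heH
      rw [e0, hr.cols.he0] at this
      norm_num at this
    rcases rep_cover h hβ j with rfl | rfl | ⟨l, rfl | rfl⟩ | ⟨l, rfl | rfl⟩
    · simp
    · have e : half m * half m = 0 := by
        rw [half_eq h, ← Int.cast_mul, ZMod.intCast_zmod_eq_zero_iff_dvd]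
        push_cast
        rw [h.two_pow_eq.1]
        exact ⟨2 ^ (m - 2), by ring⟩
      rw [e, if_pos rfl, ← neg_eq_zero, ← Finset.sum_neg_distrib, ← hX]
      exact Finset.sum_congr rfl fun χ _ => by simp only [Xv]; push_cast; ring
    · rw [evRep_parity h, if_pos rfl, ← neg_eq_zero, ← Finset.sum_neg_distrib, ← hv l]
      exact Finset.sum_congr rfl fun χ _ => by simp only [vv]; push_cast; ring
    · rw [← mul_assoc, mul_comm (half m), s_half h, evRep_parity h, if_pos rfl, ← neg_eq_zero,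
        ← Finset.sum_neg_distrib, ← hv l]
      exact Finset.sum_congr rfl fun χ hχ => by rw [hsym χ hχ]; simp only [vv]; push_cast; ring
    all_goals
      induction l using Fin.cases with
      | zero => ?_
      | succ n => ?_
    · rw [Fin.val_zero, odRep_parity h hβ, if_neg hne]
      simp [o]
    · rw [Fin.val_succ, odRep_parity h hβ, if_neg hne, ← hu n]
      exact Finset.sum_congr rfl fun χ _ => by simp only [uv, o]
    · rw [Fin.val_zero, ← mul_assoc, mul_comm (half m), s_half h, odRep_parity h hβ, if_neg hne]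
      exact Finset.sum_eq_zero fun χ hχ => by rw [hsym χ hχ]; simp [o]
    · rw [Fin.val_succ, ← mul_assoc, mul_comm (half m), s_half h, odRep_parity h hβ, if_neg hne,
        ← hu n]
      exact Finset.sum_congr rfl fun χ hχ => by rw [hsym χ hχ]; rfl
  rw [Finset.sum_congr rfl fun χ hχ => by
    rw [hr.cols.value_eq hχ (odRep_parity h hβ 0) ha ha', Finset.mul_sum], Finset.sum_comm]
  refine Finset.sum_eq_zero fun j _ => ?_
  rw [Finset.sum_congr rfl fun χ _ => (mul_assoc _ _ _).symm, ← Finset.sum_mul, key j, zero_mul]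

/-- The element `x ^ j * y` is conjugate as a pair into `zpowers x`. -/
def Fused (D : Subgroup G) (g : (kres M)[G]) (x y : G) (j : ℤ) : Prop :=
  ∃ w ∈ Subgroup.zpowers x, PairConj D g (x ^ j * y) w

/-- The classes of the elements outside that are not conjugate into `zpowers x`. -/
structure FusionData (D : Subgroup G) (g : (kres M)[G]) (x y : G) (e : ℕ) (rep : Fin e → ℤ) :
    Prop where
  le_two : e ≤ 2
  unfused : ∀ i, ¬ Fused D g x y (rep i)
  sep : ∀ i k, i ≠ k → ¬ PairConj D g (x ^ rep i * y) (x ^ rep k * y)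
  cover : ∀ j, Fused D g x y j ∨ ∃ i, PairConj D g (x ^ j * y) (x ^ rep i * y)

theorem pairConj_rep (hmax : IsMaxPairIdem 2 ⊤ (topEl M B) D g) (h : IsGen D m s x y) (j : ℤ) :
    PairConj D g (x ^ j * y) (x ^ (0 : ℤ) * y) ∨ PairConj D g (x ^ j * y) (x ^ (1 : ℤ) * y) := by
  obtain ⟨k, e | e⟩ := h.exists_rep j <;> [left; right] <;>
    have := pairConj_of_mem hmax (h.refl_mem j) (D.zpow_mem h.x_mem k) <;>
    simpa [e] using this

theorem Fused.of_pairConj {j k : ℤ} (h : Fused D g x y k)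
    (hc : PairConj D g (x ^ j * y) (x ^ k * y)) : Fused D g x y j := by
  obtain ⟨w, hw, hc'⟩ := h
  exact ⟨w, hw, hc.trans hc'⟩

theorem exists_fusion (hmax : IsMaxPairIdem 2 ⊤ (topEl M B) D g) (h : IsGen D m s x y) :
    ∃ (e : ℕ) (rep : Fin e → ℤ), FusionData D g x y e rep := by
  classical
  by_cases h0 : Fused D g x y 0 <;> by_cases h1 : Fused D g x y 1
  · refine ⟨0, Fin.elim0, ⟨by norm_num, fun i => i.elim0, fun i => i.elim0, fun j => Or.inl ?_⟩⟩
    rcases pairConj_rep hmax h j with e | e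
    · exact h0.of_pairConj e
    · exact h1.of_pairConj e
  · refine ⟨1, fun _ => 1, ⟨by norm_num, fun _ => h1, fun i k hik => absurd (Subsingleton.elim i k) hik,
      fun j => ?_⟩⟩
    rcases pairConj_rep hmax h j with e | e
    · exact Or.inl (h0.of_pairConj e)
    · exact Or.inr ⟨0, e⟩
  · refine ⟨1, fun _ => 0, ⟨by norm_num, fun _ => h0, fun i k hik => absurd (Subsingleton.elim i k) hik,
      fun j => ?_⟩⟩
    rcases pairConj_rep hmax h j with e | e
    · exact Or.inr ⟨0, e⟩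
    · exact Or.inl (h1.of_pairConj e)
  by_cases hc : PairConj D g (x ^ (1 : ℤ) * y) (x ^ (0 : ℤ) * y)
  · refine ⟨1, fun _ => 0, ⟨by norm_num, fun _ => h0, fun i k hik => absurd (Subsingleton.elim i k) hik,
      fun j => Or.inr ⟨0, ?_⟩⟩⟩
    rcases pairConj_rep hmax h j with e | e
    · exact e
    · exact e.trans hc
  refine ⟨2, ![0, 1], ⟨le_rfl, fun i => ?_, fun i k hik => ?_, fun j => ?_⟩⟩
  · fin_cases i <;> simpa
  · fin_cases i <;> fin_cases k <;> simp at hik ⊢
    · exact fun e => hc (by simpa using e.symm)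
    · simpa using hc
  · rcases pairConj_rep hmax h j with e | e
    · exact Or.inr ⟨0, by simpa using e⟩
    · exact Or.inr ⟨1, by simpa using e⟩

/-- All columns from those of `zpowers x` and of the classes outside. -/
theorem colZero_all (hM : IsPModular 2 M) (hB : IsPBlock M B)
    (hmax : IsMaxPairIdem 2 ⊤ (topEl M B) D g) (h : IsGen D m s x y) {e : ℕ} {rep : Fin e → ℤ}
    (hf : FusionData D g x y e rep) {φ : IrrCharacter G → ℂ}
    (hpow : ∀ w ∈ Subgroup.zpowers x, ColZero B D g φ w)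
    (hrep : ∀ i, ColZero B D g φ (x ^ rep i * y)) :
    ∀ v ∈ D, ColZero B D g φ v := by
  intro v hv
  obtain ⟨j, rfl | rfl⟩ := h.mem_cases hv
  · exact hpow _ ⟨j, rfl⟩
  · rcases hf.cover j with ⟨w, hw, hc⟩ | ⟨i, hc⟩
    · exact (hpow w hw).of_pairConj hM hB hmax hv hc
    · exact (hrep i).of_pairConj hM hB hmax hv hc

/-- The columns at the powers of `x`, from the vectors. -/
theorem RotData.colZero_zpowers (hr : RotData B D g m s x μ c F) (h : IsGen D m s x y) {β : ℤ}
    (hβ : IsShift m s β) {φ : IrrCharacter G → ℂ}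
    (hX : ∑ χ ∈ B.toFinite.toFinset, φ χ * (Xv c χ : ℂ) = 0)
    (hv : ∀ k, ∑ χ ∈ B.toFinite.toFinset, φ χ * (vv c k χ : ℂ) = 0)
    (hu : ∀ k, ∑ χ ∈ B.toFinite.toFinset, φ χ * (uv β c k χ : ℂ) = 0)
    (h1 : ColZero B D g φ 1) (hz : ColZero B D g φ (x ^ 2 ^ (m - 1))) :
    ∀ w ∈ Subgroup.zpowers x, ColZero B D g φ w := by
  intro w hw
  rcases zpowers_cases h hw with rfl | rfl | ⟨a, ha, ha', rfl⟩
  · exact h1
  · exact hz
  · exact colZero_of_rankOne (hr.rankOne a ha ha') (hr.sum_F_eq_zero h hβ hX hv hu ha ha')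

/-- A column that is not conjugate into `zpowers x` is orthogonal to the vectors. -/
theorem RotData.sum_vectors_rankOne (hr : RotData B D g m s x μ c F) (hM : IsPModular 2 M)
    (hB : IsPBlock M B) (hmax : IsMaxPairIdem 2 ⊤ (topEl M B) D g) (h : IsGen D m s x y) {β : ℤ}
    (hβ : IsShift m s β) {v : G} (hv : v ∈ D) {r : IrrCharacter G → ℤ}
    (hp' : RankOne D g v fun χ => (r χ : ℂ))
    (hne : ∀ a : ZMod (2 ^ m), a ≠ 0 → a ≠ half m → ¬ PairConj D g (xp x a) v) :
    (∑ χ ∈ B.toFinite.toFinset, r χ * Xv c χ = 0) ∧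
    (∀ k, ∑ χ ∈ B.toFinite.toFinset, r χ * vv c k χ = 0) ∧
    ∀ k, ∑ χ ∈ B.toFinite.toFinset, r χ * uv β c k χ = 0 := by
  classical
  haveI := Fintype.ofFinite (IrrCharacter G)
  have hcol : ∀ a, a ≠ 0 → a ≠ half m →
      ∑ χ ∈ B.toFinite.toFinset, (r χ : ℂ) * F χ a = 0 := by
    intro a ha ha'
    rw [hr.sum_univ_eq ha ha' fun χ => (r χ : ℂ),
      ← (hr.rankOne a ha ha').orth hM hB hmax (xp_mem h a) hv hp' (hne a ha ha')]
    exact Finset.sum_congr rfl fun χ _ => by rw [map_intCast, mul_comm]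
  obtain ⟨e1, e2, e3⟩ := hr.sum_vectors h hβ _ hcol
  exact ⟨by exact_mod_cast e1, fun k => by exact_mod_cast e2 k, fun k => by exact_mod_cast e3 k⟩

/-- Height zero is the support of `Xv`. -/
theorem RotData.height_zero_iff (hr : RotData B D g m s x μ c F) (hM : IsPModular 2 M)
    (hB : IsPBlock M B) (hmax : IsMaxPairIdem 2 ⊤ (topEl M B) D g) (h : IsGen D m s x y)
    {χ : IrrCharacter G} (hχ : χ ∈ B) : blockHeight 2 B (χ : G → ℂ) = 0 ↔ Xv c χ ≠ 0 := by
  obtain ⟨β, hβ⟩ := exists_shift h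
  rw [← hr.parity χ hχ]
  rcases (hr.lat hM hB hmax h hβ).X_cases ((Set.Finite.mem_toFinset _).2 hχ) with e | e | e <;>
    simp only [Xv] at e ⊢ <;> rw [e] <;> norm_num

theorem RotData.card_height_zero (hr : RotData B D g m s x μ c F) (hM : IsPModular 2 M)
    (hB : IsPBlock M B) (hmax : IsMaxPairIdem 2 ⊤ (topEl M B) D g) (h : IsGen D m s x y) :
    Nat.card {χ : IrrCharacter G // χ ∈ B ∧ blockHeight 2 B (χ : G → ℂ) = 0} = 4 := by
  classical
  obtain ⟨β, hβ⟩ := exists_shift h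
  rw [← (hr.lat hM hB hmax h hβ).card_four, ← Nat.card_eq_finsetCard]
  refine Nat.card_congr (Equiv.subtypeEquivRight fun χ => ?_)
  rw [Finset.mem_filter, Set.Finite.mem_toFinset]
  exact ⟨fun h' => ⟨h'.1, (hr.height_zero_iff hM hB hmax h h'.1).1 h'.2⟩,
    fun h' => ⟨h'.1, (hr.height_zero_iff hM hB hmax h h'.1).2 h'.2⟩⟩

/-- A twist by the half kills one parity of the differences. -/
theorem RotCols.diff_eq_zero {ι : Type*} {L : ℕ} [NeZero L] {S : Finset ι} {e : ZMod L → ℂ}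
    {s' H : ZMod L} {d : ι → ZMod L → ℤ} {Φ : ι → ZMod L → ℂ} (hc : RotCols S e s' H d Φ) {p : ι}
    (hp' : p ∈ S) {τ : ℂ} (hτ : ∀ a, Φ p (a + H) = τ * Φ p a) {i i' : ZMod L}
    (hi : H * i = H * i') (hsgn : τ * e (-(H * i)) = -1) : d p i = d p i' := by
  classical
  have hd := hc.diff_eq hp' hi
  set A := Finset.univ.filter fun a : ZMod L => a ≠ 0 ∧ a ≠ H
  have hneg : ∑ a ∈ A, Φ p a * (e (-(i * a)) - e (-(i' * a))) =
      -∑ a ∈ A, Φ p a * (e (-(i * a)) - e (-(i' * a))) := by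
    rw [← Finset.sum_neg_distrib]
    refine Finset.sum_bij' (fun a _ => a + H) (fun a _ => a + H) ?_ ?_ ?_ ?_ fun a _ => ?_
    · intro a ha
      simp only [A, Finset.mem_filter, Finset.mem_univ, true_and] at ha ⊢
      exact ⟨fun e0 => ha.2 (by rw [← add_zero a, ← hc.hHH, ← add_assoc, e0, zero_add]),
        fun e0 => ha.1 (add_eq_right.1 e0)⟩
    · intro a ha
      simp only [A, Finset.mem_filter, Finset.mem_univ, true_and] at ha ⊢
      exact ⟨fun e0 => ha.2 (by rw [← add_zero a, ← hc.hHH, ← add_assoc, e0, zero_add]),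
        fun e0 => ha.1 (add_eq_right.1 e0)⟩
    · intro a _
      rw [add_assoc, hc.hHH, add_zero]
    · intro a _
      rw [add_assoc, hc.hHH, add_zero]
    · have e1 : e (-(i * (a + H))) = e (-(i * a)) * e (-(H * i)) := by
        rw [← hc.hadd, ← neg_add, mul_add, mul_comm i H]
      have e2 : e (-(i' * (a + H))) = e (-(i' * a)) * e (-(H * i)) := by
        rw [← hc.hadd, ← neg_add, mul_add, mul_comm i' H, hi]
      rw [hτ, e1, e2]
      linear_combination (Φ p a * (e (-(i * a)) - e (-(i' * a)))) * hsgn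
  rw [← hd] at hneg
  have e0 : (L : ℂ) * ((d p i - d p i' : ℤ) : ℂ) = 0 := by linear_combination hneg / 2
  have h' := (mul_eq_zero.1 e0).resolve_left (Nat.cast_ne_zero.2 (NeZero.ne L))
  exact sub_eq_zero.1 (by exact_mod_cast h')

/-- **The members by their central character at the involution.** -/
theorem RotData.twist_vectors (hr : RotData B D g m s x μ c F) (hM : IsPModular 2 M)
    (hB : IsPBlock M B) (hmax : IsMaxPairIdem 2 ⊤ (topEl M B) D g) (h : IsGen D m s x y) {β : ℤ}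
    (hβ : IsShift m s β) (hz : x ^ 2 ^ (m - 1) ∈ Subgroup.center G) {η₀ : IrrCharacter G}
    (hη₀ : η₀ ∈ B) (hη1 : (η₀ : G → ℂ) (x ^ 2 ^ (m - 1)) = (η₀ : G → ℂ) 1)
    (hη0 : blockHeight 2 B (η₀ : G → ℂ) = 0) {χ : IrrCharacter G} (hχ : χ ∈ B) :
    ((χ : G → ℂ) (x ^ 2 ^ (m - 1)) = (χ : G → ℂ) 1 → ∀ k, uv β c k χ = 0) ∧
    ((χ : G → ℂ) (x ^ 2 ^ (m - 1)) ≠ (χ : G → ℂ) 1 → Xv c χ = 0 ∧ ∀ k, vv c k χ = 0) := by
  classical
  obtain ⟨σ, hσ, htw⟩ := hr.twist hz
  set z := x ^ 2 ^ (m - 1) with hzdef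
  have hω : ∀ (φ : IrrCharacter G) (k : G),
      (φ : G → ℂ) (z * k) = (φ : G → ℂ) z / (φ : G → ℂ) 1 * (φ : G → ℂ) k :=
    fun φ k => Chars.map_mul_of_mem_center φ hz k
  have hsq : ∀ φ : IrrCharacter G,
      (φ : G → ℂ) z / (φ : G → ℂ) 1 = 1 ∨ (φ : G → ℂ) z / (φ : G → ℂ) 1 = -1 := by
    intro φ
    have e := hω φ z
    have hzz : z * z = 1 := by
      have := pow_orderOf_eq_one z
      rwa [h.orderOf_z, pow_two] at this
    rw [hzz] at e
    have h1 := Chars.map_one_ne_zero φ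
    apply mul_self_eq_one_iff.1
    field_simp at e ⊢
    linear_combination -e
  have hS : ∀ {φ}, φ ∈ B → φ ∈ B.toFinite.toFinset := fun hφ => (Set.Finite.mem_toFinset _).2 hφ
  have pH : half m * (0 : ZMod (2 ^ m)) = half m * half m := by
    rw [mul_zero, half_eq h, ← Int.cast_mul, eq_comm, ZMod.intCast_zmod_eq_zero_iff_dvd]
    push_cast
    rw [h.two_pow_eq.1]
    exact ⟨2 ^ (m - 2), by ring⟩
  have hev : ∀ {φ}, φ ∈ B → (φ : G → ℂ) z / (φ : G → ℂ) 1 * σ = -1 →
      Xv c φ = 0 ∧ ∀ k, vv c k φ = 0 := by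
    intro φ hφ hneg
    have hτ := fun a => htw φ _ (hω φ) a
    refine ⟨?_, fun k => ?_⟩
    · simp only [Xv, sub_eq_zero]
      exact hr.cols.diff_eq_zero (hS hφ) hτ pH
        (by rw [mul_zero, neg_zero, hr.cols.he0, mul_one]; exact hneg)
    · simp only [vv, sub_eq_zero]
      exact hr.cols.diff_eq_zero (hS hφ) hτ (by rw [mul_zero, evRep_parity h])
        (by rw [mul_zero, neg_zero, hr.cols.he0, mul_one]; exact hneg)
  have hσ1 : σ = 1 := by
    rcases mul_self_eq_one_iff.1 hσ with e | e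
    · exact e
    exfalso
    refine (hr.height_zero_iff hM hB hmax h hη₀).1 hη0 (hev hη₀ ?_).1
    rw [hη1, div_self (Chars.map_one_ne_zero η₀), e, one_mul]
  subst hσ1
  constructor
  · intro hi k
    simp only [uv, sub_eq_zero]
    refine hr.cols.diff_eq_zero (hS hχ) (fun a => htw χ _ (hω χ) a)
      (by rw [odRep_parity h hβ, odRep_parity h hβ]) ?_
    rw [hi, div_self (Chars.map_one_ne_zero χ), one_mul, one_mul, odRep_parity h hβ,
      ← hr.cols.hconj, hr.cols.heH]
    simp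
  · intro hne
    refine hev hχ ?_
    rcases hsq χ with e | e
    · exact absurd ((div_eq_one_iff_eq (Chars.map_one_ne_zero χ)).1 e) hne
    · rw [e, mul_one]

end CfsgLib.Blocks.TwoGen
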