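import Cfsg.Agent.Blocks.TwoGen.ZData
import Cfsg.Agent.Blocks.KLSum.UnionRank
import Cfsg.Agent.Blocks.CyclicInertia

/-!
# The invariants of a block with a quaternion or semidihedral defect group

The kernel of the restriction to the regular elements has a basis in the columns; the norms of the
columns bound the heights and the number of members.
-/

set_option autoImplicit false
set_option maxHeartbeats 1000000
open scoped MonoidAlgebra ComplexConjugate

namespace CfsgLib.Blocks.TwoGen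

open Cfsg CfsgLib CfsgLib.Blocks CfsgLib.Blocks.NilSection CfsgLib.Blocks.Contrib

universe u

variable {G : Type u} [Group G] [Fintype G] {M : Ideal AlgInt} [hMmax : M.IsMaximal]
  [hp : Fact (Nat.Prime 2)] [CharP (kres M) 2] {B : Set (IrrCharacter G)} {D : Subgroup G}
  {g : (kres M)[G]} {m : ℕ} {s : ℤ} {x y : G} {μ : ℂ}
  {c : IrrCharacter G → ZMod (2 ^ m) → ℤ} {F : IrrCharacter G → ZMod (2 ^ m) → ℂ} {β : ℤ}
  {e : ℕ} {rep : Fin e → ℤ} {ν w : ℤ} {A A' E : IrrCharacter G → ℤ}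

/-- The hypotheses and the columns. -/
structure Inv (M : Ideal AlgInt) [M.IsMaximal] (B : Set (IrrCharacter G)) (D : Subgroup G)
    (g : (kres M)[G]) (m : ℕ) (s : ℤ) (x y : G) (μ : ℂ)
    (c : IrrCharacter G → ZMod (2 ^ m) → ℤ) (F : IrrCharacter G → ZMod (2 ^ m) → ℂ) (β : ℤ)
    (e : ℕ) (rep : Fin e → ℤ) (ν w : ℤ) (A A' E : IrrCharacter G → ℤ) : Prop where
  hM : IsPModular 2 M
  hB : IsPBlock M B
  hD : IsDefectGroup 2 M B D
  hmax : IsMaxPairIdem 2 ⊤ (topEl M B) D g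
  h : IsGen D m s x y
  hr : RotData B D g m s x μ c F
  hβ : IsShift m s β
  hz : ZData B D g m x y e rep ν w A A' E

/-- The classes outside that join the class of `z`. -/
noncomputable def joined (D : Subgroup G) (g : (kres M)[G]) (m : ℕ) (x y : G) {e : ℕ}
    (rep : Fin e → ℤ) : Finset (Fin e) :=
  open scoped Classical in
    Finset.univ.filter fun i => PairConj D g (x ^ rep i * y) (x ^ 2 ^ (m - 1))

theorem exists_inv (hM : IsPModular 2 M) (hB : IsPBlock M B) (hD : IsDefectGroup 2 M B D)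
    (hmax : IsMaxPairIdem 2 ⊤ (topEl M B) D g) (h : IsGen D m s x y) :
    ∃ (μ : ℂ) (c : IrrCharacter G → ZMod (2 ^ m) → ℤ) (F : IrrCharacter G → ZMod (2 ^ m) → ℂ)
      (β : ℤ) (e : ℕ) (rep : Fin e → ℤ) (ν w : ℤ) (A A' E : IrrCharacter G → ℤ),
      Inv M B D g m s x y μ c F β e rep ν w A A' E := by
  obtain ⟨c, F, hr⟩ := exists_rotData hM hB hmax h
    (Complex.isPrimitiveRoot_exp (2 ^ m) (pow_ne_zero _ two_ne_zero))
  obtain ⟨β, hβ⟩ := exists_shift h
  obtain ⟨e, rep, ν, w, A, A', E, hz⟩ := exists_zData hM hB hD hmax h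
  exact ⟨_, c, F, β, e, rep, ν, w, A, A', E, hM, hB, hD, hmax, h, hr, hβ, hz⟩

namespace Inv

theorem not_conj_one (I : Inv M B D g m s x y μ c F β e rep ν w A A' E) :
    ¬ PairConj D g (x ^ 2 ^ (m - 1)) (1 : G) := fun ⟨t, ht, _⟩ => I.h.z_ne_one (by simpa using ht)

theorem not_conj_rot (I : Inv M B D g m s x y μ c F β e rep ν w A A' E) {a : ZMod (2 ^ m)}
    (ha : a ≠ 0) (ha' : a ≠ half m) : ¬ PairConj D g (x ^ 2 ^ (m - 1)) (xp x a) := by
  intro hc
  have h2 : xp x a * xp x a = 1 := by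
    refine hc.sq.1 ?_
    have := pow_orderOf_eq_one (x ^ 2 ^ (m - 1))
    rwa [I.h.orderOf_z, pow_two] at this
  have h1 : xp x a ≠ 1 := fun e1 => ha (xp_injective I.h (e1.trans (xp_zero x).symm))
  exact ha' (xp_injective I.h
    ((I.h.eq_of_sq_one (Subgroup.pow_mem _ (Subgroup.mem_zpowers x) _) h2 h1).trans
      (xp_half I.h).symm))

/-- A column at `z` kills the regular values and the vectors of the rotations. -/
theorem z_orth (I : Inv M B D g m s x y μ c F β e rep ν w A A' E) {d : IrrCharacter G → ℤ}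
    (hd : ∀ v ∈ D, ¬ PairConj D g (x ^ 2 ^ (m - 1)) v → ColZero B D g (fun χ => (d χ : ℂ)) v) :
    (∀ t, IsPRegular 2 t → ∑ χ ∈ B.toFinite.toFinset, (d χ : ℂ) * (χ : G → ℂ) t = 0) ∧
    (∑ χ ∈ B.toFinite.toFinset, d χ * Xv c χ = 0) ∧
    (∀ k, ∑ χ ∈ B.toFinite.toFinset, d χ * vv c k χ = 0) ∧
    ∀ k, ∑ χ ∈ B.toFinite.toFinset, d χ * uv β c k χ = 0 := by
  classical
  refine ⟨fun t ht => ?_, ?_⟩
  · have ht1 : t ∈ cz (1 : G) := by
      rw [cz_eq_centralizer, Subgroup.mem_centralizer_singleton_iff, one_mul, mul_one]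
    have e1 := hd 1 D.one_mem I.not_conj_one ⟨t, ht1⟩
      (by show ¬ 2 ∣ orderOf _; rw [Subgroup.orderOf_mk]; exact ht)
    rw [← e1]
    refine Finset.sum_congr rfl fun χ hχ => ?_
    rw [fBelow_central I.hB I.hmax (Subgroup.center G).one_mem D.one_mem,
      lval_topEl I.hM (Chars.isClassFunction_coe χ) I.hB,
      blockPart_eq_self ((Set.Finite.mem_toFinset _).1 hχ), one_mul]
  · have hcol : ∀ a, a ≠ 0 → a ≠ half m →
        ∑ χ ∈ B.toFinite.toFinset, (d χ : ℂ) * F χ a = 0 := by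
      intro a ha ha'
      obtain ⟨l, hl, t, ht, ht0⟩ := I.hr.rankOne a ha ha'
      refine (mul_eq_zero.1 (?_ : _ * l t = 0)).resolve_right ht0
      rw [← hd _ (xp_mem I.h a) (I.not_conj_rot ha ha') t ht, Finset.sum_mul]
      exact Finset.sum_congr rfl fun χ _ => by rw [hl χ t ht, mul_assoc]
    obtain ⟨e1, e2, e3⟩ := I.hr.sum_vectors I.h I.hβ _ hcol
    exact ⟨by exact_mod_cast e1, fun k => by exact_mod_cast e2 k, fun k => by exact_mod_cast e3 k⟩

theorem orths (I : Inv M B D g m s x y μ c F β e rep ν w A A' E) :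
    (∀ v ∈ D, ¬ PairConj D g (x ^ 2 ^ (m - 1)) v → ColZero B D g (fun χ => (A χ : ℂ)) v) ∧
    (∀ v ∈ D, ¬ PairConj D g (x ^ 2 ^ (m - 1)) v → ColZero B D g (fun χ => (A' χ : ℂ)) v) ∧
    ∀ v ∈ D, ¬ PairConj D g (x ^ 2 ^ (m - 1)) v → ColZero B D g (fun χ => (E χ : ℂ)) v :=
  ⟨fun v hv hn => (I.hz.orth v hv hn).1, fun v hv hn => (I.hz.orth v hv hn).2.1,
    fun v hv hn => (I.hz.orth v hv hn).2.2⟩

theorem A'_eq_zero (I : Inv M B D g m s x y μ c F β e rep ν w A A' E) (he : e ≠ 0)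
    (χ : IrrCharacter G) : A' χ = 0 := by
  by_cases hχ : χ ∈ B
  swap
  · exact (I.hz.off χ hχ).2.1
  exact mul_self_eq_zero.1 ((Finset.sum_eq_zero_iff_of_nonneg fun p _ => mul_self_nonneg (A' p)).1
    (I.hz.gA'.trans (if_neg he)) χ ((Set.Finite.mem_toFinset _).2 hχ))

theorem A_eq_zero (I : Inv M B D g m s x y μ c F β e rep ν w A A' E) (he : ¬ e < 2)
    (χ : IrrCharacter G) : A χ = 0 := by
  by_cases hχ : χ ∈ B
  swap
  · exact (I.hz.off χ hχ).1
  exact mul_self_eq_zero.1 ((Finset.sum_eq_zero_iff_of_nonneg fun p _ => mul_self_nonneg (A p)).1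
    (I.hz.gA.trans (if_neg he)) χ ((Set.Finite.mem_toFinset _).2 hχ))

theorem four (I : Inv M B D g m s x y μ c F β e rep ν w A A' E) :
    (B.toFinite.toFinset.filter fun χ : IrrCharacter G =>
      blockHeight 2 B (χ : G → ℂ) = 0).card = 4 := by
  classical
  rw [← I.hr.card_height_zero I.hM I.hB I.hmax I.h, ← Nat.card_eq_finsetCard]
  exact Nat.card_congr (Equiv.subtypeEquivRight fun χ => by simp)

theorem exists_refl (I : Inv M B D g m s x y μ c F β e rep ν w A A' E) {i : Fin e}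
    (hi : i ∉ joined D g m x y rep) :
    ∃ r : IrrCharacter G → ℤ, RankOne D g (x ^ rep i * y) (fun χ => (r χ : ℂ)) ∧
      (∀ χ, r χ ≠ 0 ↔ χ ∈ B ∧ blockHeight 2 B (χ : G → ℂ) = 0) ∧
      (∀ χ, r χ = 1 ∨ r χ = -1 ∨ r χ = 0) ∧
      (∑ χ ∈ B.toFinite.toFinset, r χ * Xv c χ = 0) ∧
      (∀ k, ∑ χ ∈ B.toFinite.toFinset, r χ * vv c k χ = 0) ∧
      (∀ k, ∑ χ ∈ B.toFinite.toFinset, r χ * uv β c k χ = 0) ∧
      (∀ t, IsPRegular 2 t → ∑ χ ∈ B.toFinite.toFinset, (r χ : ℂ) * (χ : G → ℂ) t = 0) ∧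
      ∑ χ ∈ B.toFinite.toFinset, r χ * r χ = 4 := by
  classical
  haveI := Fintype.ofFinite (IrrCharacter G)
  have hnf : ¬ Fused D g x y (rep i) := (I.hz.split i).resolve_left fun hc => hi (by
    simp [joined, hc])
  obtain ⟨r, hrk, hr0, hr1⟩ := exists_reflCol I.hM I.hB I.hmax I.h (j := rep i)
    (fun w hw hc => hnf ⟨w, hw, hc⟩) (I.hr.card_height_zero I.hM I.hB I.hmax I.h)
  obtain ⟨e1, e2, e3⟩ := I.hr.sum_vectors_rankOne I.hM I.hB I.hmax I.h I.hβ (I.h.refl_mem _) hrk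
    fun a _ _ hc => hnf ⟨xp x a, Subgroup.pow_mem _ (Subgroup.mem_zpowers x) _, hc.symm⟩
  refine ⟨r, hrk, hr0, hr1, e1, e2, e3, fun t ht => ?_, ?_⟩
  · refine (Finset.sum_subset (Finset.subset_univ _) fun χ _ hχ => ?_).trans
      (sum_regular_mul_rep (hrk.rep I.hM I.hB I.hmax (I.h.refl_mem _)) (p := 2)
        (fun k hk => even_orderOf_of_ppart (I.h.refl_ne_one _) hk) ht)
    have : r χ = 0 := by
      by_contra h0
      exact hχ ((Set.Finite.mem_toFinset _).2 ((hr0 χ).1 h0).1)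
    rw [this, Int.cast_zero, zero_mul]
  · rw [← Finset.sum_filter_of_ne (s := B.toFinite.toFinset)
      (p := fun χ : IrrCharacter G => blockHeight 2 B (χ : G → ℂ) = 0)
      (fun χ _ h0 => ((hr0 χ).1 (left_ne_zero_of_mul h0)).2),
      Finset.sum_congr rfl (g := fun _ => (1 : ℤ)) fun χ hχ => ?_, Finset.sum_const, I.four]
    · rfl
    · obtain ⟨hB', h0⟩ := Finset.mem_filter.1 hχ
      have := (hr0 χ).2 ⟨(Set.Finite.mem_toFinset _).1 hB', h0⟩
      rcases hr1 χ with e' | e' | e' <;> rw [e'] at this ⊢ <;> first | exact absurd rfl this | norm_num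

/-- **The rank of the kernel.** -/
theorem rank_add (I : Inv M B D g m s x y μ c F β e rep ν w A A' E) :
    blockRank 2 B + 2 ^ (m - 1) + 2 = Nat.card B + (joined D g m x y rep).card := by
  classical
  haveI := Fintype.ofFinite (IrrCharacter G)
  set S := B.toFinite.toFinset with hS
  choose r hrk hr0 hr1 hrX hrv hru hrreg hr4 using fun i : {i : Fin e // i ∉ joined D g m x y rep} =>
    I.exists_refl i.2
  obtain ⟨oA, oA', oE⟩ := I.orths
  obtain ⟨aR, aX, av, au⟩ := I.z_orth oA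
  obtain ⟨bR, bX, bv, bu⟩ := I.z_orth oA'
  obtain ⟨eR, eX, ev, eu⟩ := I.z_orth oE
  set qs : Fin 3 → IrrCharacter G → ℤ := ![E, A, A'] with hqs
  have he3 : 3 - e ≤ 3 := Nat.sub_le _ _
  have qprop : ∀ k : Fin 3,
      (∀ t, IsPRegular 2 t → ∑ χ ∈ S, (qs k χ : ℂ) * (χ : G → ℂ) t = 0) ∧
      (∑ χ ∈ S, qs k χ * Xv c χ = 0) ∧ (∀ l, ∑ χ ∈ S, qs k χ * vv c l χ = 0) ∧
      (∀ l, ∑ χ ∈ S, qs k χ * uv β c l χ = 0) ∧
      ∀ i, ∑ χ ∈ S, qs k χ * r i χ = 0 := by
    have hr' : ∀ d : IrrCharacter G → ℤ,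
        (∀ v ∈ D, ¬ PairConj D g (x ^ 2 ^ (m - 1)) v → ColZero B D g (fun χ => (d χ : ℂ)) v) →
        ∀ i, ∑ χ ∈ S, d χ * r i χ = 0 := by
      intro d hd i
      obtain ⟨l, hl, t, ht, ht0⟩ := hrk i
      have hn : ¬ PairConj D g (x ^ 2 ^ (m - 1)) (x ^ rep i.1 * y) := fun hc => i.2 (by
        simp [joined, hc.symm])
      have e1 : (((∑ χ ∈ S, d χ * r i χ : ℤ) : ℂ)) * l t = 0 := by
        rw [← hd _ (I.h.refl_mem _) hn t ht, Int.cast_sum, Finset.sum_mul]
        exact Finset.sum_congr rfl fun χ _ => by rw [hl χ t ht]; push_cast; ring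
      exact_mod_cast (mul_eq_zero.1 e1).resolve_right ht0
    intro k
    fin_cases k
    · exact ⟨eR, eX, ev, eu, hr' E oE⟩
    · exact ⟨aR, aX, av, au, hr' A oA⟩
    · exact ⟨bR, bX, bv, bu, hr' A' oA'⟩
  have qorth : ∀ k l : Fin 3, k ≠ l → ∑ χ ∈ S, qs k χ * qs l χ = 0 := by
    intro k l hkl
    have hc : ∀ f f' : IrrCharacter G → ℤ, ∑ χ ∈ S, f' χ * f χ = ∑ χ ∈ S, f χ * f' χ :=
      fun f f' => Finset.sum_congr rfl fun _ _ => mul_comm _ _
    fin_cases k <;> fin_cases l <;> first | exact absurd rfl hkl | skip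
    all_goals simp only [hqs, Fin.zero_eta, Fin.mk_one, Fin.reduceFinMk, Matrix.cons_val_zero,
      Matrix.cons_val_one, Matrix.cons_val]
    · rw [hc]; exact I.hz.oAE
    · rw [hc]; exact I.hz.oA'E
    · exact I.hz.oAE
    · exact I.hz.oAA'
    · exact I.hz.oA'E
    · rw [hc]; exact I.hz.oAA'
  have qnorm : ∀ k : Fin (3 - e),
      ∑ χ ∈ S, qs (Fin.castLE he3 k) χ * qs (Fin.castLE he3 k) χ ≠ 0 := by
    intro k
    have hk := k.isLt
    have hν : 0 < ν := by rw [I.hz.hν]; split_ifs <;> norm_num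
    obtain ⟨n, hn⟩ : ∃ n : Fin 3, Fin.castLE he3 k = n := ⟨_, rfl⟩
    have hv : (n : ℕ) = k := by rw [← hn]; rfl
    rw [hn]
    fin_cases n <;> simp only [hqs, Fin.zero_eta, Fin.mk_one, Fin.reduceFinMk,
      Matrix.cons_val_zero, Matrix.cons_val_one, Matrix.cons_val] at hv ⊢
    · rw [I.hz.gE]; positivity
    · rw [I.hz.gA, if_pos (by omega)]; positivity
    · rw [I.hz.gA', if_pos (by omega)]; positivity
  have rorth : ∀ i j, i ≠ j → ∑ χ ∈ S, r i χ * r j χ = 0 := by
    intro i j hij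
    have e1 := (hrk i).orth I.hM I.hB I.hmax (I.h.refl_mem _) (I.h.refl_mem _) (hrk j)
      (I.hz.sep i.1 j.1 fun e' => hij (Subtype.ext e'))
    simp only [map_intCast] at e1
    rw [Finset.sum_subset (Finset.subset_univ S) fun χ _ hχ => by
      have : r i χ = 0 := by
        by_contra h0
        exact hχ ((Set.Finite.mem_toFinset _).2 ((hr0 i χ).1 h0).1)
      rw [this, zero_mul]]
    exact_mod_cast e1
  have hlat : Lat S (nv m) (Xv c) (vv c) (uv β c) fun χ => (charDegree (χ : G → ℂ) : ℤ) :=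
    I.hr.lat I.hM I.hB I.hmax I.h I.hβ
  -- the family
  obtain ⟨V, vX, vV, vU, vQ, vR⟩ : ∃ V : (Unit ⊕ Fin (nv m) ⊕ Fin (nv m)) ⊕
      (Fin (3 - e) ⊕ {i : Fin e // i ∉ joined D g m x y rep}) → IrrCharacter G → ℤ,
      V (Sum.inl (Sum.inl ())) = Xv c ∧ (∀ k, V (Sum.inl (Sum.inr (Sum.inl k))) = vv c k) ∧
      (∀ k, V (Sum.inl (Sum.inr (Sum.inr k))) = uv β c k) ∧
      (∀ k, V (Sum.inr (Sum.inl k)) = qs (Fin.castLE he3 k)) ∧
      ∀ i, V (Sum.inr (Sum.inr i)) = r i :=
    ⟨Sum.elim (Sum.elim (fun _ => Xv c) (Sum.elim (vv c) (uv β c)))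
      (Sum.elim (fun k => qs (Fin.castLE he3 k)) r), rfl, fun _ => rfl, fun _ => rfl, fun _ => rfl,
      fun _ => rfl⟩
  have hsym : ∀ (f f' : IrrCharacter G → ℤ), ∑ χ ∈ S, f χ * f' χ = ∑ χ ∈ S, f' χ * f χ :=
    fun f f' => Finset.sum_congr rfl fun _ _ => mul_comm _ _
  have hreg : ∀ i, ∀ t, IsPRegular 2 t → ∑ χ ∈ S, (V i χ : ℂ) * (χ : G → ℂ) t = 0 := by
    intro i t ht
    obtain ⟨e1, e2, e3⟩ := I.hr.sum_vectors I.h I.hβ (fun χ => (χ : G → ℂ) t)
      fun a ha ha' => I.hr.sum_regular I.hM I.hB I.hmax I.h ht ha ha'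
    rcases i with (_ | k | k) | (k | i)
    · rw [vX]; exact (Finset.sum_congr rfl fun _ _ => mul_comm _ _).trans e1
    · rw [vV]; exact (Finset.sum_congr rfl fun _ _ => mul_comm _ _).trans (e2 k)
    · rw [vU]; exact (Finset.sum_congr rfl fun _ _ => mul_comm _ _).trans (e3 k)
    · rw [vQ]; exact (qprop _).1 t ht
    · rw [vR]; exact hrreg i t ht
  have hli : LinearIndependent ℂ fun i => fun p : S => (V i p : ℂ) := by
    rw [Fintype.linearIndependent_iff]
    intro γ hγ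
    have key : ∀ f : IrrCharacter G → ℤ, ∑ i, γ i * ((∑ χ ∈ S, V i χ * f χ : ℤ) : ℂ) = 0 := by
      intro f
      have : ∑ p : S, (∑ i, γ i • fun p : S => (V i p : ℂ)) p * (f p : ℂ) = 0 := by
        rw [hγ]; simp
      rw [← this]
      simp only [Finset.sum_apply, Pi.smul_apply, smul_eq_mul, Finset.sum_mul]
      rw [Finset.sum_comm]
      refine Finset.sum_congr rfl fun i _ => ?_
      rw [← Finset.sum_coe_sort S, Int.cast_sum, Finset.mul_sum]
      exact Finset.sum_congr rfl fun p _ => by push_cast; ring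
    have kX := key (Xv c)
    have kv := fun l => key (vv c l)
    have ku := fun l => key (uv β c l)
    have kq := fun k => key (qs (Fin.castLE he3 k))
    have kr := fun i => key (r i)
    have expand : ∀ f : IrrCharacter G → ℤ,
        γ (Sum.inl (Sum.inl ())) * ((∑ χ ∈ S, Xv c χ * f χ : ℤ) : ℂ) +
          (∑ k, γ (Sum.inl (Sum.inr (Sum.inl k))) * ((∑ χ ∈ S, vv c k χ * f χ : ℤ) : ℂ) +
            ∑ k, γ (Sum.inl (Sum.inr (Sum.inr k))) * ((∑ χ ∈ S, uv β c k χ * f χ : ℤ) : ℂ)) +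
          (∑ k, γ (Sum.inr (Sum.inl k)) * ((∑ χ ∈ S, qs (Fin.castLE he3 k) χ * f χ : ℤ) : ℂ) +
            ∑ i, γ (Sum.inr (Sum.inr i)) * ((∑ χ ∈ S, r i χ * f χ : ℤ) : ℂ)) = 0 := fun f => by
      have e' := key f
      rw [Fintype.sum_sum_type, Fintype.sum_sum_type, Fintype.sum_sum_type, Fintype.sum_sum_type,
        Fintype.sum_unique] at e'
      rw [← e', vX]
      simp only [vV, vU, vQ, vR]
    have zsum : ∀ {α : Type} [Fintype α] (f : α → ℂ) (d : α → ℤ), (∀ a, d a = 0) →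
        ∑ a, f a * (d a : ℂ) = 0 := fun f d hd => Finset.sum_eq_zero fun a _ => by
      rw [hd a, Int.cast_zero, mul_zero]
    replace kX := expand (Xv c)
    replace kv := fun l => expand (vv c l)
    replace ku := fun l => expand (uv β c l)
    replace kq := fun k => expand (qs (Fin.castLE he3 k))
    replace kr := fun i => expand (r i)
    rw [zsum _ _ fun k => hlat.uX k, zsum _ _ fun k => (qprop _).2.1, zsum _ _ hrX, hlat.nX,
      add_zero, add_zero, add_zero] at kX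
    replace kX : γ (Sum.inl (Sum.inl ())) * 4 +
        ∑ k, γ (Sum.inl (Sum.inr (Sum.inl k))) * 2 = 0 := by
      simp only [hlat.vX] at kX
      push_cast at kX
      exact kX
    replace kv : ∀ l, γ (Sum.inl (Sum.inl ())) * 2 +
        ∑ k, γ (Sum.inl (Sum.inr (Sum.inl k))) * (2 + if k = l then 1 else 0) = 0 := fun l => by
      have e' := kv l
      rw [zsum _ _ fun k => hlat.uv k l, zsum _ _ fun k => (qprop _).2.2.1 l,
        zsum _ _ fun i => hrv i l, hsym, hlat.vX, add_zero, add_zero, add_zero] at e'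
      simp only [hlat.vv] at e'
      push_cast at e'
      exact e'
    replace ku : ∀ l, ∑ k, γ (Sum.inl (Sum.inr (Sum.inr k))) * (1 + if k = l then 1 else 0) = 0 :=
      fun l => by
        have e' := ku l
        rw [zsum _ _ fun k => (hsym _ _).trans (hlat.uv l k), zsum _ _ fun k => (qprop _).2.2.2.1 l,
          zsum _ _ fun i => hru i l, hsym, hlat.uX, Int.cast_zero, mul_zero, zero_add, zero_add,
          add_zero, add_zero] at e'
        simp only [hlat.uu] at e'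
        push_cast at e'
        exact e'
    replace kq : ∀ k, ∑ l, γ (Sum.inr (Sum.inl l)) *
        ((∑ χ ∈ S, qs (Fin.castLE he3 l) χ * qs (Fin.castLE he3 k) χ : ℤ) : ℂ) = 0 := fun k => by
      have e' := kq k
      rw [zsum _ _ fun l => (hsym _ _).trans ((qprop _).2.2.1 l),
        zsum _ _ fun l => (hsym _ _).trans ((qprop _).2.2.2.1 l),
        zsum _ _ fun i => (hsym _ _).trans ((qprop _).2.2.2.2 i), hsym (Xv c), (qprop _).2.1,
        Int.cast_zero, mul_zero, add_zero, add_zero, zero_add, add_zero] at e'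
      exact e'
    replace kr : ∀ i, ∑ l, γ (Sum.inr (Sum.inr l)) * ((∑ χ ∈ S, r l χ * r i χ : ℤ) : ℂ) = 0 :=
      fun i => by
        have e' := kr i
        rw [zsum _ _ fun l => (hsym _ _).trans (hrv i l), zsum _ _ fun l => (hsym _ _).trans (hru i l),
          zsum _ _ fun k => (qprop _).2.2.2.2 i, hsym (Xv c), hrX,
          Int.cast_zero, mul_zero, add_zero, add_zero, zero_add, zero_add] at e'
        exact e'
    have hq0 : ∀ k, γ (Sum.inr (Sum.inl k)) = 0 := by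
      intro k
      have := kq k
      rw [Finset.sum_eq_single k (fun l _ hl => by
        rw [qorth _ _ fun e' => hl (Fin.castLE_injective he3 e'), Int.cast_zero, mul_zero])
        (fun hn => absurd (Finset.mem_univ k) hn)] at this
      exact (mul_eq_zero.1 this).resolve_right (by exact_mod_cast qnorm k)
    have hr0' : ∀ i, γ (Sum.inr (Sum.inr i)) = 0 := by
      intro i
      have := kr i
      rw [Finset.sum_eq_single i (fun l _ hl => by rw [rorth l i hl, Int.cast_zero, mul_zero])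
        (fun hn => absurd (Finset.mem_univ i) hn), hr4] at this
      exact (mul_eq_zero.1 this).resolve_right (by norm_num)
    set σv := ∑ k, γ (Sum.inl (Sum.inr (Sum.inl k))) with hσv
    set σu := ∑ k, γ (Sum.inl (Sum.inr (Sum.inr k))) with hσu
    have hd : ∀ {f : Fin (nv m) → ℂ} (a : ℂ) (l : Fin (nv m)),
        ∑ k, f k * ((a : ℂ) + if k = l then 1 else 0) = a * ∑ k, f k + f l := by
      intro f a l
      simp only [mul_add, Finset.sum_add_distrib, mul_ite, mul_one, mul_zero, Finset.sum_ite_eq',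
        Finset.mem_univ, if_true, ← Finset.sum_mul]
      ring
    rw [← Finset.sum_mul, ← hσv] at kX
    have hv1 : ∀ l, γ (Sum.inl (Sum.inr (Sum.inl l))) = -σv := fun l => by
      have := kv l
      rw [hd, ← hσv] at this
      linear_combination this - kX / 2
    have hu1 : ∀ l, γ (Sum.inl (Sum.inr (Sum.inr l))) = -σu := fun l => by
      have := ku l
      rw [hd, ← hσu] at this
      linear_combination this
    have hσu0 : σu = 0 := by
      have e1 : σu = -((nv m : ℂ) * σu) := by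
        conv_lhs => rw [hσu, Finset.sum_congr rfl fun l _ => hu1 l]
        simp
      have h0 : ((nv m : ℂ) + 1) * σu = 0 := by linear_combination e1
      exact (mul_eq_zero.1 h0).resolve_left (by norm_cast)
    have hσv0 : σv = 0 := by
      have e1 : σv = -((nv m : ℂ) * σv) := by
        conv_lhs => rw [hσv, Finset.sum_congr rfl fun l _ => hv1 l]
        simp
      have h0 : ((nv m : ℂ) + 1) * σv = 0 := by linear_combination e1
      exact (mul_eq_zero.1 h0).resolve_left (by norm_cast)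
    rintro ((_ | k | k) | (k | i))
    · rw [hσv0] at kX
      rw [zero_mul, add_zero] at kX
      exact (mul_eq_zero.1 kX).resolve_right (by norm_num)
    · rw [hv1, hσv0, neg_zero]
    · rw [hu1, hσu0, neg_zero]
    · exact hq0 k
    · exact hr0' i
  set T : (S → ℂ) →ₗ[ℂ] (G → ℂ) :=
    Fintype.linearCombination ℂ fun p : S => pRegularPart 2 ((p : IrrCharacter G) : G → ℂ) with hT
  have hTap : ∀ (φ : S → ℂ) (t : G), IsPRegular 2 t →
      T φ t = ∑ p : S, φ p * ((p : IrrCharacter G) : G → ℂ) t := by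
    intro φ t ht
    rw [hT, Fintype.linearCombination_apply, Finset.sum_apply]
    exact Finset.sum_congr rfl fun p _ => by simp [pRegularPart, ht]
  have hrange : LinearMap.range T = KLSum.regSpan 2 B := by
    rw [hT, Fintype.range_linearCombination, KLSum.regSpan]
    congr 1
    ext v
    constructor
    · rintro ⟨p, rfl⟩
      exact ⟨p, (Set.Finite.mem_toFinset _).1 p.2, rfl⟩
    · rintro ⟨p, hp, rfl⟩
      exact ⟨⟨p, (Set.Finite.mem_toFinset _).2 hp⟩, rfl⟩
  have hge : Fintype.card ((Unit ⊕ Fin (nv m) ⊕ Fin (nv m)) ⊕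
      (Fin (3 - e) ⊕ {i : Fin e // i ∉ joined D g m x y rep})) ≤ Module.finrank ℂ (LinearMap.ker T) := by
    refine (finrank_span_eq_card hli).ge.trans (Submodule.finrank_mono (Submodule.span_le.2 ?_))
    rintro _ ⟨i, rfl⟩
    rw [SetLike.mem_coe, LinearMap.mem_ker]
    funext t
    by_cases ht : IsPRegular 2 t
    · rw [hTap _ t ht, Pi.zero_apply, ← hreg i t ht, ← Finset.sum_coe_sort S]
    · rw [hT, Fintype.linearCombination_apply, Finset.sum_apply]
      simp [pRegularPart, ht]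
  have hle : Module.finrank ℂ (LinearMap.ker T) ≤ Fintype.card ((Unit ⊕ Fin (nv m) ⊕ Fin (nv m)) ⊕
      (Fin (3 - e) ⊕ {i : Fin e // i ∉ joined D g m x y rep})) := by
    let P : LinearMap.ker T →ₗ[ℂ] (((Unit ⊕ Fin (nv m) ⊕ Fin (nv m)) ⊕
      (Fin (3 - e) ⊕ {i : Fin e // i ∉ joined D g m x y rep})) → ℂ) :=
      { toFun := fun φ i => ∑ p : S, (φ : S → ℂ) p * (V i p : ℂ)
        map_add' := fun φ φ' => funext fun i => by
          simp [add_mul, Finset.sum_add_distrib]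
        map_smul' := fun a φ => funext fun i => by
          simp [mul_assoc, Finset.mul_sum] }
    have hP : Function.Injective P := by
      rw [injective_iff_map_eq_zero]
      intro φ hφ
      set ψ : IrrCharacter G → ℂ := fun χ => if hχ : χ ∈ S then (φ : S → ℂ) ⟨χ, hχ⟩ else 0 with hψ
      have hsum : ∀ f : IrrCharacter G → ℂ,
          ∑ χ ∈ S, ψ χ * f χ = ∑ p : S, (φ : S → ℂ) p * f p := fun f => by
        rw [← Finset.sum_coe_sort S]
        exact Finset.sum_congr rfl fun p _ => by simp [hψ]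
      have hV0 : ∀ i, ∑ χ ∈ S, ψ χ * (V i χ : ℂ) = 0 := fun i => by
        rw [hsum]; exact congrFun hφ i
      have hreg' : ∀ t, IsPRegular 2 t → ∑ χ ∈ S, ψ χ * (χ : G → ℂ) t = 0 := fun t ht => by
        rw [hsum, ← hTap _ t ht, LinearMap.mem_ker.1 φ.2, Pi.zero_apply]
      have hq : ∀ k : Fin 3, ∑ χ ∈ S, ψ χ * (qs k χ : ℂ) = 0 := by
        intro k
        by_cases hk : (k : ℕ) < 3 - e
        · have e' := hV0 (Sum.inr (Sum.inl ⟨k, hk⟩))
          rw [vQ] at e'
          exact e'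
        · refine Finset.sum_eq_zero fun χ _ => ?_
          have h0 : qs k χ = 0 := by
            have := I.hz.e_le
            fin_cases k <;> simp only [hqs, Fin.zero_eta, Fin.mk_one, Fin.reduceFinMk,
              Matrix.cons_val_zero, Matrix.cons_val_one, Matrix.cons_val] at hk ⊢
            · omega
            · exact I.A_eq_zero (by omega) χ
            · exact I.A'_eq_zero (by omega) χ
          rw [h0, Int.cast_zero, mul_zero]
      have hzcol : ColZero B D g ψ (x ^ 2 ^ (m - 1)) := I.hz.col ψ (hq 1) (hq 2) (hq 0)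
      have hpow := I.hr.colZero_zpowers I.h I.hβ (by rw [← vX]; exact hV0 _)
        (fun k => by rw [← vV k]; exact hV0 _)
        (fun k => by rw [← vU k]; exact hV0 _)
        (colZero_one I.hM I.hB I.hmax hreg') hzcol
      have hrep : ∀ i, ColZero B D g ψ (x ^ rep i * y) := by
        intro i
        by_cases hi : i ∈ joined D g m x y rep
        · simp only [joined, Finset.mem_filter] at hi
          exact hzcol.of_pairConj I.hM I.hB I.hmax (I.h.refl_mem _) hi.2
        · exact colZero_of_rankOne (hrk ⟨i, hi⟩) (by rw [← vR ⟨i, hi⟩]; exact hV0 _)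
      have hall : ∀ v ∈ D, ColZero B D g ψ v := by
        intro v hv
        obtain ⟨j, rfl | rfl⟩ := I.h.mem_cases hv
        · exact hpow _ ⟨j, rfl⟩
        · rcases I.hz.cover j with ⟨w', hw, hc⟩ | ⟨i, hc⟩
          · exact (hpow w' hw).of_pairConj I.hM I.hB I.hmax hv hc
          · exact (hrep i).of_pairConj I.hM I.hB I.hmax hv hc
      refine Subtype.ext (funext fun p => ?_)
      have := eq_zero_of_colZero I.hM I.hB I.hmax hall ((Set.Finite.mem_toFinset _).1 p.2)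
      simpa [hψ] using this
    exact (LinearMap.finrank_le_finrank_of_injective hP).trans
      (Module.finrank_fintype_fun_eq_card ℂ).le
  have hker := le_antisymm hle hge
  have hrn := LinearMap.finrank_range_add_finrank_ker T
  rw [hrange, ← KLSum.blockRank_eq_finrank, hker, Module.finrank_fintype_fun_eq_card,
    Fintype.card_coe] at hrn
  have hι : Fintype.card ((Unit ⊕ Fin (nv m) ⊕ Fin (nv m)) ⊕
      (Fin (3 - e) ⊕ {i : Fin e // i ∉ joined D g m x y rep})) = 1 + 2 * nv m + (3 - e) + (e - (joined D g m x y rep).card) := by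
    simp only [Fintype.card_sum, Fintype.card_unit, Fintype.card_fin,
      Fintype.card_subtype_compl, Fintype.card_coe]
    omega
  have hU := Finset.card_le_univ (joined D g m x y rep)
  rw [Fintype.card_fin] at hU
  have hnat : Nat.card B = S.card := by rw [Nat.card_coe_set_eq, Set.ncard_eq_toFinset_card]
  have hN : 2 * nv m + 2 = 2 ^ (m - 1) := by
    have := Nat.two_pow_pos (m - 2)
    rw [nv, show m - 1 = m - 2 + 1 by have := I.h.two_le; omega, pow_succ]
    omega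
  have := I.hz.e_le
  omega

/-- The row of a member of height zero. -/
theorem row (I : Inv M B D g m s x y μ c F β e rep ν w A A' E) {χ₀ : IrrCharacter G} (hχ₀ : χ₀ ∈ B) :
    ∑ χ ∈ B.toFinite.toFinset, (E χ₀ * E χ + w * (A χ₀ * A χ + A' χ₀ * A' χ)) ^ 2 =
      2 * 2 ^ m * (E χ₀ * E χ₀ + w * (A χ₀ * A χ₀ + A' χ₀ * A' χ₀)) := by
  have hA : w * w * (A χ₀ * A χ₀) * (if e < 2 then 2 * ν else 0) =
      2 * 2 ^ m * w * (A χ₀ * A χ₀) := by
    split_ifs with he
    · linear_combination 2 * w * (A χ₀ * A χ₀) * I.hz.hw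
    · rw [I.A_eq_zero he]; ring
  have hA' : w * w * (A' χ₀ * A' χ₀) * (if e = 0 then 2 * ν else 0) =
      2 * 2 ^ m * w * (A' χ₀ * A' χ₀) := by
    split_ifs with he
    · linear_combination 2 * w * (A' χ₀ * A' χ₀) * I.hz.hw
    · rw [I.A'_eq_zero he]; ring
  rw [Finset.sum_congr rfl (g := fun χ => (E χ₀ * E χ₀) * (E χ * E χ) +
      w * w * (A χ₀ * A χ₀) * (A χ * A χ) + w * w * (A' χ₀ * A' χ₀) * (A' χ * A' χ) +
      2 * w * (E χ₀ * A χ₀) * (A χ * E χ) + 2 * w * (E χ₀ * A' χ₀) * (A' χ * E χ) +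
      2 * w * w * (A χ₀ * A' χ₀) * (A χ * A' χ)) fun χ _ => by ring]
  simp only [Finset.sum_add_distrib, ← Finset.mul_sum, I.hz.gE, I.hz.gA, I.hz.gA', I.hz.oAE,
    I.hz.oA'E, I.hz.oAA', mul_zero, add_zero]
  linear_combination hA + hA'

/-- The entries of the row of a member of height zero. -/
theorem entry_sq (I : Inv M B D g m s x y μ c F β e rep ν w A A' E) {χ₀ χ : IrrCharacter G}
    (hχ₀ : χ₀ ∈ B) (h0 : blockHeight 2 B (χ₀ : G → ℂ) = 0) (hχ : χ ∈ B) :
    (4 : ℤ) ^ blockHeight 2 B (χ : G → ℂ) ≤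
      (E χ₀ * E χ + w * (A χ₀ * A χ + A' χ₀ * A' χ)) ^ 2 := by
  obtain ⟨o, ho, e'⟩ := I.hz.height χ₀ hχ₀ h0 χ hχ
  rw [e', show (4 : ℤ) ^ blockHeight 2 B (χ : G → ℂ) =
    2 ^ blockHeight 2 B (χ : G → ℂ) * 2 ^ blockHeight 2 B (χ : G → ℂ) by
      rw [← mul_pow]; norm_num]
  have h1 : 1 ≤ o * o := Lat.odd_sq ho
  have hp : (0 : ℤ) ≤ 2 ^ blockHeight 2 B (χ : G → ℂ) * 2 ^ blockHeight 2 B (χ : G → ℂ) :=
    mul_self_nonneg _
  nlinarith

theorem height_le (I : Inv M B D g m s x y μ c F β e rep ν w A A' E) {χ : IrrCharacter G}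
    (hχ : χ ∈ B) : blockHeight 2 B (χ : G → ℂ) ≤ m - 1 := by
  classical
  have hm := I.h.two_le
  by_cases h0 : blockHeight 2 B (χ : G → ℂ) = 0
  · omega
  obtain ⟨χ₀, hχ₀, h00⟩ := HeightZero.exists_height_zero (p := 2) I.hB
  have hmem : ∀ p, p ∈ B → p ∈ B.toFinite.toFinset := fun p hp => (Set.Finite.mem_toFinset _).2 hp
  have hne : χ₀ ≠ χ := fun e' => h0 (e' ▸ h00)
  have hrow := I.row hχ₀
  rw [← Finset.sum_sdiff (show ({χ₀, χ} : Finset _) ⊆ B.toFinite.toFinset by
    simp [Finset.insert_subset_iff, Set.insert_subset_iff, hχ₀, hχ]), Finset.sum_pair hne] at hrow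
  have h1 : 0 ≤ ∑ p ∈ B.toFinite.toFinset \ {χ₀, χ},
      (E χ₀ * E p + w * (A χ₀ * A p + A' χ₀ * A' p)) ^ 2 := Finset.sum_nonneg fun p _ => sq_nonneg _
  have h3 : 1 ≤ ∑ p ∈ B.toFinite.toFinset \ {χ₀, χ},
      (E χ₀ * E p + w * (A χ₀ * A p + A' χ₀ * A' p)) ^ 2 := by
    obtain ⟨q, hq⟩ : ((B.toFinite.toFinset.filter fun χ : IrrCharacter G =>
        blockHeight 2 B (χ : G → ℂ) = 0).erase χ₀).Nonempty := by
      rw [← Finset.card_pos]
      have := Finset.pred_card_le_card_erase (a := χ₀) (s := B.toFinite.toFinset.filter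
        fun χ : IrrCharacter G => blockHeight 2 B (χ : G → ℂ) = 0)
      rw [I.four] at this
      omega
    obtain ⟨hq1, hq2⟩ := Finset.mem_erase.1 hq
    obtain ⟨hqS, hq0⟩ := Finset.mem_filter.1 hq2
    have hb := I.entry_sq hχ₀ h00 ((Set.Finite.mem_toFinset _).1 hqS)
    rw [hq0, pow_zero] at hb
    refine hb.trans (Finset.single_le_sum (f := fun p =>
      (E χ₀ * E p + w * (A χ₀ * A p + A' χ₀ * A' p)) ^ 2) (fun p _ => sq_nonneg _) ?_)
    simp only [Finset.mem_sdiff, Finset.mem_insert, Finset.mem_singleton, not_or]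
    exact ⟨hqS, hq1, fun e' => h0 (e' ▸ hq0)⟩
  set d := E χ₀ * E χ₀ + w * (A χ₀ * A χ₀ + A' χ₀ * A' χ₀)
  have h4 := I.entry_sq hχ₀ h00 hχ
  by_contra hlt
  have h5 : (4 : ℤ) ^ m ≤ 4 ^ blockHeight 2 B (χ : G → ℂ) :=
    pow_le_pow_right₀ (by norm_num) (by omega)
  have h6 : (4 : ℤ) ^ m = 2 ^ m * 2 ^ m := by rw [← mul_pow]; norm_num
  have h7 := sq_nonneg (d - 2 ^ m)
  linarith

/-- For a defect group of order eight there are at most seven members. -/
theorem card_le_seven (I : Inv M B D g m s x y μ c F β e rep ν w A A' E) (hm : m = 2) :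
    Nat.card B ≤ 7 := by
  classical
  obtain ⟨χ₀, hχ₀, h00⟩ := HeightZero.exists_height_zero (p := 2) I.hB
  set S := B.toFinite.toFinset
  have hS0 : χ₀ ∈ S := (Set.Finite.mem_toFinset _).2 hχ₀
  have hrow := I.row hχ₀
  rw [← Finset.add_sum_erase S _ hS0] at hrow
  set d := E χ₀ * E χ₀ + w * (A χ₀ * A χ₀ + A' χ₀ * A' χ₀)
  have hlow : ∑ χ ∈ S.erase χ₀, (if blockHeight 2 B (χ : G → ℂ) = 0 then (1 : ℤ) else 4) ≤
      ∑ χ ∈ S.erase χ₀, (E χ₀ * E χ + w * (A χ₀ * A χ + A' χ₀ * A' χ)) ^ 2 := by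
    refine Finset.sum_le_sum fun χ hχ => ?_
    have h := I.entry_sq hχ₀ h00 ((Set.Finite.mem_toFinset _).1 (Finset.mem_of_mem_erase hχ))
    refine le_trans ?_ h
    split_ifs with h'
    · rw [h', pow_zero]
    · calc (4 : ℤ) = 4 ^ 1 := (pow_one 4).symm
        _ ≤ _ := pow_le_pow_right₀ (by norm_num) (by omega)
  have hcount : ∑ χ ∈ S.erase χ₀, (if blockHeight 2 B (χ : G → ℂ) = 0 then (1 : ℤ) else 4) =
      4 * ((S.card : ℤ) - 1) - 9 := by
    rw [Finset.sum_congr rfl (g := fun χ : IrrCharacter G =>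
      4 - 3 * (if blockHeight 2 B (χ : G → ℂ) = 0 then (1 : ℤ) else 0)) fun χ _ => by
        split_ifs <;> norm_num,
      Finset.sum_sub_distrib, Finset.sum_const, ← Finset.mul_sum, Finset.sum_boole,
      Finset.filter_erase, Finset.card_erase_of_mem hS0,
      Finset.card_erase_of_mem (Finset.mem_filter.2 ⟨hS0, h00⟩), I.four, nsmul_eq_mul,
      Nat.cast_sub (Finset.card_pos.2 ⟨χ₀, hS0⟩)]
    push_cast
    ring
  rw [hm] at hrow
  obtain ⟨o, ho, ho'⟩ := I.hz.height χ₀ hχ₀ h00 χ₀ hχ₀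
  rw [h00, pow_zero, one_mul] at ho'
  have hdodd : Odd d := by
    rw [show d = o from ho']
    exact ho
  have hd4 : 1 ≤ (d - 4) * (d - 4) := Lat.odd_sq (by
    obtain ⟨q, hq⟩ := hdodd
    exact ⟨q - 2, by omega⟩)
  have hnat : Nat.card B = S.card := by rw [Nat.card_coe_set_eq, Set.ncard_eq_toFinset_card]
  rw [hnat]
  have : (S.card : ℤ) ≤ 7 := by linarith
  exact_mod_cast this

/-- **The members for a defect group of order at least sixteen.** -/
theorem structure_of_three_le (I : Inv M B D g m s x y μ c F β e rep ν w A A' E) (hm : 3 ≤ m)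
    (hj : (joined D g m x y rep).card ≤ 1) :
    (∀ χ ∈ B, blockHeight 2 B (χ : G → ℂ) = 0 ∨ blockHeight 2 B (χ : G → ℂ) = 1 ∨
      blockHeight 2 B (χ : G → ℂ) = m - 1) ∧
    Nat.card {χ : IrrCharacter G // χ ∈ B ∧ blockHeight 2 B (χ : G → ℂ) = 1} = 2 ^ (m - 1) - 1 ∧
    2 ^ (m - 1) + 3 ≤ Nat.card B ∧ Nat.card B + e ≤ 2 ^ (m - 1) + 5 := by
  classical
  set S := B.toFinite.toFinset with hS
  have hmem : ∀ {χ}, χ ∈ S ↔ χ ∈ B := fun {χ} => Set.Finite.mem_toFinset _
  obtain ⟨χ₀, hχ₀, h00⟩ := HeightZero.exists_height_zero (p := 2) I.hB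
  have hlat := I.hr.lat I.hM I.hB I.hmax I.h I.hβ
  have he2 := I.hz.e_le
  obtain ⟨Q, hQ⟩ : ∃ Q : ℤ, (2 : ℤ) ^ (m - 2) = 2 * Q :=
    ⟨2 ^ (m - 3), by rw [← pow_succ']; congr 1; omega⟩
  have hwval : (e = 0 → w = 4 * Q) ∧ (e ≠ 0 → w = 2 * Q) := by
    have e1 := I.hz.hw
    rw [I.hz.hν, I.h.two_pow_eq.1, hQ] at e1
    constructor <;> intro he <;> simp [he] at e1 <;> linarith
  have hweven : (2 : ℤ) ∣ w := by
    by_cases he : e = 0
    · exact ⟨2 * Q, by rw [hwval.1 he]; ring⟩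
    · exact ⟨Q, hwval.2 he⟩
  have hEodd : ∀ χ, χ ∈ B → (Odd (E χ) ↔ blockHeight 2 B (χ : G → ℂ) = 0) := by
    intro χ hχ
    obtain ⟨o, ho, e'⟩ := I.hz.height χ₀ hχ₀ h00 χ hχ
    obtain ⟨o0, ho0, e0⟩ := I.hz.height χ₀ hχ₀ h00 χ₀ hχ₀
    rw [h00, pow_zero, one_mul] at e0
    obtain ⟨u, hu⟩ := hweven
    have hE0 : Odd (E χ₀) := by
      have : Odd (E χ₀ * E χ₀) := by
        obtain ⟨q, hq⟩ := ho0
        exact ⟨q - u * (A χ₀ * A χ₀ + A' χ₀ * A' χ₀), by rw [hu] at e0; linarith⟩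
      exact (Int.odd_mul.1 this).1
    constructor
    · intro hEo
      by_contra hne
      obtain ⟨k, hk⟩ := Nat.exists_eq_succ_of_ne_zero hne
      rw [hk, pow_succ, hu] at e'
      obtain ⟨q, hq⟩ := hE0.mul hEo
      obtain ⟨v, hv⟩ : ∃ v, (2 : ℤ) ^ k * 2 * o = 2 * v := ⟨(2 : ℤ) ^ k * o, by ring⟩
      obtain ⟨v', hv'⟩ : ∃ v', 2 * u * (A χ₀ * A χ + A' χ₀ * A' χ) = 2 * v' := ⟨u * (A χ₀ * A χ + A' χ₀ * A' χ), by ring⟩
      omega
    · intro hne
      rw [hne, pow_zero, one_mul] at e'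
      obtain ⟨q, hq⟩ := ho
      refine (Int.odd_mul.1 (?_ : Odd (E χ₀ * E χ))).2
      exact ⟨q - u * (A χ₀ * A χ + A' χ₀ * A' χ), by rw [hu] at e'; linarith⟩
  have hAodd : e < 2 → ∀ χ, χ ∈ B → (Odd (A χ + A' χ) ↔ blockHeight 2 B (χ : G → ℂ) = 0) := by
    intro he χ hχ
    rw [← hEodd χ hχ]
    obtain ⟨q, hq⟩ := I.hz.even he χ
    simp only [Int.odd_iff]
    omega
  have hX0 : ∀ χ, χ ∈ B → (Xv c χ ≠ 0 ↔ blockHeight 2 B (χ : G → ℂ) = 0) := fun χ hχ =>
    (I.hr.height_zero_iff I.hM I.hB I.hmax I.h hχ).symm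
  -- the vector for the configuration
  obtain ⟨gv, gX, gvv, gu, gd, gn, godd⟩ : ∃ gv : IrrCharacter G → ℤ,
      (∑ p ∈ S, gv p * Xv c p = 0) ∧ (∀ k, ∑ p ∈ S, vv c k p * gv p = 0) ∧
      (∀ k, ∑ p ∈ S, uv β c k p * gv p = 0) ∧
      (∑ p ∈ S, gv p * (charDegree (p : G → ℂ) : ℤ) = 0) ∧ (∑ p ∈ S, gv p * gv p ≤ 8) ∧
      ∀ p ∈ S, Xv c p ≠ 0 → Odd (gv p) := by
    have hdeg : ∀ d : IrrCharacter G → ℤ,
        (∀ t, IsPRegular 2 t → ∑ χ ∈ S, (d χ : ℂ) * (χ : G → ℂ) t = 0) →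
        ∑ p ∈ S, d p * (charDegree (p : G → ℂ) : ℤ) = 0 := by
      intro d hd
      have e1 := hd 1 (by show ¬ 2 ∣ orderOf (1 : G); rw [orderOf_one]; norm_num)
      rw [Finset.sum_congr rfl fun χ _ => by rw [← Chars.coe_charDegree]] at e1
      exact_mod_cast e1
    have hsym : ∀ (f f' : IrrCharacter G → ℤ), ∑ χ ∈ S, f χ * f' χ = ∑ χ ∈ S, f' χ * f χ :=
      fun f f' => Finset.sum_congr rfl fun _ _ => mul_comm _ _
    by_cases he : e < 2
    · obtain ⟨aR, aX, av, au⟩ := I.z_orth I.orths.1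
      obtain ⟨bR, bX, bv, bu⟩ := I.z_orth I.orths.2.1
      refine ⟨fun p => A p + A' p, ?_, fun k => ?_, fun k => ?_, ?_, ?_, fun p hp hX =>
        (hAodd he p (hmem.1 hp)).2 ((hX0 p (hmem.1 hp)).1 hX)⟩
      · simp only [add_mul, Finset.sum_add_distrib, aX, bX, add_zero, hS]
      · rw [hsym]; simp only [add_mul, Finset.sum_add_distrib, av, bv, add_zero, hS]
      · rw [hsym]; simp only [add_mul, Finset.sum_add_distrib, au, bu, add_zero, hS]
      · simp only [add_mul, Finset.sum_add_distrib, hdeg A aR, hdeg A' bR, add_zero]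
      · rw [Finset.sum_congr rfl (g := fun p => A p * A p + 2 * (A p * A' p) + A' p * A' p)
          fun p _ => by ring]
        simp only [Finset.sum_add_distrib, ← Finset.mul_sum, hS, I.hz.gA, I.hz.gA', I.hz.oAA',
          I.hz.hν, if_pos he, mul_zero, add_zero]
        split_ifs <;> norm_num
    · obtain ⟨i, hi⟩ : ∃ i : Fin e, i ∉ joined D g m x y rep := by
        by_contra hn
        push Not at hn
        have : (Finset.univ : Finset (Fin e)).card ≤ (joined D g m x y rep).card :=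
          Finset.card_le_card fun i _ => hn i
        rw [Finset.card_univ, Fintype.card_fin] at this
        omega
      obtain ⟨r, -, hr0, hr1, rX, rv, ru, rR, r4⟩ := I.exists_refl hi
      refine ⟨r, rX, fun k => (hsym _ _).trans (rv k), fun k => (hsym _ _).trans (ru k), hdeg r rR,
        r4.le.trans (by norm_num), fun p hp hX => ?_⟩
      have := (hr0 p).2 ⟨hmem.1 hp, (hX0 p (hmem.1 hp)).1 hX⟩
      rcases hr1 p with e' | e' | e'
      · rw [e']; exact odd_one
      · rw [e']; exact odd_one.neg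
      · exact absurd e' this
  have hN1 : 1 ≤ nv m := by
    rw [nv]
    have : 2 ^ 1 ≤ 2 ^ (m - 2) := Nat.pow_le_pow_right two_pos (by omega)
    omega
  have hN2 : nv m ≠ 2 := by
    rw [nv]
    intro h2
    obtain ⟨j, hj⟩ : ∃ j, m - 2 = j + 1 := ⟨m - 3, by omega⟩
    rw [hj, pow_succ] at h2
    omega
  obtain ⟨wp, tp, η, ε, hc⟩ := hlat.exists_config hN1 hN2 gv gX gvv gu gd gn godd
  set P := (Finset.univ : Finset (Fin (nv m))).image wp ∪
    (Finset.univ : Finset (Fin (nv m + 1))).image tp with hP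
  set four := S.filter fun χ : IrrCharacter G => blockHeight 2 B (χ : G → ℂ) = 0 with hfour
  set R := S \ (four ∪ P) with hR
  have hPcard : P.card = 2 * nv m + 1 := by
    rw [hP, Finset.card_union_of_disjoint, Finset.card_image_of_injective _ hc.w_inj,
      Finset.card_image_of_injective _ hc.t_inj, Finset.card_univ, Finset.card_univ,
      Fintype.card_fin, Fintype.card_fin]
    · omega
    · rw [Finset.disjoint_left]
      intro p hp hp'
      obtain ⟨k, -, rfl⟩ := Finset.mem_image.1 hp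
      obtain ⟨i, -, hi⟩ := Finset.mem_image.1 hp'
      exact hc.ne k i hi.symm
  have hPsub : P ⊆ S := by
    intro p hp
    rcases Finset.mem_union.1 hp with hp | hp <;> obtain ⟨k, -, rfl⟩ := Finset.mem_image.1 hp
    · exact hc.w_mem k
    · exact hc.t_mem k
  have hP1 : ∀ p ∈ P, blockHeight 2 B (p : G → ℂ) = 1 := by
    intro p hp
    have hpB := hmem.1 (hPsub hp)
    have hXp : Xv c p = 0 := by
      rcases Finset.mem_union.1 hp with hp | hp <;> obtain ⟨k, -, rfl⟩ := Finset.mem_image.1 hp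
      · exact hc.Xw k
      · exact hc.Xt k
    have hne : blockHeight 2 B (p : G → ℂ) ≠ 0 := fun e' => (hX0 p hpB).2 e' hXp
    have hle : blockHeight 2 B (p : G → ℂ) ≤ 1 := by
      rcases Finset.mem_union.1 hp with hp | hp <;> obtain ⟨k, -, rfl⟩ := Finset.mem_image.1 hp
      · refine I.hr.height_le_one_w I.hM I.hB I.hD I.hmax I.h I.hβ hpB (hc.hη k) hXp (k := k)
          (fun l => ?_) fun l => hc.u_w l k
        rw [hc.v_w]
        split_ifs with e'
        · rw [e']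
        · rfl
      · exact I.hr.height_le_one_t I.hM I.hB I.hD I.hmax I.h hm I.hβ hpB (i := k) hc.hε hXp
          (fun l => hc.v_t l k) fun l => hc.u_t l k
    omega
  have hdisj : Disjoint four P := by
    rw [Finset.disjoint_left]
    intro p hp hp'
    have e1 := (Finset.mem_filter.1 hp).2
    rw [hP1 p hp'] at e1
    exact one_ne_zero e1
  have hsub : four ∪ P ⊆ S := Finset.union_subset (Finset.filter_subset _ _) hPsub
  have hsplit : ∀ f : IrrCharacter G → ℤ,
      ∑ χ ∈ S, f χ = ∑ χ ∈ four, f χ + ∑ χ ∈ P, f χ + ∑ χ ∈ R, f χ := by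
    intro f
    rw [← Finset.sum_sdiff hsub, Finset.sum_union hdisj]
    ring
  have hfour4 : four.card = 4 := I.four
  have hE0 : ∀ χ ∈ R, E χ = 0 := by
    have hsum := hsplit fun χ => E χ * E χ
    rw [I.hz.gE] at hsum
    have h1 : (4 : ℤ) ≤ ∑ χ ∈ four, E χ * E χ := by
      have := Finset.card_nsmul_le_sum four (fun χ => E χ * E χ) 1 fun χ hχ =>
        Lat.odd_sq ((hEodd χ (hmem.1 (Finset.mem_filter.1 hχ).1)).2 (Finset.mem_filter.1 hχ).2)
      rw [hfour4, nsmul_one] at this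
      exact_mod_cast this
    have h2 : 4 * (P.card : ℤ) ≤ ∑ χ ∈ P, E χ * E χ := by
      have := Finset.card_nsmul_le_sum P (fun χ => E χ * E χ) 4 fun χ hχ => by
        have hχB := hmem.1 (hPsub hχ)
        obtain ⟨o, ⟨q, hq⟩, e'⟩ := I.hz.height χ₀ hχ₀ h00 χ hχB
        rw [hP1 χ hχ, pow_one, hq] at e'
        have hw4 : (4 : ℤ) ∣ w * (A χ₀ * A χ + A' χ₀ * A' χ) := by
          by_cases he : e = 0
          · exact ⟨Q * (A χ₀ * A χ + A' χ₀ * A' χ), by rw [hwval.1 he]; ring⟩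
          · rw [I.A'_eq_zero he χ, hwval.2 he]
            by_cases he' : e < 2
            · obtain ⟨a, ha⟩ : (2 : ℤ) ∣ A χ := by
                have hA := hAodd he' χ hχB
                rw [I.A'_eq_zero he χ, add_zero, hP1 χ hχ, Int.odd_iff] at hA
                simp only [one_ne_zero, iff_false] at hA
                omega
              exact ⟨Q * (A χ₀ * a), by rw [ha]; ring⟩
            · rw [I.A_eq_zero he' χ]; exact ⟨0, by ring⟩
        obtain ⟨u, hu⟩ := hw4
        have hEne : E χ ≠ 0 := fun e0 => by rw [e0, mul_zero, hu] at e'; omega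
        obtain ⟨a, ha⟩ : (2 : ℤ) ∣ E χ := by
          have hE := hEodd χ hχB
          rw [hP1 χ hχ, Int.odd_iff] at hE
          simp only [one_ne_zero, iff_false] at hE
          omega
        have : 1 ≤ a * a := by
          have : a ≠ 0 := fun e0 => hEne (by rw [ha, e0, mul_zero])
          rcases lt_or_gt_of_ne this with h' | h' <;> nlinarith
        rw [ha]
        linarith
      rw [nsmul_eq_mul] at this
      linarith
    have h3 : (2 : ℤ) * 2 ^ m = 4 + 4 * (P.card : ℤ) := by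
      rw [hPcard]
      push_cast
      rw [nv_cast I.h, I.h.two_pow_eq.1]
      ring
    intro χ hχ
    refine mul_self_eq_zero.1 ((Finset.sum_eq_zero_iff_of_nonneg fun p _ => mul_self_nonneg _).1
      (le_antisymm (by linarith) (Finset.sum_nonneg fun p _ => mul_self_nonneg _)) χ hχ)
  have hRB : ∀ χ ∈ R, χ ∈ B ∧ blockHeight 2 B (χ : G → ℂ) ≠ 0 := fun χ hχ => by
    obtain ⟨h1, h2⟩ := Finset.mem_sdiff.1 hχ
    exact ⟨hmem.1 h1, fun e' => h2 (Finset.mem_union_left _ (Finset.mem_filter.2 ⟨h1, e'⟩))⟩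
  have hRne : ∀ χ ∈ R, blockHeight 2 B (χ : G → ℂ) = m - 1 ∧ e < 2 ∧
      (e = 0 → 2 ≤ A χ * A χ + A' χ * A' χ) ∧ (e = 1 → 4 ≤ A χ * A χ) := by
    intro χ hχ
    obtain ⟨hχB, hne⟩ := hRB χ hχ
    obtain ⟨o, ho, e'⟩ := I.hz.height χ₀ hχ₀ h00 χ hχB
    rw [hE0 χ hχ, mul_zero, zero_add] at e'
    have hpne : (2 : ℤ) ^ blockHeight 2 B (χ : G → ℂ) * o ≠ 0 := mul_ne_zero (by positivity)
      (by obtain ⟨q, hq⟩ := ho; omega)
    have he : e < 2 := by
      by_contra he
      rw [I.A_eq_zero he χ, I.A'_eq_zero (by omega) χ] at e'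
      exact hpne (by rw [← e']; ring)
    have hpar := hAodd he χ hχB
    simp only [hne, iff_false, Int.odd_iff] at hpar
    have hQ2 : (4 : ℤ) * Q = 2 ^ (m - 1) := by rw [I.h.two_pow_eq.2, hQ]; ring
    have hdvd : (2 : ℤ) ^ (m - 1) ∣ w * (A χ₀ * A χ + A' χ₀ * A' χ) := by
      by_cases he0 : e = 0
      · exact ⟨A χ₀ * A χ + A' χ₀ * A' χ, by rw [hwval.1 he0, hQ2]⟩
      · rw [I.A'_eq_zero he0 χ, add_zero] at hpar
        obtain ⟨a, ha⟩ : (2 : ℤ) ∣ A χ := by omega
        exact ⟨A χ₀ * a, by rw [hwval.2 he0, I.A'_eq_zero he0 χ, ← hQ2, ha]; ring⟩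
    have hge : m - 1 ≤ blockHeight 2 B (χ : G → ℂ) := by
      by_contra hlt
      obtain ⟨k, hk⟩ : ∃ k, m - 1 = blockHeight 2 B (χ : G → ℂ) + (k + 1) :=
        ⟨m - 1 - blockHeight 2 B (χ : G → ℂ) - 1, by omega⟩
      rw [e', hk, pow_add] at hdvd
      have := Int.dvd_of_mul_dvd_mul_left (by positivity) hdvd
      rw [pow_succ] at this
      obtain ⟨q, hq⟩ := ho
      have h2 : (2 : ℤ) ∣ o := (dvd_mul_left _ _).trans this
      omega
    refine ⟨le_antisymm (I.height_le hχB) hge, he, fun he0 => ?_, fun he1 => ?_⟩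
    · have hne2 : ¬ (A χ = 0 ∧ A' χ = 0) := fun ⟨a1, a2⟩ => hpne (by rw [← e', a1, a2]; ring)
      by_cases h1 : A χ = 0
      · have : A' χ ≠ 0 := fun h2 => hne2 ⟨h1, h2⟩
        obtain ⟨a, ha⟩ : (2 : ℤ) ∣ A' χ := by omega
        rw [ha, h1]
        rcases lt_or_gt_of_ne (show a ≠ 0 from fun e0 => this (by rw [ha, e0, mul_zero])) with h' | h' <;>
          nlinarith
      · by_cases h2 : A' χ = 0
        · obtain ⟨a, ha⟩ : (2 : ℤ) ∣ A χ := by omega
          rw [ha, h2]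
          rcases lt_or_gt_of_ne (show a ≠ 0 from fun e0 => h1 (by rw [ha, e0, mul_zero])) with h' | h' <;>
            nlinarith
        · have s1 : 1 ≤ A χ * A χ := by rcases lt_or_gt_of_ne h1 with h' | h' <;> nlinarith
          have s2 : 1 ≤ A' χ * A' χ := by rcases lt_or_gt_of_ne h2 with h' | h' <;> nlinarith
          linarith
    · have h0 : e ≠ 0 := by omega
      rw [I.A'_eq_zero h0 χ] at e'
      rw [I.A'_eq_zero h0 χ, add_zero] at hpar
      obtain ⟨a, ha⟩ : (2 : ℤ) ∣ A χ := by omega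
      have : a ≠ 0 := fun e0 => hpne (by rw [← e', ha, e0]; ring)
      rw [ha]
      rcases lt_or_gt_of_ne this with h' | h' <;> nlinarith
  have hRcard : R.card + e ≤ 2 := by
    rcases R.eq_empty_or_nonempty with e0 | ⟨χ, hχ⟩
    · rw [e0, Finset.card_empty]; omega
    have he := (hRne χ hχ).2.1
    have hsum := hsplit fun χ => A χ * A χ + A' χ * A' χ
    rw [Finset.sum_add_distrib, I.hz.gA, I.hz.gA', if_pos he] at hsum
    have h1 : (4 : ℤ) ≤ ∑ χ ∈ four, (A χ * A χ + A' χ * A' χ) := by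
      have := Finset.card_nsmul_le_sum four (fun χ => A χ * A χ + A' χ * A' χ) 1 fun χ hχ => by
        have h' := (hAodd he χ (hmem.1 (Finset.mem_filter.1 hχ).1)).2 (Finset.mem_filter.1 hχ).2
        by_cases h1 : A χ = 0
        · rw [h1, zero_add] at h'
          have := Lat.odd_sq h'
          rw [h1]
          linarith
        · have : 1 ≤ A χ * A χ := by rcases lt_or_gt_of_ne h1 with h' | h' <;> nlinarith
          nlinarith [mul_self_nonneg (A' χ)]
      rw [hfour4, nsmul_one] at this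
      exact_mod_cast this
    have h2 : 0 ≤ ∑ χ ∈ P, (A χ * A χ + A' χ * A' χ) :=
      Finset.sum_nonneg fun p _ => add_nonneg (mul_self_nonneg _) (mul_self_nonneg _)
    rw [I.hz.hν] at hsum
    obtain rfl | rfl : e = 0 ∨ e = 1 := by omega
    · have h3 := Finset.card_nsmul_le_sum R (fun χ => A χ * A χ + A' χ * A' χ) 2
        fun χ hχ => (hRne χ hχ).2.2.1 rfl
      rw [nsmul_eq_mul] at h3
      norm_num at hsum h3
      have : (R.card : ℤ) ≤ 2 := by linarith
      omega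
    · have h3 := Finset.card_nsmul_le_sum R (fun χ => A χ * A χ + A' χ * A' χ) 4
        fun χ hχ => by
          have := (hRne χ hχ).2.2.2 rfl
          nlinarith [mul_self_nonneg (A' χ)]
      rw [nsmul_eq_mul] at h3
      norm_num at hsum h3
      have : (R.card : ℤ) ≤ 1 := by linarith
      omega
  have hnat : Nat.card B = S.card := by rw [Nat.card_coe_set_eq, Set.ncard_eq_toFinset_card]
  have hScard : S.card = 4 + (2 * nv m + 1) + R.card := by
    have h1 := Finset.card_sdiff_add_card_eq_card hsub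
    have h2 := Finset.card_union_of_disjoint hdisj
    rw [← hR] at h1
    omega
  have hN : 2 * nv m + 2 = 2 ^ (m - 1) := by
    have := Nat.two_pow_pos (m - 2)
    rw [nv, show m - 1 = m - 2 + 1 by omega, pow_succ]
    omega
  refine ⟨fun χ hχ => ?_, ?_, by omega, by omega⟩
  · by_cases h0 : blockHeight 2 B (χ : G → ℂ) = 0
    · exact Or.inl h0
    by_cases hp : χ ∈ P
    · exact Or.inr (Or.inl (hP1 χ hp))
    refine Or.inr (Or.inr (hRne χ (Finset.mem_sdiff.2 ⟨hmem.2 hχ, fun h' => ?_⟩)).1)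
    rcases Finset.mem_union.1 h' with h' | h'
    · exact h0 (Finset.mem_filter.1 h').2
    · exact hp h'
  · have hPeq : ∀ χ, (χ ∈ B ∧ blockHeight 2 B (χ : G → ℂ) = 1) ↔ χ ∈ P := by
      intro χ
      refine ⟨fun ⟨hχ, h1⟩ => ?_, fun hp => ⟨hmem.1 (hPsub hp), hP1 χ hp⟩⟩
      by_contra hp
      have := (hRne χ (Finset.mem_sdiff.2 ⟨hmem.2 hχ, fun h' => by
        rcases Finset.mem_union.1 h' with h' | h'
        · have := (Finset.mem_filter.1 h').2
          omega
        · exact hp h'⟩)).1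
      omega
    rw [Nat.card_congr (Equiv.subtypeEquivRight hPeq), Nat.card_eq_finsetCard, hPcard]
    omega

end Inv

end CfsgLib.Blocks.TwoGen
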