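import Mathlib

/-!
# Differences of Fourier coefficients of the values on a cyclic group

`F p a = ∑ j, c p j * e (j * a)` on `ZMod L`, invariant under a multiplication `s` with `s * s = 1`,
and orthogonal away from `0` and the half `H`: the differences of coefficients of equal parity have
known products.
-/

set_option autoImplicit false
open scoped ComplexConjugate

namespace CfsgLib.Blocks.TwoGen

variable {ι : Type*} {L : ℕ} [NeZero L]

/-- The values and their coefficients. -/
structure RotCols (S : Finset ι) (e : ZMod L → ℂ) (s H : ZMod L) (c : ι → ZMod L → ℤ)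
    (F : ι → ZMod L → ℂ) : Prop where
  hss : s * s = 1
  he0 : e 0 = 1
  hadd : ∀ a b, e (a + b) = e a * e b
  hinj : ∀ a, e a = 1 → a = 0
  hconj : ∀ a, conj (e a) = e (-a)
  heH : e H = -1
  hHH : H + H = 0
  hsH : s * H = H
  hHj : ∀ j, H * j = 0 ∨ H * j = H
  expand : ∀ p ∈ S, ∀ a, F p a = ∑ j, (c p j : ℂ) * e (j * a)
  sym : ∀ p ∈ S, ∀ a, F p (s * a) = F p a
  orth : ∀ a b, a ≠ 0 → a ≠ H → b ≠ 0 → b ≠ H → ∑ p ∈ S, F p a * conj (F p b) =
    (L : ℂ) * ((if a = b then 1 else 0) + (if b = s * a then 1 else 0))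

/-- The product of two coefficient vectors, up to the common part of their parity. -/
def gramFn (s : ZMod L) (i j : ZMod L) : ℤ :=
  (if i = j then 1 else 0) + (if i = s * j then 1 else 0)

variable {S : Finset ι} {e : ZMod L → ℂ} {s H : ZMod L} {c : ι → ZMod L → ℤ}
  {F : ι → ZMod L → ℂ}

namespace RotCols

theorem sum_e (h : RotCols S e s H c F) (j : ZMod L) :
    ∑ a, e (j * a) = if j = 0 then (L : ℂ) else 0 := by
  classical
  split_ifs with hj
  · simp [hj, h.he0]
  · have h1 : e j * ∑ a, e (j * a) = ∑ a, e (j * a) := by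
      rw [Finset.mul_sum]
      refine Fintype.sum_equiv (Equiv.addRight (1 : ZMod L)) _ _ fun a => ?_
      simp only [Equiv.coe_addRight, mul_add, mul_one, h.hadd]
      ring
    have h2 : (e j - 1) * ∑ a, e (j * a) = 0 := by rw [sub_mul, h1, one_mul, sub_self]
    exact (mul_eq_zero.1 h2).resolve_left fun e0 => hj (h.hinj j (sub_eq_zero.1 e0))

/-- Fourier inversion. -/
theorem inversion (h : RotCols S e s H c F) {p : ι} (hp : p ∈ S) (j : ZMod L) :
    (L : ℂ) * (c p j : ℂ) = ∑ a, F p a * e (-(j * a)) := by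
  classical
  simp only [h.expand p hp, Finset.sum_mul]
  rw [Finset.sum_comm, Finset.sum_eq_single j]
  · rw [Finset.sum_congr rfl fun a _ => by
      rw [mul_assoc, ← h.hadd, add_neg_cancel, h.he0, mul_one]]
    simp
  · intro i _ hi
    rw [Finset.sum_congr rfl fun a _ => by
      rw [mul_assoc, ← h.hadd, ← sub_eq_add_neg, ← sub_mul], ← Finset.mul_sum, h.sum_e,
      if_neg (sub_ne_zero.2 hi), mul_zero]
  · exact fun hn => absurd (Finset.mem_univ _) hn

/-- The coefficients are invariant under `s`. -/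
theorem coeff_sym (h : RotCols S e s H c F) {p : ι} (hp : p ∈ S) (j : ZMod L) :
    c p (s * j) = c p j := by
  have hL : (L : ℂ) ≠ 0 := Nat.cast_ne_zero.2 (NeZero.ne L)
  have key : (L : ℂ) * (c p (s * j) : ℂ) = (L : ℂ) * (c p j : ℂ) := by
    rw [h.inversion hp, h.inversion hp]
    refine (Fintype.sum_bijective (fun a => s * a)
      (Function.bijective_iff_has_inverse.2 ⟨fun a => s * a, fun a => by
        simp [← mul_assoc, h.hss], fun a => by simp [← mul_assoc, h.hss]⟩) _ _ fun a => ?_).symm
    rw [h.sym p hp, show s * j * (s * a) = s * s * (j * a) by ring, h.hss, one_mul]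
  exact_mod_cast mul_left_cancel₀ hL key

theorem e_half_mul (h : RotCols S e s H c F) {i i' : ZMod L} (hp : H * i = H * i') :
    e (-(i * H)) = e (-(i' * H)) := by rw [mul_comm i, mul_comm i', hp]

/-- The differences of equal parity. -/
theorem diff_eq (h : RotCols S e s H c F) {p : ι} (hp : p ∈ S) {i i' : ZMod L}
    (hi : H * i = H * i') :
    (L : ℂ) * ((c p i - c p i' : ℤ) : ℂ) =
      ∑ a ∈ Finset.univ.filter (fun a => a ≠ 0 ∧ a ≠ H),
        F p a * (e (-(i * a)) - e (-(i' * a))) := by
  classical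
  push_cast
  rw [mul_sub, h.inversion hp, h.inversion hp, ← Finset.sum_sub_distrib, Finset.sum_filter]
  refine Finset.sum_congr rfl fun a _ => ?_
  split_ifs with ha
  · rw [mul_sub]
  · rw [← mul_sub]
    rw [not_and_or, not_not, not_not] at ha
    rcases ha with rfl | rfl
    · simp [h.he0]
    · rw [h.e_half_mul hi, sub_self, mul_zero]

/-- **The products of the differences.** -/
theorem gram (h : RotCols S e s H c F) {i i' j j' : ZMod L} (hi : H * i = H * i')
    (hj : H * j = H * j') :
    ∑ p ∈ S, (c p i - c p i') * (c p j - c p j') =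
      gramFn s i j - gramFn s i j' - gramFn s i' j + gramFn s i' j' := by
  classical
  have hL : (L : ℂ) ≠ 0 := Nat.cast_ne_zero.2 (NeZero.ne L)
  set A : Finset (ZMod L) := Finset.univ.filter (fun a => a ≠ 0 ∧ a ≠ H) with hA
  set U : ZMod L → ZMod L → ZMod L → ℂ := fun i i' a => e (-(i * a)) - e (-(i' * a)) with hU
  have hsA : ∀ a, a ∈ A → s * a ∈ A := by
    intro a ha
    simp only [hA, Finset.mem_filter, Finset.mem_univ, true_and] at ha ⊢
    constructor
    · intro e0
      apply ha.1
      rw [← one_mul a, ← h.hss, mul_assoc, e0, mul_zero]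
    · intro e0
      apply ha.2
      rw [← one_mul a, ← h.hss, mul_assoc, e0, h.hsH]
  have hconjc : ∀ p, conj ((c p j - c p j' : ℤ) : ℂ) = ((c p j - c p j' : ℤ) : ℂ) := fun p =>
    map_intCast _ _
  have key : ((∑ p ∈ S, (c p i - c p i') * (c p j - c p j') : ℤ) : ℂ) * ((L : ℂ) * (L : ℂ)) =
      ∑ a ∈ A, U i i' a * (L : ℂ) * (conj (U j j' a) + conj (U j j' (s * a))) := by
    rw [Int.cast_sum, Finset.sum_mul,
      Finset.sum_congr rfl (g := fun p => (∑ a ∈ A, F p a * U i i' a) *
        conj (∑ b ∈ A, F p b * U j j' b)) fun p hp => by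
      rw [← h.diff_eq hp hi, ← h.diff_eq hp hj, map_mul, hconjc, Complex.conj_natCast, Int.cast_mul]
      ring]
    simp only [map_sum, map_mul, Finset.sum_mul_sum]
    rw [Finset.sum_comm]
    refine Finset.sum_congr rfl fun a ha => ?_
    rw [Finset.sum_comm, Finset.sum_congr rfl (g := fun b => U i i' a * conj (U j j' b) *
      ((L : ℂ) * ((if a = b then 1 else 0) + (if b = s * a then 1 else 0)))) fun b hb => by
      have ha' := (Finset.mem_filter.1 ha).2
      have hb' := (Finset.mem_filter.1 hb).2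
      rw [← h.orth a b ha'.1 ha'.2 hb'.1 hb'.2, Finset.mul_sum]
      exact Finset.sum_congr rfl fun p _ => by ring]
    simp only [mul_add, mul_ite, mul_one, mul_zero, Finset.sum_add_distrib, Finset.sum_ite_eq,
      Finset.sum_ite_eq', if_pos ha, if_pos (hsA a ha)]
    ring
  have hfull : ∑ a ∈ A, U i i' a * (L : ℂ) * (conj (U j j' a) + conj (U j j' (s * a))) =
      ∑ a, U i i' a * (L : ℂ) * (conj (U j j' a) + conj (U j j' (s * a))) := by
    refine Finset.sum_subset (Finset.filter_subset _ _) fun a _ ha => ?_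
    simp only [hA, Finset.mem_filter, Finset.mem_univ, true_and, not_and_or, not_not] at ha
    have hz : U i i' a = 0 := by
      rcases ha with e0 | e0 <;> rw [e0]
      · show e (-(i * 0)) - e (-(i' * 0)) = 0
        simp
      · show e (-(i * H)) - e (-(i' * H)) = 0
        rw [h.e_half_mul hi, sub_self]
    rw [hz, zero_mul, zero_mul]
  have hf : ∀ i j : ZMod L, ∑ a, (e (-(i * a)) * conj (e (-(j * a))) +
      e (-(i * a)) * conj (e (-(j * (s * a))))) = (L : ℂ) * (gramFn s i j : ℂ) := by
    intro i j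
    simp only [h.hconj, neg_neg, ← h.hadd, Finset.sum_add_distrib]
    rw [Finset.sum_congr rfl fun a _ => by rw [show -(i * a) + j * a = (j - i) * a by ring],
      h.sum_e, Finset.sum_congr rfl fun a _ => by
        rw [show -(i * a) + j * (s * a) = (s * j - i) * a by ring], h.sum_e, gramFn]
    have e1 : (j - i = 0) ↔ i = j := by rw [sub_eq_zero, eq_comm]
    have e2 : (s * j - i = 0) ↔ i = s * j := by rw [sub_eq_zero, eq_comm]
    simp only [e1, e2]
    push_cast
    split_ifs <;> ring
  have hexp : ∑ a, U i i' a * (L : ℂ) * (conj (U j j' a) + conj (U j j' (s * a))) =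
      (L : ℂ) * ((L : ℂ) * ((gramFn s i j - gramFn s i j' - gramFn s i' j + gramFn s i' j' : ℤ) : ℂ)) := by
    push_cast
    rw [mul_add (L : ℂ), mul_sub (L : ℂ), mul_sub (L : ℂ), ← hf, ← hf, ← hf, ← hf,
      ← Finset.sum_sub_distrib, ← Finset.sum_sub_distrib, ← Finset.sum_add_distrib, Finset.mul_sum]
    refine Finset.sum_congr rfl fun a _ => ?_
    simp only [hU, map_sub]
    ring
  rw [hfull, hexp] at key
  have h2 : ((∑ p ∈ S, (c p i - c p i') * (c p j - c p j') : ℤ) : ℂ) =
      ((gramFn s i j - gramFn s i j' - gramFn s i' j + gramFn s i' j' : ℤ) : ℂ) := by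
    refine mul_right_cancel₀ (mul_ne_zero hL hL) (key.trans ?_)
    ring
  exact_mod_cast h2

/-- What is orthogonal to the values is orthogonal to the differences. -/
theorem sum_mul_diff (h : RotCols S e s H c F) (φ : ι → ℂ)
    (hφ : ∀ a, a ≠ 0 → a ≠ H → ∑ p ∈ S, φ p * F p a = 0) {i i' : ZMod L} (hi : H * i = H * i') :
    ∑ p ∈ S, φ p * ((c p i - c p i' : ℤ) : ℂ) = 0 := by
  classical
  have hL : (L : ℂ) ≠ 0 := Nat.cast_ne_zero.2 (NeZero.ne L)
  refine (mul_eq_zero.1 (?_ : (L : ℂ) * _ = 0)).resolve_left hL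
  rw [Finset.mul_sum, Finset.sum_congr rfl fun p hp => by
    rw [mul_left_comm, h.diff_eq hp hi, Finset.mul_sum], Finset.sum_comm]
  refine Finset.sum_eq_zero fun a ha => ?_
  have ha' := (Finset.mem_filter.1 ha).2
  rw [Finset.sum_congr rfl fun p _ => (mul_assoc _ _ _).symm, ← Finset.sum_mul,
    hφ a ha'.1 ha'.2, zero_mul]

/-- The sums over one parity vanish away from `0` and the half. -/
theorem sum_parity (h : RotCols S e s H c F) (r : ZMod L) {a : ZMod L} (ha : a ≠ 0) (haH : a ≠ H)
    (hr : r = 0 ∨ r = H) : ∑ j ∈ Finset.univ.filter (fun j => H * j = r), e (j * a) = 0 := by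
  classical
  have hH0 : H ≠ 0 := fun e0 => by
    have := h.heH
    rw [e0, h.he0] at this
    norm_num at this
  set σ : ℂ := if r = 0 then 1 else -1 with hσ
  have hsum : ∑ j ∈ Finset.univ.filter (fun j => H * j = r), e (j * a) =
      ∑ j, (1 + σ * e (H * j)) / 2 * e (j * a) := by
    rw [Finset.sum_filter]
    refine Finset.sum_congr rfl fun j _ => ?_
    rcases hr with rfl | rfl <;> rcases h.hHj j with e0 | e0 <;> simp [hσ, e0, h.he0, h.heH, hH0, Ne.symm hH0]
  rw [hsum, Finset.sum_congr rfl (g := fun j => 2⁻¹ * e (a * j) + σ / 2 * e ((H + a) * j))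
    fun j _ => by
      rw [add_mul H a, h.hadd, mul_comm j a]
      ring,
    Finset.sum_add_distrib, ← Finset.mul_sum, ← Finset.mul_sum, h.sum_e, h.sum_e, if_neg ha,
    if_neg fun e0 => haH (by
      calc a = H + (H + a) := by rw [← add_assoc, h.hHH, zero_add]
        _ = H := by rw [e0, add_zero])]
  simp

/-- The values through the differences to one base point in each parity. -/
theorem value_eq (h : RotCols S e s H c F) {p : ι} (hp : p ∈ S) {o : ZMod L} (ho : H * o = H)
    {a : ZMod L} (ha : a ≠ 0) (haH : a ≠ H) :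
    F p a = ∑ j, ((c p j - c p (if H * j = 0 then 0 else o) : ℤ) : ℂ) * e (j * a) := by
  classical
  have h0 : ∑ j, ((c p (if H * j = 0 then 0 else o) : ℤ) : ℂ) * e (j * a) = 0 := by
    rw [← Finset.sum_filter_add_sum_filter_not Finset.univ (fun j => H * j = 0)]
    rw [Finset.sum_congr rfl fun j hj => by rw [if_pos (Finset.mem_filter.1 hj).2], ← Finset.mul_sum,
      h.sum_parity 0 ha haH (Or.inl rfl), mul_zero, zero_add,
      Finset.sum_congr rfl fun j hj => by rw [if_neg (Finset.mem_filter.1 hj).2], ← Finset.mul_sum]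
    refine mul_eq_zero_of_right _ ?_
    refine Eq.trans (Finset.sum_congr ?_ fun _ _ => rfl) (h.sum_parity H ha haH (Or.inr rfl))
    ext j
    simp only [Finset.mem_filter, Finset.mem_univ, true_and]
    constructor
    · exact fun hj => (h.hHj j).resolve_left hj
    · intro hj e0
      rw [e0] at hj
      have := h.heH
      rw [← hj, h.he0] at this
      norm_num at this
  rw [h.expand p hp]
  push_cast
  simp only [sub_mul, Finset.sum_sub_distrib]
  rw [h0, sub_zero]

/-- The sum of the coefficients has the parity of the two fixed ones. -/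
theorem sum_coeff_mod_two (h : RotCols S e s H c F) {p : ι} (hp : p ∈ S)
    (hfix : ∀ j, s * j = j → j = 0 ∨ j = H) :
    (2 : ℤ) ∣ (∑ j, c p j) - (c p 0 - c p H) := by
  classical
  have hH0 : H ≠ 0 := fun e0 => by
    have := h.heH
    rw [e0, h.he0] at this
    norm_num at this
  rw [← Finset.sum_filter_add_sum_filter_not Finset.univ (fun j => s * j = j)]
  have hfs : Finset.univ.filter (fun j => s * j = j) = {0, H} := by
    ext j
    simp only [Finset.mem_filter, Finset.mem_univ, true_and, Finset.mem_insert, Finset.mem_singleton]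
    exact ⟨hfix j, fun e0 => by rcases e0 with rfl | rfl <;> simp [h.hsH]⟩
  rw [hfs, Finset.sum_pair (Ne.symm hH0)]
  have h2 : (2 : ℤ) ∣ ∑ j ∈ Finset.univ.filter (fun j => ¬ s * j = j), c p j := by
    apply (ZMod.intCast_zmod_eq_zero_iff_dvd _ 2).1
    push_cast
    refine Finset.sum_involution (fun j _ => s * j) (fun j _ => ?_) (fun j hj _ => ?_)
      (fun j hj => ?_) fun j _ => ?_
    · rw [h.coeff_sym hp]
      exact CharTwo.add_self_eq_zero _
    · exact (Finset.mem_filter.1 hj).2
    · refine Finset.mem_filter.2 ⟨Finset.mem_univ _, fun e0 => ?_⟩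
      rw [← mul_assoc, h.hss, one_mul] at e0
      exact (Finset.mem_filter.1 hj).2 e0.symm
    · rw [← mul_assoc, h.hss, one_mul]
  obtain ⟨q, hq⟩ := h2
  exact ⟨c p H + q, by rw [hq]; ring⟩

end RotCols

end CfsgLib.Blocks.TwoGen
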