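import Mathlib

/-!
# Generalized quaternion and semidihedral groups

`D` of order `2 ^ (m + 1)` with `x` of order `2 ^ m` and `y` outside acting on it as `s`: either
`s = -1` and `y * y` the involution of `zpowers x`, or `s = 2 ^ (m - 1) - 1` and `y * y = 1`.
-/

set_option autoImplicit false

namespace CfsgLib.Blocks.TwoGen

variable {G : Type*} [Group G]

/-- The data of a generalized quaternion or semidihedral group. -/
structure IsGen (D : Subgroup G) (m : ℕ) (s : ℤ) (x y : G) : Prop where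
  two_le : 2 ≤ m
  card : Nat.card D = 2 ^ (m + 1)
  x_mem : x ∈ D
  y_mem : y ∈ D
  ox : orderOf x = 2 ^ m
  rel : y * x * y⁻¹ = x ^ s
  y_not_mem : y ∉ Subgroup.zpowers x
  kind : (s = -1 ∧ y * y = x ^ ((2 : ℤ) ^ (m - 1))) ∨
    (3 ≤ m ∧ s = (2 : ℤ) ^ (m - 1) - 1 ∧ y * y = 1)

namespace IsGen

variable {D : Subgroup G} {m : ℕ} {s : ℤ} {x y : G}

theorem zpow_eq_one_iff (h : IsGen D m s x y) {i : ℤ} : x ^ i = 1 ↔ (2 : ℤ) ^ m ∣ i := by
  rw [← orderOf_dvd_iff_zpow_eq_one, h.ox]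
  push_cast
  rfl

theorem zpow_eq_iff (h : IsGen D m s x y) {i j : ℤ} : x ^ i = x ^ j ↔ (2 : ℤ) ^ m ∣ i - j := by
  rw [← mul_inv_eq_one, ← zpow_neg, ← zpow_add, ← sub_eq_add_neg, h.zpow_eq_one_iff]

theorem two_pow_eq (h : IsGen D m s x y) :
    (2 : ℤ) ^ m = 4 * 2 ^ (m - 2) ∧ (2 : ℤ) ^ (m - 1) = 2 * 2 ^ (m - 2) := by
  obtain ⟨j, rfl⟩ := Nat.exists_eq_add_of_le h.two_le
  rw [show 2 + j - 1 = j + 1 by omega, show 2 + j - 2 = j by omega]
  constructor <;> ring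

/-- `1 - s` is twice a unit. -/
theorem exists_inverse (h : IsGen D m s x y) :
    ∃ u u' : ℤ, 1 - s = 2 * u ∧ (2 : ℤ) ^ (m - 1) ∣ u * u' - 1 := by
  rcases h.kind with ⟨hs, -⟩ | ⟨hm, hs, -⟩
  · exact ⟨1, 1, by rw [hs]; ring, by norm_num⟩
  · obtain ⟨j, rfl⟩ := Nat.exists_eq_add_of_le hm
    rw [show 3 + j - 1 = j + 2 by omega] at hs ⊢
    exact ⟨1 - 2 ^ (j + 1), 1 + 2 ^ (j + 1), by rw [hs]; ring,
      ⟨-2 ^ j, by ring⟩⟩

theorem s_mod_four (h : IsGen D m s x y) : (4 : ℤ) ∣ s + 1 := by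
  rcases h.kind with ⟨hs, -⟩ | ⟨hm, hs, -⟩
  · rw [hs]; norm_num
  · obtain ⟨j, rfl⟩ := Nat.exists_eq_add_of_le hm
    rw [show 3 + j - 1 = j + 2 by omega] at hs
    exact ⟨2 ^ j, by rw [hs]; ring⟩

theorem s_sq (h : IsGen D m s x y) : (2 : ℤ) ^ m ∣ s * s - 1 := by
  rcases h.kind with ⟨hs, -⟩ | ⟨hm, hs, -⟩
  · rw [hs]; norm_num
  · obtain ⟨j, rfl⟩ := Nat.exists_eq_add_of_le hm
    rw [show 3 + j - 1 = j + 2 by omega] at hs
    exact ⟨2 ^ (j + 1) - 1, by rw [hs]; ring⟩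

theorem y_mul_zpow (h : IsGen D m s x y) (i : ℤ) : y * x ^ i = x ^ (i * s) * y := by
  have e : y * x ^ i * y⁻¹ = x ^ (i * s) := by rw [← conj_zpow, h.rel, ← zpow_mul, mul_comm]
  rw [← e]
  group

theorem orderOf_z (h : IsGen D m s x y) : orderOf (x ^ 2 ^ (m - 1)) = 2 := by
  rw [orderOf_pow' _ (pow_ne_zero _ two_ne_zero), h.ox,
    Nat.gcd_eq_right (pow_dvd_pow 2 (Nat.sub_le _ _)), Nat.pow_div (Nat.sub_le _ _) two_pos,
    show m - (m - 1) = 1 by have := h.two_le; omega, pow_one]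

theorem orderOf_i (h : IsGen D m s x y) : orderOf (x ^ 2 ^ (m - 2)) = 4 := by
  rw [orderOf_pow' _ (pow_ne_zero _ two_ne_zero), h.ox,
    Nat.gcd_eq_right (pow_dvd_pow 2 (Nat.sub_le _ _)), Nat.pow_div (Nat.sub_le _ _) two_pos,
    show m - (m - 2) = 2 by have := h.two_le; omega]
  rfl

theorem z_zpow (h : IsGen D m s x y) : x ^ 2 ^ (m - 1) = x ^ ((2 : ℤ) ^ (m - 1)) := by
  rw [← zpow_natCast]
  push_cast
  rfl

theorem i_zpow (h : IsGen D m s x y) : x ^ 2 ^ (m - 2) = x ^ ((2 : ℤ) ^ (m - 2)) := by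
  rw [← zpow_natCast]
  push_cast
  rfl

theorem y_conj_i (h : IsGen D m s x y) :
    y * x ^ 2 ^ (m - 2) * y⁻¹ = (x ^ 2 ^ (m - 2))⁻¹ := by
  rw [h.i_zpow, ← zpow_neg, h.y_mul_zpow, mul_inv_cancel_right, h.zpow_eq_iff]
  obtain ⟨c, hc⟩ := h.s_mod_four
  exact ⟨c, by rw [h.two_pow_eq.1]; linear_combination (2 : ℤ) ^ (m - 2) * hc⟩

theorem z_comm (h : IsGen D m s x y) : y * x ^ 2 ^ (m - 1) = x ^ 2 ^ (m - 1) * y := by
  rw [h.z_zpow, h.y_mul_zpow]
  congr 1
  rw [h.zpow_eq_iff]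
  obtain ⟨c, hc⟩ := h.s_mod_four
  exact ⟨2 * c - 1, by rw [h.two_pow_eq.1, h.two_pow_eq.2]; linear_combination 2 * (2 : ℤ) ^ (m - 2) * hc⟩

theorem refl_mem (h : IsGen D m s x y) (i : ℤ) : x ^ i * y ∈ D :=
  D.mul_mem (D.zpow_mem h.x_mem i) h.y_mem

theorem zpow_mul_y_ne (h : IsGen D m s x y) (i j : ℤ) : x ^ i * y ≠ x ^ j := fun e => by
  refine h.y_not_mem ⟨-i + j, ?_⟩
  show x ^ (-i + j) = y
  rw [zpow_add, zpow_neg, ← e, inv_mul_cancel_left]

theorem mem_cases (h : IsGen D m s x y) {g : G} (hg : g ∈ D) :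
    ∃ i : ℤ, g = x ^ i ∨ g = x ^ i * y := by
  set K := (Subgroup.zpowers x).subgroupOf D with hK
  haveI : Finite D := Nat.finite_of_card_ne_zero (by rw [h.card]; positivity)
  have hidx : K.index = 2 := by
    have := K.card_mul_index
    rw [hK, Nat.card_congr (Subgroup.subgroupOfEquivOfLe ((Subgroup.zpowers_le).2 h.x_mem)).toEquiv,
      Nat.card_zpowers, h.ox, h.card, pow_succ] at this
    exact Nat.eq_of_mul_eq_mul_left (by positivity) this
  by_cases hgx : g ∈ Subgroup.zpowers x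
  · obtain ⟨i, rfl⟩ := hgx
    exact ⟨i, Or.inl rfl⟩
  · have hmem := (Subgroup.mul_mem_iff_of_index_two hidx (a := ⟨g, hg⟩)
      (b := ⟨y⁻¹, D.inv_mem h.y_mem⟩)).2 (by
        simp only [hK, Subgroup.mem_subgroupOf]
        exact ⟨fun e => absurd e hgx, fun e => absurd e fun e' => h.y_not_mem (by simpa using e')⟩)
    obtain ⟨i, hi⟩ := hmem
    refine ⟨i, Or.inr ?_⟩
    have hi' : x ^ i = g * y⁻¹ := hi
    rw [hi', inv_mul_cancel_right]

theorem zpow_comm (x : G) (i j : ℤ) : x ^ i * x ^ j = x ^ j * x ^ i := by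
  rw [← zpow_add, ← zpow_add, add_comm]

theorem refl_conj_zpow (h : IsGen D m s x y) (i k : ℤ) :
    x ^ k * (x ^ i * y) * (x ^ k)⁻¹ = x ^ (i + k * (1 - s)) * y := by
  have e : y * (x ^ k)⁻¹ = x ^ (-k * s) * y := by rw [← zpow_neg, h.y_mul_zpow]
  rw [mul_assoc (x ^ k), mul_assoc (x ^ i), e, ← mul_assoc (x ^ i), ← mul_assoc, ← zpow_add,
    ← zpow_add]
  congr 2
  ring

/-- The elements outside are conjugate to `y` or to `x * y`. -/
theorem exists_rep (h : IsGen D m s x y) (i : ℤ) : ∃ k : ℤ,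
    x ^ k * (x ^ i * y) * (x ^ k)⁻¹ = y ∨ x ^ k * (x ^ i * y) * (x ^ k)⁻¹ = x * y := by
  obtain ⟨u, u', hu, c, hc⟩ := h.exists_inverse
  obtain ⟨q, rfl | rfl⟩ := Int.even_or_odd' i
  · refine ⟨-q * u', Or.inl ?_⟩
    rw [h.refl_conj_zpow, mul_eq_right, h.zpow_eq_one_iff]
    exact ⟨-q * c, by rw [hu, h.two_pow_eq.1]; rw [h.two_pow_eq.2] at hc; linear_combination (-2 * q) * hc⟩
  · refine ⟨-q * u', Or.inr ?_⟩
    rw [h.refl_conj_zpow]
    conv_rhs => rw [← zpow_one x]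
    rw [mul_left_inj, h.zpow_eq_iff]
    exact ⟨-q * c, by rw [hu, h.two_pow_eq.1]; rw [h.two_pow_eq.2] at hc; linear_combination (-2 * q) * hc⟩

/-- Conjugation by the element of order four in `zpowers x` multiplies by the involution. -/
theorem i_conj_refl (h : IsGen D m s x y) (j : ℤ) :
    x ^ 2 ^ (m - 2) * (x ^ j * y) * (x ^ 2 ^ (m - 2))⁻¹ = x ^ 2 ^ (m - 1) * (x ^ j * y) := by
  rw [h.i_zpow, h.refl_conj_zpow, h.z_zpow, ← mul_assoc, ← zpow_add, mul_left_inj, h.zpow_eq_iff]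
  obtain ⟨c, hc⟩ := h.s_mod_four
  exact ⟨-c, by rw [h.two_pow_eq.1, h.two_pow_eq.2]; linear_combination (-(2 : ℤ) ^ (m - 2)) * hc⟩

/-- The square of an element outside. -/
theorem sq_refl (h : IsGen D m s x y) (i : ℤ) :
    x ^ i * y * (x ^ i * y) = 1 ∨ x ^ i * y * (x ^ i * y) = x ^ 2 ^ (m - 1) := by
  have e : x ^ i * y * (x ^ i * y) = x ^ (i * (1 + s)) * (y * y) := by
    rw [mul_assoc, ← mul_assoc y, h.y_mul_zpow, mul_assoc, ← mul_assoc, ← zpow_add,
      show i + i * s = i * (1 + s) by ring]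
  rw [e, h.z_zpow]
  rcases h.kind with ⟨hs, hy⟩ | ⟨-, hs, hy⟩
  · right
    rw [hy, hs, show i * (1 + -1) = (0 : ℤ) by ring, zpow_zero, one_mul]
  · rw [hy, mul_one, hs, show i * (1 + ((2 : ℤ) ^ (m - 1) - 1)) = i * 2 ^ (m - 1) by ring,
      h.zpow_eq_one_iff, h.zpow_eq_iff, h.two_pow_eq.1, h.two_pow_eq.2]
    obtain ⟨q, rfl | rfl⟩ := Int.even_or_odd' i
    · exact Or.inl ⟨q, by ring⟩
    · exact Or.inr ⟨q, by ring⟩

/-- In a quaternion group the elements outside have order four. -/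
theorem sq_refl_quat (h : IsGen D m s x y) (hs : s = -1) (i : ℤ) :
    x ^ i * y * (x ^ i * y) = x ^ 2 ^ (m - 1) := by
  rw [mul_assoc, ← mul_assoc y, h.y_mul_zpow, mul_assoc, ← mul_assoc, ← zpow_add, hs,
    show i + i * (-1) = (0 : ℤ) by ring, zpow_zero, one_mul, h.z_zpow]
  rcases h.kind with ⟨-, hy⟩ | ⟨hm, hs', -⟩
  · exact hy
  · exfalso
    have : (0 : ℤ) < 2 ^ (m - 1) := by positivity
    omega

theorem zpow_comm_refl (h : IsGen D m s x y) {i j : ℤ}
    (hc : x ^ j * (x ^ i * y) = x ^ i * y * x ^ j) : (2 : ℤ) ^ (m - 1) ∣ j := by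
  have e : x ^ j * (x ^ i * y) * (x ^ j)⁻¹ = x ^ i * y := by rw [hc, mul_inv_cancel_right]
  rw [h.refl_conj_zpow, mul_left_inj, h.zpow_eq_iff, h.two_pow_eq.1] at e
  obtain ⟨u, u', hu, c, hc'⟩ := h.exists_inverse
  obtain ⟨d, hd⟩ := e
  rw [hu] at hd
  rw [h.two_pow_eq.2] at hc' ⊢
  have hd' : j * u = 2 * 2 ^ (m - 2) * d := by linarith
  exact ⟨d * u' - j * c, by linear_combination u' * hd' - j * hc'⟩

/-- The centralizer of an element outside has four elements. -/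
theorem card_centralizer_refl [Finite G] (h : IsGen D m s x y) (i : ℤ) :
    Nat.card (D ⊓ Subgroup.centralizer ({x ^ i * y} : Set G) : Subgroup G) = 4 := by
  classical
  haveI := Fintype.ofFinite G
  set c := x ^ i * y with hcdef
  set z := x ^ 2 ^ (m - 1) with hz
  have hcz : c * z = z * c := by
    rw [hcdef, mul_assoc, hz, h.z_comm, ← mul_assoc, ← mul_assoc, h.z_zpow, zpow_comm]
  have hzne : z ≠ 1 := fun e => by
    have := h.orderOf_z
    rw [← hz, e, orderOf_one] at this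
    omega
  have hset : ((D ⊓ Subgroup.centralizer ({c} : Set G) : Subgroup G) : Set G) =
      (({1, z, c, z * c} : Finset G) : Set G) := by
    ext q
    simp only [SetLike.mem_coe, Subgroup.mem_inf, Subgroup.mem_centralizer_singleton_iff,
      Finset.coe_insert, Finset.coe_singleton, Set.mem_insert_iff, Set.mem_singleton_iff]
    constructor
    · rintro ⟨hq, hqc⟩
      have key : ∀ j : ℤ, (2 : ℤ) ^ (m - 1) ∣ j → x ^ j = 1 ∨ x ^ j = z := by
        rintro j ⟨d, rfl⟩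
        rw [hz, h.z_zpow, h.zpow_eq_one_iff, h.zpow_eq_iff, h.two_pow_eq.1, h.two_pow_eq.2]
        obtain ⟨e, rfl | rfl⟩ := Int.even_or_odd' d
        · exact Or.inl ⟨e, by ring⟩
        · exact Or.inr ⟨e, by ring⟩
      obtain ⟨j, rfl | rfl⟩ := h.mem_cases hq
      · rcases key j (h.zpow_comm_refl hqc) with e | e <;> rw [e] <;> simp
      · have e : x ^ (j - i) * c = x ^ j * y := by
          rw [hcdef, ← mul_assoc, ← zpow_add, sub_add_cancel]
        have hc' : x ^ (j - i) * c = c * x ^ (j - i) := by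
          have h1 : x ^ (j - i) = x ^ j * y * c⁻¹ := by rw [← e, mul_inv_cancel_right]
          rw [h1]
          calc x ^ j * y * c⁻¹ * c = c⁻¹ * (x ^ j * y * c) := by rw [hqc]; group
            _ = c * (x ^ j * y * c⁻¹) := by
              rw [hqc, ← mul_assoc, inv_mul_cancel, one_mul]
              calc x ^ j * y = x ^ j * y * c * c⁻¹ := by rw [mul_inv_cancel_right]
                _ = _ := by rw [hqc, mul_assoc]
        rcases key _ (h.zpow_comm_refl hc') with e' | e' <;> rw [← e, e'] <;> simp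
    · rintro (rfl | rfl | rfl | rfl)
      · exact ⟨D.one_mem, by simp⟩
      · exact ⟨D.pow_mem h.x_mem _, hcz.symm⟩
      · exact ⟨h.refl_mem i, rfl⟩
      · exact ⟨D.mul_mem (D.pow_mem h.x_mem _) (h.refl_mem i), by
          rw [← mul_assoc c z c, hcz]⟩
  have hmem1 : c ≠ 1 := fun e => h.zpow_mul_y_ne i 0 (by rw [← hcdef, e, zpow_zero])
  have hmem2 : c ≠ z := fun e => h.zpow_mul_y_ne i _ (by rw [← hcdef, e, hz, h.z_zpow])
  rw [← SetLike.coe_sort_coe, Nat.card_coe_set_eq, hset, Set.ncard_coe_finset]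
  have h5 : z * c ≠ 1 := fun e => hmem2 (by
    have h2 : z * z = 1 := by rw [← pow_two, ← h.orderOf_z, pow_orderOf_eq_one]
    calc c = z * z * c := by rw [h2, one_mul]
      _ = z := by rw [mul_assoc, e, mul_one])
  have h6 : z * c ≠ z := fun e => hmem1 (mul_eq_left.1 e)
  have h7 : z * c ≠ c := fun e => hzne (mul_eq_right.1 e)
  simp [Ne.symm hzne, Ne.symm hmem1, Ne.symm hmem2, Ne.symm h5, Ne.symm h6, Ne.symm h7]

/-- The centralizer of a rotation other than `1` and the involution. -/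
theorem centralizer_rot (h : IsGen D m s x y) {j : ℤ} (hj : ¬ (2 : ℤ) ^ (m - 1) ∣ j) :
    D ⊓ Subgroup.centralizer ({x ^ j} : Set G) = Subgroup.zpowers x := by
  refine le_antisymm (fun q hq => ?_) (le_inf (Subgroup.zpowers_le.2 h.x_mem) ?_)
  · obtain ⟨hqD, hqc⟩ := Subgroup.mem_inf.1 hq
    rw [Subgroup.mem_centralizer_singleton_iff] at hqc
    obtain ⟨i, rfl | rfl⟩ := h.mem_cases hqD
    · exact ⟨i, rfl⟩
    · exact absurd (h.zpow_comm_refl hqc.symm) hj
  · rw [Subgroup.zpowers_le, Subgroup.mem_centralizer_singleton_iff]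
    exact (Commute.self_zpow x j).eq

/-- A centralizer is cyclic or has four elements, away from the centre. -/
theorem centralizer_cases [Finite G] (h : IsGen D m s x y) {c : G} (hc : c ∈ D) (h1 : c ≠ 1)
    (hz : c ≠ x ^ 2 ^ (m - 1)) :
    D ⊓ Subgroup.centralizer ({c} : Set G) = Subgroup.zpowers x ∨
      Nat.card (D ⊓ Subgroup.centralizer ({c} : Set G) : Subgroup G) = 4 := by
  obtain ⟨i, rfl | rfl⟩ := h.mem_cases hc
  · refine Or.inl (h.centralizer_rot fun ⟨d, hd⟩ => ?_)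
    obtain ⟨e, rfl | rfl⟩ := Int.even_or_odd' d
    · exact h1 (by rw [h.zpow_eq_one_iff, hd, h.two_pow_eq.1, h.two_pow_eq.2]; exact ⟨e, by ring⟩)
    · exact hz (by
        rw [h.z_zpow, h.zpow_eq_iff, hd, h.two_pow_eq.1, h.two_pow_eq.2]; exact ⟨e, by ring⟩)
  · exact Or.inr (h.card_centralizer_refl i)

end IsGen

section Fix

/-- An element of odd order fixing a 2-group `A` pointwise fixes `q` when it moves it inside
`A * q`. -/
theorem fix_extend {A : Subgroup G} (hA : IsPGroup 2 A) {w q : G}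
    (hfix : ∀ a ∈ A, w * a * w⁻¹ = a) (hodd : Odd (orderOf w))
    (hd : w * q * w⁻¹ * q⁻¹ ∈ A) : w * q * w⁻¹ = q := by
  set d := w * q * w⁻¹ * q⁻¹ with hddef
  have hit : ∀ i : ℕ, w ^ i * q * (w ^ i)⁻¹ = d ^ i * q := by
    intro i
    induction i with
    | zero => simp
    | succ i ih =>
      rw [pow_succ', show w * w ^ i * q * (w * w ^ i)⁻¹ = w * (w ^ i * q * (w ^ i)⁻¹) * w⁻¹ by
        group, ih, show w * (d ^ i * q) * w⁻¹ = (w * d ^ i * w⁻¹) * (w * q * w⁻¹) by group,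
        ← conj_pow, hfix d hd, show w * q * w⁻¹ = d * q by rw [hddef, inv_mul_cancel_right],
        ← mul_assoc, ← pow_succ]
  have hdk : d ^ orderOf w = 1 := by
    have := hit (orderOf w)
    rw [pow_orderOf_eq_one, one_mul, inv_one, mul_one] at this
    exact mul_eq_right.1 this.symm
  obtain ⟨e, he⟩ := hA ⟨d, hd⟩
  have he' : d ^ 2 ^ e = 1 := by simpa using congrArg Subtype.val he
  have hd1 : d = 1 := by
    have := pow_gcd_eq_one.2 ⟨he', hdk⟩
    rwa [Nat.Coprime.gcd_eq_one (Nat.Coprime.pow_left _ (Nat.coprime_two_left.2 hodd)), pow_one]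
      at this
  rwa [hddef, mul_inv_eq_one] at hd1

end Fix

end CfsgLib.Blocks.TwoGen
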