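import Cfsg.Agent.Blocks.TwoGen.RotVectors

/-!
# Height at most one from a value at a power of `x`

The contributions at a power of `x` other than `1` and the involution are the products of the
values, so a value `± 2` or a square of a value `± 2` bounds the height by one.
-/

set_option autoImplicit false
set_option maxHeartbeats 1000000
open scoped MonoidAlgebra ComplexConjugate

namespace CfsgLib.Blocks.TwoGen

open Cfsg CfsgLib CfsgLib.Blocks CfsgLib.Blocks.NilSection CfsgLib.Blocks.Contrib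

universe u

variable {G : Type u} [Group G] [Fintype G] {M : Ideal AlgInt} [hMmax : M.IsMaximal]
  [hp : Fact (Nat.Prime 2)] [CharP (kres M) 2] {B : Set (IrrCharacter G)} {D : Subgroup G}
  {g : (kres M)[G]} {m : ℕ} {s : ℤ} {x y : G} {μ : ℂ}
  {c : IrrCharacter G → ZMod (2 ^ m) → ℤ} {F : IrrCharacter G → ZMod (2 ^ m) → ℂ}

theorem sum_mul_conj_ne_zero {α : Type*} {t : Finset α} {l : α → ℂ} {a : α} (ha : a ∈ t)
    (h : l a ≠ 0) : ∑ i ∈ t, l i * conj (l i) ≠ 0 := by
  intro e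
  have e' : ((∑ i ∈ t, Complex.normSq (l i) : ℝ) : ℂ) = 0 := by
    push_cast
    rw [← e]
    exact Finset.sum_congr rfl fun i _ => (Complex.mul_conj _).symm
  have h0 := (Finset.sum_eq_zero_iff_of_nonneg fun i _ => Complex.normSq_nonneg _).1
    (by exact_mod_cast e') a ha
  exact h (Complex.normSq_eq_zero.1 h0)

theorem RotData.loc_conj (hr : RotData B D g m s x μ c F) {χ : IrrCharacter G} (hχ : χ ∈ B)
    (a : ZMod (2 ^ m)) : conj (F χ a) = F χ (-a) := by
  have hS : χ ∈ B.toFinite.toFinset := (Set.Finite.mem_toFinset _).2 hχ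
  rw [hr.cols.expand χ hS, hr.cols.expand χ hS, map_sum]
  exact Finset.sum_congr rfl fun j _ => by rw [map_mul, map_intCast, hr.cols.hconj, mul_neg]

/-- **The bound.** -/
theorem RotData.height_le_one (hr : RotData B D g m s x μ c F) (hM : IsPModular 2 M)
    (hB : IsPBlock M B) (hD : IsDefectGroup 2 M B D) (hmax : IsMaxPairIdem 2 ⊤ (topEl M B) D g)
    (h : IsGen D m s x y) {χ : IrrCharacter G} (hχ : χ ∈ B) {a : ZMod (2 ^ m)} (ha : a ≠ 0)
    (ha' : a ≠ half m)
    (hval : F χ a = 2 ∨ F χ a = -2 ∨ F χ a * F χ a = 2 ∨ F χ a * F χ a = -2) :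
    blockHeight 2 B (χ : G → ℂ) ≤ 1 := by
  classical
  set v := xp x a with hv
  have hvD : v ∈ D := xp_mem h a
  haveI := Fintype.ofFinite (cz v)
  obtain ⟨b', hb', hbe⟩ := exists_sect hM hB hmax hvD
  obtain ⟨l, hl, s0, hs0, hl0⟩ := hr.rankOne a ha ha'
  have hsect : ∀ (φ : IrrCharacter G), ∀ t ∈ regSet 2 (cz v),
      sectPart b' v φ t = F φ a * l t := fun φ t ht => by
    rw [← lval_sect hM hmax hvD hb'.1 hbe φ (mem_regSet.1 ht)]
    exact hl φ t (mem_regSet.1 ht)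
  set d := blockDefect 2 b'
  set Λ := ∑ t ∈ regSet 2 (cz v), l t * conj (l t) with hΛ
  set κ := ((2 : ℕ) : ℂ) ^ d / (Nat.card (cz v) : ℂ) * Λ with hκ
  have hcon : ∀ φ φ' : IrrCharacter G, contrib 2 b' v φ φ' = κ * (F φ a * conj (F φ' a)) := by
    intro φ φ'
    rw [contrib, hκ, hΛ, mul_assoc, Finset.sum_mul]
    congr 1
    refine Finset.sum_congr rfl fun t ht => ?_
    rw [hsect φ t ht, hsect φ' t ht, map_mul]
    ring
  have hconjκ : conj κ = κ := by
    rw [hκ, map_mul, map_div₀, map_pow, map_natCast, map_natCast, hΛ, map_sum]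
    congr 1
    exact Finset.sum_congr rfl fun t _ => by rw [map_mul, Complex.conj_conj]; ring
  have hκ0 : κ ≠ 0 := mul_ne_zero (div_ne_zero (pow_ne_zero _ (by norm_num))
    (Nat.cast_ne_zero.2 Nat.card_pos.ne')) (sum_mul_conj_ne_zero (mem_regSet.2 hs0) hl0)
  obtain ⟨χ₀, hχ₀, h00⟩ := HeightZero.exists_height_zero (p := 2) hB
  have hp0 : ¬ MemLocalIdeal M (F χ₀ a) := hr.unit χ₀ hχ₀ h00 a
  have hne0 : F χ₀ a ≠ 0 := fun e => hp0 (e ▸ memLocalIdeal_zero)
  have hfix : a ≠ (s : ZMod (2 ^ m)) * a := fun e => (hr.fixed a e.symm).elim ha ha'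
  have hκL : κ * ((2 ^ m : ℕ) : ℂ) = ((2 : ℕ) : ℂ) ^ d := by
    have h1 := sum_contrib_mul_conj hM (cz_eq_centralizer v) (exists_orderOf_of_mem hmax hvD) hb' χ₀
    have horth := hr.cols.orth a a ha ha' ha ha'
    rw [if_pos rfl, if_neg hfix, add_zero, mul_one] at horth
    simp only [hcon, map_mul, hconjκ, Complex.conj_conj] at h1
    rw [Finset.sum_congr rfl (g := fun φ => κ * κ * (F χ₀ a * conj (F χ₀ a)) *
        (F φ a * conj (F φ a))) (fun φ _ => by ring), ← Finset.mul_sum, horth] at h1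
    refine mul_right_cancel₀ (mul_ne_zero hκ0 (mul_ne_zero hne0
      ((map_ne_zero (starRingEnd ℂ)).2 hne0))) ?_
    linear_combination h1
  obtain ⟨zc, hzc, hzv⟩ := exists_omega_contrib hM (cz_eq_centralizer v)
    (exists_orderOf_of_mem hmax hvD) hb'.1 χ₀
  have hdef : ((2 : ℕ) : ℂ) ^ blockDefect 2 B = 2 * ((2 ^ m : ℕ) : ℂ) := by
    have e := natCard_defectGroup hM hB hD
    rw [h.card] at e
    rw [← Nat.cast_pow, ← e, pow_succ]
    push_cast
    ring
  have hprod : ∀ φ ∈ B, ∃ w : ℂ, MemLocalRing M w ∧ ¬ MemLocalIdeal M w ∧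
      2 * (F χ₀ a * conj (F φ a)) =
        (2 : ℂ) ^ blockHeight 2 B (φ : G → ℂ) * (w * omega (φ : G → ℂ) zc) := by
    intro φ hφ
    obtain ⟨w, hw, hwu, hwe⟩ := exists_unit_scale (p := 2) hM hφ
    refine ⟨w, hw, hwu, ?_⟩
    have e1 := hzv φ
    rw [hcon] at e1
    have hd2 : ((2 : ℕ) : ℂ) ^ d ≠ 0 := pow_ne_zero _ (by norm_num)
    refine mul_left_cancel₀ hd2 ?_
    have hG : (Nat.card G : ℂ) ≠ 0 := Chars.natCard_ne_zero
    have hwe' : ((2 : ℕ) : ℂ) ^ blockDefect 2 B * (φ : G → ℂ) 1 =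
        ((2 : ℕ) : ℂ) ^ blockHeight 2 B (φ : G → ℂ) * w * (Nat.card G : ℂ) := by
      field_simp at hwe
      linear_combination hwe
    rw [hdef] at hwe'
    field_simp at e1
    have e2 : (2 : ℂ) = ((2 : ℕ) : ℂ) := by norm_num
    apply mul_left_cancel₀ hG
    push_cast at e1 hwe' hκL ⊢
    linear_combination 2 * (2 ^ m : ℂ) * e1 - 2 * (Nat.card G : ℂ) * (F χ₀ a * conj (F φ a)) * hκL +
      (2 : ℂ) ^ d * omega (φ : G → ℂ) zc * hwe'
  have htwo : MemLocalIdeal M (2 : ℂ) := by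
    simpa using (DihedralBlk.memLocalIdeal_intCast_iff hM 2).2 dvd_rfl
  have hconjloc : ∀ φ ∈ B, MemLocalRing M (conj (F φ a)) := fun φ hφ => by
    rw [hr.loc_conj hφ]; exact hr.loc φ (-a)
  have hω : MemLocalIdeal M (omega (χ : G → ℂ) zc) := by
    refine (congr_omega_of_sameBlock hzc (sameBlock_of_mem hB hχ hχ₀)).mem_iff.2 ?_
    by_contra hI
    obtain ⟨w, hw, hwu, hwe⟩ := hprod χ₀ hχ₀
    rw [h00, pow_zero, one_mul] at hwe
    exact not_memLocalIdeal_mul hw (memLocalRing_omega hzc χ₀) hwu hI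
      (hwe ▸ memLocalIdeal_mul_right htwo ((localRing M).mul_mem (hr.loc χ₀ a) (hconjloc χ₀ hχ₀)))
  by_contra hh
  obtain ⟨j, hj⟩ : ∃ j, blockHeight 2 B (χ : G → ℂ) = j + 2 :=
    ⟨blockHeight 2 B (χ : G → ℂ) - 2, by omega⟩
  obtain ⟨w, hw, -, hwe⟩ := hprod χ hχ
  set q := (2 : ℂ) ^ j * (w * omega (χ : G → ℂ) zc) with hq
  have hqI : MemLocalIdeal M q :=
    memLocalIdeal_mul_left ((localRing M).pow_mem (natCast_mem (localRing M) 2) j)
      (memLocalIdeal_mul_left hw hω)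
  have hqR : MemLocalRing M q :=
    (localRing M).mul_mem ((localRing M).pow_mem (natCast_mem (localRing M) 2) j)
      ((localRing M).mul_mem hw (memLocalRing_omega hzc χ))
  have heq : F χ₀ a * conj (F χ a) = 2 * q := by
    rw [hj] at hwe
    rw [hq]
    linear_combination hwe / 2
  rcases hval with e | e | e | e
  · rw [e, map_ofNat] at heq
    exact hp0 ((mul_left_cancel₀ (two_ne_zero (α := ℂ)) (show 2 * F χ₀ a = 2 * q by
      linear_combination heq)) ▸ hqI)
  · rw [e, map_neg, map_ofNat] at heq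
    have e' : F χ₀ a = (-1) * q := by linear_combination (-1 / 2 : ℂ) * heq
    exact hp0 (e' ▸ memLocalIdeal_mul_left ((localRing M).neg_mem (localRing M).one_mem) hqI)
  all_goals
    have e2 := congrArg (starRingEnd ℂ) e
    simp only [map_mul, map_neg, map_ofNat] at e2
    refine not_memLocalIdeal_mul (hr.loc χ₀ a) (hr.loc χ₀ a) hp0 hp0 ?_
  · rw [show F χ₀ a * F χ₀ a = 2 * (q * q) by
      linear_combination (1 / 2 : ℂ) * (F χ₀ a * conj (F χ a) + 2 * q) * heq -
        (1 / 2 : ℂ) * (F χ₀ a * F χ₀ a) * e2]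
    exact memLocalIdeal_mul_right htwo ((localRing M).mul_mem hqR hqR)
  · rw [show F χ₀ a * F χ₀ a = 2 * (-(q * q)) by
      linear_combination (-1 / 2 : ℂ) * (F χ₀ a * conj (F χ a) + 2 * q) * heq +
        (1 / 2 : ℂ) * (F χ₀ a * F χ₀ a) * e2]
    exact memLocalIdeal_mul_right htwo ((localRing M).neg_mem ((localRing M).mul_mem hqR hqR))

/-- The height at the further points of the configuration. -/
theorem RotData.height_le_one_w (hr : RotData B D g m s x μ c F) (hM : IsPModular 2 M)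
    (hB : IsPBlock M B) (hD : IsDefectGroup 2 M B D) (hmax : IsMaxPairIdem 2 ⊤ (topEl M B) D g)
    (h : IsGen D m s x y) {β : ℤ} (hβ : IsShift m s β) {χ : IrrCharacter G} (hχ : χ ∈ B)
    {k : Fin (nv m)} {η : ℤ} (hη : η = 1 ∨ η = -1) (hX : Xv c χ = 0)
    (hv : ∀ l, vv c l χ = if l = k then η else 0) (hu : ∀ l, uv β c l χ = 0) :
    blockHeight 2 B (χ : G → ℂ) ≤ 1 := by
  obtain ⟨j, q, hq, hn⟩ := Nat.exists_eq_two_pow_mul_odd (Nat.succ_ne_zero (k : ℕ))
  have hk : (k : ℕ) + 1 < 2 ^ (m - 2) := by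
    have hlt : (k : ℕ) < 2 ^ (m - 2) - 1 := k.isLt
    omega
  have hjm : j < m - 2 := by
    refine (Nat.pow_lt_pow_iff_right one_lt_two).1 (lt_of_le_of_lt ?_ hk)
    calc 2 ^ j ≤ 2 ^ j * q := Nat.le_mul_of_pos_right _ hq.pos
      _ = (k : ℕ) + 1 := hn.symm
  set e := m - 2 - j with he
  set a : ZMod (2 ^ m) := (((2 : ℤ) ^ e : ℤ) : ZMod (2 ^ m)) with ha
  have hQ : (2 : ℤ) ^ (m - 2) = 2 ^ j * 2 ^ e := by rw [← pow_add]; congr 1; omega
  have hpos : (0 : ℤ) < 2 ^ e := by positivity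
  have hpj : (1 : ℤ) ≤ 2 ^ j := one_le_pow₀ (by norm_num)
  have ha0 : a ≠ 0 := fun r => by
    rw [ha, ← Int.cast_zero] at r
    have := cast_eq_cast h r (by rw [hQ]; nlinarith) (by rw [hQ]; nlinarith)
    linarith
  have ha1 : a ≠ half m := fun r => by
    rw [ha, half_eq h] at r
    have := cast_eq_cast h r (by rw [hQ]; nlinarith) (by rw [hQ]; nlinarith)
    rw [hQ] at this
    nlinarith
  have hnk : ((k : ℕ) : ℤ) + 1 = 2 ^ j * (q : ℤ) := by exact_mod_cast hn
  obtain ⟨q', rfl⟩ := hq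
  have hprod : evRep m k * a = half m := by
    rw [evRep, ha, half_eq h, ← Int.cast_mul, ZMod.intCast_eq_intCast_iff_dvd_sub]
    push_cast
    rw [h.two_pow_eq.1]
    push_cast at hnk
    exact ⟨-(q' : ℤ), by linear_combination (-(2 * (2 : ℤ) ^ e)) * hnk + (4 * (q' : ℤ) + 2) * hQ⟩
  have hval := hr.value_w h hβ hχ hX hv hu ha0 ha1
  rw [mul_assoc (s : ZMod (2 ^ m)), hprod, s_half h, hr.cols.heH] at hval
  refine hr.height_le_one hM hB hD hmax h hχ ha0 ha1 ?_
  rcases hη with rfl | rfl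
  · exact Or.inl (by rw [hval]; norm_num)
  · exact Or.inr (Or.inl (by rw [hval]; norm_num))

theorem RotData.height_le_one_t (hr : RotData B D g m s x μ c F) (hM : IsPModular 2 M)
    (hB : IsPBlock M B) (hD : IsDefectGroup 2 M B D) (hmax : IsMaxPairIdem 2 ⊤ (topEl M B) D g)
    (h : IsGen D m s x y) (hm : 3 ≤ m) {β : ℤ} (hβ : IsShift m s β) {χ : IrrCharacter G}
    (hχ : χ ∈ B) {i : Fin (nv m + 1)} {ε : ℤ} (hε : ε = 1 ∨ ε = -1) (hX : Xv c χ = 0)
    (hv : ∀ l, vv c l χ = 0)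
    (hu : ∀ l : Fin (nv m), uv β c l χ =
      ε * ((if i = l.succ then 1 else 0) - if i = 0 then 1 else 0)) :
    blockHeight 2 B (χ : G → ℂ) ≤ 1 := by
  set a : ZMod (2 ^ m) := (((2 : ℤ) ^ (m - 3) : ℤ) : ZMod (2 ^ m)) with ha
  set R : ℤ := 2 ^ (m - 3) with hR
  have hQ : (2 : ℤ) ^ (m - 2) = 2 * R := by rw [hR, ← pow_succ']; congr 1; omega
  have hpos : (0 : ℤ) < R := by positivity
  have ha0 : a ≠ 0 := fun r => by
    rw [ha, ← Int.cast_zero] at r
    have := cast_eq_cast h r (by linarith) (by linarith)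
    linarith
  have ha1 : a ≠ half m := fun r => by
    rw [ha, half_eq h] at r
    have := cast_eq_cast h r (by linarith) (by linarith)
    linarith
  have hval := hr.value_t h hβ hχ hX hv hu ha0 ha1
  set e := rootFn (L := 2 ^ m) μ with he
  have hadd := hr.cols.hadd
  set o := odRep m β i
  set so := (s : ZMod (2 ^ m)) * odRep m β i with hso
  obtain ⟨b, hb⟩ := hβ.2.1
  have hx : e (o * a) * e (o * a) * (e (o * a) * e (o * a)) = -1 := by
    rw [← hadd, ← hadd, ← hr.cols.heH]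
    congr 1
    rw [show o = odRep m β i from rfl, odRep, ha, half_eq h, ← Int.cast_mul, ← Int.cast_add,
      ← Int.cast_add, ZMod.intCast_eq_intCast_iff_dvd_sub]
    push_cast
    rw [h.two_pow_eq.1, hQ, hb]
    exact ⟨-(b + (i : ℤ)), by ring⟩
  have hy : e (o * a) * e (o * a) * (e (so * a) * e (so * a)) = 1 := by
    rw [← hadd, ← hadd, ← hadd, ← hr.cols.he0]
    congr 1
    rw [hso, s_odRep hβ, show o = odRep m β i from rfl, odRep, ha, ← Int.cast_mul, ← Int.cast_mul,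
      ← Int.cast_add, ← Int.cast_add, ← Int.cast_add, ← Int.cast_zero,
      ZMod.intCast_eq_intCast_iff_dvd_sub]
    push_cast
    rw [h.two_pow_eq.1, hQ]
    rcases hβ.1 with e0 | e0
    · subst e0; exact ⟨0, by ring⟩
    · refine ⟨-(b), ?_⟩
      rw [hQ] at e0
      rw [e0] at hb ⊢
      linear_combination (-4 * R) * hb
  have hsum : e (o * a) * e (o * a) + e (so * a) * e (so * a) = 0 := by
    have hne : e (o * a) * e (o * a) ≠ 0 := fun r => by rw [r] at hy; norm_num at hy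
    refine (mul_eq_zero.1 (?_ : e (o * a) * e (o * a) *
      (e (o * a) * e (o * a) + e (so * a) * e (so * a)) = 0)).resolve_left hne
    linear_combination hx + hy
  have hz : e (o * a) * e (so * a) = 1 ∨ e (o * a) * e (so * a) = -1 :=
    mul_self_eq_one_iff.1 (by linear_combination hy)
  refine hr.height_le_one hM hB hD hmax h hχ ha0 ha1 (Or.inr (Or.inr ?_))
  have hsq : F χ a * F χ a = 2 * (e (o * a) * e (so * a)) := by
    rw [hval]
    have hε2 : ((ε : ℂ)) * (ε : ℂ) = 1 := by rcases hε with r | r <;> rw [r] <;> norm_num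
    linear_combination ((e (o * a) + e (so * a)) * (e (o * a) + e (so * a))) * hε2 + hsum
  rcases hz with r | r
  · exact Or.inl (by rw [hsq, r, mul_one])
  · exact Or.inr (by rw [hsq, r]; ring)

end CfsgLib.Blocks.TwoGen
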