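import Mathlib

/-!
# The integral vectors from the rotations

`X` of norm four, `v k` of norm three with products two with each other and with `X`, `u k` of norm
two with products one with each other, orthogonal to `X` and to the `v l`, all orthogonal to a
positive vector.  Then `X` is a sign on four points, every `v k` has one point `w k` outside them,
and, given one vector `g` of norm at most eight, odd on the four points and orthogonal to all of
them, the `u k` are differences of `N + 1` further points.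
-/

set_option autoImplicit false
set_option maxHeartbeats 1000000

namespace CfsgLib.Blocks.TwoGen

variable {ι : Type*} [DecidableEq ι] {S : Finset ι} {N : ℕ} {X deg : ι → ℤ} {v u : Fin N → ι → ℤ}

/-- The data. -/
structure Lat (S : Finset ι) (N : ℕ) (X : ι → ℤ) (v u : Fin N → ι → ℤ) (deg : ι → ℤ) : Prop where
  pos : ∀ p ∈ S, 0 < deg p
  nX : ∑ p ∈ S, X p * X p = 4
  vX : ∀ k, ∑ p ∈ S, v k p * X p = 2
  vv : ∀ k l, ∑ p ∈ S, v k p * v l p = 2 + if k = l then 1 else 0
  uu : ∀ k l, ∑ p ∈ S, u k p * u l p = 1 + if k = l then 1 else 0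
  uX : ∀ k, ∑ p ∈ S, u k p * X p = 0
  uv : ∀ k l, ∑ p ∈ S, u k p * v l p = 0
  dX : ∑ p ∈ S, X p * deg p = 0
  dv : ∀ k, ∑ p ∈ S, v k p * deg p = 0
  du : ∀ k, ∑ p ∈ S, u k p * deg p = 0

/-- The shape of `v k`: a pair among the points of `X` and the point `w k`. -/
structure VShape (S : Finset ι) (X v : ι → ℤ) (a b w : ι) : Prop where
  ha : a ∈ S
  hb : b ∈ S
  hw : w ∈ S
  hab : a ≠ b
  Xa : X a ≠ 0
  Xb : X b ≠ 0
  Xw : X w = 0
  va : v a = X a
  vb : v b = X b
  vw : v w = 1 ∨ v w = -1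
  supp : ∀ p ∈ S, p ≠ a → p ≠ b → p ≠ w → v p = 0

theorem VShape.sum_mul {a b w : ι} {f g : ι → ℤ} (h : VShape S X f a b w) :
    ∑ p ∈ S, f p * g p = X a * g a + X b * g b + f w * g w := by
  classical
  have haw : a ≠ w := fun e => h.Xa (e ▸ h.Xw)
  have hbw : b ≠ w := fun e => h.Xb (e ▸ h.Xw)
  rw [← Finset.sum_subset (show ({a, b, w} : Finset ι) ⊆ S from by
      simp [Finset.insert_subset_iff, h.ha, h.hb, h.hw]) fun p hp hn => by
        simp only [Finset.mem_insert, Finset.mem_singleton, not_or] at hn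
        rw [h.supp p hp hn.1 hn.2.1 hn.2.2, zero_mul],
    Finset.sum_insert (by simp [h.hab, haw]), Finset.sum_insert (by simp [hbw]),
    Finset.sum_singleton, h.va, h.vb, add_assoc]

namespace Lat

theorem X_cases (h : Lat S N X v u deg) {p : ι} (hp : p ∈ S) : X p = 1 ∨ X p = -1 ∨ X p = 0 := by
  classical
  by_contra hc
  push Not at hc
  have h2 : 4 ≤ X p * X p := by
    rcases (show X p ≤ -2 ∨ 2 ≤ X p by omega) with e | e <;> nlinarith
  have hsum := h.nX
  rw [← Finset.add_sum_erase S _ hp] at hsum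
  have h0 : ∀ q ∈ S.erase p, X q * X q = 0 := (Finset.sum_eq_zero_iff_of_nonneg
    fun q _ => mul_self_nonneg _).1 (le_antisymm (by linarith)
      (Finset.sum_nonneg fun q _ => mul_self_nonneg _))
  have hd := h.dX
  rw [← Finset.add_sum_erase S _ hp,
    Finset.sum_eq_zero fun q hq => by rw [mul_self_eq_zero.1 (h0 q hq), zero_mul],
    add_zero] at hd
  rcases mul_eq_zero.1 hd with e | e
  · omega
  · exact (h.pos p hp).ne' e

theorem X_sq (h : Lat S N X v u deg) {p : ι} (hp : p ∈ S) (h0 : X p ≠ 0) : X p * X p = 1 := by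
  rcases h.X_cases hp with e | e | e
  · rw [e]; norm_num
  · rw [e]; norm_num
  · exact absurd e h0

/-- `X` has four points. -/
theorem card_four (h : Lat S N X v u deg) : (S.filter fun p => X p ≠ 0).card = 4 := by
  have h1 := h.nX
  have e : ∑ p ∈ S.filter (fun p => X p ≠ 0), X p * X p = ∑ p ∈ S, X p * X p :=
    Finset.sum_filter_of_ne fun p _ hp => (mul_ne_zero_iff.1 hp).1
  rw [← e, Finset.sum_congr rfl (g := fun _ => (1 : ℤ)) fun p hp => h.X_sq (Finset.mem_filter.1 hp).1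
      (Finset.mem_filter.1 hp).2, Finset.sum_const, nsmul_one] at h1
  exact_mod_cast h1

theorem v_cases (h : Lat S N X v u deg) (k : Fin N) {p : ι} (hp : p ∈ S) :
    v k p = 1 ∨ v k p = -1 ∨ v k p = 0 := by
  have hle : v k p * v k p ≤ 3 := by
    have := Finset.single_le_sum (f := fun q => v k q * v k q) (fun q _ => mul_self_nonneg _) hp
    rw [h.vv k k, if_pos rfl] at this
    simpa using this
  have h1 : v k p ≤ 1 := by nlinarith
  have h2 : -1 ≤ v k p := by nlinarith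
  omega

theorem exists_vshape (h : Lat S N X v u deg) (k : Fin N) : ∃ a b w, VShape S X (v k) a b w := by
  classical
  set T := S.filter fun p => v k p ≠ 0 with hT
  have hsq : ∀ p ∈ T, v k p * v k p = 1 := fun p hp => by
    obtain ⟨hp, h0⟩ := Finset.mem_filter.1 hp
    rcases h.v_cases k hp with e | e | e
    · rw [e]; norm_num
    · rw [e]; norm_num
    · exact absurd e h0
  have hcard : T.card = 3 := by
    have h1 := h.vv k k
    have e : ∑ p ∈ T, v k p * v k p = ∑ p ∈ S, v k p * v k p :=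
      Finset.sum_filter_of_ne fun p _ hp => (mul_ne_zero_iff.1 hp).1
    rw [if_pos rfl, ← e, Finset.sum_congr rfl (g := fun _ => (1 : ℤ)) hsq, Finset.sum_const, nsmul_one] at h1
    exact_mod_cast h1
  obtain ⟨p, q, r, hpq, hpr, hqr, he⟩ := Finset.card_eq_three.1 hcard
  have hm : ∀ x ∈ ({p, q, r} : Finset ι), x ∈ S ∧ v k x ≠ 0 := fun x hx =>
    Finset.mem_filter.1 (he.symm ▸ hx : x ∈ T)
  obtain ⟨hpS, hp0⟩ := hm p (by simp)
  obtain ⟨hqS, hq0⟩ := hm q (by simp)
  obtain ⟨hrS, hr0⟩ := hm r (by simp)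
  have hsupp : ∀ x ∈ S, x ≠ p → x ≠ q → x ≠ r → v k x = 0 := fun x hx h1 h2 h3 => by
    by_contra h0
    have : x ∈ ({p, q, r} : Finset ι) := he ▸ Finset.mem_filter.2 ⟨hx, h0⟩
    simp [h1, h2, h3] at this
  have hsum : v k p * X p + v k q * X q + v k r * X r = 2 := by
    rw [← h.vX k, ← Finset.sum_subset (show ({p, q, r} : Finset ι) ⊆ S from by
        simp [Finset.insert_subset_iff, hpS, hqS, hrS]) fun x hx hn => by
          simp only [Finset.mem_insert, Finset.mem_singleton, not_or] at hn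
          rw [hsupp x hx hn.1 hn.2.1 hn.2.2, zero_mul],
      Finset.sum_insert (by simp [hpq, hpr]), Finset.sum_insert (by simp [hqr]),
      Finset.sum_singleton, add_assoc]
  have hv : ∀ {x}, x ∈ S → v k x ≠ 0 → v k x = 1 ∨ v k x = -1 := fun hx h0 => by
    rcases h.v_cases k hx with e | e | e
    · exact Or.inl e
    · exact Or.inr e
    · exact absurd e h0
  have hprod : ∀ x ∈ S, v k x ≠ 0 →
      (X x = 0 ∧ v k x * X x = 0) ∨ (X x ≠ 0 ∧ v k x = X x ∧ v k x * X x = 1) ∨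
        (X x ≠ 0 ∧ v k x * X x = -1) := by
    intro x hx h0
    rcases hv hx h0 with e | e <;> rcases h.X_cases hx with e' | e' | e' <;> rw [e, e'] <;> norm_num
  rcases hprod p hpS hp0 with ⟨x1, y1⟩ | ⟨x1, z1, y1⟩ | ⟨x1, y1⟩ <;>
    rcases hprod q hqS hq0 with ⟨x2, y2⟩ | ⟨x2, z2, y2⟩ | ⟨x2, y2⟩ <;>
      rcases hprod r hrS hr0 with ⟨x3, y3⟩ | ⟨x3, z3, y3⟩ | ⟨x3, y3⟩ <;>
        first
        | omega
        | exact ⟨q, r, p, hqS, hrS, hpS, hqr, x2, x3, x1, z2, z3, hv hpS hp0,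
            fun x hx h1 h2 h3 => hsupp x hx h3 h1 h2⟩
        | exact ⟨p, r, q, hpS, hrS, hqS, hpr, x1, x3, x2, z1, z3, hv hqS hq0,
            fun x hx h1 h2 h3 => hsupp x hx h1 h3 h2⟩
        | exact ⟨p, q, r, hpS, hqS, hrS, hpq, x1, x2, x3, z1, z2, hv hrS hr0, hsupp⟩

/-- Two of the `v` have the same pair, or the same further point. -/
theorem vshape_rel (h : Lat S N X v u deg) {k l : Fin N} (hkl : k ≠ l) {a b w a' b' w' : ι}
    (hk : VShape S X (v k) a b w) (hl : VShape S X (v l) a' b' w') :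
    (w ≠ w' ∧ (a = a' ∧ b = b' ∨ a = b' ∧ b = a')) ∨
      (w = w' ∧ v k w = v l w ∧ ¬ (a = a' ∧ b = b' ∨ a = b' ∧ b = a') ∧
        (a = a' ∨ a = b' ∨ b = a' ∨ b = b')) := by
  classical
  have hs := hk.sum_mul (g := v l)
  rw [h.vv k l, if_neg hkl, add_zero] at hs
  have hval : ∀ p ∈ S, X p ≠ 0 →
      X p * v l p = if p = a' ∨ p = b' then (1 : ℤ) else 0 := by
    intro p hp hX
    split_ifs with hm
    · rcases hm with e | e <;> subst e
      · rw [hl.va, h.X_sq hp hX]
      · rw [hl.vb, h.X_sq hp hX]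
    · push Not at hm
      rw [hl.supp p hp hm.1 hm.2 (fun e => hX (e ▸ hl.Xw)), mul_zero]
  rw [hval a hk.ha hk.Xa, hval b hk.hb hk.Xb] at hs
  by_cases hw : w = w'
  · subst hw
    refine Or.inr ⟨rfl, ?_⟩
    rcases hk.vw with e1 | e1 <;> rcases hl.vw with e2 | e2 <;> rw [e1, e2] at hs ⊢ <;>
      split_ifs at hs with h1 h2 h3 <;> (try norm_num at hs ⊢) <;>
      (first | done | (have := hk.hab; grind))
  · refine Or.inl ⟨hw, ?_⟩
    rw [hl.supp w hk.hw (fun e => hl.Xa (e ▸ hk.Xw)) (fun e => hl.Xb (e ▸ hk.Xw)) hw, mul_zero] at hs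
    split_ifs at hs with h1 h2 <;> norm_num at hs
    have := hk.hab
    grind

/-- Either the pairs coincide and the further points differ, or there is only one further point. -/
theorem v_config (h : Lat S N X v u deg) :
    (∃ (a b : ι) (w : Fin N → ι), Function.Injective w ∧ ∀ k, VShape S X (v k) a b (w k)) ∨
      2 ≤ N ∧ ∃ (a b : Fin N → ι) (w : ι), ∀ k, VShape S X (v k) (a k) (b k) w := by
  classical
  choose a b w hw using fun k => h.exists_vshape k
  by_cases hinj : Function.Injective w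
  · left
    obtain ⟨q, hq⟩ : ∃ q : ι × ι, ∀ k, VShape S X (v k) q.1 q.2 (w k) := by
      rcases Nat.eq_zero_or_pos N with rfl | hN
      · have h4 := h.card_four
        obtain ⟨p, -⟩ := Finset.card_pos.1 (show 0 < (S.filter fun p => X p ≠ 0).card by omega)
        exact ⟨(p, p), fun k => k.elim0⟩
      · refine ⟨(a ⟨0, hN⟩, b ⟨0, hN⟩), fun k => ?_⟩
        by_cases hk : k = ⟨0, hN⟩
        · exact hk ▸ hw k
        rcases h.vshape_rel hk (hw k) (hw ⟨0, hN⟩) with ⟨-, e⟩ | ⟨e, -⟩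
        · have hk' := hw k
          rcases e with ⟨e1, e2⟩ | ⟨e1, e2⟩
          · rw [← e1, ← e2]; exact hk'
          · rw [← e1, ← e2]
            exact ⟨hk'.hb, hk'.ha, hk'.hw, hk'.hab.symm, hk'.Xb, hk'.Xa, hk'.Xw, hk'.vb, hk'.va,
              hk'.vw, fun p hp h1 h2 h3 => hk'.supp p hp h2 h1 h3⟩
        · exact absurd (hinj e) hk
    exact ⟨q.1, q.2, w, hinj, hq⟩
  · right
    obtain ⟨k, l, hkl, hne⟩ : ∃ k l, w k = w l ∧ k ≠ l := by
      simpa [Function.Injective] using hinj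
    refine ⟨?_, a, b, w k, fun j => ?_⟩
    · have := Fin.val_ne_of_ne hne
      omega
    · by_cases hj : w j = w k
      · exact hj ▸ hw j
      exfalso
      have hjk : j ≠ k := fun e => hj (congrArg w e)
      have hjl : j ≠ l := fun e => hj (by rw [e, hkl])
      rcases h.vshape_rel hjk (hw j) (hw k) with ⟨-, e1⟩ | ⟨e, -⟩
      swap
      · exact hj e
      rcases h.vshape_rel hjl (hw j) (hw l) with ⟨-, e2⟩ | ⟨e, -⟩
      swap
      · exact hj (by rw [e, hkl])
      rcases h.vshape_rel hne (hw k) (hw l) with ⟨e, -⟩ | ⟨-, -, e, -⟩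
      · exact e hkl
      · apply e
        grind

theorem u_cases (h : Lat S N X v u deg) (k : Fin N) :
    ∃ p q, p ∈ S ∧ q ∈ S ∧ p ≠ q ∧ deg p = deg q ∧
      ∀ x ∈ S, u k x = (if x = p then 1 else 0) - if x = q then 1 else 0 := by
  classical
  have hn := h.uu k k
  rw [if_pos rfl] at hn
  have hle : ∀ x ∈ S, u k x = 1 ∨ u k x = -1 ∨ u k x = 0 := fun x hx => by
    have := Finset.single_le_sum (f := fun q => u k q * u k q) (fun q _ => mul_self_nonneg _) hx
    rw [hn] at this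
    norm_num at this
    have h1 : u k x ≤ 1 := by nlinarith
    have h2 : -1 ≤ u k x := by nlinarith
    omega
  set T := S.filter fun x => u k x ≠ 0 with hT
  have hsq : ∀ x ∈ T, u k x * u k x = 1 := fun x hx => by
    obtain ⟨hx, h0⟩ := Finset.mem_filter.1 hx
    rcases hle x hx with e | e | e
    · rw [e]; norm_num
    · rw [e]; norm_num
    · exact absurd e h0
  have hcard : T.card = 2 := by
    have e : ∑ x ∈ T, u k x * u k x = ∑ x ∈ S, u k x * u k x :=
      Finset.sum_filter_of_ne fun x _ hx => (mul_ne_zero_iff.1 hx).1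
    rw [← e, Finset.sum_congr rfl (g := fun _ => (1 : ℤ)) hsq, Finset.sum_const, nsmul_one] at hn
    exact_mod_cast hn
  obtain ⟨p, q, hpq, he⟩ := Finset.card_eq_two.1 hcard
  obtain ⟨hpS, hp0⟩ := Finset.mem_filter.1 (he.symm ▸ Finset.mem_insert_self p {q} : p ∈ T)
  obtain ⟨hqS, hq0⟩ := Finset.mem_filter.1 (he.symm ▸ by simp : q ∈ T)
  have hsupp : ∀ x ∈ S, x ≠ p → x ≠ q → u k x = 0 := fun x hx h1 h2 => by
    by_contra h0
    have : x ∈ ({p, q} : Finset ι) := he ▸ Finset.mem_filter.2 ⟨hx, h0⟩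
    simp [h1, h2] at this
  have hd : u k p * deg p + u k q * deg q = 0 := by
    rw [← h.du k, ← Finset.sum_subset (show ({p, q} : Finset ι) ⊆ S from by
        simp [Finset.insert_subset_iff, hpS, hqS]) fun x hx hn => by
          simp only [Finset.mem_insert, Finset.mem_singleton, not_or] at hn
          rw [hsupp x hx hn.1 hn.2, zero_mul],
      Finset.sum_pair hpq]
  have := h.pos p hpS
  have := h.pos q hqS
  obtain ⟨e1, e2⟩ | ⟨e1, e2⟩ : (u k p = 1 ∧ u k q = -1) ∨ (u k q = 1 ∧ u k p = -1) := by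
    rcases hle p hpS with e1 | e1 | e1 <;> rcases hle q hqS with e2 | e2 | e2 <;>
      rw [e1, e2] at hd <;> omega
  · rw [e1, e2] at hd
    refine ⟨p, q, hpS, hqS, hpq, by omega, fun x hx => ?_⟩
    by_cases h1 : x = p
    · rw [h1]; simp [e1, hpq]
    · by_cases h2 : x = q
      · rw [h2]; simp [e2, hpq.symm]
      · simp [h1, h2, hsupp x hx h1 h2]
  · rw [e1, e2] at hd
    refine ⟨q, p, hqS, hpS, hpq.symm, by omega, fun x hx => ?_⟩
    by_cases h1 : x = p
    · rw [h1]; simp [e2, hpq]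
    · by_cases h2 : x = q
      · rw [h2]; simp [e1, hpq.symm]
      · simp [h1, h2, hsupp x hx h1 h2]

/-- The `u` form a star. -/
theorem exists_star (h : Lat S N X v u deg) (hN : 1 ≤ N) :
    ∃ (t : Fin (N + 1) → ι) (ε : ℤ), (ε = 1 ∨ ε = -1) ∧ Function.Injective t ∧ (∀ i, t i ∈ S) ∧
      (∀ i, deg (t i) = deg (t 0)) ∧ ∀ k : Fin N, ∀ x ∈ S,
        u k x = ε * ((if x = t k.succ then 1 else 0) - if x = t 0 then 1 else 0) := by
  classical
  choose p q hp hq hpq hd hu using fun k => h.u_cases k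
  have hrel : ∀ k l, k ≠ l → (p k = p l ∧ q k ≠ q l) ∨ (p k ≠ p l ∧ q k = q l) := by
    intro k l hkl
    have hs := h.uu k l
    rw [if_neg hkl, add_zero, Finset.sum_congr rfl fun x hx => by rw [hu k x hx],
      Finset.sum_congr rfl (g := fun x => (if x = p k then u l x else 0) -
        if x = q k then u l x else 0) fun x _ => by rw [sub_mul, ite_mul, ite_mul, one_mul, zero_mul],
      Finset.sum_sub_distrib, Finset.sum_ite_eq', Finset.sum_ite_eq', if_pos (hp k), if_pos (hq k),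
      hu l _ (hp k), hu l _ (hq k)] at hs
    have := hpq k
    have := hpq l
    split_ifs at hs <;> grind
  set k0 : Fin N := ⟨0, hN⟩
  suffices H : ∃ (c : ι) (o : Fin N → ι) (ε : ℤ), (ε = 1 ∨ ε = -1) ∧ Function.Injective o ∧
      c ∈ S ∧ (∀ k, o k ∈ S ∧ o k ≠ c ∧ deg (o k) = deg c) ∧
      ∀ k, ∀ x ∈ S, u k x = ε * ((if x = o k then 1 else 0) - if x = c then 1 else 0) by
    obtain ⟨c, o, ε, hε, hinj, hc, ho, he⟩ := H
    refine ⟨Fin.cons c o, ε, hε, Fin.cons_injective_iff.2 ⟨?_, hinj⟩, fun i => ?_, fun i => ?_,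
      fun k x hx => by simpa using he k x hx⟩
    · rintro ⟨k, hk⟩
      exact (ho k).2.1 hk
    · induction i using Fin.cases with
      | zero => simpa using hc
      | succ k => simpa using (ho k).1
    · induction i using Fin.cases with
      | zero => simp
      | succ k => simpa using (ho k).2.2
  by_cases hall : ∀ k, p k = p k0
  · refine ⟨p k0, q, -1, Or.inr rfl, fun k l e => ?_, hp k0,
      fun k => ⟨hq k, by rw [← hall k]; exact (hpq k).symm, by rw [← hall k, hd k]⟩,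
      fun k x hx => by rw [hu k x hx, hall k]; ring⟩
    by_contra hne
    rcases hrel k l hne with ⟨-, e'⟩ | ⟨e', -⟩
    · exact e' e
    · exact e' ((hall k).trans (hall l).symm)
  · push Not at hall
    obtain ⟨j, hj⟩ := hall
    have hj0 : j ≠ k0 := fun e => hj (by rw [e])
    have hqj : q j = q k0 := ((hrel j k0 hj0).resolve_left fun e => hj e.1).2
    have hallq : ∀ k, q k = q k0 := fun k => by
      by_cases hk : k = k0
      · rw [hk]
      rcases hrel k k0 hk with ⟨e1, e2⟩ | ⟨-, e2⟩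
      swap
      · exact e2
      exfalso
      by_cases hkj : k = j
      · exact hj (hkj ▸ e1)
      rcases hrel k j hkj with ⟨e3, -⟩ | ⟨-, e4⟩
      · exact hj (e3.symm.trans e1)
      · exact e2 (e4.trans hqj)
    refine ⟨q k0, p, 1, Or.inl rfl, fun k l e => ?_, hq k0,
      fun k => ⟨hp k, by rw [← hallq k]; exact hpq k, by rw [← hallq k, hd k]⟩,
      fun k x hx => by rw [hu k x hx, hallq k, one_mul]⟩
    by_contra hne
    rcases hrel k l hne with ⟨-, e'⟩ | ⟨e', -⟩
    · exact e' ((hallq k).trans (hallq l).symm)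
    · exact e' e

end Lat

/-- The points of the `v` and of the `u` are `2 * N + 1` points outside those of `X`. -/
structure Config (S : Finset ι) (X : ι → ℤ) {N : ℕ} (v u : Fin N → ι → ℤ) (w : Fin N → ι)
    (t : Fin (N + 1) → ι) (η : Fin N → ℤ) (ε : ℤ) : Prop where
  w_mem : ∀ k, w k ∈ S
  t_mem : ∀ i, t i ∈ S
  w_inj : Function.Injective w
  t_inj : Function.Injective t
  ne : ∀ k i, w k ≠ t i
  Xw : ∀ k, X (w k) = 0
  Xt : ∀ i, X (t i) = 0
  hη : ∀ k, η k = 1 ∨ η k = -1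
  hε : ε = 1 ∨ ε = -1
  v_w : ∀ k l, v k (w l) = if k = l then η k else 0
  v_t : ∀ k i, v k (t i) = 0
  u_w : ∀ k l, u k (w l) = 0
  u_t : ∀ k i, u k (t i) = ε * ((if i = k.succ then 1 else 0) - if i = 0 then 1 else 0)

theorem VShape.symm {a b w : ι} {f : ι → ℤ} (h : VShape S X f a b w) : VShape S X f b a w :=
  ⟨h.hb, h.ha, h.hw, h.hab.symm, h.Xb, h.Xa, h.Xw, h.vb, h.va, h.vw,
    fun p hp h1 h2 h3 => h.supp p hp h2 h1 h3⟩

namespace Lat

/-- The other two points of `X`. -/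
theorem exists_cd (h : Lat S N X v u deg) {a b : ι} (ha : a ∈ S) (hb : b ∈ S) (hab : a ≠ b)
    (Xa : X a ≠ 0) (Xb : X b ≠ 0) :
    ∃ c d, c ∈ S ∧ d ∈ S ∧ X c ≠ 0 ∧ X d ≠ 0 ∧ c ≠ d ∧ a ≠ c ∧ a ≠ d ∧ b ≠ c ∧ b ≠ d ∧
      (∀ p ∈ S, X p ≠ 0 → p = a ∨ p = b ∨ p = c ∨ p = d) ∧
      ∀ f : ι → ℤ, ∑ p ∈ S, f p * X p = f a * X a + f b * X b + f c * X c + f d * X d := by
  set T := S.filter fun p => X p ≠ 0 with hT
  have hcard : (T \ {a, b}).card = 2 := by
    rw [Finset.card_sdiff_of_subset (by simp [Finset.insert_subset_iff, hT, ha, hb, Xa, Xb]),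
      h.card_four, Finset.card_pair hab]
  obtain ⟨c, d, hcd, he⟩ := Finset.card_eq_two.1 hcard
  have hc : c ∈ T \ ({a, b} : Finset ι) := by rw [he]; simp
  have hd : d ∈ T \ ({a, b} : Finset ι) := by rw [he]; simp
  simp only [hT, Finset.mem_sdiff, Finset.mem_filter, Finset.mem_insert, Finset.mem_singleton,
    not_or] at hc hd
  have hall : ∀ p ∈ S, X p ≠ 0 → p = a ∨ p = b ∨ p = c ∨ p = d := fun p hp h0 => by
    by_contra hn
    push Not at hn
    have : p ∈ T \ ({a, b} : Finset ι) := by simp [hT, hp, h0, hn.1, hn.2.1]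
    rw [he] at this
    simp [hn.2.2.1, hn.2.2.2] at this
  refine ⟨c, d, hc.1.1, hd.1.1, hc.1.2, hd.1.2, hcd, Ne.symm hc.2.1, Ne.symm hd.2.1,
    Ne.symm hc.2.2, Ne.symm hd.2.2, hall, fun f => ?_⟩
  rw [← Finset.sum_subset (show ({a, b, c, d} : Finset ι) ⊆ S from by
      simp [Finset.insert_subset_iff, ha, hb, hc.1.1, hd.1.1]) fun p hp hn => by
        simp only [Finset.mem_insert, Finset.mem_singleton, not_or] at hn
        by_contra h0
        rcases hall p hp (right_ne_zero_of_mul h0) with e | e | e | e <;> simp [e] at hn,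
    Finset.sum_insert (by simp [hab, Ne.symm hc.2.1, Ne.symm hd.2.1]),
    Finset.sum_insert (by simp [Ne.symm hc.2.2, Ne.symm hd.2.2]),
    Finset.sum_pair hcd]
  ring

/-- Five values. -/
theorem sum_five_le {g : ι → ℤ} {n : ℤ} (hn : ∑ p ∈ S, g p * g p ≤ n) {a b c d w : ι} (ha : a ∈ S)
    (hb : b ∈ S) (hc : c ∈ S) (hd : d ∈ S) (hw : w ∈ S) (hab : a ≠ b) (hac : a ≠ c) (had : a ≠ d)
    (haw : a ≠ w) (hbc : b ≠ c) (hbd : b ≠ d) (hbw : b ≠ w) (hcd : c ≠ d) (hcw : c ≠ w)
    (hdw : d ≠ w) :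
    g a * g a + g b * g b + g c * g c + g d * g d + g w * g w ≤ n ∧
      (g a * g a + g b * g b + g c * g c + g d * g d + g w * g w = n →
        ∀ f : ι → ℤ, ∑ p ∈ S, g p * f p = g a * f a + g b * f b + g c * f c + g d * f d + g w * f w) := by
  have hsub : ({a, b, c, d, w} : Finset ι) ⊆ S := by
    simp [Finset.insert_subset_iff, ha, hb, hc, hd, hw]
  have hexp : ∀ F : ι → ℤ, ∑ p ∈ ({a, b, c, d, w} : Finset ι), F p = F a + F b + F c + F d + F w := by
    intro F
    rw [Finset.sum_insert (by simp [hab, hac, had, haw]), Finset.sum_insert (by simp [hbc, hbd, hbw]),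
      Finset.sum_insert (by simp [hcd, hcw]), Finset.sum_pair hdw]
    ring
  have hsplit := Finset.sum_sdiff (f := fun p => g p * g p) hsub
  rw [hexp] at hsplit
  have h0 : 0 ≤ ∑ p ∈ S \ {a, b, c, d, w}, g p * g p :=
    Finset.sum_nonneg fun p _ => mul_self_nonneg _
  refine ⟨by linarith, fun e f => ?_⟩
  have hz := (Finset.sum_eq_zero_iff_of_nonneg fun p _ => mul_self_nonneg (g p)).1
    (le_antisymm (by linarith) h0)
  rw [← Finset.sum_subset hsub fun p hp hn => by
    rw [mul_self_eq_zero.1 (hz p (Finset.mem_sdiff.2 ⟨hp, hn⟩)), zero_mul], hexp]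

theorem odd_sq {a : ℤ} (h : Odd a) : 1 ≤ a * a := by
  obtain ⟨q, rfl⟩ := h
  rcases le_or_gt 0 q with e | e <;> nlinarith

theorem odd_cases {a : ℤ} (h : Odd a) (h' : a * a ≤ 3) : a = 1 ∨ a = -1 := by
  obtain ⟨q, rfl⟩ := h
  have : 2 * q + 1 ≤ 1 := by nlinarith
  have : -1 ≤ 2 * q + 1 := by nlinarith
  omega

/-- The common further point does not occur. -/
theorem not_common (h : Lat S N X v u deg) (hN : 3 ≤ N) {g : ι → ℤ}
    (hgX : ∑ p ∈ S, g p * X p = 0) (hgv : ∀ k, ∑ p ∈ S, v k p * g p = 0)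
    (hgn : ∑ p ∈ S, g p * g p ≤ 8) (hodd : ∀ p ∈ S, X p ≠ 0 → Odd (g p)) {a b : Fin N → ι} {w : ι}
    (hw : ∀ k, VShape S X (v k) (a k) (b k) w) : False := by
  set k : Fin N := ⟨0, by omega⟩
  set l : Fin N := ⟨1, by omega⟩
  set j : Fin N := ⟨2, by omega⟩
  have hkl : k ≠ l := Fin.ne_of_val_ne (by norm_num [k, l])
  have hkj : k ≠ j := Fin.ne_of_val_ne (by norm_num [k, j])
  have hlj : l ≠ j := Fin.ne_of_val_ne (by norm_num [l, j])
  rcases h.vshape_rel hkl (hw k) (hw l) with ⟨e, -⟩ | ⟨-, hη, hne, hshare⟩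
  · exact e rfl
  obtain ⟨A, B, C, hk, hl, hBC⟩ : ∃ A B C, VShape S X (v k) A B w ∧ VShape S X (v l) A C w ∧
      B ≠ C := by
    rcases hshare with e | e | e | e
    · exact ⟨a k, b k, b l, hw k, e ▸ hw l, fun e' => hne (Or.inl ⟨e, e'⟩)⟩
    · exact ⟨a k, b k, a l, hw k, e ▸ (hw l).symm, fun e' => hne (Or.inr ⟨e, e'⟩)⟩
    · exact ⟨b k, a k, b l, (hw k).symm, e ▸ hw l, fun e' => hne (Or.inr ⟨e', e⟩)⟩
    · exact ⟨b k, a k, a l, (hw k).symm, e ▸ (hw l).symm, fun e' => hne (Or.inl ⟨e', e⟩)⟩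
  obtain ⟨C', D, hC', hD, XC', XD, hCD', hAC', hAD, hBC', hBD, hall, hsum⟩ :=
    h.exists_cd hk.ha hk.hb hk.hab hk.Xa hk.Xb
  obtain ⟨D, hD, XD, hCD, hAD, hBD, hall, hsum⟩ : ∃ D, D ∈ S ∧ X D ≠ 0 ∧ C ≠ D ∧ A ≠ D ∧ B ≠ D ∧
      (∀ p ∈ S, X p ≠ 0 → p = A ∨ p = B ∨ p = C ∨ p = D) ∧
      ∀ f : ι → ℤ, ∑ p ∈ S, f p * X p = f A * X A + f B * X B + f C * X C + f D * X D := by
    rcases hall C hl.hb hl.Xb with e | e | e | e
    · exact absurd e hl.hab.symm
    · exact absurd e.symm hBC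
    · subst e
      exact ⟨D, hD, XD, hCD', hAD, hBD, hall, hsum⟩
    · subst e
      exact ⟨C', hC', XC', hCD'.symm, hAC', hBC', fun p hp h0 => by
        rcases hall p hp h0 with r | r | r | r <;> simp [r],
        fun f => by rw [hsum]; ring⟩
  rcases h.vshape_rel hkj hk (hw j) with ⟨e, -⟩ | ⟨-, hη', hne1, hsh1⟩
  · exact e rfl
  rcases h.vshape_rel hlj hl (hw j) with ⟨e, -⟩ | ⟨-, -, hne2, hsh2⟩
  · exact e rfl
  have hj := hw j
  have hjab : (a j = A ∧ b j = D ∨ a j = D ∧ b j = A) ∨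
      (a j = B ∧ b j = C ∨ a j = C ∧ b j = B) := by
    have := hj.hab
    have := hk.hab
    have := hl.hab
    rcases hall _ hj.ha hj.Xa with e | e | e | e <;> rcases hall _ hj.hb hj.Xb with e' | e' | e' | e' <;>
      grind
  have e0 := hsum g
  have ek := hgv k
  have el := hgv l
  have ej := hgv j
  rw [hgX] at e0
  rw [hk.sum_mul] at ek
  rw [hl.sum_mul, ← hη] at el
  rw [hj.sum_mul, ← hη'] at ej
  have hle := (sum_five_le hgn hk.ha hk.hb hl.hb hD hk.hw hk.hab hl.hab hAD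
    (fun e => hk.Xa (e ▸ hk.Xw)) hBC hBD (fun e => hk.Xb (e ▸ hk.Xw)) hCD
    (fun e => hl.Xb (e ▸ hk.Xw)) (fun e => XD (e ▸ hk.Xw))).1
  have sq : ∀ p ∈ S, X p ≠ 0 → g p * g p = (g p * X p) * (g p * X p) := fun p hp h0 => by
    linear_combination (-(g p * g p)) * h.X_sq hp h0
  have o : ∀ p ∈ S, X p ≠ 0 → 1 ≤ (g p * X p) * (g p * X p) := fun p hp h0 =>
    sq p hp h0 ▸ odd_sq (hodd p hp h0)
  have oA := o A hk.ha hk.Xa
  rw [sq A hk.ha hk.Xa, sq B hk.hb hk.Xb, sq C hl.hb hl.Xb, sq D hD XD] at hle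
  have hw2 : g w * g w = (v k w * g w) * (v k w * g w) := by
    rcases hk.vw with e | e <;> rw [e] <;> ring
  rw [hw2] at hle
  obtain ⟨eB, eC, eD, eW⟩ | ⟨eA, eC, eD, eW⟩ :
      (g B * X B = g A * X A ∧ g C * X C = g A * X A ∧ g D * X D = -3 * (g A * X A) ∧
        v k w * g w = -2 * (g A * X A)) ∨
      (g A * X A = -3 * (g B * X B) ∧ g C * X C = g B * X B ∧ g D * X D = g B * X B ∧
        v k w * g w = 2 * (g B * X B)) := by
    simp only [mul_comm (X _) (g _)] at ek el ej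
    rcases hjab with (⟨r1, r2⟩ | ⟨r1, r2⟩) | (⟨r1, r2⟩ | ⟨r1, r2⟩) <;> rw [r1, r2] at ej <;>
      first
      | (left; refine ⟨?_, ?_, ?_, ?_⟩ <;> linarith)
      | (right; refine ⟨?_, ?_, ?_, ?_⟩ <;> linarith)
  · rw [eB, eC, eD, eW] at hle
    nlinarith [o A hk.ha hk.Xa]
  · rw [eA, eC, eD, eW] at hle
    nlinarith [o B hk.hb hk.Xb]

/-- The points of the `u` are not among those of `X`. -/
theorem Xt_eq_zero (h : Lat S N X v u deg) (hN : 1 ≤ N) {g : ι → ℤ}
    (hgX : ∑ p ∈ S, g p * X p = 0) (hgv : ∀ k, ∑ p ∈ S, v k p * g p = 0)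
    (hgu : ∀ k, ∑ p ∈ S, u k p * g p = 0) (hgd : ∑ p ∈ S, g p * deg p = 0)
    (hgn : ∑ p ∈ S, g p * g p ≤ 8) (hodd : ∀ p ∈ S, X p ≠ 0 → Odd (g p)) {a b : ι} {w : Fin N → ι}
    (hw : ∀ k, VShape S X (v k) a b (w k)) {t : Fin (N + 1) → ι} {ε : ℤ} (hε : ε = 1 ∨ ε = -1)
    (hinj : Function.Injective t) (ht : ∀ i, t i ∈ S) (hd : ∀ i, deg (t i) = deg (t 0))
    (hu : ∀ k : Fin N, ∀ x ∈ S,
      u k x = ε * ((if x = t k.succ then 1 else 0) - if x = t 0 then 1 else 0)) :
    (∀ i, X (t i) = 0) ∧ ∀ k i, v k (t i) = v k (t 0) := by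
  have hsum : ∀ (k : Fin N) (f : ι → ℤ), ∑ p ∈ S, u k p * f p = ε * (f (t k.succ) - f (t 0)) := by
    intro k f
    rw [Finset.sum_congr rfl fun p hp => by rw [hu k p hp]]
    simp only [mul_sub, sub_mul, mul_assoc, ite_mul, one_mul, zero_mul, Finset.sum_sub_distrib,
      ← Finset.mul_sum, Finset.sum_ite_eq', ht, if_true]
  have hne : ε ≠ 0 := by rcases hε with e | e <;> omega
  have hcon : ∀ f : ι → ℤ, (∀ k, ∑ p ∈ S, u k p * f p = 0) → ∀ i, f (t i) = f (t 0) := by
    intro f hf i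
    induction i using Fin.cases with
    | zero => rfl
    | succ k =>
      have := hf k
      rw [hsum] at this
      exact sub_eq_zero.1 ((mul_eq_zero.1 this).resolve_left hne)
  have hX := hcon X h.uX
  have hv := fun k => hcon (v k) fun l => h.uv l k
  have hg := hcon g hgu
  refine ⟨fun i => (hX i).trans ?_, hv⟩
  by_contra h0
  set k : Fin N := ⟨0, hN⟩ with hk
  have hs := hw k
  obtain ⟨c, d, hc, hd', Xc, Xd, hcd, hac, had, hbc, hbd, hall, hX4⟩ :=
    h.exists_cd hs.ha hs.hb hs.hab hs.Xa hs.Xb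
  have hT : ∀ i, t i = a ∨ t i = b ∨ t i = c ∨ t i = d := fun i =>
    hall _ (ht i) (by rw [hX i]; exact h0)
  have vcd : ∀ p, p = c ∨ p = d → v k p = 0 := by
    rintro p (rfl | rfl)
    · exact hs.supp _ hc hac.symm hbc.symm fun e => Xc (e ▸ hs.Xw)
    · exact hs.supp _ hd' had.symm hbd.symm fun e => Xd (e ▸ hs.Xw)
  have vab : ∀ p, p = a ∨ p = b → v k p ≠ 0 := by
    rintro p (rfl | rfl)
    · rw [hs.va]; exact hs.Xa
    · rw [hs.vb]; exact hs.Xb
  have hside : (∀ i, t i = a ∨ t i = b) ∨ (∀ i, t i = c ∨ t i = d) := by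
    by_cases h01 : t 0 = a ∨ t 0 = b
    · refine Or.inl fun i => ?_
      by_contra hn
      have h1 : t i = c ∨ t i = d := by rcases hT i with e | e | e | e <;> tauto
      exact vab _ h01 ((hv k i).symm.trans (vcd _ h1))
    · refine Or.inr fun i => ?_
      by_contra hn
      have h1 : t i = a ∨ t i = b := by rcases hT i with e | e | e | e <;> tauto
      have h2 : t 0 = c ∨ t 0 = d := by rcases hT 0 with e | e | e | e <;> tauto
      exact vab _ h1 ((hv k i).trans (vcd _ h2))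
  have hN1 : N = 1 := by
    have : ∀ p q : ι, (∀ i, t i = p ∨ t i = q) → N = 1 := fun p q hpq => by
      have := Finset.card_le_card_of_injOn t (s := Finset.univ) (t := ({p, q} : Finset ι))
        (fun i _ => by simpa using hpq i) (fun i _ j _ e => hinj e)
      rw [Finset.card_univ, Fintype.card_fin] at this
      have := this.trans Finset.card_le_two
      omega
    rcases hside with e | e <;> exact this _ _ e
  have ht01 : t 0 ≠ t k.succ := fun e => Fin.succ_ne_zero k (hinj e).symm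
  have eX := hX4 g
  rw [hgX] at eX
  have eXd := hX4 deg
  rw [show ∑ p ∈ S, deg p * X p = 0 from by rw [← h.dX]; exact Finset.sum_congr rfl fun p _ => mul_comm _ _]
    at eXd
  have eg := hgv k
  rw [hs.sum_mul] at eg
  have ed := h.dv k
  rw [hs.sum_mul] at ed
  obtain ⟨hle, heq⟩ := sum_five_le hgn hs.ha hs.hb hc hd' hs.hw hs.hab hac had
    (fun e => hs.Xa (e ▸ hs.Xw)) hbc hbd (fun e => hs.Xb (e ▸ hs.Xw)) hcd
    (fun e => Xc (e ▸ hs.Xw)) (fun e => Xd (e ▸ hs.Xw))
  have oa := hodd a hs.ha hs.Xa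
  have ob := hodd b hs.hb hs.Xb
  have oc := hodd c hc Xc
  have od := hodd d hd' Xd
  have p1 := h.pos a hs.ha
  have p2 := h.pos b hs.hb
  have p3 := h.pos c hc
  have p4 := h.pos d hd'
  have p5 := h.pos _ hs.hw
  have sw : (v k (w k)) * (v k (w k)) = 1 := by rcases hs.vw with e | e <;> rw [e] <;> rfl
  have pick : ∀ f : ι → ℤ, (∀ i, f (t i) = f (t 0)) →
      ((∀ i, t i = a ∨ t i = b) → f a = f b) ∧ ((∀ i, t i = c ∨ t i = d) → f c = f d) := by
    intro f hf
    have hf1 := hf k.succ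
    constructor <;> intro hp <;> rcases hp 0 with e0 | e0 <;> rcases hp k.succ with e1 | e1 <;>
      rw [e0, e1] at hf1 <;>
      first
      | exact hf1
      | exact hf1.symm
      | exact absurd (e0.trans e1.symm) ht01
  have hsq : ∀ p ∈ S, X p ≠ 0 → g p = (g p * X p) * X p ∧ g p * g p = (g p * X p) * (g p * X p) :=
    fun p hp h0 => ⟨by linear_combination (-(g p)) * h.X_sq hp h0,
      by linear_combination (-(g p * g p)) * h.X_sq hp h0⟩
  obtain ⟨ga, sa⟩ := hsq a hs.ha hs.Xa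
  obtain ⟨gb, sb⟩ := hsq b hs.hb hs.Xb
  obtain ⟨gc, sc⟩ := hsq c hc Xc
  obtain ⟨gd, sd⟩ := hsq d hd' Xd
  have la := sa ▸ odd_sq oa
  have lb := sb ▸ odd_sq ob
  have lc := sc ▸ odd_sq oc
  have ld := sd ▸ odd_sq od
  have gw : g (w k) = (v k (w k) * g (w k)) * v k (w k) := by
    linear_combination (-(g (w k))) * sw
  have sgw : g (w k) * g (w k) = (v k (w k) * g (w k)) * (v k (w k) * g (w k)) := by
    linear_combination (-(g (w k) * g (w k))) * sw
  have e5 : ∀ {A B C D W : ℤ}, g a * X a = A → g b * X b = B → g c * X c = C → g d * X d = D →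
      v k (w k) * g (w k) = W → A * A + B * B + C * C + D * D + W * W ≤ 8 ∧
      (A * A + B * B + C * C + D * D + W * W = 8 →
        A * (X a * deg a) + B * (X b * deg b) + C * (X c * deg c) + D * (X d * deg d) +
          W * (v k (w k) * deg (w k)) = 0) := by
    intro A B C D W hA hB hC hD hW
    rw [sa, sb, sc, sd, sgw, hA, hB, hC, hD, hW] at hle
    refine ⟨hle, fun e => ?_⟩
    have := heq (by rw [sa, sb, sc, sd, sgw, hA, hB, hC, hD, hW]; exact e) deg
    rw [hgd, ga, gb, gc, gd, gw, hA, hB, hC, hD, hW] at this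
    linear_combination -this
  rcases hside with hp | hp
  · have g1 := (pick g hg).1 hp
    have x1 := (pick X hX).1 hp
    have d1 := (pick deg hd).1 hp
    set β := g a * X a with hβ
    have hB : g b * X b = β := by rw [← g1, ← x1]
    have hW : v k (w k) * g (w k) = -2 * β := by rw [hβ]; linarith
    have hsum2 : g c * X c + g d * X d = -2 * β := by linarith
    obtain ⟨h8, hzero⟩ := e5 rfl hB rfl rfl hW
    have hb1 : β * β = 1 := by nlinarith
    have h0 : (g c * X c + β) * (g c * X c + β) + (g d * X d + β) * (g d * X d + β) ≤ 0 := by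
      linear_combination (2 : ℤ) * β * hsum2 + h8 + (-8 : ℤ) * hb1
    have hC : g c * X c = -β := by
      have h1 := mul_self_nonneg (g d * X d + β)
      exact eq_neg_of_add_eq_zero_left (mul_self_eq_zero.1
        (le_antisymm (le_trans (le_add_of_nonneg_right h1) h0) (mul_self_nonneg _)))
    have hD : g d * X d = -β := by linarith
    rw [hC, hD] at hzero
    have := hzero (by linear_combination (8 : ℤ) * hb1)
    have hne : β * (X a * deg a) = 0 := by
      rw [← d1, ← x1] at this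
      have ed' : v k (w k) * deg (w k) = -2 * (X a * deg a) := by
        rw [← d1, ← x1] at ed; linarith
      rw [ed'] at this
      have eX' : X c * deg c + X d * deg d = -2 * (X a * deg a) := by
        rw [← d1, ← x1] at eXd; linarith
      have h8' : β * (X a * deg a) * 8 = 0 := by linear_combination this + β * eX'
      linarith
    rcases mul_eq_zero.1 hne with e | e
    · rw [e] at hb1; norm_num at hb1
    · exact mul_ne_zero hs.Xa p1.ne' e
  · have g1 := (pick g hg).2 hp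
    have x1 := (pick X hX).2 hp
    have d1 := (pick deg hd).2 hp
    set β := g c * X c with hβ
    have hD : g d * X d = β := by rw [← g1, ← x1]
    have hsum2 : g a * X a + g b * X b = -2 * β := by linarith
    have hW : v k (w k) * g (w k) = 2 * β := by linarith
    obtain ⟨h8, hzero⟩ := e5 rfl rfl rfl hD hW
    have hb1 : β * β = 1 := by nlinarith
    have h0 : (g a * X a + β) * (g a * X a + β) + (g b * X b + β) * (g b * X b + β) ≤ 0 := by
      linear_combination (2 : ℤ) * β * hsum2 + h8 + (-8 : ℤ) * hb1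
    have hA : g a * X a = -β := by
      have h1 := mul_self_nonneg (g b * X b + β)
      exact eq_neg_of_add_eq_zero_left (mul_self_eq_zero.1
        (le_antisymm (le_trans (le_add_of_nonneg_right h1) h0) (mul_self_nonneg _)))
    have hB : g b * X b = -β := by linarith
    rw [hA, hB] at hzero
    have := hzero (by linear_combination (8 : ℤ) * hb1)
    have hne : β * (X c * deg c) * 8 = 0 := by
      rw [← d1, ← x1] at this eXd
      have ed' : v k (w k) * deg (w k) = 2 * (X c * deg c) := by linarith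
      rw [ed'] at this
      have eX' : X a * deg a + X b * deg b = -2 * (X c * deg c) := by linarith
      linear_combination this + β * eX'
    rcases mul_eq_zero.1 ((mul_eq_zero.1 hne).resolve_right (by norm_num)) with e | e
    · rw [e] at hb1; norm_num at hb1
    · exact mul_ne_zero Xc p3.ne' e

/-- **The configuration.** -/
theorem exists_config (h : Lat S N X v u deg) (hN : 1 ≤ N) (hN2 : N ≠ 2) (g : ι → ℤ)
    (hgX : ∑ p ∈ S, g p * X p = 0) (hgv : ∀ k, ∑ p ∈ S, v k p * g p = 0)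
    (hgu : ∀ k, ∑ p ∈ S, u k p * g p = 0) (hgd : ∑ p ∈ S, g p * deg p = 0)
    (hgn : ∑ p ∈ S, g p * g p ≤ 8) (hodd : ∀ p ∈ S, X p ≠ 0 → Odd (g p)) :
    ∃ w t η ε, Config S X v u w t η ε := by
  rcases h.v_config with ⟨a, b, w, hinj, hw⟩ | ⟨hN', a, b, w, hw⟩
  swap
  · exact absurd (h.not_common (by omega) hgX hgv hgn hodd hw) id
  obtain ⟨t, ε, hε, htinj, ht, hd, hu⟩ := h.exists_star hN
  obtain ⟨hXt, hvt⟩ := h.Xt_eq_zero hN hgX hgv hgu hgd hgn hodd hw hε htinj ht hd hu
  have hne : ∀ k i, w k ≠ t i := fun k i e => by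
    have hall : ∀ j, t j = w k := fun j => by
      by_contra hj
      have h1 := (hvt k j).trans (hvt k i).symm
      rw [← e, (hw k).supp _ (ht j) (fun r => (hw k).Xa (r ▸ hXt j))
        (fun r => (hw k).Xb (r ▸ hXt j)) hj] at h1
      rcases (hw k).vw with r | r <;> omega
    have := htinj ((hall 0).trans (hall (Fin.succ ⟨0, hN⟩)).symm)
    exact Fin.succ_ne_zero _ this.symm
  refine ⟨w, t, fun k => v k (w k), ε, fun k => (hw k).hw, ht, hinj, htinj, hne, fun k => (hw k).Xw,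
    hXt, fun k => (hw k).vw, hε, fun k l => ?_, fun k i => ?_, fun k l => ?_, fun k i => ?_⟩
  · split_ifs with e
    · rw [e]
    · exact (hw k).supp _ (hw l).hw (fun r => (hw k).Xa (r ▸ (hw l).Xw))
        (fun r => (hw k).Xb (r ▸ (hw l).Xw)) fun r => e (hinj r).symm
  · exact (hw k).supp _ (ht i) (fun r => (hw k).Xa (r ▸ hXt i))
      (fun r => (hw k).Xb (r ▸ hXt i)) (hne k i).symm
  · rw [hu k _ (hw l).hw, if_neg (hne l _), if_neg (hne l _)]
    ring
  · rw [hu k _ (ht i)]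
    simp only [htinj.eq_iff]

end Lat

end CfsgLib.Blocks.TwoGen
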