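import Cfsg.Agent.Blocks.Dihedral.Values

/-!
# Functions on the characters given by combinations of their values

`IsRep S F`: `F χ` is a combination of the values of `χ` on elements satisfying `S`.  The products
of two such functions only see the conjugacy between their supports.
-/

set_option autoImplicit false
open scoped ComplexConjugate

namespace CfsgLib.Blocks.TwoGen

open Cfsg CfsgLib CfsgLib.Blocks

universe u

variable {G : Type u} [Group G] [Fintype G]

/-- A combination of values on the elements satisfying `S`. -/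
def IsRep (S : G → Prop) (F : IrrCharacter G → ℂ) : Prop :=
  ∃ β : G → ℂ, (∀ h, β h ≠ 0 → S h) ∧ ∀ χ : IrrCharacter G, F χ = ∑ h : G, β h * (χ : G → ℂ) h

theorem isRep_zero (S : G → Prop) : IsRep S fun _ : IrrCharacter G => (0 : ℂ) :=
  ⟨0, fun h hh => absurd rfl hh, fun χ => by simp⟩

theorem IsRep.smul {S : G → Prop} {F : IrrCharacter G → ℂ} (hF : IsRep S F) (a : ℂ) :
    IsRep S fun χ => a * F χ := by
  obtain ⟨β, hβ, he⟩ := hF
  exact ⟨fun h => a * β h, fun h hh => hβ h (right_ne_zero_of_mul hh), fun χ => by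
    simp only [he, Finset.mul_sum]; exact Finset.sum_congr rfl fun h _ => (mul_assoc _ _ _).symm⟩

theorem IsRep.add {S : G → Prop} {F F' : IrrCharacter G → ℂ} (hF : IsRep S F) (hF' : IsRep S F') :
    IsRep S fun χ => F χ + F' χ := by
  obtain ⟨β, hβ, he⟩ := hF
  obtain ⟨β', hβ', he'⟩ := hF'
  refine ⟨fun h => β h + β' h, fun h hh => ?_, fun χ => by
    simp only [he, he', ← Finset.sum_add_distrib]; exact Finset.sum_congr rfl fun h _ => (add_mul _ _ _).symm⟩
  by_cases h0 : β h = 0
  · exact hβ' h fun h1 => hh (by simp [h0, h1])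
  · exact hβ h h0

theorem IsRep.congr {S : G → Prop} {F F' : IrrCharacter G → ℂ} (hF : IsRep S F)
    (h : ∀ χ, F' χ = F χ) : IsRep S F' := by rwa [funext h]

theorem IsRep.mono {S S' : G → Prop} {F : IrrCharacter G → ℂ} (hF : IsRep S F)
    (h : ∀ g, S g → S' g) : IsRep S' F := by
  obtain ⟨β, hβ, he⟩ := hF
  exact ⟨β, fun g hg => h g (hβ g hg), he⟩

theorem isRep_sum {ι : Type*} {S : G → Prop} (t : Finset ι) {F : ι → IrrCharacter G → ℂ}
    (hF : ∀ i ∈ t, IsRep S (F i)) : IsRep S fun χ => ∑ i ∈ t, F i χ := by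
  classical
  induction t using Finset.induction with
  | empty => exact (isRep_zero S).congr fun χ => Finset.sum_empty
  | insert a t ha ih =>
    exact ((hF a (Finset.mem_insert_self a t)).add (ih fun i hi => hF i (Finset.mem_insert_of_mem hi))).congr
      fun χ => Finset.sum_insert ha

theorem isRep_apply (h : G) : IsRep (fun g => g = h) fun χ : IrrCharacter G => (χ : G → ℂ) h := by
  classical
  exact ⟨fun g => if g = h then 1 else 0, fun g hg => by simpa using hg, fun χ => by simp⟩

/-- Supports without conjugate elements give orthogonal functions. -/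
theorem sum_rep_mul_conj_eq_zero [Fintype (IrrCharacter G)] {S S' : G → Prop}
    {F F' : IrrCharacter G → ℂ} (hF : IsRep S F) (hF' : IsRep S' F')
    (hsep : ∀ h h', S h → S' h' → ¬ IsConj h h') :
    ∑ χ : IrrCharacter G, F χ * conj (F' χ) = 0 := by
  classical
  obtain ⟨β, hβ, he⟩ := hF
  obtain ⟨β', hβ', he'⟩ := hF'
  simp only [he, he', map_sum, map_mul, Finset.sum_mul_sum]
  rw [Finset.sum_comm]
  refine Finset.sum_eq_zero fun h _ => ?_
  rw [Finset.sum_comm]
  refine Finset.sum_eq_zero fun h' _ => ?_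
  by_cases h0 : β h = 0
  · simp [h0]
  by_cases h0' : β' h' = 0
  · simp [h0']
  rw [Finset.sum_congr rfl (g := fun χ : IrrCharacter G => β h * conj (β' h') *
      ((χ : G → ℂ) h * conj ((χ : G → ℂ) h'))) fun χ _ => by ring, ← Finset.mul_sum]
  refine mul_eq_zero_of_right _ ?_
  exact ((Finset.sum_congr (Finset.ext fun _ => by simp) fun _ _ => rfl).trans
    (Chars.sum_irr_mul_conj h h')).trans (if_neg (hsep h h' (hβ h h0) (hβ' h' h0')))

/-- The degrees and the other regular values are orthogonal to singular combinations. -/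
theorem sum_regular_mul_rep [Fintype (IrrCharacter G)] {p : ℕ} {S : G → Prop}
    {F : IrrCharacter G → ℂ} (hF : IsRep S F) (hS : ∀ g, S g → p ∣ orderOf g) {r : G}
    (hr : ¬ p ∣ orderOf r) : ∑ χ : IrrCharacter G, F χ * (χ : G → ℂ) r = 0 := by
  have h := sum_rep_mul_conj_eq_zero hF (isRep_apply r⁻¹) fun g g' hg hg' hc => by
    subst hg'
    obtain ⟨w, hw⟩ := isConj_iff.1 hc
    apply hr
    rw [← orderOf_inv r, ← hw, ← MulAut.conj_apply, MulEquiv.orderOf_eq]
    exact hS g hg
  refine Eq.trans (Finset.sum_congr rfl fun χ _ => ?_) h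
  rw [← Chars.map_inv_eq_conj (Chars.isCharacter_coe χ), inv_inv]

/-- The pull back from a subgroup along the multiplicities of the restrictions. -/
noncomputable def pull (K : Subgroup G) [Fintype K] (f : IrrCharacter K → ℂ) (χ : IrrCharacter G) :
    ℂ :=
  ∑ᶠ ξ : IrrCharacter K, classInner (fun k : K => (χ : G → ℂ) k) (ξ : K → ℂ) * f ξ

theorem pull_eq_sum {K : Subgroup G} [Fintype K] [Fintype (IrrCharacter K)]
    (f : IrrCharacter K → ℂ) (χ : IrrCharacter G) :
    pull K f χ =
      ∑ ξ : IrrCharacter K, classInner (fun k : K => (χ : G → ℂ) k) (ξ : K → ℂ) * f ξ :=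
  finsum_eq_sum_of_fintype _

theorem pull_rep {K : Subgroup G} [Fintype K] [Fintype (IrrCharacter K)]
    {f : IrrCharacter K → ℂ} {β : K → ℂ}
    (he : ∀ ξ : IrrCharacter K, f ξ = ∑ h : K, β h * (ξ : K → ℂ) h) (χ : IrrCharacter G) :
    pull K f χ = ∑ h : K, β h * (χ : G → ℂ) h := by
  rw [pull_eq_sum]
  simp only [he, Finset.mul_sum]
  rw [Finset.sum_comm]
  refine Finset.sum_congr rfl fun h _ => ?_
  rw [DihedralBlk.expand_restrict χ h, Finset.mul_sum]
  exact Finset.sum_congr rfl fun ξ _ => by ring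

theorem isRep_pull {K : Subgroup G} [Fintype K] [Fintype (IrrCharacter K)] {S : K → Prop}
    {f : IrrCharacter K → ℂ} (hf : IsRep S f) :
    IsRep (fun g => ∃ h : K, S h ∧ (h : G) = g) (pull K f) := by
  classical
  obtain ⟨β, hβ, he⟩ := hf
  refine (isRep_sum (F := fun (h : K) (χ : IrrCharacter G) => β h * (χ : G → ℂ) h) Finset.univ
    fun h _ => ?_).congr (pull_rep he)
  by_cases h0 : β h = 0
  · exact (isRep_zero _).congr fun χ => by simp [h0]
  · exact ((isRep_apply (h : G)).smul (β h)).mono fun g hg => ⟨h, hβ h h0, hg.symm⟩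

/-- The pull back preserves products when the conjugating elements stay in the subgroup. -/
theorem sum_pull_mul_conj [Fintype (IrrCharacter G)] {K : Subgroup G} [Fintype K]
    [Fintype (IrrCharacter K)] {S S' : K → Prop} {f f' : IrrCharacter K → ℂ} (hf : IsRep S f)
    (hf' : IsRep S' f') (hcent : ∀ h : K, S h → ∀ w : G, w * (h : G) = (h : G) * w → w ∈ K)
    (hconj : ∀ h h' : K, S h → S' h' → ∀ w : G, w * (h : G) * w⁻¹ = (h' : G) → w ∈ K) :
    ∑ χ : IrrCharacter G, pull K f χ * conj (pull K f' χ) =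
      ∑ ξ : IrrCharacter K, f ξ * conj (f' ξ) := by
  classical
  obtain ⟨β, hβ, he⟩ := hf
  obtain ⟨β', hβ', he'⟩ := hf'
  simp only [pull_rep he, pull_rep he', he, he', map_sum, map_mul, Finset.sum_mul_sum]
  rw [Finset.sum_comm]
  conv_rhs => rw [Finset.sum_comm]
  refine Finset.sum_congr rfl fun h _ => ?_
  rw [Finset.sum_comm]
  conv_rhs => rw [Finset.sum_comm]
  refine Finset.sum_congr rfl fun h' _ => ?_
  by_cases h0 : β h = 0
  · simp [h0]
  by_cases h0' : β' h' = 0
  · simp [h0']
  rw [Finset.sum_congr rfl (g := fun χ : IrrCharacter G => β h * conj (β' h') *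
      ((χ : G → ℂ) h * conj ((χ : G → ℂ) h'))) fun χ _ => by ring, ← Finset.mul_sum,
    Finset.sum_congr rfl (g := fun ξ : IrrCharacter K => β h * conj (β' h') *
      ((ξ : K → ℂ) h * conj ((ξ : K → ℂ) h'))) fun χ _ => by ring, ← Finset.mul_sum,
    DihedralBlk.sum_irr_eq_sum_irr (hcent h (hβ h h0)) (hconj h h' (hβ h h0) (hβ' h' h0'))]

end CfsgLib.Blocks.TwoGen
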