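import Cfsg.Agent.Blocks.TwoGen.Sections
import Cfsg.Agent.Blocks.TwoGen.Rep

/-!
# A nilpotent block of a subgroup below a maximal pair

With a nilpotent block `b` of `H` whose maximal pair comes from the maximal pair `(D, g)` of `B`,
the values of a character at the pairs of elements `v` of the defect group of `b` whose centralizer
lies in `H` are `pFn χ v` times those of a member of height zero of `b`.
-/

set_option autoImplicit false
set_option maxHeartbeats 1000000
open scoped MonoidAlgebra ComplexConjugate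

namespace CfsgLib.Blocks.TwoGen

open Cfsg CfsgLib CfsgLib.Blocks CfsgLib.Blocks.NilSection CfsgLib.Blocks.DihedralBlk
  CfsgLib.Blocks.HeightZero

universe u

variable {G : Type u} [Group G] [Fintype G] {M : Ideal AlgInt} [hMmax : M.IsMaximal]
  [hp : Fact (Nat.Prime 2)] [CharP (kres M) 2] {B : Set (IrrCharacter G)} {D : Subgroup G}
  {g : (kres M)[G]} {H : Subgroup G} [Fintype H] {b : Set (IrrCharacter H)} {P : Subgroup H}
  {gH : (kres M)[H]} {ψ : IrrCharacter H}

/-- The hypotheses. -/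
structure Loc (M : Ideal AlgInt) [M.IsMaximal] (B : Set (IrrCharacter G)) (D : Subgroup G)
    (g : (kres M)[G]) (H : Subgroup G) [Fintype H] (b : Set (IrrCharacter H)) (P : Subgroup H)
    (gH : (kres M)[H]) (ψ : IrrCharacter H) : Prop where
  hM : IsPModular 2 M
  hB : IsPBlock M B
  hmaxG : IsMaxPairIdem 2 ⊤ (topEl M B) D g
  hind : IsInducedBlock M H b B
  hmax : IsMaxPairIdem 2 ⊤ (topEl M b) P gH
  hnil : IsNilpotentIdem 2 ⊤ (topEl M b)
  hψ : ψ ∈ b
  h0 : blockHeight 2 b (ψ : H → ℂ) = 0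
  hQD : P.map H.subtype ≤ D
  hemb : emb (kres M) H.subtype gH = fBelow 2 D g (P.map H.subtype)

theorem isPPart_two_of_regular {v : H} (c : Loc M B D g H b P gH ψ) (hv : v ∈ P) {t : cz v}
    (ht : IsPRegular 2 t) : ppart 2 ((v * (t : H) : H) : G) = (v : G) := by
  have h := isPPart_ppart (p := 2) (v * (t : H))
  rw [isPPart_of_regular (exists_orderOf_eq_pow c.hmax.1.1.1 hv) ht] at h
  obtain ⟨r, h1, h2, h3, h4⟩ := h
  exact ppart_eq ⟨(r : G), by rw [← h1]; rfl, congrArg Subtype.val h2.eq,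
    by rwa [Subgroup.orderOf_coe], by rwa [Subgroup.orderOf_coe]⟩

/-- The part of a restricted character. -/
theorem loc_part (c : Loc M B D g H b P gH ψ) (χ : IrrCharacter G) {v : H} (hv : v ∈ P)
    {b' : Set (IrrCharacter (cz v))} (hb' : IsInducedBlock M (cz v) b' b)
    (hbe : subEl M (cz v) b' = fBelow 2 P gH (Subgroup.zpowers v)) {s : cz v}
    (hs : IsPRegular 2 s) :
    blockPart b' (fun k : cz v => (χ : G → ℂ) ((v * (k : H) : H) : G)) s =
      pFn b P gH ψ χ v * lFn b' ψ s := by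
  classical
  haveI := Fintype.ofFinite P
  haveI := Fintype.ofFinite (cz v)
  haveI := Fintype.ofFinite (IrrCharacter H)
  haveI := Fintype.ofFinite (IrrCharacter P)
  obtain ⟨Φ, hΦ⟩ := exists_members c.hM c.hind.1 c.hmax c.hnil c.hψ c.h0
  have hu := exists_orderOf_eq_pow c.hmax.1.1.1 hv
  have hcl : ∀ ξ : IrrCharacter H,
      IsClassFunction (cz v) fun k : cz v => (ξ : H → ℂ) (v * (k : H)) :=
    fun ξ => isClassFunction_translate' (Chars.isClassFunction_coe ξ) v
  set n : IrrCharacter H → ℂ := fun ξ => classInner (fun h : H => (χ : G → ℂ) h) (ξ : H → ℂ) with hn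
  have hF : IsClassFunction H fun h : H => (χ : G → ℂ) h :=
    Chars.isClassFunction_of_isCharacter (Chars.isCharacter_restrict (Chars.isCharacter_coe χ) H)
  have hclF : IsClassFunction (cz v) fun k : cz v => (χ : G → ℂ) ((v * (k : H) : H) : G) :=
    isClassFunction_translate' hF v
  have e1 : blockPart b' (fun k : cz v => (χ : G → ℂ) ((v * (k : H) : H) : G)) s =
      ∑ ξ : IrrCharacter H, n ξ * blockPart b' (fun k : cz v => (ξ : H → ℂ) (v * (k : H))) s := by
    rw [blockPart_eq_sum_regSet c.hM hb'.1 hclF hs, Finset.sum_congr rfl fun t _ => by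
      rw [DihedralBlk.expand_restrict χ, Finset.mul_sum], Finset.sum_comm]
    refine Finset.sum_congr rfl fun ξ _ => ?_
    rw [blockPart_eq_sum_regSet c.hM hb'.1 (hcl ξ) hs, Finset.mul_sum]
    exact Finset.sum_congr rfl fun t _ => by ring
  rw [e1, pFn, finsum_eq_sum_of_fintype, Finset.sum_mul]
  symm
  refine Finset.sum_bij_ne_zero (fun ζ _ _ => ((Φ ζ : IrrCharacter H)))
    (fun _ _ _ => Finset.mem_univ _)
    (fun ζ _ _ ζ' _ _ h => Φ.injective (Subtype.ext h)) (fun ξ _ hξ => ?_) fun ζ _ _ => ?_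
  · by_cases hmem : ξ ∈ b
    · obtain ⟨ζ, hζ⟩ := Φ.surjective ⟨ξ, hmem⟩
      refine ⟨ζ, Finset.mem_univ _, ?_, by rw [hζ]⟩
      intro h0'
      apply hξ
      have e : ξ = (Φ ζ : IrrCharacter H) := by rw [hζ]
      rw [e, part_member c.hM c.hind.1 c.hmax c.hnil hΦ hv hb'.1 hbe ζ hs, ← h0']
      simp only [hn, lFn, hΦ]
      ring
    · exact absurd (by rw [part_eq_zero c.hM hu hb' hmem hs, mul_zero]) hξ
  · rw [part_member c.hM c.hind.1 c.hmax c.hnil hΦ hv hb'.1 hbe ζ hs]
    simp only [hn, lFn, hΦ]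
    ring

theorem loc_section (c : Loc M B D g H b P gH ψ) {v : H} (hv : v ∈ P) :
    ∃ b' : Set (IrrCharacter (cz v)), IsInducedBlock M (cz v) b' b ∧
      subEl M (cz v) b' = fBelow 2 P gH (Subgroup.zpowers v) ∧
      ∃ s : cz v, IsPRegular 2 s ∧ lFn b' ψ s ≠ 0 := by
  classical
  haveI := Fintype.ofFinite P
  haveI := Fintype.ofFinite (cz v)
  obtain ⟨b', hb', hbe⟩ := exists_bl c.hM c.hind.1 c.hmax hv
  refine ⟨b', hb', hbe, ?_⟩
  by_contra hcon
  push Not at hcon
  have h := norm_part c.hM c.hind.1 c.hmax c.hnil c.hψ c.h0 hv hb'.1 hbe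
  rw [Finset.sum_eq_zero fun s hs => by
    rw [show blockPart b' (fun k : cz v => (ψ : H → ℂ) (v * (k : H))) s = lFn b' ψ s from rfl,
      hcon s (mem_regSet.1 hs), zero_mul], mul_zero] at h
  exact Nat.cast_ne_zero.2 (Nat.card_pos (α := cz v)).ne' h.symm

theorem coe_zpowers_map (v : H) :
    (Subgroup.zpowers v).map H.subtype = Subgroup.zpowers (v : G) := MonoidHom.map_zpowers _ _

/-- The values at the pair of `v`. -/
theorem loc_lval (c : Loc M B D g H b P gH ψ) (χ : IrrCharacter G) {v : H} (hv : v ∈ P)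
    (hC : Subgroup.centralizer ({(v : G)} : Set G) ≤ H) {b' : Set (IrrCharacter (cz v))}
    (hb' : IsInducedBlock M (cz v) b' b)
    (hbe : subEl M (cz v) b' = fBelow 2 P gH (Subgroup.zpowers v)) {s : cz v}
    (hs : IsPRegular 2 s) :
    lval (χ : G → ℂ) ((v * (s : H) : H) : G) (fBelow 2 D g (Subgroup.zpowers (v : G))) =
      pFn b P gH ψ χ v * lFn b' ψ s := by
  classical
  haveI := Fintype.ofFinite (cz v)
  have hu := exists_orderOf_eq_pow c.hmax.1.1.1 hv
  have hpp : ppart 2 (v * (s : H)) = v := isPPart_of_regular hu hs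
  have hmem : fBelow 2 P gH (Subgroup.zpowers v) ∈
      blocksOver (Subgroup.zpowers (ppart 2 (v * (s : H)))) (topEl M b) := by
    rw [hpp]
    exact fBelow_mem_blocksOver c.hind.1 c.hmax (Subgroup.zpowers_le.2 hv)
  obtain ⟨hfi, hfh⟩ := isFixedBy_of_mem_blocksOver hmem
  have he := emb_fBelow c.hmaxG.1.1 c.hmax.1.1 c.hQD c.hemb (Subgroup.zpowers_le.2 hv) (by
    rw [coe_zpowers_map, Blocks.centralizer_zpowers_eq]
    exact hC)
  rw [coe_zpowers_map] at he
  have hF : IsClassFunction H fun h : H => (χ : G → ℂ) h :=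
    Chars.isClassFunction_of_isCharacter (Chars.isCharacter_restrict (Chars.isCharacter_coe χ) H)
  rw [← he, lval_emb c.hM (Chars.isClassFunction_coe χ) H hfi hfh, ← hbe,
    lval_subEl c.hM hF hu hb'.1 hs]
  exact loc_part c χ hv hb' hbe hs

/-- The other characters vanish on the pairs. -/
theorem loc_eq_zero (c : Loc M B D g H b P gH ψ) {χ : IrrCharacter G} (hχ : χ ∉ B) {v : H}
    (hv : v ∈ P) (hC : Subgroup.centralizer ({(v : G)} : Set G) ≤ H) :
    pFn b P gH ψ χ v = 0 := by
  obtain ⟨b', hb', hbe, s, hs, hs0⟩ := loc_section c hv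
  refine (mul_eq_zero.1 ((loc_lval c χ hv hC hb' hbe hs).symm.trans ?_)).resolve_right hs0
  refine lval_eq_zero c.hM c.hB ?_ hχ
  rw [isPPart_two_of_regular c hv hs]
  exact fBelow_mem_blocksOver c.hB c.hmaxG (Subgroup.zpowers_le.2 (c.hQD ⟨v, hv, rfl⟩))

/-- The values are combinations of the values on the section of `v`. -/
theorem loc_rep (c : Loc M B D g H b P gH ψ) {v : H} (hv : v ∈ P) :
    IsRep (fun h : G => ppart 2 h = (v : G)) fun χ : IrrCharacter G => pFn b P gH ψ χ v := by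
  classical
  obtain ⟨b', hb', hbe, s, hs, hs0⟩ := loc_section c hv
  haveI := Fintype.ofFinite (cz v)
  refine IsRep.congr (isRep_sum (regSet 2 (cz v))
    (F := fun (t : cz v) (χ : IrrCharacter G) =>
      blockCoeff b' (t * s⁻¹) / lFn b' ψ s * (χ : G → ℂ) ((v * (t : H) : H) : G)) fun t ht =>
    ((isRep_apply _).smul _).mono fun h hh => by
      subst hh
      exact isPPart_two_of_regular c hv (mem_regSet.1 ht)) fun χ => ?_
  have hF : IsClassFunction H fun h : H => (χ : G → ℂ) h :=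
    Chars.isClassFunction_of_isCharacter (Chars.isCharacter_restrict (Chars.isCharacter_coe χ) H)
  rw [eq_comm, ← mul_left_inj' hs0, ← loc_part c χ hv hb' hbe hs,
    blockPart_eq_sum_regSet c.hM hb'.1 (isClassFunction_translate' hF v) hs, Finset.sum_mul]
  exact Finset.sum_congr rfl fun t _ => by field_simp

/-- Orthogonality of two values, the conjugating elements lying in `H`. -/
theorem loc_orth [Fintype (IrrCharacter G)] (c : Loc M B D g H b P gH ψ) {v w : H} (hv : v ∈ P)
    (hw : w ∈ P) (hcent : ∀ k : G, k * (v : G) = (v : G) * k → k ∈ H)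
    (hconj : ∀ k : G, k * (v : G) * k⁻¹ = (w : G) → k ∈ H)
    [Decidable (IsConj (⟨v, hv⟩ : P) ⟨w, hw⟩)] :
    ∑ χ : IrrCharacter G, pFn b P gH ψ χ v * conj (pFn b P gH ψ χ w) =
      if IsConj (⟨v, hv⟩ : P) ⟨w, hw⟩ then (Nat.card (P ⊓ cz v : Subgroup H) : ℂ) else 0 := by
  classical
  haveI := Fintype.ofFinite P
  haveI := Fintype.ofFinite (IrrCharacter P)
  haveI := Fintype.ofFinite (IrrCharacter H)
  obtain ⟨Φ, hΦ⟩ := exists_members c.hM c.hind.1 c.hmax c.hnil c.hψ c.h0
  obtain ⟨b', hb', hbe, s, hs, hs0⟩ := loc_section c hv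
  obtain ⟨c', hc', hce, t, ht, ht0⟩ := loc_section c hw
  haveI := Fintype.ofFinite (cz v)
  haveI := Fintype.ofFinite (cz w)
  refine mul_right_cancel₀ (mul_ne_zero hs0 ((map_ne_zero (starRingEnd ℂ)).2 ht0)) ?_
  rw [Finset.sum_mul]
  have hcl : ∀ (v : H) (χ : IrrCharacter G), IsClassFunction (cz v)
      fun k : cz v => (χ : G → ℂ) ((v * (k : H) : H) : G) := fun v χ =>
    isClassFunction_translate' (Chars.isClassFunction_of_isCharacter
      (Chars.isCharacter_restrict (Chars.isCharacter_coe χ) H)) v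
  have hcl' : ∀ (v : H) (ξ : IrrCharacter H), IsClassFunction (cz v)
      fun k : cz v => (ξ : H → ℂ) (v * (k : H)) := fun v ξ =>
    isClassFunction_translate' (Chars.isClassFunction_coe ξ) v
  calc ∑ χ : IrrCharacter G,
        pFn b P gH ψ χ v * conj (pFn b P gH ψ χ w) * (lFn b' ψ s * conj (lFn c' ψ t))
      = ∑ χ : IrrCharacter G,
          blockPart b' (fun k : cz v => (χ : G → ℂ) ((v * (k : H) : H) : G)) s *
            conj (blockPart c' (fun k : cz w => (χ : G → ℂ) ((w * (k : H) : H) : G)) t) := by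
        refine Finset.sum_congr rfl fun χ _ => ?_
        rw [loc_part c χ hv hb' hbe hs, loc_part c χ hw hc' hce ht, map_mul]
        ring
    _ = ∑ s' ∈ regSet 2 (cz v), ∑ t' ∈ regSet 2 (cz w),
          blockCoeff b' (s' * s⁻¹) * conj (blockCoeff c' (t' * t⁻¹)) *
            ∑ χ : IrrCharacter G, (χ : G → ℂ) ((v * (s' : H) : H) : G) *
              conj ((χ : G → ℂ) ((w * (t' : H) : H) : G)) := by
        rw [Finset.sum_congr rfl fun χ _ => by
          rw [blockPart_eq_sum_regSet c.hM hb'.1 (hcl v χ) hs,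
            blockPart_eq_sum_regSet c.hM hc'.1 (hcl w χ) ht, map_sum, Finset.sum_mul_sum],
          Finset.sum_comm]
        refine Finset.sum_congr rfl fun s' _ => ?_
        rw [Finset.sum_comm]
        refine Finset.sum_congr rfl fun t' _ => ?_
        rw [Finset.mul_sum]
        exact Finset.sum_congr rfl fun χ _ => by rw [map_mul]; ring
    _ = ∑ s' ∈ regSet 2 (cz v), ∑ t' ∈ regSet 2 (cz w),
          blockCoeff b' (s' * s⁻¹) * conj (blockCoeff c' (t' * t⁻¹)) *
            ∑ ξ : IrrCharacter H,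
              (ξ : H → ℂ) (v * (s' : H)) * conj ((ξ : H → ℂ) (w * (t' : H))) := by
        refine Finset.sum_congr rfl fun s' hs' => Finset.sum_congr rfl fun t' ht' => ?_
        congr 1
        have hps := isPPart_two_of_regular c hv (mem_regSet.1 hs')
        have hpt := isPPart_two_of_regular c hw (mem_regSet.1 ht')
        refine sum_irr_eq_sum_irr (fun k hk => ?_) fun k hk => ?_
        · have h1 := ppart_conj (p := 2) k ((v * (s' : H) : H) : G)
          rw [show k * ((v * (s' : H) : H) : G) * k⁻¹ = ((v * (s' : H) : H) : G) by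
            rw [hk, mul_inv_cancel_right], hps] at h1
          exact hcent k (by
            calc k * (v : G) = k * (v : G) * k⁻¹ * k := by group
              _ = _ := by rw [← h1])
        · have h1 := ppart_conj (p := 2) k ((v * (s' : H) : H) : G)
          rw [hk, hps, hpt] at h1
          exact hconj k h1.symm
    _ = ∑ ξ : IrrCharacter H, blockPart b' (fun k : cz v => (ξ : H → ℂ) (v * (k : H))) s *
          conj (blockPart c' (fun k : cz w => (ξ : H → ℂ) (w * (k : H))) t) := by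
        symm
        rw [Finset.sum_congr rfl fun ξ _ => by
          rw [blockPart_eq_sum_regSet c.hM hb'.1 (hcl' v ξ) hs,
            blockPart_eq_sum_regSet c.hM hc'.1 (hcl' w ξ) ht, map_sum, Finset.sum_mul_sum],
          Finset.sum_comm]
        refine Finset.sum_congr rfl fun s' _ => ?_
        rw [Finset.sum_comm]
        refine Finset.sum_congr rfl fun t' _ => ?_
        rw [Finset.mul_sum]
        exact Finset.sum_congr rfl fun χ _ => by rw [map_mul]; ring
    _ = _ := by
        rw [sum_part_mul_conj c.hM c.hind.1 c.hmax c.hnil hΦ hv hw hb' hbe hc' hce hs ht]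
        simp only [lFn]
        congr

/-- The coefficients are natural numbers. -/
theorem loc_coef (c : Loc M B D g H b P gH ψ) (χ : IrrCharacter G) :
    ∃ n : IrrCharacter P → ℕ, ∀ v : H, pFn b P gH ψ χ v = ∑ᶠ ζ, (n ζ : ℂ) * charExt P ζ v := by
  classical
  haveI := Fintype.ofFinite P
  obtain ⟨Φ, hΦ⟩ := exists_members c.hM c.hind.1 c.hmax c.hnil c.hψ c.h0
  have hres : IsCharacter H (fun h : H => (χ : G → ℂ) h) :=
    Chars.isCharacter_restrict (Chars.isCharacter_coe χ) H
  obtain ⟨n, -, hn⟩ := Chars.exists_nat_coeff hres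
  refine ⟨fun ζ => n (Φ ζ), fun v => finsum_congr fun ζ => ?_⟩
  rw [← hΦ, hn]

/-- On the powers of an element the values are combinations of roots of unity. -/
theorem loc_expand (c : Loc M B D g H b P gH ψ) {x : H} (hx : x ∈ P) {L : ℕ} (hL : 0 < L)
    (hxo : orderOf x = L) {μ : ℂ} (hμ : IsPrimitiveRoot μ L) (χ : IrrCharacter G) :
    ∃ k : ℕ → ℤ, ∀ a : ℕ,
      pFn b P gH ψ χ (x ^ a) = ∑ j ∈ Finset.range L, (k j : ℂ) * μ ^ (j * a) := by
  classical
  haveI := Fintype.ofFinite P
  haveI := Fintype.ofFinite (IrrCharacter P)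
  haveI : NeZero L := ⟨hL.ne'⟩
  obtain ⟨n, hn⟩ := loc_coef c χ
  have hxo' : orderOf (⟨x, hx⟩ : P) = L := by rw [Subgroup.orderOf_mk, hxo]
  have hone : ∀ ζ : IrrCharacter P, ∃ k : ℕ → ℤ, ∀ a : ℕ,
      charExt P ζ (x ^ a) = ∑ j ∈ Finset.range L, (k j : ℂ) * μ ^ (j * a) := by
    intro ζ
    obtain ⟨r, hr, -, hval⟩ := Chars.exists_roots (Chars.isCharacter_coe ζ) (⟨x, hx⟩ : P)
    suffices key : ∀ r : Multiset ℂ, (∀ w ∈ r, w ^ L = 1) → ∃ k : ℕ → ℤ, ∀ a : ℕ,
        (r.map (· ^ a)).sum = ∑ j ∈ Finset.range L, (k j : ℂ) * μ ^ (j * a) by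
      obtain ⟨k, hk⟩ := key r (by rw [hxo'] at hr; exact hr)
      exact ⟨k, fun a => by
        rw [← hk a, ← hval a, ← charExt_coe P ζ]
        rfl⟩
    intro r
    induction r using Multiset.induction_on with
    | empty => exact fun _ => ⟨fun _ => 0, fun a => by simp⟩
    | cons w r ih =>
      intro hw
      obtain ⟨k, hk⟩ := ih fun w' h' => hw w' (Multiset.mem_cons_of_mem h')
      obtain ⟨i, hi, hiw⟩ := hμ.eq_pow_of_pow_eq_one (hw w (Multiset.mem_cons_self w r))
      refine ⟨fun j => (if j = i then 1 else 0) + k j, fun a => ?_⟩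
      rw [Multiset.map_cons, Multiset.sum_cons, hk a]
      simp only [Int.cast_add, add_mul, Finset.sum_add_distrib, Int.cast_ite, Int.cast_one,
        Int.cast_zero, ite_mul, one_mul, zero_mul, Finset.sum_ite_eq',
        Finset.mem_range.2 hi, if_true]
      rw [← hiw, ← pow_mul]
  choose k hk using hone
  refine ⟨fun j => ∑ ζ : IrrCharacter P, (n ζ : ℤ) * k ζ j, fun a => ?_⟩
  rw [hn, finsum_eq_sum_of_fintype, Finset.sum_congr rfl fun ζ _ => by rw [hk ζ a, Finset.mul_sum],
    Finset.sum_comm]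
  refine Finset.sum_congr rfl fun j _ => ?_
  push_cast
  rw [Finset.sum_mul]
  exact Finset.sum_congr rfl fun ζ _ => by ring

theorem loc_memLocalRing (c : Loc M B D g H b P gH ψ) (χ : IrrCharacter G) {v : H} (hv : v ∈ P) :
    MemLocalRing M (pFn b P gH ψ χ v) := by
  haveI := Fintype.ofFinite P
  obtain ⟨n, hn⟩ := loc_coef c χ
  haveI := Fintype.ofFinite (IrrCharacter P)
  rw [hn, finsum_eq_sum_of_fintype]
  refine (localRing M).sum_mem fun ζ _ => (localRing M).mul_mem (natCast_mem (localRing M) _) ?_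
  rw [show v = ((⟨v, hv⟩ : P) : H) from rfl, charExt_coe]
  exact memLocalRing_apply (Chars.isCharacter_coe ζ) _

/-- The values are congruent to the value at the identity. -/
theorem loc_congr (c : Loc M B D g H b P gH ψ) (χ : IrrCharacter G) {v : H} (hv : v ∈ P) :
    Congr M (pFn b P gH ψ χ v) (pFn b P gH ψ χ 1) := by
  classical
  haveI := Fintype.ofFinite P
  haveI := Fintype.ofFinite (IrrCharacter P)
  obtain ⟨n, hn⟩ := loc_coef c χ
  rw [Congr, hn, hn, finsum_eq_sum_of_fintype, finsum_eq_sum_of_fintype, ← Finset.sum_sub_distrib]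
  refine memLocalIdeal_sum _ fun ζ _ => ?_
  rw [← mul_sub]
  refine memLocalIdeal_mul_left (natCast_mem (localRing M) _) ?_
  obtain ⟨e, he⟩ := exists_orderOf_eq_pow c.hmax.1.1.1 hv
  rw [show v = ((⟨v, hv⟩ : P) : H) from rfl, charExt_coe, show (1 : H) = ((1 : P) : H) from rfl,
    charExt_coe]
  have := congr_apply_mul c.hM (Chars.isCharacter_coe ζ) (Commute.one_right (⟨v, hv⟩ : P))
    (k := e) (by rw [Subgroup.orderOf_mk, he]) (y := (1 : P)) (by rw [orderOf_one]; norm_num)
  rwa [mul_one] at this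

/-- The part at the identity. -/
theorem loc_regular (c : Loc M B D g H b P gH ψ) (χ : IrrCharacter G) {s : H}
    (hs : IsPRegular 2 s) :
    blockPart b (fun h : H => (χ : G → ℂ) h) s = pFn b P gH ψ χ 1 * (ψ : H → ℂ) s := by
  classical
  haveI := Fintype.ofFinite P
  haveI := Fintype.ofFinite (IrrCharacter P)
  obtain ⟨Φ, hΦ⟩ := exists_members c.hM c.hind.1 c.hmax c.hnil c.hψ c.h0
  rw [blockPart_apply_eq, Finset.sum_apply, pFn, finsum_eq_sum_of_fintype, Finset.sum_mul]
  symm
  refine Finset.sum_bij (fun ζ _ => ((Φ ζ : IrrCharacter H)))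
    (fun ζ _ => (Set.Finite.mem_toFinset _).2 (Φ ζ).2)
    (fun ζ _ ζ' _ h => Φ.injective (Subtype.ext h)) (fun ξ hξ => ?_) fun ζ _ => ?_
  · obtain ⟨ζ, hζ⟩ := Φ.surjective ⟨ξ, (Set.Finite.mem_toFinset _).1 hξ⟩
    exact ⟨ζ, Finset.mem_univ _, by rw [hζ]⟩
  · rw [Pi.smul_apply, smul_eq_mul,
      apply_regular c.hM c.hind.1 c.hmax c.hnil c.hψ hΦ ζ hs, hΦ]
    ring

/-- The value at the identity is a unit exactly for the height zero members. -/
theorem loc_unit (c : Loc M B D g H b P gH ψ) {χ : IrrCharacter G} (hχ : χ ∈ B) :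
    ¬ MemLocalIdeal M (pFn b P gH ψ χ 1) ↔ blockHeight 2 B (χ : G → ℂ) = 0 := by
  classical
  have hF : IsClassFunction H fun h : H => (χ : G → ℂ) h :=
    Chars.isClassFunction_of_isCharacter (Chars.isCharacter_restrict (Chars.isCharacter_coe χ) H)
  set u := regPair 2 (ψ : H → ℂ) (ψ : H → ℂ) / (ψ : H → ℂ) 1 with hu
  have huu : ¬ MemLocalIdeal M u :=
    not_memLocalIdeal_regPair_of_height_zero c.hM c.hind.1 c.hψ c.h0 c.hψ
  have huloc : MemLocalRing M u := memLocalRing_regPair c.hM (Chars.isClassFunction_coe ψ)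
    (fun x _ => memLocalRing_apply (Chars.isCharacter_coe ψ) x) ψ
  have e : regPair 2 (fun h : H => (χ : G → ℂ) h) (ψ : H → ℂ) / (ψ : H → ℂ) 1 =
      pFn b P gH ψ χ 1 * u := by
    rw [hu, ← mul_div_assoc, ← Contrib.regPair_blockPart c.hM c.hind.1 hF c.hψ,
      regPair_eq_sum, regPair_eq_sum, Finset.mul_sum]
    congr 1
    refine Finset.sum_congr rfl fun x _ => ?_
    split_ifs with hx
    · rw [mul_zero]
    · rw [loc_regular c χ hx, mul_assoc]
  constructor
  · intro hne
    by_contra h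
    obtain ⟨φ, hφ⟩ := nonempty_of_isPBlock c.hB
    have h1 := (congr_regPair_induced c.hM c.hind (Chars.isClassFunction_coe χ)
      (fun x _ => memLocalRing_apply (Chars.isCharacter_coe χ) x) c.hψ hφ).mem_iff.2
      (memLocalIdeal_regPair_of_height_ne_zero c.hM c.hB hφ fun _ => h)
    rw [e] at h1
    exact not_memLocalIdeal_mul (loc_memLocalRing c χ P.one_mem) huloc hne huu h1
  · intro h hI
    exact not_memLocalIdeal_regPair_induced c.hM c.hind hχ h c.hψ
      (e ▸ memLocalIdeal_mul_right hI huloc)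

/-- The norm of the values of the member of height zero. -/
theorem loc_norm (c : Loc M B D g H b P gH ψ) {v : H} [Fintype (cz v)] (hv : v ∈ P)
    {b' : Set (IrrCharacter (cz v))} (hb' : IsInducedBlock M (cz v) b' b)
    (hbe : subEl M (cz v) b' = fBelow 2 P gH (Subgroup.zpowers v)) :
    (Nat.card (P ⊓ cz v : Subgroup H) : ℂ) *
        ∑ s ∈ regSet 2 (cz v), lFn b' ψ s * conj (lFn b' ψ s) = Nat.card (cz v) := by
  haveI := Fintype.ofFinite P
  exact norm_part c.hM c.hind.1 c.hmax c.hnil c.hψ c.h0 hv hb'.1 hbe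

end CfsgLib.Blocks.TwoGen
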