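import Cfsg.Agent.Blocks.TwoGen.Counts
import Cfsg.Agent.Blocks.KleinFour.Pairs
import Cfsg.Agent.Eq.Def_CaseTheorems

/-!
# The invariants of blocks with quaternion or semidihedral defect group
-/

set_option autoImplicit false
set_option maxHeartbeats 1000000
open scoped MonoidAlgebra

namespace CfsgLib.Blocks.TwoGen

open Cfsg CfsgLib CfsgLib.Blocks CfsgLib.Blocks.NilSection

universe u

section Struct

variable {G : Type u} [Group G] {D : Subgroup G}

theorem isGen_of_quat {m : ℕ} (hm : 2 ≤ m) (φ : D ≃* QuaternionGroup (2 ^ (m - 1))) :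
    ∃ x y : G, IsGen D m (-1) x y := by
  set q := 2 ^ (m - 1) with hq
  haveI : NeZero q := ⟨pow_ne_zero _ two_ne_zero⟩
  have hq2 : 2 * q = 2 ^ m := by rw [hq, ← pow_succ']; congr 1; omega
  have ox : orderOf ((φ.symm (QuaternionGroup.a 1) : D) : G) = 2 ^ m := by
    rw [Subgroup.orderOf_coe, MulEquiv.orderOf_eq, QuaternionGroup.orderOf_a_one, hq2]
  refine ⟨_, ((φ.symm (QuaternionGroup.xa 0) : D) : G),
    ⟨hm, ?_, SetLike.coe_mem _, SetLike.coe_mem _, ox, ?_, ?_, Or.inl ⟨rfl, ?_⟩⟩⟩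
  · rw [Nat.card_congr φ.toEquiv, Nat.card_eq_fintype_card, QuaternionGroup.card, pow_succ, ← hq2]
    ring
  · rw [zpow_neg_one, mul_inv_eq_iff_eq_mul, eq_inv_mul_iff_mul_eq, ← Subgroup.coe_mul,
      ← Subgroup.coe_mul, ← map_mul, ← map_mul]
    simp
  · rintro ⟨i, hi⟩
    have h' : (QuaternionGroup.a 1 : QuaternionGroup q) ^ i = QuaternionGroup.xa 0 := by
      apply φ.symm.injective
      rw [map_zpow]
      exact Subtype.ext (by simpa using hi)
    obtain ⟨k, hk⟩ := mem_powers_iff_mem_zpowers.2 (Subgroup.mem_zpowers_iff.2 ⟨i, h'⟩)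
    simp only [QuaternionGroup.a_one_pow] at hk
    cases hk
  · rw [← Subgroup.coe_mul, ← map_mul,
      show ((2 : ℤ) ^ (m - 1)) = ((q : ℕ) : ℤ) by rw [hq]; push_cast; rfl, zpow_natCast,
      ← SubmonoidClass.coe_pow, ← map_pow, QuaternionGroup.a_one_pow,
      ← QuaternionGroup.xa_sq (0 : ZMod (2 * q)), pow_two]

theorem isGen_of_semidihedral {n : ℕ} (hcard : Nat.card D = 2 ^ n) (h : IsQuasiDihedral D) :
    ∃ x y : G, 4 ≤ n ∧ IsGen D (n - 1) (2 ^ (n - 2) - 1) x y ∧ y * y = 1 := by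
  obtain ⟨k, hk, hc, x, y, ox, oy, hrel⟩ := h
  have hn : n = k + 1 := Nat.pow_right_injective le_rfl (hcard.symm.trans hc)
  subst hn
  rw [show k + 1 - 1 = k by omega, show k + 1 - 2 = k - 1 by omega]
  have oxG : orderOf (x : G) = 2 ^ k := (Subgroup.orderOf_coe x).trans ox
  have hy2 : (y : G) * y = 1 := by
    have := congrArg Subtype.val (pow_orderOf_eq_one y)
    rwa [oy, pow_two] at this
  have hrelG : (y : G) * x * (y : G)⁻¹ = (x : G) ^ ((2 : ℤ) ^ (k - 1) - 1) := by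
    have := congrArg Subtype.val hrel
    simp only [Subgroup.coe_mul, InvMemClass.coe_inv, SubmonoidClass.coe_pow] at this
    rw [this, ← zpow_natCast, Nat.cast_sub Nat.one_le_two_pow]
    push_cast
    rfl
  refine ⟨x, y, by omega, ⟨by omega, hc, x.2, y.2, oxG, hrelG, ?_, Or.inr ⟨hk, rfl, hy2⟩⟩, hy2⟩
  rintro ⟨i, hi⟩
  have hi' : (y : G) = (x : G) ^ i := hi.symm
  rw [hi', ← (Commute.self_zpow (x : G) i).eq, mul_inv_cancel_right] at hrelG
  have hd := hrelG.symm
  rw [← mul_inv_eq_one, ← zpow_neg_one, ← zpow_add, ← orderOf_dvd_iff_zpow_eq_one, oxG] at hd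
  obtain ⟨j, rfl⟩ := Nat.exists_eq_add_of_le hk
  rw [show 3 + j - 1 = j + 2 by omega] at hd
  obtain ⟨d, hd'⟩ := hd
  push_cast at hd'
  rw [show (2 : ℤ) ^ (3 + j) = 2 * 2 ^ (j + 2) by ring] at hd'
  have h4 : (2 : ℤ) ^ (j + 2) * (1 - 2 * d) = 2 := by linarith
  have : (4 : ℤ) ∣ 2 := ⟨2 ^ j * (1 - 2 * d), by linear_combination -h4⟩
  norm_num at this

end Struct

variable {G : Type u} [Group G] [Fintype G] {M : Ideal AlgInt} [M.IsMaximal]
  [Fact (Nat.Prime 2)] [CharP (kres M) 2] {B : Set (IrrCharacter G)} {D : Subgroup G}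

/-- **Blocks with a quaternion defect group.** -/
theorem quaternion_invariants (hM : IsPModular 2 M) (hB : IsPBlock M B)
    (hD : IsDefectGroup 2 M B D) {n : ℕ} (hn : 3 ≤ n)
    (φ : D ≃* QuaternionGroup (2 ^ (n - 2))) :
    1 ≤ blockRank 2 B ∧ blockRank 2 B ≤ 3 ∧ Nat.card B = blockRank 2 B + 2 ^ (n - 2) + 2 ∧
      Nat.card {χ : IrrCharacter G // χ ∈ B ∧ blockHeight 2 B (χ : G → ℂ) = 0} = 4 ∧
      (∀ χ ∈ B, blockHeight 2 B (χ : G → ℂ) = 0 ∨ blockHeight 2 B (χ : G → ℂ) = 1 ∨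
        blockHeight 2 B (χ : G → ℂ) = n - 2) ∧
      (4 ≤ n → Nat.card {χ : IrrCharacter G // χ ∈ B ∧ blockHeight 2 B (χ : G → ℂ) = 1} =
        2 ^ (n - 2) - 1) := by
  classical
  obtain ⟨m, rfl⟩ : ∃ m, n = m + 1 := ⟨n - 1, by omega⟩
  simp only [show m + 1 - 2 = m - 1 by omega] at φ ⊢
  obtain ⟨x, y, h⟩ := isGen_of_quat (by omega : 2 ≤ m) φ
  obtain ⟨g, hmax⟩ := KleinFour.exists_maxPair hB hD
  obtain ⟨μ, c, F, β, e, rep, ν, w, A, A', E, I⟩ := exists_inv hM hB hD hmax h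
  have hj : (joined D g m x y rep).card = 0 := by
    rw [Finset.card_eq_zero, Finset.eq_empty_iff_forall_notMem]
    intro i hi
    simp only [joined, Finset.mem_filter] at hi
    refine h.z_ne_one ?_
    rw [← h.sq_refl_quat rfl (rep i)]
    refine hi.2.sq.2 ?_
    have := pow_orderOf_eq_one (x ^ 2 ^ (m - 1))
    rwa [h.orderOf_z, pow_two] at this
  have hrank := I.rank_add
  have hl := CyclicInertia.blockRank_pos hM hB
  refine ⟨hl, ?_, by omega, I.hr.card_height_zero hM hB hmax h, ?_, fun hm => ?_⟩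
  · rcases Nat.lt_or_ge 2 m with hm | hm
    · have := (I.structure_of_three_le hm (by omega)).2.2.2
      omega
    · obtain rfl : m = 2 := by omega
      have := I.card_le_seven rfl
      rw [show (2 : ℕ) ^ (2 - 1) = 2 from rfl] at hrank
      omega
  · intro χ hχ
    rcases Nat.lt_or_ge 2 m with hm | hm
    · exact (I.structure_of_three_le hm (by omega)).1 χ hχ
    · have := I.height_le hχ
      omega
  · exact (I.structure_of_three_le (by omega) (by omega)).2.1

/-- **Blocks with a semidihedral defect group.** -/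
theorem semidihedral_invariants (hM : IsPModular 2 M) (hB : IsPBlock M B)
    (hD : IsDefectGroup 2 M B D) {n : ℕ} (hcard : Nat.card D = 2 ^ n) (hsd : IsQuasiDihedral D) :
    (Nat.card B = 2 ^ (n - 2) + 3 ∨ Nat.card B = 2 ^ (n - 2) + 4) ∧ 1 ≤ blockRank 2 B ∧
      blockRank 2 B ≤ 3 ∧ (blockRank 2 B = 3 → Nat.card B = 2 ^ (n - 2) + 4) ∧
      (blockRank 2 B = 1 → Nat.card B = 2 ^ (n - 2) + 3) ∧
      Nat.card {χ : IrrCharacter G // χ ∈ B ∧ blockHeight 2 B (χ : G → ℂ) = 0} = 4 ∧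
      Nat.card {χ : IrrCharacter G // χ ∈ B ∧ blockHeight 2 B (χ : G → ℂ) = 1} = 2 ^ (n - 2) - 1 ∧
      ∀ χ ∈ B, blockHeight 2 B (χ : G → ℂ) = 0 ∨ blockHeight 2 B (χ : G → ℂ) = 1 ∨
        blockHeight 2 B (χ : G → ℂ) = n - 2 := by
  classical
  obtain ⟨x, y, hn, h, hy⟩ := isGen_of_semidihedral hcard hsd
  obtain ⟨g, hmax⟩ := KleinFour.exists_maxPair hB hD
  obtain ⟨μ, c, F, β, e, rep, ν, w, A, A', E, I⟩ := exists_inv hM hB hD hmax h
  obtain ⟨i₀, -⟩ := I.hz.invol_exists 0 (by rw [zpow_zero, one_mul]; exact hy)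
  have he := i₀.isLt
  have hj : (joined D g (n - 1) x y rep).card ≤ 1 := Finset.card_le_one.2 fun i hi k hk => by
    simp only [joined, Finset.mem_filter] at hi hk
    have hz := pow_orderOf_eq_one (x ^ 2 ^ (n - 1 - 1))
    rw [h.orderOf_z, pow_two] at hz
    exact I.hz.invol_unique i k (hi.2.sq.2 hz) (hk.2.sq.2 hz)
  have hrank := I.rank_add
  have hl := CyclicInertia.blockRank_pos hM hB
  obtain ⟨hh, h1, hlo, hhi⟩ := I.structure_of_three_le (by omega) hj
  rw [show n - 1 - 1 = n - 2 by omega] at hrank h1 hlo hhi hh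
  refine ⟨by omega, hl, by omega, fun _ => by omega, fun _ => by omega,
    I.hr.card_height_zero hM hB hmax h, h1, hh⟩

/-- For a semidihedral defect group whose reflection involution is not conjugate to the central
involution there are at most two irreducible Brauer characters. -/
theorem semidihedral_rank_le_two (hM : IsPModular 2 M) (hB : IsPBlock M B)
    (hD : IsDefectGroup 2 M B D) {m : ℕ} {s : ℤ} {x y : G} (h : IsGen D m s x y) (hm : 3 ≤ m)
    (hy : y * y = 1) (hnc : ¬ IsConj y (x ^ 2 ^ (m - 1))) : blockRank 2 B ≤ 2 := by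
  classical
  obtain ⟨g, hmax⟩ := KleinFour.exists_maxPair hB hD
  obtain ⟨μ, c, F, β, e, rep, ν, w, A, A', E, I⟩ := exists_inv hM hB hD hmax h
  obtain ⟨i₀, -⟩ := I.hz.invol_exists 0 (by rw [zpow_zero, one_mul]; exact hy)
  have he := i₀.isLt
  have hj : (joined D g m x y rep).card = 0 := by
    rw [Finset.card_eq_zero, Finset.eq_empty_iff_forall_notMem]
    intro i hi
    simp only [joined, Finset.mem_filter] at hi
    have hz := pow_orderOf_eq_one (x ^ 2 ^ (m - 1))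
    rw [h.orderOf_z, pow_two] at hz
    obtain ⟨t, ht, -⟩ := (pairConj_y_of_sq_one hmax h (hi.2.sq.2 hz)).symm.trans hi.2
    exact hnc (isConj_iff.2 ⟨t, by rwa [zpow_zero, one_mul] at ht⟩)
  have hrank := I.rank_add
  have := (I.structure_of_three_le hm (by omega)).2.2.2
  omega

end CfsgLib.Blocks.TwoGen
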