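import Cfsg.Agent.Blocks.TwoGen.Sections
import Cfsg.Agent.Blocks.TwoGen.Rep
import Cfsg.Agent.Blocks.Subsection.Major

/-!
# The sections of the elements of a defect group

For `v` in the defect group the values of a character at the pair of `v` are those of the block of
`C(v)`; two such pairs give orthogonal columns unless they are conjugate.
-/

set_option autoImplicit false
set_option maxHeartbeats 1000000
open scoped MonoidAlgebra ComplexConjugate
open MonoidAlgebra (single)

namespace CfsgLib.Blocks.TwoGen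

open Cfsg CfsgLib CfsgLib.Blocks CfsgLib.Blocks.NilSection CfsgLib.Blocks.Contrib

universe u

variable {G : Type u} [Group G] [Fintype G] {M : Ideal AlgInt} [hMmax : M.IsMaximal]
  [hp : Fact (Nat.Prime 2)] [CharP (kres M) 2]

theorem cz_eq_centralizer (v : G) : cz v = Subgroup.centralizer ({v} : Set G) :=
  Blocks.centralizer_zpowers_eq v

theorem self_mem_center_cz (v : G) : (⟨v, mem_cz_self v⟩ : cz v) ∈ Subgroup.center (cz v) := by
  rw [Subgroup.mem_center_iff]
  intro w
  refine Subtype.ext ?_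
  exact Subgroup.mem_centralizer_singleton_iff.1 (cz_eq_centralizer v ▸ w.2)

/-- The part of a character in a block of `C(v)` through the characters of `C(v)`. -/
theorem sect_expand {v : G} [Fintype (cz v)] (b : Set (IrrCharacter (cz v))) (χ : IrrCharacter G)
    (s : cz v) :
    sectPart b v χ s = ∑ ξ ∈ b.toFinite.toFinset,
      classInner (fun k : cz v => (χ : G → ℂ) k) (ξ : cz v → ℂ) *
        (ξ : cz v → ℂ) (⟨v, mem_cz_self v⟩ * s) := by
  have hF : IsClassFunction (cz v) fun k : cz v => (χ : G → ℂ) k :=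
    Chars.isClassFunction_of_isCharacter (Chars.isCharacter_restrict (Chars.isCharacter_coe χ) _)
  have h := DihedralBlk.blockPart_translate_center b hF (self_mem_center_cz v) s
  rw [sectPart]
  refine h.trans ?_
  rw [blockPart_apply_eq, Finset.sum_apply]
  exact Finset.sum_congr rfl fun ξ _ => by rw [Pi.smul_apply, smul_eq_mul]

/-- The values of the section are combinations of values on elements with part `v`. -/
theorem sect_rep (hM : IsPModular 2 M) {v : G} (hv : ∃ e : ℕ, orderOf v = 2 ^ e) [Fintype (cz v)]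
    {b : Set (IrrCharacter (cz v))} (hb : IsPBlock M b) {s : cz v}
    (hs : IsPRegular 2 s) :
    IsRep (fun h : G => ppart 2 h = v) fun χ : IrrCharacter G => sectPart b v χ s := by
  refine (isRep_sum (regSet 2 (cz v))
    (F := fun (t : cz v) (χ : IrrCharacter G) =>
      blockCoeff b (t * s⁻¹) * (χ : G → ℂ) (v * (t : G))) fun t ht =>
    ((isRep_apply _).smul _).mono fun h hh => ?_).congr fun χ => ?_
  · subst hh
    exact ppart_eq (isPPart_mul_of_mem (cz_eq_centralizer v) hv (mem_regSet.1 ht))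
  · rw [sectPart, blockPart_eq_sum_regSet hM hb
      (isClassFunction_translate (cz_eq_centralizer v) χ) hs]

open scoped Classical in
/-- **The products of two sections at `v`.** -/
theorem sum_sect_mul_conj (hM : IsPModular 2 M) [Fintype (IrrCharacter G)]
    {v : G} (hv : ∃ e : ℕ, orderOf v = 2 ^ e) [Fintype (cz v)] [Fintype (IrrCharacter (cz v))]
    {b b' : Set (IrrCharacter (cz v))} (hb : IsPBlock M b) (hb' : IsPBlock M b') {s t : cz v}
    (hs : IsPRegular 2 s) (ht : IsPRegular 2 t) :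
    ∑ χ : IrrCharacter G, sectPart b v χ s * conj (sectPart b' v χ t) =
      if b = b' then ∑ ξ ∈ b.toFinite.toFinset, (ξ : cz v → ℂ) (⟨v, mem_cz_self v⟩ * s) *
        conj ((ξ : cz v → ℂ) (⟨v, mem_cz_self v⟩ * t)) else 0 := by
  set w : cz v := ⟨v, mem_cz_self v⟩ with hw
  have hwc := self_mem_center_cz v
  have hcl : ∀ χ : IrrCharacter G, IsClassFunction (cz v) fun k : cz v => (χ : G → ℂ) (v * (k : G)) :=
    fun χ => isClassFunction_translate (cz_eq_centralizer v) χ
  have hclξ : ∀ ξ : IrrCharacter (cz v), IsClassFunction (cz v) fun k : cz v => (ξ : cz v → ℂ) (w * k) :=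
    fun ξ => fun a k => by
      show (ξ : cz v → ℂ) (w * (k * a * k⁻¹)) = (ξ : cz v → ℂ) (w * a)
      rw [← Chars.isClassFunction_coe ξ (w * a) k]
      refine congrArg _ ?_
      calc w * (k * a * k⁻¹) = w * k * a * k⁻¹ := by group
        _ = k * w * a * k⁻¹ := by rw [Subgroup.mem_center_iff.1 hwc k]
        _ = _ := by group
  have hpart : ∀ (β : Set (IrrCharacter (cz v))) (ξ : IrrCharacter (cz v)) (r : cz v),
      blockPart β (fun k : cz v => (ξ : cz v → ℂ) (w * k)) r =
        if ξ ∈ β then (ξ : cz v → ℂ) (w * r) else 0 := by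
    intro β ξ r
    rw [DihedralBlk.blockPart_translate_center β (Chars.isClassFunction_coe ξ) hwc, blockPart_irr]
    split_ifs with h <;> simp [h, hw]
  calc ∑ χ : IrrCharacter G, sectPart b v χ s * conj (sectPart b' v χ t)
      = ∑ s' ∈ regSet 2 (cz v), ∑ t' ∈ regSet 2 (cz v),
          blockCoeff b (s' * s⁻¹) * conj (blockCoeff b' (t' * t⁻¹)) *
            ∑ χ : IrrCharacter G, (χ : G → ℂ) ((w * s' : cz v) : G) *
              conj ((χ : G → ℂ) ((w * t' : cz v) : G)) := by
        rw [Finset.sum_congr rfl fun χ _ => by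
          rw [sectPart, sectPart, blockPart_eq_sum_regSet hM hb (hcl χ) hs,
            blockPart_eq_sum_regSet hM hb' (hcl χ) ht, map_sum, Finset.sum_mul_sum],
          Finset.sum_comm]
        refine Finset.sum_congr rfl fun s' _ => ?_
        rw [Finset.sum_comm]
        refine Finset.sum_congr rfl fun t' _ => ?_
        rw [Finset.mul_sum]
        exact Finset.sum_congr rfl fun χ _ => by
          rw [map_mul, hw]; simp only [Subgroup.coe_mul]; ring
    _ = ∑ s' ∈ regSet 2 (cz v), ∑ t' ∈ regSet 2 (cz v),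
          blockCoeff b (s' * s⁻¹) * conj (blockCoeff b' (t' * t⁻¹)) *
            ∑ ξ : IrrCharacter (cz v), (ξ : cz v → ℂ) (w * s') * conj ((ξ : cz v → ℂ) (w * t')) := by
        refine Finset.sum_congr rfl fun s' hs' => Finset.sum_congr rfl fun t' ht' => ?_
        congr 1
        have h1 := isPPart_mul_of_mem (cz_eq_centralizer v) hv (mem_regSet.1 hs')
        have h2 := isPPart_mul_of_mem (cz_eq_centralizer v) hv (mem_regSet.1 ht')
        have key : ∀ k : G, k * (v * (s' : G)) * k⁻¹ = v * (t' : G) ∨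
            k * (v * (s' : G)) * k⁻¹ = v * (s' : G) → k ∈ cz v := by
          intro k hk
          have h3 := isPPart_conj h1 k
          have e : k * v * k⁻¹ = v := by
            rcases hk with e | e <;> rw [e] at h3
            · exact isPPart_unique hM.1 h3 h2
            · exact isPPart_unique hM.1 h3 h1
          rw [cz_eq_centralizer, Subgroup.mem_centralizer_singleton_iff]
          calc k * v = k * v * k⁻¹ * k := by group
            _ = v * k := by rw [e]
        exact DihedralBlk.sum_irr_eq_sum_irr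
          (fun k hk => key k (Or.inr (by
            simp only [Subgroup.coe_mul, hw] at hk
            rw [hk, mul_inv_cancel_right])))
          fun k hk => key k (Or.inl (by simpa only [Subgroup.coe_mul, hw] using hk))
    _ = ∑ ξ : IrrCharacter (cz v), blockPart b (fun k : cz v => (ξ : cz v → ℂ) (w * k)) s *
          conj (blockPart b' (fun k : cz v => (ξ : cz v → ℂ) (w * k)) t) := by
        symm
        rw [Finset.sum_congr rfl fun ξ _ => by
          rw [blockPart_eq_sum_regSet hM hb (hclξ ξ) hs,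
            blockPart_eq_sum_regSet hM hb' (hclξ ξ) ht, map_sum, Finset.sum_mul_sum],
          Finset.sum_comm]
        refine Finset.sum_congr rfl fun s' _ => ?_
        rw [Finset.sum_comm]
        refine Finset.sum_congr rfl fun t' _ => ?_
        rw [Finset.mul_sum]
        exact Finset.sum_congr rfl fun χ _ => by rw [map_mul]; ring
    _ = _ := by
        simp only [hpart]
        split_ifs with hbb
        · subst hbb
          rw [← Finset.sum_subset (Finset.subset_univ b.toFinite.toFinset) fun ξ _ hξ => by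
            rw [if_neg fun h => hξ ((Set.Finite.mem_toFinset _).2 h), zero_mul]]
          exact Finset.sum_congr rfl fun ξ hξ => by
            rw [if_pos ((Set.Finite.mem_toFinset _).1 hξ), if_pos ((Set.Finite.mem_toFinset _).1 hξ)]
        · refine Finset.sum_eq_zero fun ξ _ => ?_
          by_cases h : ξ ∈ b
          · rw [if_neg (fun h' : ξ ∈ b' => hbb
              ((eq_blockOf_of_mem hb h).trans (eq_blockOf_of_mem hb' h').symm)), map_zero, mul_zero]
          · rw [if_neg h, zero_mul]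

section Below

variable {B : Set (IrrCharacter G)} {D : Subgroup G} {g : (kres M)[G]}

theorem exists_orderOf_of_mem (hmax : IsMaxPairIdem 2 ⊤ (topEl M B) D g) {v : G} (hv : v ∈ D) :
    ∃ e : ℕ, orderOf v = 2 ^ e :=
  exists_orderOf_eq_pow hmax.1.1.1 hv

/-- The block of `C(v)` below the maximal pair. -/
theorem exists_sect (hM : IsPModular 2 M) (hB : IsPBlock M B)
    (hmax : IsMaxPairIdem 2 ⊤ (topEl M B) D g) {v : G} (hv : v ∈ D) :
    ∃ b : Set (IrrCharacter (cz v)), IsInducedBlock M (cz v) b B ∧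
      subEl M (cz v) b = fBelow 2 D g (Subgroup.zpowers v) := by
  have hle : Subgroup.zpowers v ≤ D := Subgroup.zpowers_le.mpr hv
  obtain ⟨hfb, hfo⟩ := mem_blocksOver.mp (fBelow_mem_blocksOver hB hmax hle)
  rw [top_inf_eq] at hfb
  obtain ⟨b, hb, hbe⟩ := exists_subEl_eq hfb
  refine ⟨b, ?_, hbe⟩
  rw [isInducedBlock_iff_brOver hM (hmax.1.1.1.to_le hle)
    (Subgroup.zpowers_le.mpr (mem_cz_self v)) le_rfl (Subgroup.centralizer_le_normalizer _) hb hB,
    hbe]
  exact hfo

theorem fBelow_fixed (hB : IsPBlock M B) (hmax : IsMaxPairIdem 2 ⊤ (topEl M B) D g)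
    {v : G} (hv : v ∈ D) {s : cz v} (hs : IsPRegular 2 s) :
    IsIdempotentElem (fBelow 2 D g (Subgroup.zpowers v)) ∧
      IsFixedBy (fBelow 2 D g (Subgroup.zpowers v)) (Subgroup.zpowers (v * (s : G))) := by
  refine isFixedBy_of_mem_blocksOver (E := topEl M B) ?_
  rw [ppart_eq (isPPart_mul_of_mem (cz_eq_centralizer v) (exists_orderOf_of_mem hmax hv) hs)]
  exact fBelow_mem_blocksOver hB hmax (Subgroup.zpowers_le.mpr hv)

/-- The values at the pair of `v`. -/
theorem lval_sect (hM : IsPModular 2 M) (hmax : IsMaxPairIdem 2 ⊤ (topEl M B) D g) {v : G}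
    (hv : v ∈ D) [Fintype (cz v)] {b : Set (IrrCharacter (cz v))} (hb : IsPBlock M b)
    (hbe : subEl M (cz v) b = fBelow 2 D g (Subgroup.zpowers v)) (χ : IrrCharacter G) {s : cz v}
    (hs : IsPRegular 2 s) :
    lval (χ : G → ℂ) (v * (s : G)) (fBelow 2 D g (Subgroup.zpowers v)) = sectPart b v χ s := by
  rw [← hbe, lval_subEl hM (Chars.isClassFunction_coe χ) (exists_orderOf_of_mem hmax hv) hb hs]
  rfl

theorem lval_below_eq_zero (hM : IsPModular 2 M) (hB : IsPBlock M B)
    (hmax : IsMaxPairIdem 2 ⊤ (topEl M B) D g) {v : G} (hv : v ∈ D) {χ : IrrCharacter G}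
    (hχ : χ ∉ B) {s : cz v} (hs : IsPRegular 2 s) :
    lval (χ : G → ℂ) (v * (s : G)) (fBelow 2 D g (Subgroup.zpowers v)) = 0 := by
  refine lval_eq_zero hM hB ?_ hχ
  rw [ppart_eq (isPPart_mul_of_mem (cz_eq_centralizer v) (exists_orderOf_of_mem hmax hv) hs)]
  exact fBelow_mem_blocksOver hB hmax (Subgroup.zpowers_le.mpr hv)

/-- The idempotent of the maximal pair is fixed by its group. -/
theorem conjA_maxPair (hmax : IsMaxPairIdem 2 ⊤ (topEl M B) D g) {t : G} (ht : t ∈ D) :
    Blocks.conjA t g = g := by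
  have hg := hmax.1.1.2.2.1.1
  rw [top_inf_eq] at hg
  refine MonoidAlgebra.ext (Finsupp.ext fun k => ?_)
  rw [coeff_conjA]
  by_cases hk : k ∈ Subgroup.centralizer (D : Set G)
  · congr 1
    rw [mul_assoc, ← Subgroup.mem_centralizer_iff.1 hk t ht, inv_mul_cancel_left]
  · have hk' : t⁻¹ * k * t ∉ Subgroup.centralizer (D : Set G) := fun h => hk (by
      have e := Subgroup.mem_centralizer_iff.1 h t ht
      have e' : k = t⁻¹ * k * t := by
        calc k = t * (t⁻¹ * k * t) * t⁻¹ := by group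
          _ = t⁻¹ * k * t := by rw [e]; group
      rw [e']; exact h)
    rw [hg _ hk, hg _ hk']

/-- The pairs below are compatible with conjugation in the defect group. -/
theorem conjA_fBelow (hmax : IsMaxPairIdem 2 ⊤ (topEl M B) D g) {t : G} (ht : t ∈ D)
    {U : Subgroup G} (hU : U ≤ D) :
    Blocks.conjA t (fBelow 2 D g U) = fBelow 2 D g (U.map (MulAut.conj t).toMonoidHom) := by
  refine (fBelow_eq hmax.1.1 ?_).symm
  have h := (fBelow_spec hmax.1.1 hU).conjA (Subgroup.mem_top t)
  rwa [map_conj_eq_self_of_mem_normalizer (Subgroup.le_normalizer ht), conjA_maxPair hmax ht] at h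

/-- Conjugate pairs below the maximal pair. -/
def PairConj (D : Subgroup G) (g : (kres M)[G]) (v w : G) : Prop :=
  ∃ t : G, t * v * t⁻¹ = w ∧
    Blocks.conjA t (fBelow 2 D g (Subgroup.zpowers v)) = fBelow 2 D g (Subgroup.zpowers w)

theorem PairConj.symm {v w : G} (h : PairConj D g v w) : PairConj D g w v := by
  obtain ⟨t, h1, h2⟩ := h
  exact ⟨t⁻¹, by rw [← h1]; group, by rw [← h2, conjA_conjA, inv_mul_cancel, conjA_one_left]⟩

theorem PairConj.trans {u v w : G} (h : PairConj D g u v) (h' : PairConj D g v w) :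
    PairConj D g u w := by
  obtain ⟨t, h1, h2⟩ := h
  obtain ⟨t', h1', h2'⟩ := h'
  exact ⟨t' * t, by rw [← h1', ← h1]; group, by rw [← conjA_conjA, h2, h2']⟩

theorem pairConj_of_mem (hmax : IsMaxPairIdem 2 ⊤ (topEl M B) D g) {v t : G} (hv : v ∈ D)
    (ht : t ∈ D) : PairConj D g v (t * v * t⁻¹) :=
  ⟨t, rfl, by rw [conjA_fBelow hmax ht (Subgroup.zpowers_le.mpr hv), zpowers_conj_eq_map]⟩

/-- The values at conjugate pairs agree. -/
theorem lval_transport (hM : IsPModular 2 M) (hB : IsPBlock M B)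
    (hmax : IsMaxPairIdem 2 ⊤ (topEl M B) D g) {v w t : G} (hv : v ∈ D) (h1 : t * v * t⁻¹ = w)
    (h2 : Blocks.conjA t (fBelow 2 D g (Subgroup.zpowers v)) = fBelow 2 D g (Subgroup.zpowers w))
    (χ : IrrCharacter G) {s : cz v} (hs : IsPRegular 2 s) :
    lval (χ : G → ℂ) (w * (t * (s : G) * t⁻¹)) (fBelow 2 D g (Subgroup.zpowers w)) =
      lval (χ : G → ℂ) (v * (s : G)) (fBelow 2 D g (Subgroup.zpowers v)) := by
  obtain ⟨hi, hf⟩ := fBelow_fixed hB hmax hv hs
  rw [← h2, ← h1, show t * v * t⁻¹ * (t * (s : G) * t⁻¹) = t * (v * (s : G)) * t⁻¹ by group]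
  exact lval_conjA hM (Chars.isClassFunction_coe χ) t hi hf

theorem conj_mem_cz {v t : G} (s : cz v) : t * (s : G) * t⁻¹ ∈ cz (t * v * t⁻¹) := by
  rw [cz_eq_centralizer, Subgroup.mem_centralizer_singleton_iff]
  have e : (s : G) * v = v * (s : G) :=
    Subgroup.mem_centralizer_singleton_iff.1 (cz_eq_centralizer v ▸ s.2)
  calc t * (s : G) * t⁻¹ * (t * v * t⁻¹) = t * ((s : G) * v) * t⁻¹ := by group
    _ = _ := by rw [e]; group

/-- **Pairs that are not conjugate give orthogonal columns.** -/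
theorem pair_orth [Fintype (IrrCharacter G)] (hM : IsPModular 2 M) (hB : IsPBlock M B)
    (hmax : IsMaxPairIdem 2 ⊤ (topEl M B) D g) {v w : G} (hv : v ∈ D) (hw : w ∈ D)
    (hne : ¬ PairConj D g v w) {s : cz v} (hs : IsPRegular 2 s) {s' : cz w} (hs' : IsPRegular 2 s') :
    ∑ χ : IrrCharacter G, lval (χ : G → ℂ) (v * (s : G)) (fBelow 2 D g (Subgroup.zpowers v)) *
      conj (lval (χ : G → ℂ) (w * (s' : G)) (fBelow 2 D g (Subgroup.zpowers w))) = 0 := by
  classical
  haveI := Fintype.ofFinite (cz v)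
  haveI := Fintype.ofFinite (cz w)
  haveI := Fintype.ofFinite (IrrCharacter (cz v))
  obtain ⟨b, hb, hbe⟩ := exists_sect hM hB hmax hv
  obtain ⟨b', hb', hbe'⟩ := exists_sect hM hB hmax hw
  simp only [lval_sect hM hmax hv hb.1 hbe _ hs]
  by_cases hconj : ∃ t, t * v * t⁻¹ = w
  swap
  · simp only [lval_sect hM hmax hw hb'.1 hbe' _ hs']
    refine sum_rep_mul_conj_eq_zero (sect_rep hM (exists_orderOf_of_mem hmax hv) hb.1 hs)
      (sect_rep hM (exists_orderOf_of_mem hmax hw) hb'.1 hs') fun h h' hh hh' hc => hconj ?_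
    obtain ⟨t, ht⟩ := isConj_iff.1 hc
    exact ⟨t, by rw [← hh, ← hh', ← ht, ppart_conj]⟩
  obtain ⟨t, rfl⟩ := hconj
  set f' := Blocks.conjA t⁻¹ (fBelow 2 D g (Subgroup.zpowers (t * v * t⁻¹))) with hf'
  have hblk : IsBlockIdem (cz v) f' := by
    have h := (mem_blocksOver.mp
      (fBelow_mem_blocksOver hB hmax (Subgroup.zpowers_le.mpr hw))).1.conjA t⁻¹
    rw [top_inf_eq, map_conj_centralizer, ← zpowers_conj_eq_map,
      show t⁻¹ * (t * v * t⁻¹) * t⁻¹⁻¹ = v by group] at h
    exact h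
  obtain ⟨c, hc, hce⟩ := exists_subEl_eq hblk
  have hne' : b ≠ c := fun e => hne ⟨t, rfl, by
    rw [← hbe, e, hce, hf', conjA_conjA, mul_inv_cancel, conjA_one_left]⟩
  have hmem : t⁻¹ * (s' : G) * t ∈ cz v := by
    have := conj_mem_cz (t := t⁻¹) s'
    rwa [show t⁻¹ * (t * v * t⁻¹) * t⁻¹⁻¹ = v by group, inv_inv] at this
  set s'' : cz v := ⟨t⁻¹ * (s' : G) * t, hmem⟩ with hs''def
  have hs'' : IsPRegular 2 s'' := by
    show ¬ 2 ∣ orderOf s''
    have e : (s'' : G) = MulAut.conj t⁻¹ (s' : G) := by simp [hs''def]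
    rw [← Subgroup.orderOf_coe, e, MulEquiv.orderOf_eq,
      Subgroup.orderOf_coe]
    exact hs'
  have hkey : ∀ χ : IrrCharacter G,
      lval (χ : G → ℂ) (t * v * t⁻¹ * (s' : G)) (fBelow 2 D g (Subgroup.zpowers (t * v * t⁻¹))) =
        sectPart c v χ s'' := by
    intro χ
    obtain ⟨hi, hf⟩ := fBelow_fixed hB hmax hw hs'
    rw [← lval_conjA hM (Chars.isClassFunction_coe χ) t⁻¹ hi hf, ← hf', ← hce,
      show t⁻¹ * (t * v * t⁻¹ * (s' : G)) * t⁻¹⁻¹ = v * (s'' : G) by rw [hs''def]; group,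
      lval_subEl hM (Chars.isClassFunction_coe χ) (exists_orderOf_of_mem hmax hv) hc hs'']
    rfl
  simp only [hkey]
  rw [sum_sect_mul_conj hM (exists_orderOf_of_mem hmax hv) hb.1 hc hs hs'', if_neg hne']

/-- A column with one function on the section. -/
def RankOne (D : Subgroup G) (g : (kres M)[G]) (v : G) (p : IrrCharacter G → ℂ) : Prop :=
  ∃ l : G → ℂ,
    (∀ (χ : IrrCharacter G) (s : cz v), IsPRegular 2 s →
      lval (χ : G → ℂ) (v * (s : G)) (fBelow 2 D g (Subgroup.zpowers v)) = p χ * l s) ∧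
    ∃ s : cz v, IsPRegular 2 s ∧ l s ≠ 0

theorem RankOne.eq_zero (hM : IsPModular 2 M) (hB : IsPBlock M B)
    (hmax : IsMaxPairIdem 2 ⊤ (topEl M B) D g) {v : G} (hv : v ∈ D) {p : IrrCharacter G → ℂ}
    (h : RankOne D g v p) {χ : IrrCharacter G} (hχ : χ ∉ B) : p χ = 0 := by
  obtain ⟨l, hl, s, hs, hs0⟩ := h
  exact (mul_eq_zero.1 ((hl χ s hs).symm.trans
    (lval_below_eq_zero hM hB hmax hv hχ hs))).resolve_right hs0

/-- Columns of pairs that are not conjugate are orthogonal. -/
theorem RankOne.orth [Fintype (IrrCharacter G)] (hM : IsPModular 2 M) (hB : IsPBlock M B)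
    (hmax : IsMaxPairIdem 2 ⊤ (topEl M B) D g) {v w : G} (hv : v ∈ D) (hw : w ∈ D)
    {p q : IrrCharacter G → ℂ} (h : RankOne D g v p) (h' : RankOne D g w q)
    (hne : ¬ PairConj D g v w) : ∑ χ : IrrCharacter G, p χ * conj (q χ) = 0 := by
  obtain ⟨l, hl, s, hs, hs0⟩ := h
  obtain ⟨l', hl', s', hs', hs0'⟩ := h'
  refine (mul_eq_zero.1 (?_ : _ * (l s * conj (l' s')) = 0)).resolve_right
    (mul_ne_zero hs0 ((map_ne_zero (starRingEnd ℂ)).2 hs0'))
  rw [← pair_orth hM hB hmax hv hw hne hs hs', Finset.sum_mul]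
  exact Finset.sum_congr rfl fun χ _ => by rw [hl χ s hs, hl' χ s' hs', map_mul]; ring

/-- Conjugate pairs have proportional columns. -/
theorem RankOne.proportional (hM : IsPModular 2 M) (hB : IsPBlock M B)
    (hmax : IsMaxPairIdem 2 ⊤ (topEl M B) D g) {v w : G} (hw : w ∈ D)
    {p q : IrrCharacter G → ℂ} (h : RankOne D g v p) (h' : RankOne D g w q)
    (hc : PairConj D g v w) : ∃ a : ℂ, ∀ χ, q χ = a * p χ := by
  obtain ⟨l, hl, -, -, -⟩ := h
  obtain ⟨l', hl', s', hs', hs0'⟩ := h'
  obtain ⟨t, h1, h2⟩ := hc.symm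
  refine ⟨l (t * (s' : G) * t⁻¹) / l' s', fun χ => ?_⟩
  have hs : IsPRegular 2 (⟨t * (s' : G) * t⁻¹, h1 ▸ conj_mem_cz s'⟩ : cz v) := by
    show ¬ 2 ∣ orderOf _
    rw [Subgroup.orderOf_mk, ← MulAut.conj_apply, MulEquiv.orderOf_eq, Subgroup.orderOf_coe]
    exact hs'
  have e := lval_transport hM hB hmax hw h1 h2 χ hs'
  rw [hl χ ⟨_, _⟩ hs, hl' χ s' hs'] at e
  field_simp
  linear_combination -e

theorem RankOne.rep (hM : IsPModular 2 M) (hB : IsPBlock M B)
    (hmax : IsMaxPairIdem 2 ⊤ (topEl M B) D g) {v : G} (hv : v ∈ D) {p : IrrCharacter G → ℂ}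
    (h : RankOne D g v p) : IsRep (fun k : G => ppart 2 k = v) p := by
  haveI := Fintype.ofFinite (cz v)
  obtain ⟨b, hb, hbe⟩ := exists_sect hM hB hmax hv
  obtain ⟨l, hl, s, hs, hs0⟩ := h
  refine ((sect_rep hM (exists_orderOf_of_mem hmax hv) hb.1 hs).smul (l s)⁻¹).congr fun χ => ?_
  rw [← lval_sect hM hmax hv hb.1 hbe χ hs, hl χ s hs]
  field_simp

theorem even_orderOf_of_ppart {v k : G} (hv : v ≠ 1) (hk : ppart 2 k = v) :
    2 ∣ orderOf k := by
  by_contra h
  exact hv (hk ▸ ppart_eq ⟨k, one_mul k, Commute.one_left k, ⟨0, by rw [orderOf_one, pow_zero]⟩, h⟩)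

end Below

section Central

variable {B : Set (IrrCharacter G)} {D : Subgroup G} {g : (kres M)[G]}

/-- At a central element there is only the block. -/
theorem fBelow_central (hB : IsPBlock M B) (hmax : IsMaxPairIdem 2 ⊤ (topEl M B) D g) {z : G}
    (hz : z ∈ Subgroup.center G) (hzD : z ∈ D) :
    fBelow 2 D g (Subgroup.zpowers z) = topEl M B := by
  have hle : Subgroup.zpowers z ≤ D := Subgroup.zpowers_le.mpr hzD
  have htop : Subgroup.centralizer (Subgroup.zpowers z : Set G) = ⊤ := by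
    rw [Blocks.centralizer_zpowers_eq, eq_top_iff]
    exact fun t _ => Subgroup.mem_centralizer_singleton_iff.2 (Subgroup.mem_center_iff.1 hz t)
  have hE := isBlockIdem_topEl hB (M := M)
  obtain ⟨hfb, hfo⟩ := mem_blocksOver.mp (fBelow_mem_blocksOver hB hmax hle)
  rw [htop, inf_top_eq] at hfb
  have hfix : brTrunc (Subgroup.zpowers z) (topEl M B) = topEl M B :=
    brTrunc_eq_self (by rw [htop]; exact isSupportedOn_top _)
  have h1 : topEl M B * fBelow 2 D g (Subgroup.zpowers z) = fBelow 2 D g (Subgroup.zpowers z) := by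
    conv_rhs => rw [← (hfo : brTrunc (Subgroup.zpowers z) (topEl M B) * _ = _), hfix]
  rcases hE.2.2.2 _ hfb.1 hfb.2.1 with h | h
  · exfalso
    rw [commute_centerIn hfb.1 hE.1, h1] at h
    exact hfb.2.2.1 h
  · rwa [commute_centerIn hfb.1 hE.1, h1] at h

/-- Translation by a central element acting as a scalar. -/
theorem lval_central_mul (hM : IsPModular 2 M) {F : G → ℂ}
    (hF : IsClassFunction G F) {z : G} (hz : z ∈ Subgroup.center G) {ω : ℂ}
    (hω : ∀ a, F (z * a) = ω * F a) {h : G} {y : (kres M)[G]} (hy : IsIdempotentElem y)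
    (hyh : IsFixedBy y (Subgroup.zpowers h)) :
    lval F (z * h) y = ω * lval F h y := by
  obtain ⟨e, he, heh, her⟩ := exists_idem_lift hy hyh
  have hzc : ∀ a : G, z * a = a * z := fun a => (Subgroup.mem_center_iff.1 hz a).symm
  have hfix : IsFixedBy y (Subgroup.zpowers (z * h)) := by
    rw [isFixedBy_iff_conjA]
    rintro _ ⟨i, rfl⟩
    have hc : Commute z h := hzc h
    show Blocks.conjA ((z * h) ^ i) y = y
    rw [hc.mul_zpow, ← conjA_conjA, isFixedBy_iff_conjA.1 hyh _ ⟨i, rfl⟩]
    refine MonoidAlgebra.ext (Finsupp.ext fun k => ?_)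
    rw [coeff_conjA]
    congr 1
    rw [mul_assoc, Subgroup.mem_center_iff.1 ((Subgroup.center G).zpow_mem hz i) k,
      inv_mul_cancel_left]
  have hc : Commute (single (z * h) (1 : localRing M)) e := by
    have h1 : Commute (single z (1 : localRing M)) e := by
      refine MonoidAlgebra.single_commute (fun a => ?_) (fun r => Commute.one_left r) e
      exact hzc a
    have h2 := h1.mul_left (heh h (Subgroup.mem_zpowers h))
    rwa [MonoidAlgebra.single_mul_single, one_mul] at h2
  rw [← trv_eq_lval hM hF he hc hy hfix (by rw [her]),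
    ← trv_eq_lval hM hF he (heh h (Subgroup.mem_zpowers h)) hy hyh (by rw [her]), trv_eq_sum,
    trv_eq_sum, Finset.mul_sum]
  exact Finset.sum_congr rfl fun k _ => by rw [mul_assoc z, hω]; ring

end Central

end CfsgLib.Blocks.TwoGen
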