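import Cfsg.Agent.Blocks.TwoGen.Setup
import Cfsg.Agent.Blocks.TwoGen.Pairs
import Cfsg.Agent.Blocks.TwoGen.Fourier

/-!
# The columns at the powers of `x`

The block of the normalizer of the cyclic group of order four gives for every member of `B` a
function on `ZMod (2 ^ m)` with integral Fourier coefficients.
-/

set_option autoImplicit false
set_option maxHeartbeats 1000000
open scoped MonoidAlgebra ComplexConjugate

namespace CfsgLib.Blocks.TwoGen

open Cfsg CfsgLib CfsgLib.Blocks CfsgLib.Blocks.NilSection CfsgLib.Blocks.DihedralBlk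

universe u

variable {G : Type u} [Group G]

/-- The power by a residue. -/
def xp {L : ℕ} (x : G) (a : ZMod L) : G := x ^ a.val

/-- The powers of a root of unity by residues. -/
def rootFn {L : ℕ} (μ : ℂ) (a : ZMod L) : ℂ := μ ^ a.val

/-- The half of `2 ^ m`. -/
def half (m : ℕ) : ZMod (2 ^ m) := ((2 ^ (m - 1) : ℕ) : ZMod (2 ^ m))

section Index

variable {D : Subgroup G} {m : ℕ} {s : ℤ} {x y : G}

theorem xp_zero {L : ℕ} [NeZero L] (x : G) : xp (L := L) x 0 = 1 := by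
  rw [xp, ZMod.val_zero, pow_zero]

theorem xp_intCast (h : IsGen D m s x y) (i : ℤ) : xp x (i : ZMod (2 ^ m)) = x ^ i := by
  rw [xp, ← zpow_natCast, h.zpow_eq_iff, ZMod.val_intCast]
  push_cast
  exact ⟨-(i / (2 : ℤ) ^ m), by linarith [Int.emod_add_mul_ediv i ((2 : ℤ) ^ m)]⟩

theorem xp_natCast (h : IsGen D m s x y) (a : ℕ) : xp x (a : ZMod (2 ^ m)) = x ^ a := by
  have := xp_intCast h (a : ℤ)
  rwa [Int.cast_natCast, zpow_natCast] at this

theorem xp_add (h : IsGen D m s x y) (a b : ZMod (2 ^ m)) : xp x (a + b) = xp x a * xp x b := by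
  rw [xp, xp, xp, ← pow_add, ← xp_natCast h (a.val + b.val), Nat.cast_add,
    ZMod.natCast_zmod_val, ZMod.natCast_zmod_val]
  rfl

theorem xp_mem (h : IsGen D m s x y) (a : ZMod (2 ^ m)) : xp x a ∈ D := D.pow_mem h.x_mem _

theorem xp_injective (h : IsGen D m s x y) : Function.Injective (xp (L := 2 ^ m) x) := by
  intro a b e
  have e' : x ^ (a.val : ℤ) = x ^ (b.val : ℤ) := by rw [zpow_natCast, zpow_natCast]; exact e
  rw [h.zpow_eq_iff] at e'
  have h1 : ((a.val : ℤ) : ZMod (2 ^ m)) = ((b.val : ℤ) : ZMod (2 ^ m)) := by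
    rw [ZMod.intCast_eq_intCast_iff_dvd_sub]
    push_cast
    rw [dvd_sub_comm]
    exact e'
  simpa [ZMod.natCast_zmod_val] using h1

theorem xp_conj (h : IsGen D m s x y) (a : ZMod (2 ^ m)) :
    y * xp x a * y⁻¹ = xp x ((s : ZMod (2 ^ m)) * a) := by
  rw [xp, ← zpow_natCast, h.y_mul_zpow, mul_inv_cancel_right, ← xp_intCast h]
  push_cast
  rw [ZMod.natCast_zmod_val, mul_comm]

theorem xp_half (h : IsGen D m s x y) : xp x (half m) = x ^ 2 ^ (m - 1) := xp_natCast h _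

theorem half_val (h : IsGen D m s x y) : (half m).val = 2 ^ (m - 1) := by
  rw [half, ZMod.val_natCast, Nat.mod_eq_of_lt
    (Nat.pow_lt_pow_right one_lt_two (by have := h.two_le; omega))]

/-- A residue other than `0` and the half is not divisible by the half. -/
theorem not_dvd_of_ne (h : IsGen D m s x y) {a : ZMod (2 ^ m)} (ha : a ≠ 0) (ha' : a ≠ half m) :
    ¬ (2 : ℤ) ^ (m - 1) ∣ (a.val : ℤ) := by
  rintro ⟨d, hd⟩
  have e : ((a.val : ℤ) : ZMod (2 ^ m)) = a := by simp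
  obtain ⟨q, rfl | rfl⟩ := Int.even_or_odd' d
  · apply ha
    rw [← e, hd, ZMod.intCast_zmod_eq_zero_iff_dvd]
    push_cast
    rw [h.two_pow_eq.1, h.two_pow_eq.2]
    exact ⟨q, by ring⟩
  · apply ha'
    rw [← e, hd, half, show ((2 ^ (m - 1) : ℕ) : ZMod (2 ^ m)) = (((2 : ℤ) ^ (m - 1) : ℤ) : ZMod (2 ^ m))
      by push_cast; rfl, ZMod.intCast_eq_intCast_iff_dvd_sub]
    push_cast
    rw [h.two_pow_eq.1, h.two_pow_eq.2]
    exact ⟨-q, by ring⟩

/-- The element of order four is a power of every power other than `1` and the involution. -/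
theorem i_mem_zpowers (h : IsGen D m s x y) {a : ℕ} (ha : ¬ (2 : ℤ) ^ (m - 1) ∣ (a : ℤ)) :
    x ^ 2 ^ (m - 2) ∈ Subgroup.zpowers (x ^ a) := by
  obtain ⟨j, hj, e⟩ := (Nat.dvd_prime_pow Nat.prime_two).1 (Nat.gcd_dvd_right a (2 ^ m))
  have hj2 : j ≤ m - 2 := by
    by_contra hcon
    apply ha
    have h1 : 2 ^ (m - 1) ∣ a := (pow_dvd_pow 2 (show m - 1 ≤ j by omega)).trans
      (e ▸ Nat.gcd_dvd_left a (2 ^ m))
    exact_mod_cast h1
  refine ⟨Nat.gcdA a (2 ^ m) * 2 ^ (m - 2 - j), ?_⟩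
  show (x ^ a) ^ (Nat.gcdA a (2 ^ m) * 2 ^ (m - 2 - j)) = _
  have hb := Nat.gcd_eq_gcd_ab a (2 ^ m)
  rw [e] at hb
  push_cast at hb
  rw [← zpow_natCast x a, ← zpow_mul, h.i_zpow, h.zpow_eq_iff,
    show (2 : ℤ) ^ (m - 2) = 2 ^ j * 2 ^ (m - 2 - j) by rw [← pow_add, Nat.add_sub_cancel' hj2], hb]
  exact ⟨-(Nat.gcdB a (2 ^ m)) * 2 ^ (m - 2 - j), by ring⟩

theorem mem_zpowers_i (h : IsGen D m s x y) {u : G} (hu : u ∈ Subgroup.zpowers x) (h4 : u ^ 4 = 1) :
    u ∈ Subgroup.zpowers (x ^ 2 ^ (m - 2)) := by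
  obtain ⟨n, rfl⟩ := hu
  show x ^ n ∈ _
  have h4' : x ^ (n * 4) = 1 := by
    rw [zpow_mul]; exact_mod_cast h4
  rw [h.zpow_eq_one_iff, h.two_pow_eq.1] at h4'
  obtain ⟨d, hd⟩ := h4'
  refine ⟨d, ?_⟩
  show (x ^ 2 ^ (m - 2)) ^ d = x ^ n
  rw [h.i_zpow, ← zpow_mul]
  congr 1
  linarith

/-- The elements moving one such power to another normalize the cyclic group of order four. -/
theorem mem_normalizer_i [Finite G] (h : IsGen D m s x y) {a b : ZMod (2 ^ m)} (ha : a ≠ 0)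
    (ha' : a ≠ half m) {k : G} (hk : k * xp x a * k⁻¹ = xp x b) :
    k ∈ Subgroup.normalizer (Subgroup.zpowers (x ^ 2 ^ (m - 2)) : Set G) := by
  refine mem_normalizer_of_map_conj_le ?_
  rw [← zpowers_conj_eq_map, Subgroup.zpowers_le]
  obtain ⟨n, hn⟩ := i_mem_zpowers h (not_dvd_of_ne h ha ha')
  refine mem_zpowers_i h ⟨(b.val : ℤ) * n, ?_⟩ ?_
  · show x ^ ((b.val : ℤ) * n) = _
    rw [zpow_mul, zpow_natCast, show x ^ b.val = xp x b from rfl, ← hk, conj_zpow]
    exact congrArg (k * · * k⁻¹) hn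
  · rw [conj_pow, show (x ^ 2 ^ (m - 2)) ^ 4 = 1 by rw [← h.orderOf_i, pow_orderOf_eq_one]]
    group

theorem s_mul_self (h : IsGen D m s x y) : (s : ZMod (2 ^ m)) * s = 1 := by
  rw [← Int.cast_mul, ← Int.cast_one, ZMod.intCast_eq_intCast_iff_dvd_sub]
  push_cast
  rw [dvd_sub_comm]
  exact h.s_sq

theorem s_mul_half (h : IsGen D m s x y) : (s : ZMod (2 ^ m)) * half m = half m := by
  rw [half, show ((2 ^ (m - 1) : ℕ) : ZMod (2 ^ m)) = (((2 : ℤ) ^ (m - 1) : ℤ) : ZMod (2 ^ m))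
    by push_cast; rfl, ← Int.cast_mul, ZMod.intCast_eq_intCast_iff_dvd_sub]
  push_cast
  obtain ⟨c, hc⟩ := h.s_mod_four
  rw [h.two_pow_eq.1, h.two_pow_eq.2]
  exact ⟨1 - 2 * c, by linear_combination (-2 * (2 : ℤ) ^ (m - 2)) * hc⟩

theorem fixed_of_s (h : IsGen D m s x y) {a : ZMod (2 ^ m)} (ha : (s : ZMod (2 ^ m)) * a = a) :
    a = 0 ∨ a = half m := by
  by_contra hcon
  push Not at hcon
  apply not_dvd_of_ne h hcon.1 hcon.2
  have e : (((1 - s) * a.val : ℤ) : ZMod (2 ^ m)) = 0 := by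
    push_cast
    rw [ZMod.natCast_zmod_val, sub_mul, one_mul, ha, sub_self]
  rw [ZMod.intCast_zmod_eq_zero_iff_dvd] at e
  push_cast at e
  obtain ⟨u, u', hu, c, hc⟩ := h.exists_inverse
  obtain ⟨d, hd⟩ := e
  rw [hu, h.two_pow_eq.1] at hd
  rw [h.two_pow_eq.2] at hc ⊢
  have hd' : u * (a.val : ℤ) = 2 * 2 ^ (m - 2) * d := by linarith
  exact ⟨d * u' - a.val * c, by linear_combination u' * hd' - (a.val : ℤ) * hc⟩

end Index

section Rot

variable [Fintype G] {M : Ideal AlgInt} [hMmax : M.IsMaximal] [hp : Fact (Nat.Prime 2)]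
  [CharP (kres M) 2] {B : Set (IrrCharacter G)} {D : Subgroup G} {g : (kres M)[G]} {m : ℕ} {s : ℤ}
  {x y : G}

/-- The columns at the powers of `x`. -/
structure RotData (B : Set (IrrCharacter G)) (D : Subgroup G) (g : (kres M)[G]) (m : ℕ) (s : ℤ)
    (x : G) (μ : ℂ) (c : IrrCharacter G → ZMod (2 ^ m) → ℤ)
    (F : IrrCharacter G → ZMod (2 ^ m) → ℂ) : Prop where
  cols : RotCols B.toFinite.toFinset (rootFn μ) (s : ZMod (2 ^ m)) (half m) c F
  fixed : ∀ j : ZMod (2 ^ m), (s : ZMod (2 ^ m)) * j = j → j = 0 ∨ j = half m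
  zero : ∀ χ, χ ∉ B → ∀ a, a ≠ 0 → a ≠ half m → F χ a = 0
  rankOne : ∀ a, a ≠ 0 → a ≠ half m → RankOne D g (xp x a) fun χ => F χ a
  parity : ∀ χ ∈ B, Odd (c χ 0 - c χ (half m)) ↔ blockHeight 2 B (χ : G → ℂ) = 0
  unit : ∀ χ ∈ B, blockHeight 2 B (χ : G → ℂ) = 0 → ∀ a, ¬ MemLocalIdeal M (F χ a)
  loc : ∀ χ a, MemLocalRing M (F χ a)
  twist : x ^ 2 ^ (m - 1) ∈ Subgroup.center G → ∃ σ : ℂ, σ * σ = 1 ∧ ∀ (χ : IrrCharacter G) (ω : ℂ),
    (∀ k, (χ : G → ℂ) (x ^ 2 ^ (m - 1) * k) = ω * (χ : G → ℂ) k) →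
      ∀ a, F χ (a + half m) = ω * σ * F χ a

variable {H : Subgroup G} [Fintype H] {b : Set (IrrCharacter H)} {P : Subgroup H} {gH : (kres M)[H]}
  {ψ : IrrCharacter H}

/-- The values on the products with a central involution. -/
theorem loc_twist (c : Loc M B D g H b P gH ψ) {z : H} (hz : z ∈ Subgroup.center H) (hzP : z ∈ P)
    (hz2 : z * z = 1) :
    ∃ σ : ℂ, σ * σ = 1 ∧ ∀ (χ : IrrCharacter G) (ω : ℂ),
      (∀ k : H, (χ : G → ℂ) ((z * k : H) : G) = ω * (χ : G → ℂ) (k : G)) →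
        ∀ v ∈ P, pFn b P gH ψ χ (z * v) = ω * σ * pFn b P gH ψ χ v := by
  classical
  haveI := Fintype.ofFinite P
  haveI := Fintype.ofFinite (IrrCharacter P)
  obtain ⟨Φ, hΦ⟩ := exists_members c.hM c.hind.1 c.hmax c.hnil c.hψ c.h0
  have hψ1 := Chars.map_one_ne_zero ψ
  have hsq : ∀ ξ : IrrCharacter H, ((ξ : H → ℂ) z / (ξ : H → ℂ) 1) * ((ξ : H → ℂ) z / (ξ : H → ℂ) 1) = 1 := by
    intro ξ
    have h := Chars.map_mul_of_mem_center ξ hz z
    rw [hz2] at h
    have h1 := Chars.map_one_ne_zero ξ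
    field_simp at h ⊢
    linear_combination -h
  refine ⟨(ψ : H → ℂ) z / (ψ : H → ℂ) 1, hsq ψ, fun χ ω hω v hv => ?_⟩
  rw [pFn, pFn, finsum_eq_sum_of_fintype, finsum_eq_sum_of_fintype, Finset.mul_sum]
  refine Finset.sum_congr rfl fun ζ _ => ?_
  rw [← hΦ]
  set ξ : IrrCharacter H := (Φ ζ : IrrCharacter H) with hξ
  by_cases hn : classInner (fun h : H => (χ : G → ℂ) h) (ξ : H → ℂ) = 0
  · rw [hn]; ring
  have hωξ : ω = (ξ : H → ℂ) z / (ξ : H → ℂ) 1 := by
    by_contra hne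
    apply hn
    have e : classInner (fun h : H => (χ : G → ℂ) h) (ξ : H → ℂ) =
        ω * conj ((ξ : H → ℂ) z / (ξ : H → ℂ) 1) *
          classInner (fun h : H => (χ : G → ℂ) h) (ξ : H → ℂ) := by
      conv_lhs => rw [classInner, ← Equiv.sum_comp (Equiv.mulLeft z)]
      rw [classInner, mul_left_comm]
      congr 1
      rw [Finset.mul_sum]
      refine Finset.sum_congr rfl fun k _ => ?_
      simp only [Equiv.coe_mulLeft]
      rw [hω, Chars.map_mul_of_mem_center ξ hz k, map_mul]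
      ring
    have hreal : conj ((ξ : H → ℂ) z / (ξ : H → ℂ) 1) = (ξ : H → ℂ) z / (ξ : H → ℂ) 1 := by
      rcases mul_self_eq_one_iff.1 (hsq ξ) with e | e <;> rw [e] <;> simp
    rw [hreal] at e
    by_contra h0
    have h1 : ω * ((ξ : H → ℂ) z / (ξ : H → ℂ) 1) = 1 := by
      refine mul_right_cancel₀ h0 ?_
      rw [one_mul]; exact e.symm
    apply hne
    linear_combination ((ξ : H → ℂ) z / (ξ : H → ℂ) 1) * h1 - ω * hsq ξ
  have htop : cz z = ⊤ := by
    rw [cz, Blocks.centralizer_zpowers_eq, eq_top_iff]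
    intro t _
    exact Subgroup.mem_centralizer_singleton_iff.2 (Subgroup.mem_center_iff.1 hz t)
  have hr1 : IsPRegular 2 (1 : H) := by
    show ¬ 2 ∣ orderOf (1 : H)
    rw [orderOf_one]
    norm_num
  have e1 := apply_central c.hM c.hind.1 c.hmax c.hnil c.hψ hΦ hzP htop ζ hr1
  have e2 := apply_regular c.hM c.hind.1 c.hmax c.hnil c.hψ hΦ ζ hr1
  rw [mul_one, ← hξ] at e1
  rw [← hξ] at e2
  have hζ1 : charExt P ζ 1 ≠ 0 := by
    intro h0
    rw [h0, zero_mul] at e2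
    exact Chars.map_one_ne_zero ξ e2
  have hzc : (⟨z, hzP⟩ : P) ∈ Subgroup.center P :=
    Subgroup.mem_center_iff.2 fun w => Subtype.ext (Subgroup.mem_center_iff.1 hz w)
  have hmul := Chars.map_mul_of_mem_center ζ hzc ⟨v, hv⟩
  rw [← charExt_coe, ← charExt_coe, ← charExt_coe, ← charExt_coe] at hmul
  simp only [Subgroup.coe_mul, OneMemClass.coe_one] at hmul
  rw [hmul, hωξ, e1, e2]
  have hsq' := hsq ψ
  field_simp at hsq' ⊢
  linear_combination (-(charExt P ζ z * charExt P ζ v)) * hsq'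

theorem exists_rotData (hM : IsPModular 2 M) (hB : IsPBlock M B)
    (hmax : IsMaxPairIdem 2 ⊤ (topEl M B) D g) (h : IsGen D m s x y) {μ : ℂ}
    (hμ : IsPrimitiveRoot μ (2 ^ m)) :
    ∃ (c : IrrCharacter G → ZMod (2 ^ m) → ℤ) (F : IrrCharacter G → ZMod (2 ^ m) → ℂ),
      RotData B D g m s x μ c F := by
  classical
  set H := Subgroup.normalizer (Subgroup.zpowers (x ^ 2 ^ (m - 2)) : Set G) with hH
  haveI := Fintype.ofFinite H
  obtain ⟨b, gH, ψ, hl, hDH, hCi⟩ := exists_loc_normalizer hM hB hmax h hH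
  set P := D.subgroupOf H with hP
  set xH : H := ⟨x, hDH h.x_mem⟩ with hxH
  have hxP : xH ∈ P := h.x_mem
  set F : IrrCharacter G → ZMod (2 ^ m) → ℂ := fun χ a => pFn b P gH ψ χ (xH ^ a.val) with hF
  have hxo : orderOf xH = 2 ^ m := by rw [hxH, Subgroup.orderOf_mk, h.ox]
  choose k hk using fun χ => loc_expand hl hxP (Nat.two_pow_pos m) hxo hμ χ
  set c : IrrCharacter G → ZMod (2 ^ m) → ℤ := fun χ j => k χ j.val with hc
  have hcoe : ∀ a : ZMod (2 ^ m), ((xH ^ a.val : H) : G) = xp x a := fun a => rfl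
  have hpm : ∀ a : ZMod (2 ^ m), xH ^ a.val ∈ P := fun a => P.pow_mem hxP _
  have hpow : ∀ n : ℕ, μ ^ n = μ ^ (n % 2 ^ m) := fun n => by
    conv_lhs => rw [← Nat.mod_add_div n (2 ^ m), pow_add, pow_mul, hμ.pow_eq_one, one_pow, mul_one]
  have hexp : ∀ (χ : IrrCharacter G) (a : ZMod (2 ^ m)),
      F χ a = ∑ j, (c χ j : ℂ) * rootFn μ (j * a) := by
    intro χ a
    simp only [hF]
    rw [hk χ a.val]
    refine Finset.sum_bij' (fun j _ => (j : ZMod (2 ^ m))) (fun j _ => j.val)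
      (fun j _ => Finset.mem_univ _) (fun j _ => Finset.mem_range.2 (ZMod.val_lt j))
      (fun j hj => by rw [ZMod.val_natCast, Nat.mod_eq_of_lt (Finset.mem_range.1 hj)])
      (fun j _ => ZMod.natCast_zmod_val j) fun j hj => ?_
    simp only [hc, rootFn, ZMod.val_mul, ZMod.val_natCast, Nat.mod_eq_of_lt (Finset.mem_range.1 hj)]
    rw [← hpow]
  have hCa : ∀ a : ZMod (2 ^ m), a ≠ 0 → a ≠ half m →
      Subgroup.centralizer ({((xH ^ a.val : H) : G)} : Set G) ≤ H := by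
    intro a ha ha' k hk'
    rw [Subgroup.mem_centralizer_singleton_iff, hcoe] at hk'
    exact mem_normalizer_i h ha ha' (b := a) (by rw [hk', mul_inv_cancel_right])
  have hzero : ∀ χ, χ ∉ B → ∀ a, a ≠ 0 → a ≠ half m → F χ a = 0 := fun χ hχ a ha ha' =>
    loc_eq_zero hl hχ (hpm a) (hCa a ha ha')
  have he0 : rootFn μ (0 : ZMod (2 ^ m)) = 1 := by rw [rootFn, ZMod.val_zero, pow_zero]
  have hadd : ∀ a b : ZMod (2 ^ m), rootFn μ (a + b) = rootFn μ a * rootFn μ b := fun a b => by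
    rw [rootFn, rootFn, rootFn, ← pow_add, ZMod.val_add, ← hpow]
  have hhalf : rootFn μ (half m) = -1 := by
    rw [rootFn, half_val h]
    have h2 : 2 ^ m = 2 * 2 ^ (m - 1) := by
      rw [← pow_succ', Nat.sub_add_cancel (by have := h.two_le; omega)]
    have hsq : μ ^ 2 ^ (m - 1) * μ ^ 2 ^ (m - 1) = 1 := by
      rw [← pow_add, ← two_mul, ← h2, hμ.pow_eq_one]
    refine (mul_self_eq_one_iff.1 hsq).resolve_left fun e => ?_
    have := Nat.le_of_dvd (Nat.two_pow_pos _) ((hμ.pow_eq_one_iff_dvd _).1 e)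
    have := Nat.two_pow_pos (m - 1)
    omega
  have hcols : RotCols B.toFinite.toFinset (rootFn μ) (s : ZMod (2 ^ m)) (half m) c F := by
    refine ⟨s_mul_self h, he0, hadd, fun a ha => ?_, fun a => ?_, hhalf, ?_, s_mul_half h,
      fun j => ?_, fun χ _ => hexp χ, fun χ _ a => ?_, fun a b' ha ha' hb hb' => ?_⟩
    · rw [rootFn, hμ.pow_eq_one_iff_dvd] at ha
      exact (ZMod.val_eq_zero a).1 (Nat.eq_zero_of_dvd_of_lt ha (ZMod.val_lt a))
    · have e1 : rootFn μ (-a) * rootFn μ a = 1 := by rw [← hadd, neg_add_cancel, he0]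
      rw [eq_inv_of_mul_eq_one_left e1, rootFn,
        ← Complex.inv_eq_conj (show ‖μ ^ a.val‖ = 1 by
          rw [norm_pow, Complex.norm_eq_one_of_pow_eq_one hμ.pow_eq_one (Nat.two_pow_pos m).ne',
            one_pow])]
    · rw [half, ← Nat.cast_add, ← two_mul, ← pow_succ',
        Nat.sub_add_cancel (by have := h.two_le; omega), ZMod.natCast_self]
    · obtain ⟨q, hq | hq⟩ := Nat.even_or_odd' j.val
      all_goals rw [← ZMod.natCast_zmod_val j, hq, half]; push_cast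
      · left
        rw [show ((2 : ZMod (2 ^ m)) ^ (m - 1)) * (2 * (q : ZMod (2 ^ m))) =
          2 ^ m * (q : ZMod (2 ^ m)) by
            rw [← mul_assoc, ← pow_succ, Nat.sub_add_cancel (by have := h.two_le; omega)],
          show (2 : ZMod (2 ^ m)) ^ m = ((2 ^ m : ℕ) : ZMod (2 ^ m)) by push_cast; rfl,
          ZMod.natCast_self, zero_mul]
      · right
        rw [show ((2 : ZMod (2 ^ m)) ^ (m - 1)) * (2 * (q : ZMod (2 ^ m)) + 1) =
          2 ^ m * (q : ZMod (2 ^ m)) + 2 ^ (m - 1) by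
            rw [mul_add, mul_one, ← mul_assoc, ← pow_succ,
              Nat.sub_add_cancel (by have := h.two_le; omega)],
          show (2 : ZMod (2 ^ m)) ^ m = ((2 ^ m : ℕ) : ZMod (2 ^ m)) by push_cast; rfl,
          ZMod.natCast_self, zero_mul, zero_add]
    · have e : (⟨y, hDH h.y_mem⟩ : H) * xH ^ a.val * (⟨y, hDH h.y_mem⟩ : H)⁻¹ =
          xH ^ ((s : ZMod (2 ^ m)) * a).val := Subtype.ext (xp_conj h a)
      simp only [hF]
      rw [← e]
      exact pFn_conj χ (show (⟨y, hDH h.y_mem⟩ : H) ∈ P from h.y_mem) (hpm a)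
    · haveI := Fintype.ofFinite (IrrCharacter G)
      rw [Finset.sum_subset (Finset.subset_univ _) fun χ _ hχ => by
        rw [hzero χ (fun h' => hχ ((Set.Finite.mem_toFinset _).2 h')) a ha ha', zero_mul],
        loc_orth hl (hpm a) (hpm b')
          (fun k hk' => hCa a ha ha' (Subgroup.mem_centralizer_singleton_iff.2 hk'))
          (fun k hk' => mem_normalizer_i h ha ha' (b := b') hk')]
      have hcard : Nat.card (P ⊓ cz (xH ^ a.val) : Subgroup H) = 2 ^ m := by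
        have e : (P ⊓ cz (xH ^ a.val) : Subgroup H) = (Subgroup.zpowers x).subgroupOf H := by
          ext w
          rw [← h.centralizer_rot (not_dvd_of_ne h ha ha')]
          simp only [hP, cz, Blocks.centralizer_zpowers_eq, Subgroup.mem_inf,
            Subgroup.mem_centralizer_singleton_iff, Subgroup.mem_subgroupOf, Subtype.ext_iff,
            zpow_natCast]
          exact Iff.rfl
        rw [e, Nat.card_congr (Subgroup.subgroupOfEquivOfLe
          ((Subgroup.zpowers_le.2 h.x_mem).trans hDH)).toEquiv, Nat.card_zpowers, h.ox]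
      rw [hcard]
      have hiff : IsConj (⟨xH ^ a.val, hpm a⟩ : P) ⟨xH ^ b'.val, hpm b'⟩ ↔
          a = b' ∨ b' = (s : ZMod (2 ^ m)) * a := by
        constructor
        · intro hc'
          obtain ⟨w, hw⟩ := isConj_iff.1 hc'
          have hw' : ((w : H) : G) * xp x a * ((w : H) : G)⁻¹ = xp x b' :=
            congrArg (fun t : P => ((t : H) : G)) hw
          obtain ⟨i, hi | hi⟩ := h.mem_cases (show ((w : H) : G) ∈ D from w.2)
          · left
            apply xp_injective h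
            rw [← hw', hi, xp, ← zpow_natCast x a.val, IsGen.zpow_comm x i, mul_inv_cancel_right]
          · right
            apply xp_injective h
            rw [← hw', hi, show x ^ i * y * xp x a * (x ^ i * y)⁻¹ =
              x ^ i * (y * xp x a * y⁻¹) * (x ^ i)⁻¹ by group, xp_conj h, xp,
              ← zpow_natCast x _, IsGen.zpow_comm x i, mul_inv_cancel_right]
        · rintro (rfl | rfl)
          · exact IsConj.refl _
          · exact isConj_iff.2 ⟨⟨⟨y, hDH h.y_mem⟩, h.y_mem⟩, Subtype.ext (Subtype.ext (xp_conj h a))⟩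
      by_cases hconj : IsConj (⟨xH ^ a.val, hpm a⟩ : P) ⟨xH ^ b'.val, hpm b'⟩
      · rw [if_pos hconj]
        rcases hiff.1 hconj with e | e
        · rw [if_pos e, if_neg fun e' => (fixed_of_s h (e'.symm.trans e.symm)).elim ha ha']
          simp
        · rw [if_pos e, if_neg fun e' : a = b' => (fixed_of_s h (e.symm.trans e'.symm)).elim ha ha']
          simp
      · rw [if_neg hconj, if_neg fun e => hconj (hiff.2 (Or.inl e)),
          if_neg fun e => hconj (hiff.2 (Or.inr e))]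
        simp
  refine ⟨c, F, ⟨hcols, fun j => fixed_of_s h, hzero, fun a ha ha' => ?_, fun χ hχ => ?_,
    fun χ hχ h0 a hI => ?_, fun χ a => loc_memLocalRing hl χ (hpm a), fun hz => ?_⟩⟩
  · obtain ⟨b', hb', hbe, t, ht, ht0⟩ := loc_section hl (hpm a)
    have hmem : ∀ u : cz (xp x a), (u : G) ∈ H := fun u => hCa a ha ha' (by
      rw [hcoe, ← cz_eq_centralizer]; exact u.2)
    have hmem' : ∀ u : cz (xp x a), (⟨(u : G), hmem u⟩ : H) ∈ cz (xH ^ a.val) := fun u => by
      rw [cz_eq_centralizer, Subgroup.mem_centralizer_singleton_iff, Subtype.ext_iff]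
      exact Subgroup.mem_centralizer_singleton_iff.1 (cz_eq_centralizer (xp x a) ▸ u.2)
    refine ⟨fun u => if hu : u ∈ cz (xp x a) then lFn b' ψ ⟨⟨u, hmem ⟨u, hu⟩⟩, hmem' ⟨u, hu⟩⟩ else 0,
      fun χ u hu => ?_, ?_⟩
    · have hu' : IsPRegular 2 (⟨⟨(u : G), hmem u⟩, hmem' u⟩ : cz (xH ^ a.val)) := by
        show ¬ 2 ∣ orderOf _
        rw [Subgroup.orderOf_mk, Subgroup.orderOf_mk, Subgroup.orderOf_coe]
        exact hu
      simp only [dif_pos u.2, hF]
      have e := loc_lval hl χ (hpm a) (hCa a ha ha') hb' hbe hu'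
      simp only [Subgroup.coe_mul, hcoe] at e
      exact e
    · have htm : ((t : H) : G) ∈ cz (xp x a) := by
        rw [cz_eq_centralizer, Subgroup.mem_centralizer_singleton_iff]
        exact congrArg Subtype.val
          (Subgroup.mem_centralizer_singleton_iff.1 ((cz_eq_centralizer (xH ^ a.val)).le t.2))
      refine ⟨⟨_, htm⟩, ?_, ?_⟩
      · show ¬ 2 ∣ orderOf _
        rw [Subgroup.orderOf_mk, Subgroup.orderOf_coe, Subgroup.orderOf_coe]
        exact ht
      · simp only [dif_pos htm]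
        exact ht0
  · have e1 : pFn b P gH ψ χ 1 = ((∑ j, c χ j : ℤ) : ℂ) := by
      have := hexp χ 0
      simp only [hF, ZMod.val_zero, pow_zero, mul_zero, he0, mul_one] at this
      rw [this]
      push_cast
      rfl
    rw [← loc_unit hl hχ, e1, memLocalIdeal_intCast_iff hM]
    refine Iff.trans ?_ (Int.two_dvd_ne_zero.symm : _ ↔ ¬ (2 : ℤ) ∣ _)
    rw [← Int.odd_iff]
    have hp2 := hcols.sum_coeff_mod_two ((Set.Finite.mem_toFinset _).2 hχ) fun j => fixed_of_s h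
    obtain ⟨q, hq⟩ := hp2
    constructor <;> rintro ⟨r, hr⟩
    · exact ⟨r + q, by linarith⟩
    · exact ⟨r - q, by linarith⟩
  · have h1 := (loc_congr hl χ (hpm a)).mem_iff.1 hI
    exact (loc_unit hl hχ).2 h0 h1
  · have hzH : (xH ^ (half m).val : H) ∈ Subgroup.center H := by
      rw [Subgroup.mem_center_iff]
      intro w
      refine Subtype.ext ?_
      simp only [Subgroup.coe_mul, OneMemClass.coe_one]
      rw [hcoe, xp_half h]
      exact Subgroup.mem_center_iff.1 hz w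
    obtain ⟨σ, hσ, htw⟩ := loc_twist hl hzH (hpm _) (Subtype.ext (by
      simp only [Subgroup.coe_mul, OneMemClass.coe_one]
      rw [hcoe, xp_half h, ← pow_two]
      have e := pow_orderOf_eq_one (x ^ 2 ^ (m - 1))
      rwa [h.orderOf_z] at e))
    refine ⟨σ, hσ, fun χ ω hω a => ?_⟩
    have e : xH ^ (a + half m).val = xH ^ (half m).val * xH ^ a.val := by
      refine Subtype.ext ?_
      simp only [Subgroup.coe_mul, OneMemClass.coe_one]
      rw [hcoe, hcoe, hcoe, ← xp_add h, add_comm]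
    simp only [hF]
    rw [e]
    refine htw χ ω (fun k => ?_) _ (hpm a)
    simp only [Subgroup.coe_mul, OneMemClass.coe_one]
    rw [hcoe, xp_half h]
    exact hω k

end Rot

end CfsgLib.Blocks.TwoGen
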