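import Cfsg.Agent.Blocks.TwoGen.RotData
import Cfsg.Agent.Blocks.TwoGen.Lattice

/-!
# The integral vectors of the columns at the powers of `x`

Representatives of the residues up to multiplication by `s`, the vectors `Xv`, `vv`, `uv`, their
products, and the values at the further points of the configuration.
-/

set_option autoImplicit false
set_option maxHeartbeats 1000000
open scoped MonoidAlgebra ComplexConjugate

namespace CfsgLib.Blocks.TwoGen

open Cfsg CfsgLib CfsgLib.Blocks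

universe u

/-- The number of the `vv`. -/
def nv (m : ℕ) : ℕ := 2 ^ (m - 2) - 1

/-- The even representatives. -/
def evRep (m k : ℕ) : ZMod (2 ^ m) := ((2 * (k : ℤ) + 2 : ℤ) : ZMod (2 ^ m))

/-- The odd representatives. -/
def odRep (m : ℕ) (β : ℤ) (k : ℕ) : ZMod (2 ^ m) := ((β + 2 * (k : ℤ) + 1 : ℤ) : ZMod (2 ^ m))

/-- The vector of `0` and the half. -/
def Xv {ι : Type*} {m : ℕ} (c : ι → ZMod (2 ^ m) → ℤ) (p : ι) : ℤ := c p 0 - c p (half m)

/-- The vectors of the even representatives. -/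
def vv {ι : Type*} {m : ℕ} (c : ι → ZMod (2 ^ m) → ℤ) (k : Fin (nv m)) (p : ι) : ℤ :=
  c p 0 - c p (evRep m k)

/-- The vectors of the odd representatives. -/
def uv {ι : Type*} {m : ℕ} (β : ℤ) (c : ι → ZMod (2 ^ m) → ℤ) (k : Fin (nv m)) (p : ι) : ℤ :=
  c p (odRep m β (k + 1)) - c p (odRep m β 0)

/-- The action of `s` on the odd residues is `n ↦ 2 β - n`. -/
def IsShift (m : ℕ) (s β : ℤ) : Prop :=
  (β = 0 ∨ β = (2 : ℤ) ^ (m - 2)) ∧ 2 ∣ β ∧
    (∀ n : ℤ, ((s * (2 * n) : ℤ) : ZMod (2 ^ m)) = ((-(2 * n) : ℤ) : ZMod (2 ^ m))) ∧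
      ∀ n : ℤ, ((s * (2 * n + 1) : ℤ) : ZMod (2 ^ m)) = ((2 * β - (2 * n + 1) : ℤ) : ZMod (2 ^ m))

variable {G : Type u} [Group G] {D : Subgroup G} {m : ℕ} {s : ℤ} {x y : G}

theorem exists_shift (h : IsGen D m s x y) : ∃ β, IsShift m s β := by
  rcases h.kind with ⟨hs, -⟩ | ⟨hm, hs, -⟩
  · subst hs
    exact ⟨0, Or.inl rfl, dvd_zero _, fun n => by ring_nf, fun n => by ring_nf⟩
  · refine ⟨2 ^ (m - 2), Or.inr rfl, dvd_pow_self 2 (by omega), fun n => ?_, fun n => ?_⟩ <;>
      rw [ZMod.intCast_eq_intCast_iff_dvd_sub] <;> push_cast <;>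
      rw [hs, h.two_pow_eq.1, h.two_pow_eq.2]
    · exact ⟨-n, by ring⟩
    · exact ⟨-n, by ring⟩

theorem cast_eq_cast (h : IsGen D m s x y) {a b : ℤ}
    (e : ((a : ℤ) : ZMod (2 ^ m)) = (b : ZMod (2 ^ m))) (h1 : -(4 * 2 ^ (m - 2)) < a - b)
    (h2 : a - b < 4 * 2 ^ (m - 2)) : a = b := by
  rw [ZMod.intCast_eq_intCast_iff_dvd_sub] at e
  push_cast at e
  rw [h.two_pow_eq.1] at e
  have := Int.eq_zero_of_abs_lt_dvd e (abs_lt.2 ⟨by linarith, by linarith⟩)
  linarith

theorem half_eq (h : IsGen D m s x y) :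
    half m = ((2 * 2 ^ (m - 2) : ℤ) : ZMod (2 ^ m)) := by
  rw [half, ← h.two_pow_eq.2]
  push_cast
  rfl

theorem nv_cast (h : IsGen D m s x y) : ((nv m : ℕ) : ℤ) = (2 : ℤ) ^ (m - 2) - 1 := by
  rw [nv, Nat.cast_sub (Nat.two_pow_pos _)]
  push_cast
  rfl

theorem half_mul (h : IsGen D m s x y) (n : ℤ) :
    half m * ((2 * n : ℤ) : ZMod (2 ^ m)) = 0 ∧
      half m * ((2 * n + 1 : ℤ) : ZMod (2 ^ m)) = half m := by
  rw [half_eq h, ← Int.cast_mul, ← Int.cast_mul]
  constructor
  · rw [ZMod.intCast_zmod_eq_zero_iff_dvd]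
    push_cast
    rw [h.two_pow_eq.1]
    exact ⟨n, by ring⟩
  · rw [ZMod.intCast_eq_intCast_iff_dvd_sub]
    push_cast
    rw [h.two_pow_eq.1]
    exact ⟨-n, by ring⟩

theorem evRep_parity (h : IsGen D m s x y) (k : ℕ) : half m * evRep m k = 0 := by
  rw [evRep, show 2 * (k : ℤ) + 2 = 2 * (k + 1) by ring]
  exact (half_mul h _).1

theorem odRep_parity (h : IsGen D m s x y) {β : ℤ} (hβ : IsShift m s β) (k : ℕ) :
    half m * odRep m β k = half m := by
  obtain ⟨q, rfl⟩ := hβ.2.1
  rw [odRep, show 2 * q + 2 * (k : ℤ) + 1 = 2 * (q + k) + 1 by ring]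
  exact (half_mul h _).2

theorem s_evRep (hβ : ∃ β, IsShift m s β) (k : ℕ) :
    (s : ZMod (2 ^ m)) * evRep m k = ((-(2 * (k : ℤ) + 2) : ℤ) : ZMod (2 ^ m)) := by
  obtain ⟨β, -, -, h, -⟩ := hβ
  rw [evRep, ← Int.cast_mul, show 2 * (k : ℤ) + 2 = 2 * (k + 1) by ring]
  exact h _

theorem s_odRep {β : ℤ} (hβ : IsShift m s β) (k : ℕ) :
    (s : ZMod (2 ^ m)) * odRep m β k = ((β - 2 * (k : ℤ) - 1 : ℤ) : ZMod (2 ^ m)) := by
  obtain ⟨-, ⟨q, rfl⟩, -, h⟩ := hβ
  rw [odRep, ← Int.cast_mul, show 2 * q + 2 * (k : ℤ) + 1 = 2 * (q + k) + 1 by ring, h]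
  congr 1
  ring

theorem s_half (h : IsGen D m s x y) : (s : ZMod (2 ^ m)) * half m = half m := s_mul_half h

/-- The products of the classes. -/
theorem gramFn_values (h : IsGen D m s x y) {β : ℤ} (hβ : IsShift m s β) :
    (gramFn (s : ZMod (2 ^ m)) 0 0 = 2 ∧ gramFn (s : ZMod (2 ^ m)) (half m) (half m) = 2 ∧
      gramFn (s : ZMod (2 ^ m)) 0 (half m) = 0 ∧ gramFn (s : ZMod (2 ^ m)) (half m) 0 = 0) ∧
    (∀ k : Fin (nv m), gramFn (s : ZMod (2 ^ m)) (evRep m k) 0 = 0 ∧
      gramFn (s : ZMod (2 ^ m)) 0 (evRep m k) = 0 ∧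
      gramFn (s : ZMod (2 ^ m)) (evRep m k) (half m) = 0) ∧
    (∀ k l : Fin (nv m), gramFn (s : ZMod (2 ^ m)) (evRep m k) (evRep m l) = if k = l then 1 else 0) ∧
    (∀ k l : ℕ, k ≤ nv m → l ≤ nv m →
      gramFn (s : ZMod (2 ^ m)) (odRep m β k) (odRep m β l) = if k = l then 1 else 0) ∧
    ∀ i j : ZMod (2 ^ m), half m * i = half m → half m * j = 0 → gramFn (s : ZMod (2 ^ m)) i j = 0 := by
  have hH := half_eq h
  have hQ : (0 : ℤ) < 2 ^ (m - 2) := by positivity
  have hsH := s_half h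
  have hne : (0 : ZMod (2 ^ m)) ≠ half m := fun e => by
    rw [hH, ← Int.cast_zero] at e
    have := cast_eq_cast h e (by linarith) (by linarith)
    linarith
  refine ⟨⟨?_, ?_, ?_, ?_⟩, fun k => ?_, fun k l => ?_, fun k l hk hl => ?_, fun i j hi hj => ?_⟩
  · simp [gramFn]
  · simp [gramFn, hsH]
  · simp [gramFn, hsH, hne]
  · simp [gramFn, Ne.symm hne]
  · have hk : (k : ℤ) + 1 ≤ 2 ^ (m - 2) - 1 := by
      rw [← nv_cast h]; exact_mod_cast k.isLt
    have e1 : evRep m k ≠ 0 := fun e => by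
      rw [evRep, ← Int.cast_zero] at e
      have := cast_eq_cast h e (by linarith) (by linarith)
      linarith
    have e2 : evRep m k ≠ half m := fun e => by
      rw [evRep, hH] at e
      have := cast_eq_cast h e (by linarith) (by linarith)
      linarith
    have e3 : (0 : ZMod (2 ^ m)) ≠ (s : ZMod (2 ^ m)) * evRep m k := fun e => by
      rw [s_evRep ⟨β, hβ⟩, ← Int.cast_zero] at e
      have := cast_eq_cast h e (by linarith) (by linarith)
      linarith
    simp [gramFn, e1, e2, e3, Ne.symm e1, hsH]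
  · have hk : (k : ℤ) + 1 ≤ 2 ^ (m - 2) - 1 := by
      rw [← nv_cast h]; exact_mod_cast k.isLt
    have hl : (l : ℤ) + 1 ≤ 2 ^ (m - 2) - 1 := by
      rw [← nv_cast h]; exact_mod_cast l.isLt
    have e1 : evRep m k = evRep m l ↔ k = l := by
      refine ⟨fun e => ?_, fun e => by rw [e]⟩
      have := cast_eq_cast h (a := 2 * (k : ℤ) + 2) (b := 2 * (l : ℤ) + 2) e (by linarith) (by linarith)
      exact Fin.ext (by omega)
    have e2 : evRep m k ≠ (s : ZMod (2 ^ m)) * evRep m l := fun e => by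
      rw [s_evRep ⟨β, hβ⟩, evRep] at e
      have := cast_eq_cast h e (by linarith) (by linarith)
      linarith
    simp [gramFn, e1, e2]
  · have hk' : (k : ℤ) ≤ 2 ^ (m - 2) - 1 := by rw [← nv_cast h]; exact_mod_cast hk
    have hl' : (l : ℤ) ≤ 2 ^ (m - 2) - 1 := by rw [← nv_cast h]; exact_mod_cast hl
    have e1 : odRep m β k = odRep m β l ↔ k = l := by
      refine ⟨fun e => ?_, fun e => by rw [e]⟩
      have := cast_eq_cast h (a := β + 2 * (k : ℤ) + 1) (b := β + 2 * (l : ℤ) + 1) e (by linarith)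
        (by linarith)
      omega
    have e2 : odRep m β k ≠ (s : ZMod (2 ^ m)) * odRep m β l := fun e => by
      rw [s_odRep hβ, odRep] at e
      have := cast_eq_cast h e (by linarith) (by linarith)
      linarith
    simp [gramFn, e1, e2]
  · have e1 : i ≠ j := fun e => hne (by rw [← hj, ← e, hi])
    have e2 : i ≠ (s : ZMod (2 ^ m)) * j := fun e => hne (by
      rw [← hi, e, ← mul_assoc, mul_comm (half m), hsH, hj])
    simp [gramFn, e1, e2]

theorem gramFn_comm (h : IsGen D m s x y) (i j : ZMod (2 ^ m)) :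
    gramFn (s : ZMod (2 ^ m)) i j = gramFn (s : ZMod (2 ^ m)) j i := by
  have e : ∀ i j : ZMod (2 ^ m), i = (s : ZMod (2 ^ m)) * j → j = (s : ZMod (2 ^ m)) * i := fun i j r => by
    rw [r, ← mul_assoc, s_mul_self h, one_mul]
  simp only [gramFn]
  congr 1
  · exact if_congr eq_comm rfl rfl
  · exact if_congr ⟨e i j, e j i⟩ rfl rfl

theorem gramFn_smul (h : IsGen D m s x y) (i j : ZMod (2 ^ m)) :
    gramFn (s : ZMod (2 ^ m)) ((s : ZMod (2 ^ m)) * i) j = gramFn (s : ZMod (2 ^ m)) i j := by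
  have e : ∀ i j : ZMod (2 ^ m), (s : ZMod (2 ^ m)) * i = j ↔ i = (s : ZMod (2 ^ m)) * j := fun i j =>
    ⟨fun r => by rw [← r, ← mul_assoc, s_mul_self h, one_mul],
      fun r => by rw [r, ← mul_assoc, s_mul_self h, one_mul]⟩
  simp only [gramFn]
  rw [add_comm (if i = j then (1 : ℤ) else 0)]
  congr 1
  · exact if_congr (e i j) rfl rfl
  · refine if_congr ⟨fun r => ?_, fun r => by rw [r]⟩ rfl rfl
    rw [e, ← mul_assoc, s_mul_self h, one_mul] at r
    exact r

/-- Every residue is one of the representatives up to `s`. -/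
theorem rep_cover (h : IsGen D m s x y) {β : ℤ} (hβ : IsShift m s β) (j : ZMod (2 ^ m)) :
    j = 0 ∨ j = half m ∨
      (∃ k : Fin (nv m), j = evRep m k ∨ j = (s : ZMod (2 ^ m)) * evRep m k) ∨
        ∃ k : Fin (nv m + 1), j = odRep m β k ∨ j = (s : ZMod (2 ^ m)) * odRep m β k := by
  have hjv : j = ((j.val : ℤ) : ZMod (2 ^ m)) := by simp
  have hlt : (j.val : ℤ) < 4 * 2 ^ (m - 2) := by
    rw [← h.two_pow_eq.1]; exact_mod_cast ZMod.val_lt j
  have hQ : (0 : ℤ) < 2 ^ (m - 2) := by positivity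
  have hwrap : ∀ a : ℤ, ((a : ℤ) : ZMod (2 ^ m)) = ((a - 4 * 2 ^ (m - 2) : ℤ) : ZMod (2 ^ m)) := by
    intro a
    rw [ZMod.intCast_eq_intCast_iff_dvd_sub]
    push_cast
    rw [h.two_pow_eq.1]
    exact ⟨-1, by ring⟩
  have hN := nv_cast h
  obtain ⟨q, hq | hq⟩ := Int.even_or_odd' (j.val : ℤ)
  · rcases lt_trichotomy q (2 ^ (m - 2)) with hlt' | heq | hgt
    · rcases eq_or_ne q 0 with e | e
      · left; rw [hjv, hq, e]; simp
      · obtain ⟨k, hk⟩ : ∃ k : Fin (nv m), (k : ℤ) = q - 1 :=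
          ⟨⟨(q - 1).toNat, by omega⟩, by simp only; omega⟩
        refine Or.inr (Or.inr (Or.inl ⟨k, Or.inl (hjv.trans ?_)⟩))
        rw [hq, evRep]
        congr 1
        omega
    · right; left
      rw [hjv, hq, half_eq h, heq]
    · obtain ⟨k, hk⟩ : ∃ k : Fin (nv m), (k : ℤ) = 2 * 2 ^ (m - 2) - q - 1 :=
        ⟨⟨(2 * 2 ^ (m - 2) - q - 1).toNat, by omega⟩, by simp only; omega⟩
      refine Or.inr (Or.inr (Or.inl ⟨k, Or.inr (hjv.trans ((hwrap _).trans ?_))⟩))
      rw [s_evRep ⟨β, hβ⟩, hq]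
      congr 1
      omega
  · obtain ⟨b, hb⟩ := hβ.2.1
    have hb0 : β = 0 ∨ β = 2 ^ (m - 2) := hβ.1
    refine Or.inr (Or.inr (Or.inr ?_))
    rcases le_or_gt b q with hbq | hbq
    · rcases lt_or_ge (q - b) (2 ^ (m - 2)) with hs | hs
      · obtain ⟨k, hk⟩ : ∃ k : Fin (nv m + 1), (k : ℤ) = q - b :=
          ⟨⟨(q - b).toNat, by omega⟩, by simp only; omega⟩
        refine ⟨k, Or.inl (hjv.trans ?_)⟩
        rw [hq, odRep, hb]
        congr 1
        omega
      · obtain ⟨k, hk⟩ : ∃ k : Fin (nv m + 1), (k : ℤ) = 2 * 2 ^ (m - 2) - (q - b) - 1 :=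
          ⟨⟨(2 * 2 ^ (m - 2) - (q - b) - 1).toNat, by omega⟩, by simp only; omega⟩
        refine ⟨k, Or.inr (hjv.trans ((hwrap _).trans ?_))⟩
        rw [s_odRep hβ, hq, hb]
        congr 1
        omega
    · obtain ⟨k, hk⟩ : ∃ k : Fin (nv m + 1), (k : ℤ) = b - q - 1 :=
        ⟨⟨(b - q - 1).toNat, by omega⟩, by simp only; omega⟩
      refine ⟨k, Or.inr (hjv.trans ?_)⟩
      rw [s_odRep hβ, hq, hb]
      congr 1
      omega

section Vectors

variable [Fintype G] {M : Ideal AlgInt} [hMmax : M.IsMaximal] [hp : Fact (Nat.Prime 2)]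
  [CharP (kres M) 2] {B : Set (IrrCharacter G)} {g : (kres M)[G]} {μ : ℂ}
  {c : IrrCharacter G → ZMod (2 ^ m) → ℤ} {F : IrrCharacter G → ZMod (2 ^ m) → ℂ}

theorem RotData.sum_univ_eq [Fintype (IrrCharacter G)] (hr : RotData B D g m s x μ c F)
    {a : ZMod (2 ^ m)} (ha : a ≠ 0) (ha' : a ≠ half m) (φ : IrrCharacter G → ℂ) :
    ∑ χ ∈ B.toFinite.toFinset, φ χ * F χ a = ∑ χ : IrrCharacter G, φ χ * F χ a :=
  Finset.sum_subset (Finset.subset_univ _) fun χ _ hχ => by
    rw [hr.zero χ (fun h' => hχ ((Set.Finite.mem_toFinset _).2 h')) a ha ha', mul_zero]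

/-- The columns are orthogonal to the regular values. -/
theorem RotData.sum_regular (hr : RotData B D g m s x μ c F) (hM : IsPModular 2 M)
    (hB : IsPBlock M B) (hmax : IsMaxPairIdem 2 ⊤ (topEl M B) D g) (h : IsGen D m s x y) {t : G}
    (ht : IsPRegular 2 t) {a : ZMod (2 ^ m)} (ha : a ≠ 0) (ha' : a ≠ half m) :
    ∑ χ ∈ B.toFinite.toFinset, (χ : G → ℂ) t * F χ a = 0 := by
  classical
  haveI := Fintype.ofFinite (IrrCharacter G)
  rw [hr.sum_univ_eq ha ha' (fun χ => (χ : G → ℂ) t), ← sum_regular_mul_rep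
    ((hr.rankOne a ha ha').rep hM hB hmax (xp_mem h a)) (p := 2) (fun k hk => ?_) ht]
  · exact Finset.sum_congr rfl fun χ _ => mul_comm _ _
  · refine even_orderOf_of_ppart (fun e => ha (xp_injective h ?_)) hk
    rw [e, xp_zero]

/-- What is orthogonal to the columns is orthogonal to the vectors. -/
theorem RotData.sum_vectors (hr : RotData B D g m s x μ c F) (h : IsGen D m s x y) {β : ℤ}
    (hβ : IsShift m s β) (φ : IrrCharacter G → ℂ)
    (hφ : ∀ a, a ≠ 0 → a ≠ half m → ∑ χ ∈ B.toFinite.toFinset, φ χ * F χ a = 0) :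
    (∑ χ ∈ B.toFinite.toFinset, φ χ * (Xv c χ : ℂ) = 0) ∧
    (∀ k, ∑ χ ∈ B.toFinite.toFinset, φ χ * (vv c k χ : ℂ) = 0) ∧
    ∀ k, ∑ χ ∈ B.toFinite.toFinset, φ χ * (uv β c k χ : ℂ) = 0 := by
  refine ⟨hr.cols.sum_mul_diff φ hφ ?_, fun k => hr.cols.sum_mul_diff φ hφ ?_,
    fun k => hr.cols.sum_mul_diff φ hφ ?_⟩
  · rw [mul_zero, half_eq h, ← Int.cast_mul, eq_comm, ZMod.intCast_zmod_eq_zero_iff_dvd]
    push_cast
    rw [h.two_pow_eq.1]
    exact ⟨2 ^ (m - 2), by ring⟩
  · rw [mul_zero, evRep_parity h]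
  · rw [odRep_parity h hβ, odRep_parity h hβ]

/-- **The vectors form the data of the lattice.** -/
theorem RotData.lat (hr : RotData B D g m s x μ c F) (hM : IsPModular 2 M) (hB : IsPBlock M B)
    (hmax : IsMaxPairIdem 2 ⊤ (topEl M B) D g) (h : IsGen D m s x y) {β : ℤ} (hβ : IsShift m s β) :
    Lat B.toFinite.toFinset (nv m) (Xv c) (vv c) (uv β c)
      (fun χ => (charDegree (χ : G → ℂ) : ℤ)) := by
  obtain ⟨⟨f00, fHH, f0H, fH0⟩, fP, fPP, foo, fodd⟩ := gramFn_values h hβ
  have pH : half m * (0 : ZMod (2 ^ m)) = half m * half m := by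
    rw [mul_zero, half_eq h, ← Int.cast_mul, eq_comm, ZMod.intCast_zmod_eq_zero_iff_dvd]
    push_cast
    rw [h.two_pow_eq.1]
    exact ⟨2 ^ (m - 2), by ring⟩
  have pP : ∀ k : Fin (nv m), half m * (0 : ZMod (2 ^ m)) = half m * evRep m k := fun k => by
    rw [mul_zero, evRep_parity h]
  have po : ∀ k : Fin (nv m), half m * odRep m β (k + 1) = half m * odRep m β 0 := fun k => by
    rw [odRep_parity h hβ, odRep_parity h hβ]
  have hdeg : ∀ a, a ≠ 0 → a ≠ half m → ∑ χ ∈ B.toFinite.toFinset,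
      ((charDegree (χ : G → ℂ) : ℤ) : ℂ) * F χ a = 0 := fun a ha ha' => by
    refine Eq.trans (Finset.sum_congr rfl fun χ _ => ?_)
      (hr.sum_regular hM hB hmax h (t := 1) (by
        show ¬ 2 ∣ orderOf (1 : G)
        rw [orderOf_one]; norm_num) ha ha')
    rw [← Chars.coe_charDegree]
    push_cast
    rfl
  obtain ⟨dX, dv, du⟩ := hr.sum_vectors h hβ _ hdeg
  have hc := hr.cols
  have conv : ∀ f : IrrCharacter G → ℤ, ∑ χ ∈ B.toFinite.toFinset,
      ((charDegree (χ : G → ℂ) : ℤ) : ℂ) * (f χ : ℂ) = 0 →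
      ∑ χ ∈ B.toFinite.toFinset, f χ * (charDegree (χ : G → ℂ) : ℤ) = 0 := fun f hf => by
    have e : ((∑ χ ∈ B.toFinite.toFinset, f χ * (charDegree (χ : G → ℂ) : ℤ) : ℤ) : ℂ) = 0 := by
      rw [Int.cast_sum, ← hf]
      exact Finset.sum_congr rfl fun χ _ => by rw [Int.cast_mul, mul_comm]
    exact_mod_cast e
  refine ⟨fun χ _ => by exact_mod_cast Chars.charDegree_pos χ, ?_, fun k => ?_, fun k l => ?_,
    fun k l => ?_, fun k => ?_, fun k l => ?_, conv _ dX, fun k => conv _ (dv k),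
    fun k => conv _ (du k)⟩
  · simp only [Xv]
    rw [hc.gram pH pH, f00, f0H, fH0, fHH]
    norm_num
  · simp only [Xv, vv]
    rw [hc.gram (pP k) pH, f00, f0H, (fP k).1, (fP k).2.2]
    norm_num
  · simp only [vv]
    rw [hc.gram (pP k) (pP l), f00, (fP l).2.1, (fP k).1, fPP]
    ring
  · simp only [uv]
    have e : gramFn (s : ZMod (2 ^ m)) (odRep m β (k + 1)) (odRep m β (l + 1)) =
        if k = l then 1 else 0 := by
      rw [foo _ _ k.isLt l.isLt]
      simp [Fin.ext_iff]
    rw [hc.gram (po k) (po l), e, foo _ _ k.isLt (Nat.zero_le _), foo _ _ (Nat.zero_le _) l.isLt,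
      foo _ _ (Nat.zero_le _) (Nat.zero_le _), if_neg (Nat.succ_ne_zero _),
      if_neg (Nat.succ_ne_zero _).symm, if_pos rfl]
    ring
  · simp only [uv, Xv]
    rw [hc.gram (po k) pH, fodd _ _ (odRep_parity h hβ _) (mul_zero _),
      fodd _ _ (odRep_parity h hβ _) (by rw [← pH, mul_zero]),
      fodd _ _ (odRep_parity h hβ _) (mul_zero _),
      fodd _ _ (odRep_parity h hβ _) (by rw [← pH, mul_zero])]
    ring
  · simp only [uv, vv]
    rw [hc.gram (po k) (pP l), fodd _ _ (odRep_parity h hβ _) (mul_zero _),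
      fodd _ _ (odRep_parity h hβ _) (evRep_parity h _),
      fodd _ _ (odRep_parity h hβ _) (mul_zero _),
      fodd _ _ (odRep_parity h hβ _) (evRep_parity h _)]
    ring

/-- The value where `Xv` and all `uv` vanish and one `vv` does not. -/
theorem RotData.value_w (hr : RotData B D g m s x μ c F) (h : IsGen D m s x y) {β : ℤ}
    (hβ : IsShift m s β) {χ : IrrCharacter G} (hχ : χ ∈ B) {k : Fin (nv m)} {η : ℤ}
    (hX : Xv c χ = 0) (hv : ∀ l, vv c l χ = if l = k then η else 0) (hu : ∀ l, uv β c l χ = 0)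
    {a : ZMod (2 ^ m)} (ha : a ≠ 0) (ha' : a ≠ half m) :
    F χ a = -(η : ℂ) * (rootFn μ (evRep m k * a) + rootFn μ ((s : ZMod (2 ^ m)) * evRep m k * a)) := by
  have hS : χ ∈ B.toFinite.toFinset := (Set.Finite.mem_toFinset _).2 hχ
  have hsym := hr.cols.coeff_sym hS
  obtain ⟨-, fP, fPP, -, fodd⟩ := gramFn_values h hβ
  have hs0 : half m * ((s : ZMod (2 ^ m)) * evRep m k) = 0 := by
    rw [← mul_assoc, mul_comm (half m), s_half h, evRep_parity h]
  rw [hr.cols.value_eq hS (odRep_parity h hβ 0) ha ha']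
  have hd : ∀ j : ZMod (2 ^ m), (c χ j - c χ (if half m * j = 0 then 0 else odRep m β 0) : ℤ) =
      -η * ((if j = evRep m k then 1 else 0) + if j = (s : ZMod (2 ^ m)) * evRep m k then 1 else 0) := by
    intro j
    have hgr : ((if j = evRep m k then 1 else 0) +
        if j = (s : ZMod (2 ^ m)) * evRep m k then 1 else 0 : ℤ) =
        gramFn (s : ZMod (2 ^ m)) j (evRep m k) := rfl
    rw [hgr]
    rcases rep_cover h hβ j with rfl | rfl | ⟨l, rfl | rfl⟩ | ⟨l, rfl | rfl⟩
    · rw [mul_zero, if_pos rfl, (fP k).2.1, sub_self, mul_zero]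
    · have e : half m * half m = 0 := by
        rw [half_eq h, ← Int.cast_mul, ZMod.intCast_zmod_eq_zero_iff_dvd]
        push_cast
        rw [h.two_pow_eq.1]
        exact ⟨2 ^ (m - 2), by ring⟩
      have e' : gramFn (s : ZMod (2 ^ m)) (half m) (evRep m k) = 0 := by
        rw [gramFn_comm h]
        exact (fP k).2.2
      have := hX
      simp only [Xv] at this
      rw [e, if_pos rfl, e', mul_zero]
      linarith
    · have := hv l
      simp only [vv] at this
      rw [evRep_parity h, if_pos rfl, fPP l k]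
      split_ifs at this ⊢ <;> linarith
    · have := hv l
      simp only [vv] at this
      have e := gramFn_smul h (evRep m l) (evRep m k)
      rw [← mul_assoc, mul_comm (half m), s_half h, evRep_parity h, if_pos rfl, hsym, e, fPP l k]
      split_ifs at this ⊢ <;> linarith
    all_goals
      have hl : c χ (odRep m β l) = c χ (odRep m β 0) := by
        induction l using Fin.cases with
        | zero => simp
        | succ i =>
          have := hu i
          simp only [uv] at this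
          simpa [sub_eq_zero] using this
      have hne : half m ≠ 0 := fun e0 => by
        have := hr.cols.heH
        rw [e0, hr.cols.he0] at this
        norm_num at this
    · rw [odRep_parity h hβ, if_neg hne, hl, sub_self,
        fodd _ _ (odRep_parity h hβ _) (evRep_parity h _), mul_zero]
    · have e : half m * ((s : ZMod (2 ^ m)) * odRep m β l) = half m := by
        rw [← mul_assoc, mul_comm (half m), s_half h, odRep_parity h hβ]
      rw [e, if_neg hne, hsym, hl, sub_self, fodd _ _ e (evRep_parity h _), mul_zero]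
  rw [Finset.sum_congr rfl fun j _ => by rw [hd j]]
  push_cast
  simp only [mul_assoc, add_mul, ite_mul, one_mul, zero_mul, ← Finset.mul_sum, Finset.sum_add_distrib,
    Finset.sum_ite_eq', Finset.mem_univ, if_true]

/-- The value where `Xv` and all `vv` vanish and the `uv` are those of one point of a star. -/
theorem RotData.value_t (hr : RotData B D g m s x μ c F) (h : IsGen D m s x y) {β : ℤ}
    (hβ : IsShift m s β) {χ : IrrCharacter G} (hχ : χ ∈ B) {i : Fin (nv m + 1)} {ε : ℤ}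
    (hX : Xv c χ = 0) (hv : ∀ l, vv c l χ = 0)
    (hu : ∀ l : Fin (nv m), uv β c l χ =
      ε * ((if i = l.succ then 1 else 0) - if i = 0 then 1 else 0))
    {a : ZMod (2 ^ m)} (ha : a ≠ 0) (ha' : a ≠ half m) :
    F χ a = (ε : ℂ) *
      (rootFn μ (odRep m β i * a) + rootFn μ ((s : ZMod (2 ^ m)) * odRep m β i * a)) := by
  have hS : χ ∈ B.toFinite.toFinset := (Set.Finite.mem_toFinset _).2 hχ
  have hsym := hr.cols.coeff_sym hS
  obtain ⟨-, fP, fPP, foo, fodd⟩ := gramFn_values h hβ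
  set κ : ℤ := if i = 0 then ε else 0 with hκ
  have hne : half m ≠ 0 := fun e0 => by
    have := hr.cols.heH
    rw [e0, hr.cols.he0] at this
    norm_num at this
  have hHH : half m * half m = 0 := by
    rw [half_eq h, ← Int.cast_mul, ZMod.intCast_zmod_eq_zero_iff_dvd]
    push_cast
    rw [h.two_pow_eq.1]
    exact ⟨2 ^ (m - 2), by ring⟩
  have hsodd : half m * ((s : ZMod (2 ^ m)) * odRep m β i) = half m := by
    rw [← mul_assoc, mul_comm (half m), s_half h, odRep_parity h hβ]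
  rw [hr.cols.value_eq hS (odRep_parity h hβ 0) ha ha']
  have hd : ∀ j : ZMod (2 ^ m), (c χ j - c χ (if half m * j = 0 then 0 else odRep m β 0) : ℤ) =
      ε * ((if j = odRep m β i then 1 else 0) + if j = (s : ZMod (2 ^ m)) * odRep m β i then 1 else 0) -
        κ * if half m * j = half m then 1 else 0 := by
    intro j
    have hev : half m * j = 0 → ((if j = odRep m β i then 1 else 0) +
        if j = (s : ZMod (2 ^ m)) * odRep m β i then 1 else 0 : ℤ) = 0 := by
      intro hj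
      rw [if_neg fun r => hne (by rw [← hj, r, odRep_parity h hβ]),
        if_neg fun r => hne (by rw [← hj, r, hsodd])]
      rfl
    by_cases hj : half m * j = 0
    · rw [hev hj, if_pos hj, if_neg (fun r => hne (r.symm.trans hj))]
      rcases rep_cover h hβ j with rfl | rfl | ⟨l, rfl | rfl⟩ | ⟨l, rfl | rfl⟩
      · ring
      · have := hX
        simp only [Xv] at this
        linarith
      · have := hv l
        simp only [vv] at this
        linarith
      · have := hv l
        simp only [vv] at this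
        rw [hsym]
        linarith
      · exact absurd (hj.symm.trans (odRep_parity h hβ _)) hne.symm
      · rw [← mul_assoc, mul_comm (half m), s_half h, odRep_parity h hβ] at hj
        exact absurd hj hne
    · have hj' : half m * j = half m := (hr.cols.hHj j).resolve_left hj
      rw [if_pos hj', if_neg hj, mul_one]
      have key : ∀ l : Fin (nv m + 1),
          c χ (odRep m β l) - c χ (odRep m β 0) = ε * (if l = i then 1 else 0) - κ := by
        intro l
        induction l using Fin.cases with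
        | zero =>
          simp only [Fin.val_zero, sub_self, hκ]
          by_cases e : i = 0
          · rw [if_pos e.symm, if_pos e]; ring
          · rw [if_neg (Ne.symm e), if_neg e]; ring
        | succ n =>
          have := hu n
          simp only [uv] at this
          rw [Fin.val_succ, this, hκ, if_congr (eq_comm (a := n.succ) (b := i)) rfl rfl]
          split_ifs <;> ring
      rcases rep_cover h hβ j with rfl | rfl | ⟨l, rfl | rfl⟩ | ⟨l, rfl | rfl⟩
      · exact absurd (mul_zero _) hj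
      · exact absurd hHH hj
      · exact absurd (evRep_parity h _) hj
      · exact absurd (by rw [← mul_assoc, mul_comm (half m), s_half h, evRep_parity h]) hj
      all_goals
        have e0 := foo l i (Nat.le_of_lt_succ l.isLt) (Nat.le_of_lt_succ i.isLt)
        simp only [gramFn, ← Fin.ext_iff] at e0
      · rw [key l, e0]
      · have e1 := gramFn_smul h (odRep m β l) (odRep m β i)
        simp only [gramFn, ← Fin.ext_iff] at e1
        rw [hsym, key l, e1, e0]
  rw [Finset.sum_congr rfl fun j _ => by rw [hd j]]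
  push_cast
  simp only [sub_mul, mul_assoc, add_mul, ite_mul, one_mul, zero_mul, ← Finset.mul_sum,
    Finset.sum_add_distrib, Finset.sum_sub_distrib, Finset.sum_ite_eq', Finset.mem_univ, if_true]
  rw [← Finset.sum_filter, hr.cols.sum_parity (half m) ha ha' (Or.inr rfl), mul_zero, sub_zero]

end Vectors

end CfsgLib.Blocks.TwoGen
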