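import Cfsg.Agent.Blocks.Dihedral.Values
import Cfsg.Agent.Blocks.Defect.SubgroupTransport
import Cfsg.Agent.Blocks.Defect.LocalBlocks
import Cfsg.Agent.Blocks.KleinFour.Pairs
import Cfsg.Agent.Blocks.Modular.Regular

/-!
# Values at the pairs below a maximal pair

A member of a block is on every element the sum of its values `lval` at the pairs of the block
there; these vanish for the other characters, and they are compatible with passing to a subgroup
containing the centralizer.
-/

set_option autoImplicit false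
set_option maxHeartbeats 1000000
open scoped MonoidAlgebra ComplexConjugate
open MonoidAlgebra (single)

namespace CfsgLib.Blocks.TwoGen

open Cfsg CfsgLib CfsgLib.Blocks

universe u

variable {p : ℕ} [hp : Fact p.Prime] {M : Ideal AlgInt} [hMmax : M.IsMaximal] [CharP (kres M) p]
  {G : Type u} [Group G] [Fintype G]

/-- The image of a pair below in a subgroup. -/
theorem emb_fBelow {H : Subgroup G} {Q' U' : Subgroup H} {gH : (kres M)[H]} {g : (kres M)[G]}
    {D : Subgroup G} (hg : IsPairIdem p ⊤ D g) (hgH : IsPairIdem p ⊤ Q' gH)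
    (hQD : Q'.map H.subtype ≤ D) (hemb : emb (kres M) H.subtype gH = fBelow p D g (Q'.map H.subtype))
    (hU : U' ≤ Q')
    (hC : Subgroup.centralizer ((U'.map H.subtype : Subgroup G) : Set G) ≤ H) :
    emb (kres M) H.subtype (fBelow p Q' gH U') = fBelow p D g (U'.map H.subtype) := by
  classical
  have hinj : Function.Injective H.subtype := H.subtype_injective
  have hpair : ∀ (R : Subgroup H) (r : (kres M)[H]), U' ≤ R → IsPairIdem p ⊤ R r →
      IsPairIdem p ⊤ (R.map H.subtype) (emb (kres M) H.subtype r) := by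
    intro R r hUR hr
    refine ⟨hr.1.map _, le_top, ?_⟩
    have hb := hr.2.2
    rw [top_inf_eq] at hb
    obtain ⟨e, he, rfl⟩ := exists_subEl_eq hb
    rw [← blockEl_eq_emb_subEl, top_inf_eq]
    have h := isBlockIdem_blockEl (M := M)
      (f := H.subtype.comp (Subgroup.centralizer (R : Set H)).subtype)
      (hinj.comp Subtype.val_injective) he
    rwa [MonoidHom.range_comp, Subgroup.range_subtype, map_centralizer_eq hinj,
      Subgroup.range_subtype, inf_eq_right.2 ((Subgroup.centralizer_le
        (SetLike.coe_subset_coe.2 (Subgroup.map_mono hUR))).trans hC)] at h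
  have key : ∀ a b : Subgroup H × (kres M)[H],
      Relation.ReflTransGen (fun a b => IsNormalPairIdem p ⊤ a.1 a.2 b.1 b.2) a b → U' ≤ a.1 →
        PairLE p ⊤ (a.1.map H.subtype) (emb (kres M) H.subtype a.2) (b.1.map H.subtype)
          (emb (kres M) H.subtype b.2) := by
    intro a b hab
    induction hab using Relation.ReflTransGen.head_induction_on with
    | refl => exact fun _ => PairLE.refl _ _ _
    | @head a c hac _ ih =>
      intro hUa
      obtain ⟨ha, hc, hle, hnorm, hfix, hover⟩ := hac
      refine (PairLE.single ⟨hpair _ _ hUa ha, hpair _ _ (hUa.trans hle) hc, Subgroup.map_mono hle,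
        ?_, ?_, ?_⟩).trans (ih (hUa.trans hle))
      · rintro _ ⟨t, ht, rfl⟩
        exact Subgroup.le_normalizer_map H.subtype ⟨t, hnorm ht, rfl⟩
      · rw [isFixedBy_iff_conjA]
        rintro _ ⟨t, ht, rfl⟩
        rw [← emb_conjA, isFixedBy_iff_conjA.1 hfix t ht]
      · show brTrunc _ _ * _ = _
        rw [← emb_brTrunc hinj, ← map_mul, show brTrunc c.1 a.2 * c.2 = c.2 from hover]
  have h1 := key (U', fBelow p Q' gH U') (Q', gH) (fBelow_spec hgH hU) le_rfl
  refine (fBelow_eq hg (h1.trans ?_)).symm
  simp only [hemb]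
  exact fBelow_spec hg hQD

/-- A block of a subgroup with a maximal pair taken from `G`. -/
theorem exists_sub (hM : IsPModular p M) {B : Set (IrrCharacter G)} (hB : IsPBlock M B)
    {D : Subgroup G} {g : (kres M)[G]} (hmax : IsMaxPairIdem p ⊤ (topEl M B) D g)
    {H U Q : Subgroup G} (hUQ : U ≤ Q) (hQD : Q ≤ D) (hQH : Q ≤ H)
    (hCH : Subgroup.centralizer (U : Set G) ≤ H) (hHN : H ≤ Subgroup.normalizer (U : Set G))
    (hblk : IsBlockIdem H (fBelow p D g U))
    (hdef : IsDefectGroupIdem p H (fBelow p D g U) Q) :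
    ∃ (b : Set (IrrCharacter H)) (gH : (kres M)[H]), IsInducedBlock M H b B ∧
      subEl M H b = fBelow p D g U ∧ IsDefectGroup p M b (Q.subgroupOf H) ∧
        IsMaxPairIdem p ⊤ (topEl M b) (Q.subgroupOf H) gH ∧
          emb (kres M) H.subtype gH = fBelow p D g Q := by
  classical
  have hinj : Function.Injective H.subtype := H.subtype_injective
  obtain ⟨b, hb, hbe⟩ := exists_subEl_eq hblk
  have hUD : U ≤ D := hUQ.trans hQD
  have hover := (mem_blocksOver.mp (fBelow_mem_blocksOver hB hmax hUD)).2
  have hind : IsInducedBlock M H b B := by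
    rw [isInducedBlock_iff_brOver hM (hmax.1.1.1.to_le hUD) (hUQ.trans hQH) hCH hHN hb hB, hbe]
    exact hover
  have hP : IsDefectGroup p M b (Q.subgroupOf H) := by
    rw [isDefectGroup_subgroupOf_iff hQH hb, hbe]; exact hdef
  have hQspec := fBelow_spec hmax.1.1 hQD
  have hQpair := hQspec.isPair_left hmax.1.1
  have hnorm := ((fBelow_spec hmax.1.1 hUD).intermediate hmax.1.1 hQspec hUQ).isNormal hQpair
    (hQH.trans hHN)
  have hCQ : Subgroup.centralizer (Q : Set G) ≤ H :=
    (Subgroup.centralizer_le (SetLike.coe_subset_coe.2 hUQ)).trans hCH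
  have hmapQ : (Q.subgroupOf H).map H.subtype = Q := Subgroup.map_subgroupOf_eq_of_le hQH
  obtain ⟨e, he, hee⟩ := exists_blockEl_eq (M := M)
    (f := H.subtype.comp (Subgroup.centralizer ((Q.subgroupOf H : Subgroup H) : Set H)).subtype)
    (hinj.comp Subtype.val_injective) (e := fBelow p D g Q) (by
      rw [MonoidHom.range_comp, Subgroup.range_subtype, map_centralizer_eq hinj,
        Subgroup.range_subtype, hmapQ, inf_eq_right.2 hCQ]
      simpa using hQpair.2.2)
  have hof : IsBrauerPairOf p M b (Q.subgroupOf H) e := by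
    rw [isBrauerPairOf_iff_blockEl hinj hb he, hee, hmapQ, Subgroup.range_subtype,
      show blockEl M H.subtype b = fBelow p D g U from hbe]
    exact ⟨⟨hQpair.1, hQH, by rw [inf_eq_right.2 hCQ]; simpa using hQpair.2.2⟩, hnorm.2.2.2.2.2⟩
  rw [isBrauerPairOf_iff hb he] at hof
  refine ⟨b, subEl M _ e, hind, hbe, hP, ⟨hof, fun R r hR hle => ?_⟩, by
    rw [← blockEl_eq_emb_subEl]; exact hee⟩
  have hD := (isDefectGroup_topEl_iff (M := M) hb _).1 hP
  refine (Subgroup.eq_of_le_of_card_ge hle.le (hD.card_le le_top hR.1.1 fun h0 => ?_)).symm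
  have h1 : brTrunc R (topEl M b) * r = r := hR.2
  rw [h0, zero_mul] at h1
  exact hR.1.2.2.ne_zero h1.symm

/-- The values at an idempotent of a subgroup. -/
theorem lval_emb (hMp : IsPModular p M) {F : G → ℂ} (hF : IsClassFunction G F) (H : Subgroup G)
    [Fintype H] {h : H} {y : (kres M)[H]} (hy : IsIdempotentElem y)
    (hyh : IsFixedBy y (Subgroup.zpowers h)) :
    lval F (h : G) (emb (kres M) H.subtype y) = lval (fun k : H => F k) h y := by
  classical
  have hFH : IsClassFunction H (fun k : H => F k) := fun a b => hF (a : G) (b : G)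
  obtain ⟨e, he, heh, her⟩ := exists_idem_lift hy hyh
  have hred : redG M G (Modular.liftO (M := M) H.subtype e) = emb (kres M) H.subtype y := by
    rw [← her]
    clear her heh he
    induction e using MonoidAlgebra.induction_linear with
    | zero => simp
    | add a a' ha ha' => simp only [map_add, ha, ha']
    | single g c =>
      rw [Modular.liftO_single, redG_single, redG_single]
      simp [emb]
  have hc : Commute (single (h : G) (1 : localRing M)) (Modular.liftO (M := M) H.subtype e) := by
    have := (heh h (Subgroup.mem_zpowers h)).map (Modular.liftO (M := M) H.subtype)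
    rwa [Modular.liftO_single] at this
  have hfix : IsFixedBy (emb (kres M) H.subtype y) (Subgroup.zpowers (h : G)) := by
    rw [isFixedBy_iff_conjA]
    rintro _ ⟨i, rfl⟩
    show Blocks.conjA ((h : G) ^ i) _ = _
    rw [show ((h : G) ^ i) = H.subtype (h ^ i) from (map_zpow H.subtype h i).symm, ← emb_conjA,
      isFixedBy_iff_conjA.1 hyh _ ⟨i, rfl⟩]
  rw [← trv_eq_lval hMp hF (he.map _) hc (hy.map _) hfix (by rw [hred]),
    ← trv_eq_lval hMp hFH he (heh h (Subgroup.mem_zpowers h)) hy hyh (by rw [her]),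
    trv, trv, show single (h : G) (1 : localRing M) =
      Modular.liftO (M := M) H.subtype (single h 1) from (Modular.liftO_single (M := M) H.subtype h 1).symm,
    ← map_mul, Modular.evalFn_liftO]
  rfl

omit hp [CharP (kres M) p] in
theorem lval_sum_smul {ι : Type*} (s : Finset ι) (c : ι → ℂ) (F : ι → G → ℂ) (h : G)
    (y : (kres M)[G]) :
    lval (fun k => ∑ i ∈ s, c i * F i k) h y = ∑ i ∈ s, c i * lval (F i) h y := by
  simp only [lval, trv_eq_sum, Finset.mul_sum]
  rw [Finset.sum_comm]
  exact Finset.sum_congr rfl fun i _ => Finset.sum_congr rfl fun g _ => by ring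

/-- The values of a restricted character through the characters of the subgroup. -/
theorem lval_restrict (hMp : IsPModular p M) (χ : IrrCharacter G) (H : Subgroup G) [Fintype H]
    [Fintype (IrrCharacter H)] {h : H} {y : (kres M)[H]} (hy : IsIdempotentElem y)
    (hyh : IsFixedBy y (Subgroup.zpowers h)) :
    lval (χ : G → ℂ) (h : G) (emb (kres M) H.subtype y) = ∑ ξ : IrrCharacter H,
      classInner (fun k : H => (χ : G → ℂ) k) (ξ : H → ℂ) * lval (ξ : H → ℂ) h y := by
  rw [lval_emb hMp (Chars.isClassFunction_coe χ) H hy hyh, ← lval_sum_smul]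
  congr 1
  funext k
  exact DihedralBlk.expand_restrict χ k

variable {B : Set (IrrCharacter G)}

/-- The pairs of other blocks see nothing. -/
theorem lval_eq_zero (hM : IsPModular p M) (hB : IsPBlock M B) {h : G} {f : (kres M)[G]}
    (hf : f ∈ blocksOver (Subgroup.zpowers (ppart p h)) (topEl M B)) {χ : IrrCharacter G}
    (hχ : χ ∉ B) : lval (χ : G → ℂ) h f = 0 := by
  classical
  obtain ⟨r, hr, hcomm, hu, hreg⟩ := isPPart_ppart (p := p) h
  set u := ppart p h with hudef
  have hrC : r ∈ Subgroup.centralizer (Subgroup.zpowers u : Set G) := by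
    rw [Blocks.centralizer_zpowers_eq, Subgroup.mem_centralizer_singleton_iff]
    exact hcomm.eq.symm
  obtain ⟨hfb, hfo⟩ := mem_blocksOver.mp hf
  rw [top_inf_eq] at hfb
  obtain ⟨b, hb, rfl⟩ := exists_subEl_eq hfb
  haveI := Fintype.ofFinite (Subgroup.centralizer (Subgroup.zpowers u : Set G))
  have hind : IsInducedBlock M (Subgroup.centralizer (Subgroup.zpowers u : Set G)) b B := by
    rw [isInducedBlock_iff_brOver hM (KleinFour.isPGroup_zpowers hu) (Subgroup.zpowers_le.mpr (by
      rw [Blocks.centralizer_zpowers_eq, Subgroup.mem_centralizer_singleton_iff])) le_rfl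
      (Subgroup.centralizer_le_normalizer _) hb hB]
    exact hfo
  have hne : ¬ IsInducedBlock M (Subgroup.centralizer (Subgroup.zpowers u : Set G)) b
      (blockOf M (χ : G → ℂ)) := fun h => hχ (by
    rw [isInducedBlock_unique hM hind h]
    exact self_mem_blockOf χ)
  have hs : IsPRegular p (⟨r, hrC⟩ : Subgroup.centralizer (Subgroup.zpowers u : Set G)) := by
    rwa [IsPRegular, Subgroup.orderOf_mk]
  have := lval_subEl hM (Chars.isClassFunction_coe χ) hu hb hs
  rw [← hr, this]
  exact blockPart_section_eq_zero hM (Blocks.centralizer_zpowers_eq u) hu hb ⟨χ, rfl⟩ hne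
    (self_mem_blockOf χ) hs

theorem isFixedBy_of_mem_blocksOver {h : G} {E f : (kres M)[G]}
    (hf : f ∈ blocksOver (Subgroup.zpowers (ppart p h)) E) :
    IsIdempotentElem f ∧ IsFixedBy f (Subgroup.zpowers h) := by
  obtain ⟨hfb, -⟩ := mem_blocksOver.mp hf
  exact ⟨hfb.idem, hfb.1.2.mono (zpowers_le_centralizer_ppart h)⟩

/-- A member is the sum of its values at the pairs. -/
theorem apply_eq_sum_lval (hM : IsPModular p M) (hB : IsPBlock M B) {χ : IrrCharacter G}
    (hχ : χ ∈ B) (h : G) :
    (χ : G → ℂ) h =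
      ∑ f ∈ blocksOver (Subgroup.zpowers (ppart p h)) (topEl M B), lval (χ : G → ℂ) h f := by
  classical
  have hcl := Chars.isClassFunction_coe χ
  have hE := isBlockIdem_topEl hB (M := M)
  set U := Subgroup.zpowers (ppart p h) with hU
  have hUp : IsPGroup p U := isPGroup_zpowers_ppart h
  have hEU : IsFixedBy (topEl M B) U := hE.1.2.mono le_top
  have hEh : IsFixedBy (topEl M B) (Subgroup.zpowers h) := hE.1.2.mono le_top
  obtain ⟨e, he, heh, her⟩ := exists_idem_lift hE.2.1 hEh
  have hBi : IsIdempotentElem (brTrunc U (topEl M B)) := by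
    show _ * _ = _
    rw [← brTrunc_mul hUp hEU hEU, hE.idem]
  have hBh : IsFixedBy (brTrunc U (topEl M B)) (Subgroup.zpowers h) :=
    hEh.brTrunc ((zpowers_le_centralizer_ppart h).trans
      (inf_le_right.trans (Subgroup.centralizer_le_normalizer _)))
  have hc := heh h (Subgroup.mem_zpowers h)
  have h1 : lval (χ : G → ℂ) h (topEl M B) = lval (χ : G → ℂ) h (brTrunc U (topEl M B)) := by
    rw [← trv_eq_lval hM hcl he hc hE.2.1 hEh (by rw [her]),
      ← trv_eq_lval hM hcl he hc hBi hBh (by
        rw [her, ← hU, brTrunc_brTrunc le_rfl])]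
  rw [lval_topEl hM hcl hB, blockPart_eq_self hχ, ← sum_blocksOver hUp hE,
    lval_sum hM hcl _ _ (fun f hf => isFixedBy_of_mem_blocksOver hf) fun f hf f' hf' hne =>
      (mem_blocksOver.mp hf).1.orthogonal (mem_blocksOver.mp hf').1 hne] at h1
  exact h1

/-- The sum of the members with coefficients vanishes if it does on all pairs below the maximal
pair. -/
theorem sum_eq_zero_of_orth (hM : IsPModular p M) (hB : IsPBlock M B) {D : Subgroup G}
    {g : (kres M)[G]} (hmax : IsMaxPairIdem p ⊤ (topEl M B) D g) (c : IrrCharacter G → ℂ)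
    (hzero : ∀ v ∈ D, ∀ h : G, ppart p h = v →
      ∑ χ ∈ B.toFinite.toFinset, c χ * lval (χ : G → ℂ) h (fBelow p D g (Subgroup.zpowers v)) = 0)
    (h : G) : ∑ χ ∈ B.toFinite.toFinset, c χ * (χ : G → ℂ) h = 0 := by
  classical
  rw [Finset.sum_congr rfl fun χ hχ => by
    rw [apply_eq_sum_lval hM hB ((Set.Finite.mem_toFinset _).1 hχ) h, Finset.mul_sum],
    Finset.sum_comm]
  refine Finset.sum_eq_zero fun f hf => ?_
  obtain ⟨hfi, hfh⟩ := isFixedBy_of_mem_blocksOver hf
  obtain ⟨x, hx⟩ := exists_conj_of_mem_blocksOver (isBlockIdem_topEl hB) hmax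
    (exists_orderOf_ppart h) hf
  rw [← zpowers_conj_eq_map] at hx
  have hpp : ppart p (x * h * x⁻¹) = x * ppart p h * x⁻¹ := ppart_conj x h
  have hmem : x * ppart p h * x⁻¹ ∈ D := hx.le (Subgroup.mem_zpowers _)
  have := hzero _ hmem (x * h * x⁻¹) hpp
  rw [fBelow_eq hmax.1.1 hx] at this
  rw [← this]
  exact Finset.sum_congr rfl fun χ _ => by
    rw [lval_conjA hM (Chars.isClassFunction_coe χ) x hfi hfh]

end CfsgLib.Blocks.TwoGen
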