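import Cfsg.Agent.Blocks.TwoGen.Gen
import Cfsg.Agent.Blocks.TwoGen.Local
import Cfsg.Agent.Blocks.Dihedral.CentralPair

/-!
# The local blocks of a block with a quaternion or semidihedral defect group

The block of the normalizer of the cyclic group of order four in `zpowers x` has the whole defect
group and is nilpotent; so are the blocks of the centralizers of the other elements with small
centralizers in the defect group.
-/

set_option autoImplicit false
set_option maxHeartbeats 1000000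
open scoped MonoidAlgebra

namespace CfsgLib.Blocks.TwoGen

open Cfsg CfsgLib CfsgLib.Blocks

universe u

section Auto

variable {G : Type u} [Group G] [Finite G] {D : Subgroup G} {m : ℕ} {s : ℤ} {x y : G}

theorem zpow_cases_four {c : G} (hc : c ^ 4 = 1) (j : ℤ) :
    c ^ j = 1 ∨ c ^ j = c ∨ c ^ j = c * c ∨ c ^ j = c⁻¹ := by
  have hj : c ^ j = c ^ (j % 4) := by
    conv_lhs => rw [← Int.emod_add_mul_ediv j 4, zpow_add, zpow_mul,
      show c ^ (4 : ℤ) = 1 from by rw [← hc]; exact zpow_natCast c 4, one_zpow, mul_one]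
  rw [hj]
  have h1 := Int.emod_nonneg j (show (4 : ℤ) ≠ 0 by norm_num)
  have h2 := Int.emod_lt_of_pos j (show (0 : ℤ) < 4 by norm_num)
  obtain e | e | e | e : j % 4 = 0 ∨ j % 4 = 1 ∨ j % 4 = 2 ∨ j % 4 = 3 := by omega
  all_goals rw [e]
  · exact Or.inl (zpow_zero c)
  · exact Or.inr (Or.inl (zpow_one c))
  · exact Or.inr (Or.inr (Or.inl (by rw [show (2 : ℤ) = 1 + 1 from rfl, zpow_add, zpow_one])))
  · refine Or.inr (Or.inr (Or.inr ?_))
    rw [show (3 : ℤ) = 4 + -1 from rfl, zpow_add, zpow_neg_one,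
      show c ^ (4 : ℤ) = 1 from by rw [← hc]; exact zpow_natCast c 4, one_mul]

/-- An element of odd order fixing `c` and normalizing `Q` centralizes `Q`. -/
theorem mem_centralizer_of_fix (h : IsGen D m s x y) {Q : Subgroup G} (hQD : Q ≤ D) {c : G}
    (hcQ : c ∈ Q) (hc1 : c ≠ 1) (hcz : c ≠ x ^ 2 ^ (m - 1)) (hc4 : c ^ 4 = 1)
    (hQN : Q ≤ Subgroup.normalizer (Subgroup.zpowers c : Set G)) {w : G}
    (hwN : w ∈ Subgroup.normalizer (Q : Set G)) (hwc : w * c * w⁻¹ = c) (hodd : Odd (orderOf w)) :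
    w ∈ Subgroup.centralizer (Q : Set G) := by
  classical
  have hDp : IsPGroup 2 D := IsPGroup.of_card h.card
  have hmem : ∀ {q}, q ∈ Q → w * q * w⁻¹ ∈ Q := fun {q} hq =>
    (Subgroup.mem_normalizer_iff.1 hwN q).1 hq
  have hmemC : ∀ {q}, q * c = c * q → w * q * w⁻¹ * c = c * (w * q * w⁻¹) := fun {q} hq => by
    conv_lhs => rw [← hwc]
    conv_rhs => rw [← hwc]
    calc w * q * w⁻¹ * (w * c * w⁻¹) = w * (q * c) * w⁻¹ := by group
      _ = w * (c * q) * w⁻¹ := by rw [hq]
      _ = _ := by group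
  have hA : ∀ q ∈ Q, q * c = c * q → w * q * w⁻¹ = q := by
    rcases h.centralizer_cases (hQD hcQ) hc1 hcz with hcyc | h4
    · set A := Q ⊓ Subgroup.centralizer ({c} : Set G) with hAdef
      have hAx : A ≤ Subgroup.zpowers x := hcyc ▸ inf_le_inf_right _ hQD
      haveI : IsCyclic A := Subgroup.isCyclic_of_le hAx
      obtain ⟨a, ha⟩ := IsCyclic.exists_generator (α := A)
      have hwa : w * (a : G) * w⁻¹ ∈ A := by
        obtain ⟨h1, h2⟩ := Subgroup.mem_inf.1 a.2
        rw [Subgroup.mem_centralizer_singleton_iff] at h2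
        exact Subgroup.mem_inf.2 ⟨hmem h1, Subgroup.mem_centralizer_singleton_iff.2 (hmemC h2)⟩
      obtain ⟨j, hj⟩ := ha ⟨_, hwa⟩
      obtain ⟨e, he⟩ := IsPGroup.iff_orderOf.1 hDp ⟨(a : G), hQD a.2.1⟩
      rw [Subgroup.orderOf_mk] at he
      have hfix : w * (a : G) * w⁻¹ = a :=
        CentralPair.conj_eq_of_zpowers he (congrArg Subtype.val hj).symm hodd
          (by rw [pow_orderOf_eq_one]; simp)
      intro q hq hqc
      obtain ⟨r, hr⟩ := ha ⟨q, hq, Subgroup.mem_centralizer_singleton_iff.2 hqc⟩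
      have hr' : (a : G) ^ r = q := congrArg Subtype.val hr
      rw [← hr', ← conj_zpow, hfix]
    · set C := D ⊓ Subgroup.centralizer ({c} : Set G) with hCdef
      have hcC : c ∈ C := ⟨hQD hcQ, Subgroup.mem_centralizer_singleton_iff.2 rfl⟩
      set A := (Subgroup.zpowers c).subgroupOf C with hAdef
      have hle : Subgroup.zpowers c ≤ C := Subgroup.zpowers_le.2 hcC
      intro q hq hqc
      have hqC : q ∈ C := ⟨hQD hq, Subgroup.mem_centralizer_singleton_iff.2 hqc⟩
      have hfixA : ∀ a ∈ Subgroup.zpowers c, w * a * w⁻¹ = a := by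
        rintro _ ⟨j, rfl⟩
        rw [← conj_zpow, hwc]
      refine fix_extend (hDp.to_le (hle.trans inf_le_left)) hfixA hodd ?_
      have hidx : A.index = 1 ∨ A.index = 2 := by
        have := A.card_mul_index
        rw [hAdef, Nat.card_congr (Subgroup.subgroupOfEquivOfLe hle).toEquiv, Nat.card_zpowers,
          h4] at this
        have hd : orderOf c ∣ 4 := orderOf_dvd_of_pow_eq_one hc4
        have hne : orderOf c ≠ 1 := fun e => hc1 (orderOf_eq_one_iff.1 e)
        obtain ⟨e, he, hoe⟩ := (Nat.dvd_prime_pow Nat.prime_two).1 (show orderOf c ∣ 2 ^ 2 from hd)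
        rw [hoe] at this hne
        interval_cases e
        · exact absurd (pow_zero 2) hne
        · right
          simp only [hAdef]
          omega
        · left
          simp only [hAdef]
          omega
      have hwqC : w * q * w⁻¹ ∈ C :=
        ⟨hQD (hmem hq), Subgroup.mem_centralizer_singleton_iff.2 (hmemC hqc)⟩
      rcases hidx with h1 | h2
      · have hall : ∀ t ∈ C, t ∈ Subgroup.zpowers c := fun t ht => by
          have : (⟨t, ht⟩ : C) ∈ A := by rw [Subgroup.index_eq_one.1 h1]; trivial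
          exact this
        exact Subgroup.mul_mem _ (hall _ hwqC) (Subgroup.inv_mem _ (hall _ hqC))
      · by_cases hq0 : q ∈ Subgroup.zpowers c
        · rw [hfixA q hq0, mul_inv_cancel]
          exact Subgroup.one_mem _
        · have hq1 : w * q * w⁻¹ ∉ Subgroup.zpowers c := fun h' => hq0 (by
            have e := hfixA _ h'
            have e2 : w * q * w⁻¹ = q := mul_left_cancel (mul_right_cancel e)
            rwa [e2] at h')
          have := (Subgroup.mul_mem_iff_of_index_two h2 (a := ⟨_, hwqC⟩)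
            (b := ⟨q⁻¹, C.inv_mem hqC⟩)).2 (by
              simp only [hAdef, Subgroup.mem_subgroupOf]
              exact ⟨fun e => absurd e hq1,
                fun e => absurd (Subgroup.inv_mem_iff _ |>.1 e) hq0⟩)
          exact this
  rw [Subgroup.mem_centralizer_iff]
  suffices hfix : ∀ q ∈ Q, w * q * w⁻¹ = q by
    intro q hq
    conv_lhs => rw [← hfix q hq]
    group
  intro q hq
  by_cases hqc : q * c = c * q
  · exact hA q hq hqc
  have hinv : ∀ t ∈ Q, t * c ≠ c * t → t * c * t⁻¹ = c⁻¹ := by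
    intro t ht hne
    have hmemc : t * c * t⁻¹ ∈ Subgroup.zpowers c :=
      (Subgroup.mem_normalizer_iff.1 (hQN ht) c).1 (Subgroup.mem_zpowers c)
    obtain ⟨j, hj⟩ := hmemc
    replace hj : c ^ j = t * c * t⁻¹ := hj
    rcases zpow_cases_four hc4 j with e | e | e | e <;> rw [e] at hj
    · exact absurd (by simpa using hj.symm) hc1
    · exact absurd (by
        conv_rhs => rw [hj]
        group) hne
    · exfalso
      have h4' : c * c * (c * c) = 1 := by rw [← hc4]; simp only [pow_succ, pow_zero, one_mul, mul_assoc]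
      have : t * (c * c) * t⁻¹ = 1 := by
        rw [show t * (c * c) * t⁻¹ = (t * c * t⁻¹) * (t * c * t⁻¹) by group, ← hj, h4']
      have hcc : c * c = 1 := by simpa using this
      rw [hcc] at hj
      exact hc1 (by simpa using hj.symm)
    · exact hj.symm
  have hq' : w * q * w⁻¹ * c ≠ c * (w * q * w⁻¹) := fun e => hqc (by
    have e' : w * (q * c) * w⁻¹ = w * (c * q) * w⁻¹ := by
      calc w * (q * c) * w⁻¹ = w * q * w⁻¹ * (w * c * w⁻¹) := by group
        _ = c * (w * q * w⁻¹) := by rw [hwc, e]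
        _ = (w * c * w⁻¹) * (w * q * w⁻¹) := by rw [hwc]
        _ = _ := by group
    exact mul_left_cancel (mul_right_cancel e'))
  refine fix_extend (A := Q ⊓ Subgroup.centralizer ({c} : Set G))
    (hDp.to_le (inf_le_left.trans hQD))
    (fun a ha => hA a ha.1 (Subgroup.mem_centralizer_singleton_iff.1 ha.2)) hodd
    ⟨Q.mul_mem (hmem hq) (Q.inv_mem hq), ?_⟩
  show w * q * w⁻¹ * q⁻¹ ∈ Subgroup.centralizer ({c} : Set G)
  rw [Subgroup.mem_centralizer_singleton_iff]
  have h1 := hinv q hq hqc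
  have h2 := hinv _ (hmem hq) hq'
  have h3 : q⁻¹ * c * q = c⁻¹ := by
    have h5 : q * c⁻¹ * q⁻¹ = c := by
      rw [show q * c⁻¹ * q⁻¹ = (q * c * q⁻¹)⁻¹ by group, h1, inv_inv]
    calc q⁻¹ * c * q = q⁻¹ * (q * c⁻¹ * q⁻¹) * q := by rw [h5]
      _ = c⁻¹ := by group
  have h6 : w * q * w⁻¹ * c⁻¹ * (w * q * w⁻¹)⁻¹ = c := by
    rw [show w * q * w⁻¹ * c⁻¹ * (w * q * w⁻¹)⁻¹ = (w * q * w⁻¹ * c * (w * q * w⁻¹)⁻¹)⁻¹ by group,
      h2, inv_inv]
  calc w * q * w⁻¹ * q⁻¹ * c = w * q * w⁻¹ * (q⁻¹ * c * q) * q⁻¹ := by group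
    _ = w * q * w⁻¹ * c⁻¹ * (w * q * w⁻¹)⁻¹ * (w * q * w⁻¹ * q⁻¹) := by rw [h3]; group
    _ = _ := by rw [h6]

end Auto

section Block

variable {M : Ideal AlgInt} [hMmax : M.IsMaximal] {G : Type u} [Group G] [Fintype G]
  [hp : Fact (Nat.Prime 2)] [CharP (kres M) 2] {B : Set (IrrCharacter G)} {D : Subgroup G}
  {g : (kres M)[G]} {m : ℕ} {s : ℤ} {x y : G}

/-- A block of a subgroup between the centralizer and the normalizer is nilpotent when every
conjugate in `D` of the element avoids the centre. -/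
theorem nilpotent_sub (hB : IsPBlock M B) (hmax : IsMaxPairIdem 2 ⊤ (topEl M B) D g)
    (h : IsGen D m s x y) {c : G} (hcD : c ∈ D) (hc1 : c ≠ 1) (hc4 : c ^ 4 = 1) {H : Subgroup G}
    (hCH : Subgroup.centralizer ({c} : Set G) ≤ H)
    (hHN : H ≤ Subgroup.normalizer (Subgroup.zpowers c : Set G))
    (hblk : IsBlockIdem H (fBelow 2 D g (Subgroup.zpowers c)))
    (hfixc : ∀ w ∈ H, Odd (orderOf w) → w * c * w⁻¹ = c)
    (havoid : ∀ t : G, Carries 2 D g (Subgroup.zpowers c) t → t * c * t⁻¹ ≠ x ^ 2 ^ (m - 1)) :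
    IsNilpotentIdem 2 H (fBelow 2 D g (Subgroup.zpowers c)) := by
  classical
  have hE := isBlockIdem_topEl hB (M := M)
  set U := Subgroup.zpowers c with hU
  have hle : U ≤ D := Subgroup.zpowers_le.2 hcD
  have hUp : IsPGroup 2 U := hmax.1.1.1.to_le hle
  obtain ⟨hfb, hfo⟩ := mem_blocksOver.mp (fBelow_mem_blocksOver hB hmax hle)
  rw [top_inf_eq] at hfb
  set f := fBelow 2 D g U with hf
  intro Q e hQe w hwH hwN hwe hreg
  obtain ⟨⟨hQp, hQH, heb⟩, hQo⟩ := hQe
  have hQN : Q ≤ Subgroup.normalizer (U : Set G) := hQH.trans hHN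
  have hQ'p : IsPGroup 2 (Q ⊔ U : Subgroup G) := hQp.to_sup_of_normal_right' hUp hQN
  have hQ'N : Q ⊔ U ≤ Subgroup.normalizer (U : Set G) := sup_le hQN Subgroup.le_normalizer
  have hcent : Subgroup.centralizer ((Q ⊔ U : Subgroup G) : Set G) =
      Subgroup.centralizer (U : Set G) ⊓ Subgroup.centralizer (Q : Set G) := by
    refine le_antisymm (le_inf
      (Subgroup.centralizer_le (SetLike.coe_subset_coe.mpr (le_sup_right : U ≤ Q ⊔ U)))
      (Subgroup.centralizer_le (SetLike.coe_subset_coe.mpr (le_sup_left : Q ≤ Q ⊔ U))))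
      fun t ht => ?_
    refine Subgroup.le_centralizer_iff.mp ?_ ht
    exact sup_le (Subgroup.le_centralizer_iff.mp inf_le_right)
      (Subgroup.le_centralizer_iff.mp inf_le_left)
  have htr : ∀ a : (kres M)[G], brTrunc (Q ⊔ U) a = brTrunc Q (brTrunc U a) := by
    intro a
    refine MonoidAlgebra.ext (Finsupp.ext fun t => ?_)
    by_cases ht : t ∈ Subgroup.centralizer ((Q ⊔ U : Subgroup G) : Set G)
    · rw [coeff_brTrunc_of_mem _ ht]
      rw [hcent] at ht
      rw [coeff_brTrunc_of_mem _ ht.2, coeff_brTrunc_of_mem _ ht.1]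
    · rw [coeff_brTrunc_of_not_mem _ ht]
      rw [hcent] at ht
      by_cases htQ : t ∈ Subgroup.centralizer (Q : Set G)
      · rw [coeff_brTrunc_of_mem _ htQ, coeff_brTrunc_of_not_mem _ fun htU => ht ⟨htU, htQ⟩]
      · rw [coeff_brTrunc_of_not_mem _ htQ]
  have hsupp : brTrunc U f = f := brTrunc_eq_self hfb.1.1
  have hfQ : IsFixedBy f (Q ⊔ U : Subgroup G) := hblk.1.2.mono (sup_le hQH
    ((Subgroup.zpowers_le.2 (Subgroup.mem_centralizer_singleton_iff.2 rfl)).trans hCH))
  set a := brTrunc (Q ⊔ U) f with ha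
  have haa : a * a = a := by rw [ha, ← brTrunc_mul hQ'p hfQ hfQ, hfb.idem]
  have haC : a ∈ centerIn (kres M)
      ((⊤ : Subgroup G) ⊓ Subgroup.centralizer ((Q ⊔ U : Subgroup G) : Set G)) := by
    rw [top_inf_eq]
    refine ⟨isSupportedOn_brTrunc _ _, IsFixedBy.brTrunc
      ((hfb.1.2).mono ?_) (Subgroup.centralizer_le_normalizer _)⟩
    rw [hcent]; exact inf_le_left
  have ha0 : a ≠ 0 := fun h0 => by
    have h1 : brTrunc Q f * e = e := hQo
    rw [ha, htr, hsupp] at h0
    rw [h0, zero_mul] at h1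
    exact heb.ne_zero h1.symm
  obtain ⟨e', he', hae'⟩ := exists_isBlockIdem_mul_eq haC haa ha0
  have hUblk : IsPairIdem 2 ⊤ U f := ⟨hUp, le_top, by rwa [top_inf_eq]⟩
  have hQblk : IsPairIdem 2 ⊤ (Q ⊔ U) e' := ⟨hQ'p, le_top, he'⟩
  have hnorm : IsNormalPairIdem 2 ⊤ U f (Q ⊔ U) e' :=
    ⟨hUblk, hQblk, le_sup_right, hQ'N, hfQ, hae'⟩
  have hover : IsPairOfIdem 2 ⊤ (topEl M B) (Q ⊔ U) e' := by
    refine ⟨hQblk, ?_⟩
    show brTrunc (Q ⊔ U) (topEl M B) * e' = e'
    have hEU : IsFixedBy (brTrunc U (topEl M B)) (Q ⊔ U : Subgroup G) :=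
      (hE.1.2.mono le_top).brTrunc hQ'N
    have h2 : brTrunc (Q ⊔ U) (topEl M B) * a = a := by
      rw [ha, ← brTrunc_brTrunc (le_sup_right : U ≤ Q ⊔ U) (topEl M B),
        ← brTrunc_mul hQ'p hEU hfQ, show brTrunc U (topEl M B) * f = f from hfo]
    conv_lhs => rw [← hae', ← mul_assoc, h2]
    exact hae'
  obtain ⟨t, -, ht⟩ := IsPairOfIdem.exists_conj_le hE hover hmax
  have hwU : w ∈ Subgroup.normalizer ((Q ⊔ U : Subgroup G) : Set G) := by
    refine mem_normalizer_of_map_conj_le ?_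
    rw [Subgroup.map_sup, map_conj_eq_self_of_mem_normalizer hwN,
      map_conj_eq_self_of_mem_normalizer (hHN hwH)]
  have hwodd : Odd (orderOf w) := Nat.not_even_iff_odd.1 fun he => hreg (even_iff_two_dvd.1 he)
  have hwc : w * c * w⁻¹ = c := hfixc w hwH hwodd
  have hcmem : c ∈ Q ⊔ U := Subgroup.mem_sup_right (Subgroup.mem_zpowers c)
  have hcar : Carries 2 D g U t :=
    ⟨f, fBelow_spec hmax.1.1 hle, ((PairLE.single hnorm).conjA (Subgroup.mem_top t)).trans ht⟩
  have key := mem_centralizer_of_fix h ht.le (c := t * c * t⁻¹)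
    ⟨c, hcmem, by simp⟩
    (fun e1 => hc1 (by simpa using e1))
    (havoid t hcar)
    (by rw [conj_pow, hc4]; group)
    (by
      rintro _ ⟨q, hq, rfl⟩
      refine mem_normalizer_of_map_conj_le (le_of_eq ?_)
      rw [zpowers_conj_eq_map, map_conj_map_conj,
        show (MulAut.conj t).toMonoidHom q * t = t * q by simp, ← map_conj_map_conj,
        map_conj_eq_self_of_mem_normalizer (hQ'N hq)])
    (w := t * w * t⁻¹)
    (mem_normalizer_of_map_conj_le (by
      rw [map_conj_map_conj, show t * w * t⁻¹ * t = t * w by group, ← map_conj_map_conj,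
        map_conj_eq_self_of_mem_normalizer hwU]))
    (by
      calc t * w * t⁻¹ * (t * c * t⁻¹) * (t * w * t⁻¹)⁻¹ = t * (w * c * w⁻¹) * t⁻¹ := by group
        _ = _ := by rw [hwc])
    (by rw [show t * w * t⁻¹ = MulAut.conj t w by simp, MulEquiv.orderOf_eq]; exact hwodd)
  rw [Subgroup.mem_centralizer_iff]
  intro q hq
  have := Subgroup.mem_centralizer_iff.1 key (t * q * t⁻¹) ⟨q, Subgroup.mem_sup_left hq, by simp⟩
  calc q * w = t⁻¹ * (t * q * t⁻¹ * (t * w * t⁻¹)) * t := by group
    _ = t⁻¹ * (t * w * t⁻¹ * (t * q * t⁻¹)) * t := by rw [this]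
    _ = w * q := by group

/-- The data of a nilpotent block from a block of a subgroup below the maximal pair. -/
theorem exists_loc (hM : IsPModular 2 M) (hB : IsPBlock M B)
    (hmax : IsMaxPairIdem 2 ⊤ (topEl M B) D g) {H U Q : Subgroup G} [Fintype H] (hUQ : U ≤ Q)
    (hQD : Q ≤ D) (hQH : Q ≤ H) (hCH : Subgroup.centralizer (U : Set G) ≤ H)
    (hHN : H ≤ Subgroup.normalizer (U : Set G)) (hblk : IsBlockIdem H (fBelow 2 D g U))
    (hdef : IsDefectGroupIdem 2 H (fBelow 2 D g U) Q)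
    (hnil : IsNilpotentIdem 2 H (fBelow 2 D g U)) :
    ∃ (b : Set (IrrCharacter H)) (gH : (kres M)[H]) (ψ : IrrCharacter H),
      Loc M B D g H b (Q.subgroupOf H) gH ψ ∧ subEl M H b = fBelow 2 D g U ∧
        IsDefectGroup 2 M b (Q.subgroupOf H) := by
  obtain ⟨b, gH, hind, hbe, hP, hmaxH, hemb⟩ :=
    exists_sub hM hB hmax hUQ hQD hQH hCH hHN hblk hdef
  obtain ⟨ψ, hψ, h0⟩ := HeightZero.exists_height_zero (p := 2) hind.1
  have hmapQ : (Q.subgroupOf H).map H.subtype = Q := Subgroup.map_subgroupOf_eq_of_le hQH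
  refine ⟨b, gH, ψ, ⟨hM, hB, hmax, hind, hmaxH, (isNilpotentIdem_top_iff hind.1).1
    ((isNilpotentBlock_subEl_iff hind.1).2 (hbe ▸ hnil)), hψ, h0, hmapQ.symm ▸ hQD,
    by rw [hmapQ]; exact hemb⟩, hbe, hP⟩

/-- The block of the normalizer of the cyclic group of order four. -/
theorem exists_loc_normalizer (hM : IsPModular 2 M) (hB : IsPBlock M B)
    (hmax : IsMaxPairIdem 2 ⊤ (topEl M B) D g) (h : IsGen D m s x y) {H : Subgroup G} [Fintype H]
    (hH : H = Subgroup.normalizer (Subgroup.zpowers (x ^ 2 ^ (m - 2)) : Set G)) :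
    ∃ (b : Set (IrrCharacter H)) (gH : (kres M)[H]) (ψ : IrrCharacter H),
      Loc M B D g H b (D.subgroupOf H) gH ψ ∧ D ≤ H ∧
        Subgroup.centralizer ({x ^ 2 ^ (m - 2)} : Set G) ≤ H := by
  classical
  set i := x ^ 2 ^ (m - 2) with hi
  set U := Subgroup.zpowers i with hU
  have hiD : i ∈ D := D.pow_mem h.x_mem _
  have hle : U ≤ D := Subgroup.zpowers_le.2 hiD
  have hi4 : i ^ 4 = 1 := by rw [← h.orderOf_i, ← hi, pow_orderOf_eq_one]
  have hi1 : i ≠ 1 := fun e => by
    have := h.orderOf_i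
    rw [← hi, e, orderOf_one] at this
    omega
  have hyN : y ∈ Subgroup.normalizer (U : Set G) := by
    refine mem_normalizer_of_map_conj_le ?_
    rw [← zpowers_conj_eq_map, h.y_conj_i, Subgroup.zpowers_inv]
  have hxN : x ∈ Subgroup.normalizer (U : Set G) :=
    Subgroup.centralizer_le_normalizer _ (by
      rw [hU, Blocks.centralizer_zpowers_eq, Subgroup.mem_centralizer_singleton_iff, hi]
      exact (Commute.self_pow x _).eq)
  have hDN : D ≤ Subgroup.normalizer (U : Set G) := by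
    intro d hd
    obtain ⟨j, rfl | rfl⟩ := h.mem_cases hd
    · exact Subgroup.zpow_mem _ hxN j
    · exact Subgroup.mul_mem _ (Subgroup.zpow_mem _ hxN j) hyN
  have hDH : D ≤ H := hH ▸ hDN
  have hCH : Subgroup.centralizer (U : Set G) ≤ H := hH ▸ Subgroup.centralizer_le_normalizer _
  set f := fBelow 2 D g U with hf
  have hspec := fBelow_spec hmax.1.1 hle
  have hp := hspec.isPair_left hmax.1.1
  have hfix : IsFixedBy f D := (hspec.isNormal hmax.1.1 hDN).2.2.2.2.1
  have hgen : ∀ w ∈ Subgroup.normalizer (U : Set G), w * i * w⁻¹ = i ∨ w * i * w⁻¹ = i⁻¹ := by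
    intro w hw
    obtain ⟨j, hj⟩ := (Subgroup.mem_normalizer_iff.1 hw i).1 (Subgroup.mem_zpowers i)
    replace hj : i ^ j = w * i * w⁻¹ := hj
    have ho : orderOf (w * i * w⁻¹) = 4 := by
      rw [← MulAut.conj_apply, MulEquiv.orderOf_eq, hi, h.orderOf_i]
    rw [← hj] at ho ⊢
    rcases zpow_cases_four hi4 j with e | e | e | e <;> rw [e] at ho ⊢
    · simp at ho
    · exact Or.inl rfl
    · exfalso
      have : (i * i) ^ 2 = 1 := by rw [← pow_two, ← pow_mul, hi4]
      have := orderOf_dvd_of_pow_eq_one this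
      rw [ho] at this
      norm_num at this
    · exact Or.inr rfl
  have hstab : pairStab ⊤ U f = H := by
    rw [hH]
    refine le_antisymm (pairStab_le_normalizer _ _ _) fun w hw => mem_pairStab.2
      ⟨⟨Subgroup.mem_top w, hw⟩, ?_⟩
    have hC : ∀ c, c * i * c⁻¹ = i → Blocks.conjA c f = f := fun c hc => by
      have := hp.2.2
      rw [top_inf_eq] at this
      refine isFixedBy_iff_conjA.1 this.1.2 c ?_
      rw [hU, Blocks.centralizer_zpowers_eq, Subgroup.mem_centralizer_singleton_iff]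
      calc c * i = c * i * c⁻¹ * c := by group
        _ = i * c := by rw [hc]
    rcases hgen w hw with e | e
    · exact hC w e
    · have hyy : Blocks.conjA y f = f := isFixedBy_iff_conjA.1 hfix y h.y_mem
      have hwy : (y⁻¹ * w) * i * (y⁻¹ * w)⁻¹ = i := by
        calc y⁻¹ * w * i * (y⁻¹ * w)⁻¹ = y⁻¹ * (w * i * w⁻¹) * y := by group
          _ = y⁻¹ * (y * i * y⁻¹) * y := by rw [e, h.y_conj_i]
          _ = i := by group
      calc Blocks.conjA w f = Blocks.conjA y (Blocks.conjA (y⁻¹ * w) f) := by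
            rw [conjA_conjA, mul_inv_cancel_left]
        _ = f := by rw [hC _ hwy, hyy]
  have hblk : IsBlockIdem H f := hstab ▸ hp.isBlockIdem_pairStab
  have hinf : D ⊓ Subgroup.normalizer (U : Set G) = D := inf_eq_left.2 hDN
  have hdef : IsDefectGroupIdem 2 H f D := by
    have := (isDefectGroupIdem_pairStab_iff (isBlockIdem_topEl hB) hmax hspec).1 fun t _ => by
      rw [hinf]; exact Subgroup.card_le_of_le inf_le_left
    rwa [hinf, hstab] at this
  have hnil : IsNilpotentIdem 2 H f := by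
    refine nilpotent_sub hB hmax h hiD hi1 hi4 (Blocks.centralizer_zpowers_eq i ▸ hCH) (hH ▸ le_rfl)
      hblk (fun w hw hodd => ?_) fun t _ e => ?_
    · rcases hgen w (hH ▸ hw) with e | e
      · exact e
      · exfalso
        have hit : ∀ k : ℕ, w ^ k * i * (w ^ k)⁻¹ = if Even k then i else i⁻¹ := by
          intro k
          induction k with
          | zero => simp
          | succ k ih =>
            rw [pow_succ', show w * w ^ k * i * (w * w ^ k)⁻¹ = w * (w ^ k * i * (w ^ k)⁻¹) * w⁻¹ by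
              group, ih]
            by_cases hk : Even k
            · rw [if_pos hk, if_neg (by simpa [Nat.even_add_one] using hk), e]
            · rw [if_neg hk, if_pos (by simpa [Nat.even_add_one] using hk),
                show w * i⁻¹ * w⁻¹ = (w * i * w⁻¹)⁻¹ by group, e, inv_inv]
        have := hit (orderOf w)
        rw [pow_orderOf_eq_one, if_neg (Nat.not_even_iff_odd.2 hodd)] at this
        have h2 : i ^ 2 = 1 := by
          rw [pow_two, ← mul_inv_cancel i]
          congr 1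
          simpa using this
        have := orderOf_dvd_of_pow_eq_one h2
        rw [hi, h.orderOf_i] at this
        norm_num at this
    · have : orderOf (t * i * t⁻¹) = 4 := by
        rw [← MulAut.conj_apply, MulEquiv.orderOf_eq, hi, h.orderOf_i]
      rw [e, h.orderOf_z] at this
      omega
  obtain ⟨b, gH, ψ, hl, -, -⟩ :=
    exists_loc hM hB hmax hle le_rfl hDH hCH (hH ▸ le_rfl) hblk hdef hnil
  exact ⟨b, gH, ψ, hl, hDH, Blocks.centralizer_zpowers_eq i ▸ hCH⟩

/-- The block of the centralizer of an element with a centralizer of order four in `D`. -/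
theorem exists_loc_centralizer (hM : IsPModular 2 M) (hB : IsPBlock M B)
    (hmax : IsMaxPairIdem 2 ⊤ (topEl M B) D g) (h : IsGen D m s x y) {j : ℤ}
    (hfull : ∀ t : G, Carries 2 D g (Subgroup.zpowers (x ^ j * y)) t →
      t * (x ^ j * y) * t⁻¹ ≠ x ^ 2 ^ (m - 1) ∧
      Nat.card (D ⊓ Subgroup.centralizer ({t * (x ^ j * y) * t⁻¹} : Set G) : Subgroup G) ≤ 4)
    {H : Subgroup G} [Fintype H] (hH : H = Subgroup.centralizer ({x ^ j * y} : Set G)) :
    ∃ (b : Set (IrrCharacter H)) (gH : (kres M)[H]) (ψ : IrrCharacter H) (P : Subgroup H),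
      Loc M B D g H b P gH ψ ∧ P = (D ⊓ H).subgroupOf H ∧ IsDefectGroup 2 M b P := by
  classical
  set c := x ^ j * y with hc
  set U := Subgroup.zpowers c with hU
  have hcD : c ∈ D := h.refl_mem j
  have hle : U ≤ D := Subgroup.zpowers_le.2 hcD
  have hCU : Subgroup.centralizer (U : Set G) = H := (Blocks.centralizer_zpowers_eq c).trans hH.symm
  have hc1 : c ≠ 1 := fun e => h.zpow_mul_y_ne j 0 (by rw [← hc, e, zpow_zero])
  have hc4 : c ^ 4 = 1 := by
    have hz : x ^ 2 ^ (m - 1) * x ^ 2 ^ (m - 1) = 1 := by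
      have := pow_orderOf_eq_one (x ^ 2 ^ (m - 1))
      rwa [h.orderOf_z, pow_two] at this
    rw [show 4 = 2 + 2 from rfl, pow_add, pow_two]
    rcases h.sq_refl j with e | e <;> rw [← hc] at e <;> rw [e]
    · exact one_mul 1
    · exact hz
  have hspec := fBelow_spec hmax.1.1 hle
  have hp := hspec.isPair_left hmax.1.1
  have hblk : IsBlockIdem H (fBelow 2 D g U) := by
    have := hp.2.2
    rwa [top_inf_eq, hCU] at this
  have hdef : IsDefectGroupIdem 2 H (fBelow 2 D g U) (D ⊓ H) := by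
    have := (isDefectGroupIdem_centralizer_iff (isBlockIdem_topEl hB) hmax hspec).1 fun t ht => by
      rw [← zpowers_conj_eq_map, Blocks.centralizer_zpowers_eq, hU, Blocks.centralizer_zpowers_eq,
        hc, h.card_centralizer_refl j]
      exact (hfull t ht).2
    rwa [hCU] at this
  have hcH : c ∈ H := hH ▸ Subgroup.mem_centralizer_singleton_iff.2 rfl
  have hUQ : U ≤ D ⊓ H := Subgroup.zpowers_le.2 ⟨hcD, hcH⟩
  obtain ⟨b, gH, ψ, hl, -, hP⟩ := exists_loc hM hB hmax hUQ inf_le_left inf_le_right hCU.le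
    (hCU ▸ Subgroup.centralizer_le_normalizer _) hblk hdef
    (nilpotent_sub hB hmax h hcD hc1 hc4 (hH ▸ le_rfl)
      (hCU ▸ Subgroup.centralizer_le_normalizer _) hblk
      (fun w hw _ => by
        rw [hH, Subgroup.mem_centralizer_singleton_iff] at hw
        rw [hw, mul_inv_cancel_right])
      fun t ht => (hfull t ht).1)
  exact ⟨b, gH, ψ, _, hl, rfl, hP⟩

end Block

end CfsgLib.Blocks.TwoGen
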