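import Cfsg.Agent.Blocks.TwoGen.Columns

/-!
# The classes outside `zpowers x` in the centralizer of the involution

An element of order four outside squares to `z`, so what conjugates it inside `D` centralizes `z`;
the involutions outside form one class of `D`.
-/

set_option autoImplicit false
set_option maxHeartbeats 1000000
open scoped MonoidAlgebra

namespace CfsgLib.Blocks.TwoGen

open Cfsg CfsgLib CfsgLib.Blocks CfsgLib.Blocks.NilSection

universe u

section Group

variable {G : Type u} [Group G] {D : Subgroup G} {m : ℕ} {s : ℤ} {x y : G}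

theorem IsGen.eq_of_sq_one (h : IsGen D m s x y) {w : G} (hw : w ∈ Subgroup.zpowers x)
    (h2 : w * w = 1) (h1 : w ≠ 1) : w = x ^ 2 ^ (m - 1) := by
  obtain ⟨i, rfl⟩ := hw
  replace h2 : x ^ i * x ^ i = 1 := h2
  replace h1 : x ^ i ≠ 1 := h1
  show x ^ i = _
  rw [← zpow_add, h.zpow_eq_one_iff] at h2
  obtain ⟨d, hd⟩ := h2
  rw [h.z_zpow, h.zpow_eq_iff]
  obtain ⟨k, rfl | rfl⟩ := Int.even_or_odd' d
  · exact absurd (h.zpow_eq_one_iff.2 ⟨k, by linarith⟩) h1
  · refine ⟨k, ?_⟩
    rw [h.two_pow_eq.1] at hd ⊢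
    rw [h.two_pow_eq.2]
    linarith

theorem IsGen.sq_one_odd (h : IsGen D m s x y) :
    x ^ (1 : ℤ) * y * (x ^ (1 : ℤ) * y) = x ^ 2 ^ (m - 1) := by
  have e : x ^ (1 : ℤ) * y * (x ^ (1 : ℤ) * y) = x ^ (1 + s) * (y * y) := by
    rw [mul_assoc, ← mul_assoc y, h.y_mul_zpow, mul_assoc, ← mul_assoc, ← zpow_add, one_mul]
  rw [e, h.z_zpow]
  rcases h.kind with ⟨hs, hy⟩ | ⟨-, hs, hy⟩
  · rw [hy, hs, show (1 : ℤ) + -1 = 0 by ring, zpow_zero, one_mul]
  · rw [hy, mul_one, hs]
    congr 1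
    ring

theorem IsGen.z_ne_one (h : IsGen D m s x y) : x ^ 2 ^ (m - 1) ≠ 1 := fun e => by
  have := h.orderOf_z
  rw [e, orderOf_one] at this
  omega

theorem IsGen.refl_ne_one (h : IsGen D m s x y) (j : ℤ) : x ^ j * y ≠ 1 := fun e =>
  h.zpow_mul_y_ne j 0 (by rw [e, zpow_zero])

theorem mem_cz_iff [Fintype G] {v t : G} : t ∈ cz v ↔ t * v * t⁻¹ = v := by
  rw [show cz v = Subgroup.centralizer ({v} : Set G) from Blocks.centralizer_zpowers_eq v,
    Subgroup.mem_centralizer_singleton_iff, mul_inv_eq_iff_eq_mul]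

/-- What centralizes a square root of `z` centralizes `z`. -/
theorem centralizer_le_cz [Fintype G] {v z : G} (hv : v * v = z) :
    Subgroup.centralizer ({v} : Set G) ≤ cz z := fun k hk => by
  rw [show cz z = Subgroup.centralizer ({z} : Set G) from Blocks.centralizer_zpowers_eq z,
    Subgroup.mem_centralizer_singleton_iff, ← hv]
  rw [Subgroup.mem_centralizer_singleton_iff] at hk
  exact Commute.mul_right hk hk

theorem mem_cz_of_conj [Fintype G] {v w z t : G} (hv : v * v = z) (hw : w * w = z) (ht : t * v * t⁻¹ = w) :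
    t ∈ cz z := by
  rw [mem_cz_iff, ← hv]
  calc t * (v * v) * t⁻¹ = t * v * t⁻¹ * (t * v * t⁻¹) := by group
    _ = v * v := by rw [ht, hw, hv]

end Group

section Block

variable {G : Type u} [Group G] [Fintype G] {M : Ideal AlgInt} [hMmax : M.IsMaximal]
  [hp : Fact (Nat.Prime 2)] [CharP (kres M) 2] {B : Set (IrrCharacter G)} {D : Subgroup G}
  {g : (kres M)[G]} {m : ℕ} {s : ℤ} {x y : G}

theorem PairConj.sq {v w : G} (h : PairConj D g v w) : (v * v = 1 ↔ w * w = 1) := by
  obtain ⟨t, ht, -⟩ := h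
  rw [← ht, show t * v * t⁻¹ * (t * v * t⁻¹) = MulAut.conj t (v * v) by simp [mul_assoc],
    MulEquiv.map_eq_one_iff]

/-- The involutions outside are conjugate to `y`. -/
theorem pairConj_y_of_sq_one (hmax : IsMaxPairIdem 2 ⊤ (topEl M B) D g) (h : IsGen D m s x y)
    {j : ℤ} (hj : x ^ j * y * (x ^ j * y) = 1) :
    PairConj D g (x ^ j * y) (x ^ (0 : ℤ) * y) := by
  refine (pairConj_rep hmax h j).resolve_right fun e => h.z_ne_one ?_
  rw [← h.sq_one_odd]
  exact e.sq.1 hj

end Block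

end CfsgLib.Blocks.TwoGen
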