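import Cfsg.Agent.Blocks.TwoGen.Central
import Cfsg.Agent.Blocks.TwoGen.Transfer
import Cfsg.Agent.Blocks.Dihedral.CentralPair

/-!
# The columns at the involution

The pull backs of the orthogonal basis in the centralizer of `z` are three integral vectors on `B`
that give all values at the pair of `z`; the classes outside `zpowers x` are those of the
centralizer, one of which may join `z`.
-/

set_option autoImplicit false
set_option maxHeartbeats 1000000
open scoped MonoidAlgebra ComplexConjugate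
open Polynomial (aeval)

namespace CfsgLib.Blocks.TwoGen

open Cfsg CfsgLib CfsgLib.Blocks CfsgLib.Blocks.NilSection CfsgLib.Blocks.Contrib
  CfsgLib.Blocks.HeightZero

universe u

variable {G : Type u} [Group G] [Fintype G] {M : Ideal AlgInt} [hMmax : M.IsMaximal]
  [hp : Fact (Nat.Prime 2)] [CharP (kres M) 2] {B : Set (IrrCharacter G)} {D : Subgroup G}
  {g : (kres M)[G]} {m : ℕ} {s : ℤ} {x y : G}

/-- The outputs at the involution. -/
structure ZData (B : Set (IrrCharacter G)) (D : Subgroup G) (g : (kres M)[G]) (m : ℕ) (x y : G)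
    (e : ℕ) (rep : Fin e → ℤ) (ν w : ℤ) (A A' E : IrrCharacter G → ℤ) : Prop where
  e_le : e ≤ 2
  hν : ν = if e = 0 then 2 else 4
  hw : ν * w = (2 : ℤ) ^ m
  off : ∀ χ, χ ∉ B → A χ = 0 ∧ A' χ = 0 ∧ E χ = 0
  gA : ∑ χ ∈ B.toFinite.toFinset, A χ * A χ = if e < 2 then 2 * ν else 0
  gA' : ∑ χ ∈ B.toFinite.toFinset, A' χ * A' χ = if e = 0 then 2 * ν else 0
  gE : ∑ χ ∈ B.toFinite.toFinset, E χ * E χ = 2 * (2 : ℤ) ^ m
  oAA' : ∑ χ ∈ B.toFinite.toFinset, A χ * A' χ = 0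
  oAE : ∑ χ ∈ B.toFinite.toFinset, A χ * E χ = 0
  oA'E : ∑ χ ∈ B.toFinite.toFinset, A' χ * E χ = 0
  col : ∀ φ : IrrCharacter G → ℂ, ∑ χ ∈ B.toFinite.toFinset, φ χ * (A χ : ℂ) = 0 →
    ∑ χ ∈ B.toFinite.toFinset, φ χ * (A' χ : ℂ) = 0 →
    ∑ χ ∈ B.toFinite.toFinset, φ χ * (E χ : ℂ) = 0 → ColZero B D g φ (x ^ 2 ^ (m - 1))
  orth : ∀ v ∈ D, ¬ PairConj D g (x ^ 2 ^ (m - 1)) v → ColZero B D g (fun χ => (A χ : ℂ)) v ∧
    ColZero B D g (fun χ => (A' χ : ℂ)) v ∧ ColZero B D g (fun χ => (E χ : ℂ)) v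
  height : ∀ χ₀ ∈ B, blockHeight 2 B (χ₀ : G → ℂ) = 0 → ∀ χ ∈ B, ∃ o : ℤ, Odd o ∧
    E χ₀ * E χ + w * (A χ₀ * A χ + A' χ₀ * A' χ) = 2 ^ blockHeight 2 B (χ : G → ℂ) * o
  even : e < 2 → ∀ χ, (2 : ℤ) ∣ A χ + A' χ + E χ
  cover : ∀ j, Fused D g x y j ∨ ∃ i, PairConj D g (x ^ j * y) (x ^ rep i * y)
  split : ∀ i, PairConj D g (x ^ rep i * y) (x ^ 2 ^ (m - 1)) ∨ ¬ Fused D g x y (rep i)
  sep : ∀ i k, i ≠ k → ¬ PairConj D g (x ^ rep i * y) (x ^ rep k * y)
  invol_unique : ∀ i k, x ^ rep i * y * (x ^ rep i * y) = 1 →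
    x ^ rep k * y * (x ^ rep k * y) = 1 → i = k
  invol_exists : ∀ j : ℤ, x ^ j * y * (x ^ j * y) = 1 → ∃ i, x ^ rep i * y * (x ^ rep i * y) = 1

theorem exists_zData (hM : IsPModular 2 M) (hB : IsPBlock M B) (hD : IsDefectGroup 2 M B D)
    (hmax : IsMaxPairIdem 2 ⊤ (topEl M B) D g) (h : IsGen D m s x y) :
    ∃ (e : ℕ) (rep : Fin e → ℤ) (ν w : ℤ) (A A' E : IrrCharacter G → ℤ),
      ZData B D g m x y e rep ν w A A' E := by
  classical
  haveI := Fintype.ofFinite (IrrCharacter G)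
  set z := x ^ 2 ^ (m - 1) with hzdef
  have hzD : z ∈ D := D.pow_mem h.x_mem _
  have hzz : z * z = 1 := by
    have := pow_orderOf_eq_one z
    rwa [h.orderOf_z, pow_two] at this
  have hz1 : z ≠ 1 := h.z_ne_one
  have hzc : ∀ d ∈ D, z * d = d * z := by
    intro d hd
    obtain ⟨j, rfl | rfl⟩ := h.mem_cases hd
    · rw [hzdef, h.z_zpow, IsGen.zpow_comm]
    · rw [hzdef, mul_assoc, h.z_comm, ← mul_assoc, ← mul_assoc, h.z_zpow, IsGen.zpow_comm]
  haveI := Fintype.ofFinite (cz z)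
  haveI := Fintype.ofFinite (IrrCharacter (cz z))
  have hle : Subgroup.zpowers z ≤ D := Subgroup.zpowers_le.2 hzD
  have hDK : D ≤ cz z := fun d hd => by
    rw [cz_eq_centralizer, Subgroup.mem_centralizer_singleton_iff]
    exact (hzc d hd).symm
  obtain ⟨hfb, -⟩ := mem_blocksOver.mp (fBelow_mem_blocksOver hB hmax hle)
  rw [top_inf_eq] at hfb
  obtain ⟨b, gb, hind, hbe, hP, hmaxb, hemb⟩ := exists_sub hM hB hmax hle le_rfl hDK
    (le_refl (cz z)) (Subgroup.centralizer_le_normalizer _) hfb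
    (CentralPair.isDefectGroupIdem_center hB hmax hzD hzc)
  set P := D.subgroupOf (cz z) with hPdef
  have hmapP : P.map (cz z).subtype = D := Subgroup.map_subgroupOf_eq_of_le hDK
  set xK : cz z := ⟨x, hDK h.x_mem⟩ with hxK
  set yK : cz z := ⟨y, hDK h.y_mem⟩ with hyK
  have hco : ∀ i : ℤ, ((xK ^ i : cz z) : G) = x ^ i := fun i => by simp [hxK]
  have hcj : ∀ j : ℤ, ((xK ^ j * yK : cz z) : G) = x ^ j * y := fun j => by
    simp [hxK, hyK]
  have hgenK : IsGen P m s xK yK := by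
    refine ⟨h.two_le, ?_, h.x_mem, h.y_mem, by rw [hxK, Subgroup.orderOf_mk, h.ox], Subtype.ext ?_,
      fun ⟨i, hi⟩ => h.y_not_mem ⟨i, ?_⟩, ?_⟩
    · rw [hPdef, Nat.card_congr (Subgroup.subgroupOfEquivOfLe hDK).toEquiv, h.card]
    · simp only [Subgroup.coe_mul, Subgroup.coe_inv, hco]
      exact h.rel
    · show x ^ i = y
      rw [← hco i]
      exact congrArg Subtype.val hi
    · rcases h.kind with ⟨hs, hy⟩ | ⟨hm, hs, hy⟩
      · exact Or.inl ⟨hs, Subtype.ext (by rw [Subgroup.coe_mul, hco]; exact hy)⟩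
      · exact Or.inr ⟨hm, hs, Subtype.ext hy⟩
  set zK : cz z := ⟨z, mem_cz_self z⟩ with hzKdef
  have hzK : xK ^ 2 ^ (m - 1) = zK := Subtype.ext (by simp [hxK, hzKdef, hzdef])
  have hzcK : zK ∈ Subgroup.center (cz z) := self_mem_center_cz z
  obtain ⟨μ, cK, FK, β, e, rep, rK, C⟩ := exists_cen hM hind.1 hP hmaxb hgenK (hzK ▸ hzcK)
  obtain ⟨ν, d1, d2, d3, hb⟩ := C.exists_basis
  rw [hzK] at hb
  set J := inflatedSet b zK with hJ
  set S := b.toFinite.toFinset with hS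
  -- the pairs
  have hembU : ∀ v : cz z, v ∈ P → Subgroup.centralizer ({(v : G)} : Set G) ≤ cz z →
      emb (kres M) (cz z).subtype (fBelow 2 P gb (Subgroup.zpowers v)) =
        fBelow 2 D g (Subgroup.zpowers (v : G)) := by
    intro v hv hC
    have hmap : (Subgroup.zpowers v).map (cz z).subtype = Subgroup.zpowers (v : G) :=
      MonoidHom.map_zpowers _ _
    rw [← hmap]
    refine emb_fBelow hmax.1.1 hmaxb.1.1 hmapP.le ?_ (Subgroup.zpowers_le.2 hv) ?_
    · rw [hmapP]; exact hemb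
    · rw [hmap, Blocks.centralizer_zpowers_eq]; exact hC
  have hup : ∀ v w : cz z, v ∈ P → w ∈ P → (v : G) * v = z → PairConj P gb v w →
      PairConj D g (v : G) (w : G) := by
    intro v w hv hw hsq ⟨t, h1, h2⟩
    have hsqw : (w : G) * w = z := by
      rw [← h1]
      simp only [Subgroup.coe_mul, Subgroup.coe_inv]
      have ht : (t : G) * z * (t : G)⁻¹ = z := mem_cz_iff.1 t.2
      calc (t : G) * v * (t : G)⁻¹ * ((t : G) * v * (t : G)⁻¹) = (t : G) * ((v : G) * v) * (t : G)⁻¹ := by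
            group
        _ = z := by rw [hsq, ht]
    refine ⟨(t : G), congrArg Subtype.val h1, ?_⟩
    rw [← hembU v hv (centralizer_le_cz hsq), ← hembU w hw (centralizer_le_cz hsqw), ← h2,
      emb_conjA]
    rfl
  have hdown : ∀ v w : cz z, v ∈ P → w ∈ P → (v : G) * v = z → (w : G) * w = z →
      PairConj D g (v : G) (w : G) → PairConj P gb v w := by
    intro v w hv hw hsv hsw ⟨t, h1, h2⟩
    refine ⟨⟨t, mem_cz_of_conj hsv hsw h1⟩, Subtype.ext h1, emb_injective (cz z).subtype_injective ?_⟩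
    rw [emb_conjA, hembU v hv (centralizer_le_cz hsv), hembU w hw (centralizer_le_cz hsw)]
    exact h2
  have hsqK : ∀ j : ℤ, x ^ j * y * (x ^ j * y) = 1 → xK ^ j * yK * (xK ^ j * yK) = 1 :=
    fun j hj => Subtype.ext (by rw [Subgroup.coe_mul, hcj]; exact hj)
  -- the multiplicities and the coefficients
  choose n _ hn _ using fun χ : IrrCharacter G => Chars.exists_restrict_coeff χ (cz z)
  have hcl : ∀ (χ : IrrCharacter G) (ξ : IrrCharacter (cz z)), classInner (fun k : cz z => (χ : G → ℂ) k) (ξ : cz z → ℂ) = (n χ ξ : ℂ) := by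
    intro χ ξ
    rw [hn χ, Chars.classInner_sum_smul]
  have hint : ∀ ξ : IrrCharacter (cz z), ∃ c : IrrCharacter (cz z) → ℤ,
      ξ ∈ b → (∀ η, c η ≠ 0 → η ∈ J) ∧ ∀ q, IsPRegular 2 q →
        (ξ : cz z → ℂ) q = ∑ η ∈ S, (c η : ℂ) * (η : cz z → ℂ) q := by
    intro ξ
    by_cases hξ : ξ ∈ b
    · obtain ⟨c, h1, h2⟩ := exists_int_inflated hM hind.1 hzcK (by
        rw [hzKdef, Subgroup.orderOf_mk, hzdef, h.orderOf_z]) hξ
      exact ⟨c, fun _ => ⟨fun η hη => mem_inflatedSet.2 (h1 η hη), h2⟩⟩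
    · exact ⟨fun _ => 0, fun h' => absurd h' hξ⟩
  choose cf hcf using hint
  set om : IrrCharacter (cz z) → ℤ := fun ξ =>
    if (ξ : cz z → ℂ) zK = (ξ : cz z → ℂ) 1 then 1 else -1 with hom
  have homega : ∀ (ξ : IrrCharacter (cz z)) (q : cz z),
      (ξ : cz z → ℂ) (zK * q) = (om ξ : ℂ) * (ξ : cz z → ℂ) q := by
    intro ξ q
    have h1 := Chars.map_one_ne_zero ξ
    rw [Chars.map_mul_of_mem_center ξ hzcK q]
    congr 1
    simp only [hom]
    split_ifs with hi
    · rw [hi, div_self h1, Int.cast_one]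
    · have e' := Chars.map_mul_of_mem_center ξ hzcK zK
      rw [show zK * zK = 1 from Subtype.ext (by simpa [hzKdef] using hzz)] at e'
      have hsq : (ξ : cz z → ℂ) zK / (ξ : cz z → ℂ) 1 * ((ξ : cz z → ℂ) zK / (ξ : cz z → ℂ) 1) =
          1 := by
        field_simp at e' ⊢
        linear_combination -e'
      rcases mul_self_eq_one_iff.1 hsq with r | r
      · exact absurd ((div_eq_one_iff_eq h1).1 r) hi
      · rw [r]; norm_num
  set q : (IrrCharacter (cz z) → ℤ) → IrrCharacter G → ℤ := fun d χ =>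
    ∑ ξ ∈ S, (n χ ξ : ℤ) * om ξ * ∑ η ∈ S, cf ξ η * d η with hq
  set f := fBelow 2 D g (Subgroup.zpowers z) with hf
  set Sv : IrrCharacter G → cz z → ℂ := fun χ t => lval (χ : G → ℂ) (z * (t : G)) f with hSv
  have hsect : ∀ (χ : IrrCharacter G) (t : cz z), IsPRegular 2 t →
      Sv χ t = sectPart b z χ t :=
    fun χ t ht => lval_sect hM hmax hzD hind.1 hbe χ ht
  have hexp : ∀ (χ : IrrCharacter G) (t : cz z), IsPRegular 2 t → Sv χ t =
      ∑ ξ ∈ S, ((n χ ξ : ℂ) * (om ξ : ℂ)) * ∑ η ∈ S, (cf ξ η : ℂ) * (η : cz z → ℂ) t := by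
    intro χ t ht
    rw [hsect χ t ht, sect_expand b χ t]
    refine Finset.sum_congr rfl fun ξ hξ => ?_
    rw [hcl, homega, (hcf ξ ((Set.Finite.mem_toFinset _).1 hξ)).2 t ht, mul_assoc]
  have hqform : ∀ d, (d = d1 ∨ d = d2 ∨ d = d3) → ∀ χ,
      2 * ∑ t ∈ regSet 2 (cz z), gam b d t * Sv χ t = (Nat.card (cz z) : ℂ) * (q d χ : ℂ) := by
    intro d hd χ
    rw [Finset.sum_congr rfl fun t ht => by rw [hexp χ t (mem_regSet.1 ht)]]
    simp only [hq, Int.cast_sum, Int.cast_mul, Int.cast_natCast, Finset.mul_sum]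
    rw [Finset.sum_comm]
    refine Finset.sum_congr rfl fun ξ hξ => ?_
    rw [Finset.sum_comm]
    refine Finset.sum_congr rfl fun η _ => ?_
    by_cases hη : cf ξ η = 0
    · simp [hη]
    have e' := hb.half d hd η ((hcf ξ ((Set.Finite.mem_toFinset _).1 hξ)).1 η hη)
    rw [Finset.sum_congr rfl (g := fun t => ((n χ ξ : ℂ) * (om ξ : ℂ) * (cf ξ η : ℂ)) *
      (2 * ((η : cz z → ℂ) t * gam b d t))) fun t _ => by ring, ← Finset.mul_sum, ← Finset.mul_sum, e']
    ring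
  have hK0 : (Nat.card (cz z) : ℂ) ≠ 0 := Chars.natCard_ne_zero
  have hspan : ∀ (χ : IrrCharacter G) (t : cz z), IsPRegular 2 t → Sv χ t =
      conj (gam b d1 t) / (ν : ℂ) * (q d1 χ : ℂ) + conj (gam b d2 t) / (ν : ℂ) * (q d2 χ : ℂ) +
        conj (gam b d3 t) / ((2 ^ m : ℕ) : ℂ) * (q d3 χ : ℂ) := by
    intro χ t ht
    rw [hexp χ t ht]
    simp only [hq, Int.cast_sum, Int.cast_mul, Int.cast_natCast, Finset.mul_sum,
      ← Finset.sum_add_distrib]
    refine Finset.sum_congr rfl fun ξ hξ => Finset.sum_congr rfl fun η _ => ?_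
    by_cases hη : cf ξ η = 0
    · simp [hη]
    rw [hb.expand η ((hcf ξ ((Set.Finite.mem_toFinset _).1 hξ)).1 η hη) t ht]
    ring
  have hoff : ∀ d, (d = d1 ∨ d = d2 ∨ d = d3) → ∀ χ, χ ∉ B → q d χ = 0 := by
    intro d hd χ hχ
    have e' := hqform d hd χ
    rw [Finset.sum_eq_zero fun t ht => by
      rw [show Sv χ t = 0 from lval_below_eq_zero hM hB hmax hzD hχ (mem_regSet.1 ht), mul_zero],
      mul_zero] at e'
    exact_mod_cast (mul_eq_zero.1 e'.symm).resolve_left hK0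
  have hgram : ∀ d, (d = d1 ∨ d = d2 ∨ d = d3) → ∀ d', (d' = d1 ∨ d' = d2 ∨ d' = d3) →
      ∑ χ ∈ B.toFinite.toFinset, q d χ * q d' χ = 2 * ∑ η ∈ S, d η * d' η := by
    intro d hd d' hd'
    have hSS : ∀ t ∈ regSet 2 (cz z), ∀ t' ∈ regSet 2 (cz z),
        ∑ χ : IrrCharacter G, Sv χ t * conj (Sv χ t') =
          2 * ∑ η ∈ J, (η : cz z → ℂ) t * conj ((η : cz z → ℂ) t') := by
      intro t ht t' ht'
      rw [Finset.sum_congr rfl fun χ _ => by
        rw [hsect χ t (mem_regSet.1 ht), hsect χ t' (mem_regSet.1 ht')],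
        sum_sect_mul_conj hM (exists_orderOf_of_mem hmax hzD) hind.1 hind.1 (mem_regSet.1 ht)
          (mem_regSet.1 ht'), if_pos rfl]
      have e' := C.sum_inflated (mem_regSet.1 ht) (mem_regSet.1 ht')
      rw [hzK] at e'
      rw [e']
      refine Finset.sum_congr rfl fun ξ _ => ?_
      rw [homega, homega, map_mul, map_intCast]
      have h2 : (om ξ : ℂ) * (om ξ : ℂ) = 1 := by
        simp only [hom]; split_ifs <;> norm_num
      linear_combination ((ξ : cz z → ℂ) t * conj ((ξ : cz z → ℂ) t')) * h2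
    have e1 : ((∑ χ ∈ B.toFinite.toFinset, q d χ * q d' χ : ℤ) : ℂ) *
        ((Nat.card (cz z) : ℂ) * (Nat.card (cz z) : ℂ)) =
        ((2 * ∑ η ∈ S, d η * d' η : ℤ) : ℂ) * ((Nat.card (cz z) : ℂ) * (Nat.card (cz z) : ℂ)) := by
      rw [Finset.sum_subset (Finset.subset_univ B.toFinite.toFinset) fun χ _ hχ => by
        rw [hoff d hd χ (fun h' => hχ ((Set.Finite.mem_toFinset _).2 h')), zero_mul],
        Int.cast_sum, Finset.sum_mul,
        Finset.sum_congr rfl (g := fun χ => (2 * ∑ t ∈ regSet 2 (cz z), gam b d t * Sv χ t) *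
          conj (2 * ∑ t ∈ regSet 2 (cz z), gam b d' t * Sv χ t)) fun χ _ => by
          rw [hqform d hd, hqform d' hd', map_mul, map_natCast, map_intCast]; push_cast; ring]
      simp only [map_mul, map_ofNat, map_sum, Finset.mul_sum, Finset.sum_mul]
      rw [Finset.sum_comm, Finset.sum_congr rfl fun t _ => Finset.sum_comm]
      rw [Finset.sum_congr rfl fun t ht => Finset.sum_congr rfl fun t' ht' => by
        rw [Finset.sum_congr rfl (g := fun χ => 4 * (gam b d t' * conj (gam b d' t)) *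
            (Sv χ t' * conj (Sv χ t))) fun χ _ => by ring, ← Finset.mul_sum, hSS t' ht' t ht]]
      simp only [Finset.mul_sum]
      rw [Finset.sum_congr rfl fun t _ => Finset.sum_comm, Finset.sum_comm]
      rw [Finset.sum_congr rfl (g := fun η : IrrCharacter (cz z) => 2 *
          ((2 * ∑ t ∈ regSet 2 (cz z), (η : cz z → ℂ) t * gam b d t) *
            conj (2 * ∑ t ∈ regSet 2 (cz z), (η : cz z → ℂ) t * gam b d' t))) fun η _ => by
        simp only [map_mul, map_ofNat, map_sum, Finset.mul_sum, Finset.sum_mul]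
        exact Finset.sum_congr rfl fun t _ => Finset.sum_congr rfl fun t' _ => by ring]
      rw [Finset.sum_congr rfl (g := fun η => 2 * (((d η * d' η : ℤ) : ℂ) *
          ((Nat.card (cz z) : ℂ) * (Nat.card (cz z) : ℂ)))) fun η hη => by
        rw [hb.half d hd η hη, hb.half d' hd' η hη, map_mul, map_natCast, map_intCast]
        push_cast
        ring, ← Finset.mul_sum, ← Finset.sum_mul]
      push_cast
      have hsub : ∑ η ∈ J, (d η : ℂ) * (d' η : ℂ) = ∑ η ∈ S, (d η : ℂ) * (d' η : ℂ) := by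
        refine Finset.sum_subset (fun η hη =>
          (Set.Finite.mem_toFinset _).2 (mem_inflatedSet.1 hη).1) fun η _ hη => ?_
        rcases hd with rfl | rfl | rfl <;> simp [hb.supp η hη]
      rw [hsub, ← Finset.mul_sum]
      ring
    exact_mod_cast mul_right_cancel₀ (mul_ne_zero hK0 hK0) e1
  -- the vanishing first basis vectors
  have hzero : ∀ d, (d = d1 ∨ d = d2 ∨ d = d3) → ∑ η ∈ S, d η * d η = 0 → ∀ χ, q d χ = 0 := by
    intro d _ h0 χ
    have hd0 : ∀ η ∈ S, d η = 0 := fun η hη => mul_self_eq_zero.1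
      ((Finset.sum_eq_zero_iff_of_nonneg fun p _ => mul_self_nonneg (d p)).1 h0 η hη)
    simp only [hq]
    exact Finset.sum_eq_zero fun ξ _ => by
      rw [Finset.sum_eq_zero fun η hη => by rw [hd0 η hη, mul_zero], mul_zero]
  obtain ⟨w, hw⟩ : ∃ w : ℤ, (ν : ℤ) * w = (2 : ℤ) ^ m := by
    rw [hb.hν, h.two_pow_eq.1]
    split_ifs
    · exact ⟨2 * 2 ^ (m - 2), by push_cast; ring⟩
    · exact ⟨2 ^ (m - 2), by push_cast; ring⟩
  have hνne : (ν : ℂ) ≠ 0 := by
    rw [hb.hν]; split_ifs <;> norm_num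
  have hdb : blockDefect 2 b = m + 1 := by
    have := natCard_defectGroup hM hind.1 hP
    rw [hgenK.card] at this
    exact (Nat.pow_right_injective le_rfl this).symm
  -- the contributions
  have hkap : ∀ χ χ', contrib 2 b z χ χ' =
      ((q d3 χ * q d3 χ' + w * (q d1 χ * q d1 χ' + q d2 χ * q d2 χ') : ℤ) : ℂ) := by
    intro χ χ'
    have hA : ∀ d, (d = d1 ∨ d = d2 ∨ d = d3) → ∀ d', (d' = d1 ∨ d' = d2 ∨ d' = d3) →
        2 * ∑ t ∈ regSet 2 (cz z), conj (gam b d t) * gam b d' t =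
          (Nat.card (cz z) : ℂ) * ((∑ η ∈ S, d η * d' η : ℤ) : ℂ) := by
      intro d hd d' hd'
      simp only [gam, map_sum, map_mul, map_intCast, Complex.conj_conj, Finset.sum_mul]
      rw [Finset.sum_comm, Finset.mul_sum]
      push_cast
      rw [Finset.mul_sum]
      refine Finset.sum_congr rfl fun η hη => ?_
      by_cases hi : η ∈ J
      · rw [mul_left_comm _ (d η : ℂ), ← hb.half d' hd' η hi]
        simp only [gam, Finset.mul_sum]
        exact Finset.sum_congr rfl fun t _ => Finset.sum_congr rfl fun p _ => by ring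
      · have h0 : d η = 0 := by rcases hd with rfl | rfl | rfl <;> simp [hb.supp η hi]
        simp [h0]
    have s1 := hA d1 (Or.inl rfl) d1 (Or.inl rfl)
    have s2 := hA d2 (Or.inr (Or.inl rfl)) d2 (Or.inr (Or.inl rfl))
    have s3 := hA d3 (Or.inr (Or.inr rfl)) d3 (Or.inr (Or.inr rfl))
    have s12 := hA d1 (Or.inl rfl) d2 (Or.inr (Or.inl rfl))
    have s13 := hA d1 (Or.inl rfl) d3 (Or.inr (Or.inr rfl))
    have s23 := hA d2 (Or.inr (Or.inl rfl)) d3 (Or.inr (Or.inr rfl))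
    have s21 := hA d2 (Or.inr (Or.inl rfl)) d1 (Or.inl rfl)
    have s31 := hA d3 (Or.inr (Or.inr rfl)) d1 (Or.inl rfl)
    have s32 := hA d3 (Or.inr (Or.inr rfl)) d2 (Or.inr (Or.inl rfl))
    rw [hb.n1] at s1
    rw [hb.n2] at s2
    rw [hb.n3] at s3
    rw [hb.o12, Int.cast_zero, mul_zero, mul_eq_zero, or_iff_right two_ne_zero] at s12
    rw [hb.o13, Int.cast_zero, mul_zero, mul_eq_zero, or_iff_right two_ne_zero] at s13
    rw [hb.o23, Int.cast_zero, mul_zero, mul_eq_zero, or_iff_right two_ne_zero] at s23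
    rw [show ∑ η ∈ S, d2 η * d1 η = 0 by
      rw [← hb.o12]; exact Finset.sum_congr rfl fun _ _ => mul_comm _ _,
      Int.cast_zero, mul_zero, mul_eq_zero, or_iff_right two_ne_zero] at s21
    rw [show ∑ η ∈ S, d3 η * d1 η = 0 by
      rw [← hb.o13]; exact Finset.sum_congr rfl fun _ _ => mul_comm _ _,
      Int.cast_zero, mul_zero, mul_eq_zero, or_iff_right two_ne_zero] at s31
    rw [show ∑ η ∈ S, d3 η * d2 η = 0 by
      rw [← hb.o23]; exact Finset.sum_congr rfl fun _ _ => mul_comm _ _,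
      Int.cast_zero, mul_zero, mul_eq_zero, or_iff_right two_ne_zero] at s32
    rw [contrib, hdb, Finset.sum_congr rfl fun t ht => by
      rw [← hsect χ t (mem_regSet.1 ht), ← hsect χ' t (mem_regSet.1 ht),
        hspan χ t (mem_regSet.1 ht), hspan χ' t (mem_regSet.1 ht)]]
    simp only [map_add, map_mul, map_div₀, map_natCast, map_intCast, Complex.conj_conj]
    set L : ℂ := ((2 ^ m : ℕ) : ℂ) with hL
    have hL0 : L ≠ 0 := Nat.cast_ne_zero.2 (pow_ne_zero _ two_ne_zero)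
    rw [Finset.sum_congr rfl (g := fun t =>
      ((q d1 χ : ℂ) * (q d1 χ' : ℂ) / ((ν : ℂ) * ν)) * (conj (gam b d1 t) * gam b d1 t) +
      ((q d1 χ : ℂ) * (q d2 χ' : ℂ) / ((ν : ℂ) * ν)) * (conj (gam b d1 t) * gam b d2 t) +
      ((q d1 χ : ℂ) * (q d3 χ' : ℂ) / ((ν : ℂ) * L)) * (conj (gam b d1 t) * gam b d3 t) +
      ((q d2 χ : ℂ) * (q d1 χ' : ℂ) / ((ν : ℂ) * ν)) * (conj (gam b d2 t) * gam b d1 t) +
      ((q d2 χ : ℂ) * (q d2 χ' : ℂ) / ((ν : ℂ) * ν)) * (conj (gam b d2 t) * gam b d2 t) +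
      ((q d2 χ : ℂ) * (q d3 χ' : ℂ) / ((ν : ℂ) * L)) * (conj (gam b d2 t) * gam b d3 t) +
      ((q d3 χ : ℂ) * (q d1 χ' : ℂ) / (L * ν)) * (conj (gam b d3 t) * gam b d1 t) +
      ((q d3 χ : ℂ) * (q d2 χ' : ℂ) / (L * ν)) * (conj (gam b d3 t) * gam b d2 t) +
      ((q d3 χ : ℂ) * (q d3 χ' : ℂ) / (L * L)) * (conj (gam b d3 t) * gam b d3 t)) fun t _ => by
        field_simp
        ring]
    simp only [Finset.sum_add_distrib, ← Finset.mul_sum, s12, s13, s21, s23, s31, s32, mul_zero,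
      add_zero]
    have h3 : (2 : ℂ) ^ (m + 1) = 2 * L := by rw [hL, pow_succ]; push_cast; ring
    have hwC : (ν : ℂ) * (w : ℂ) = L := by
      rw [hL]
      have := congrArg (Int.cast : ℤ → ℂ) hw
      push_cast at this ⊢
      exact this
    have z1 : ¬ e < 2 → q d1 χ = 0 := fun he =>
      hzero d1 (Or.inl rfl) (hb.n1.trans (if_neg he)) χ
    have z2 : ¬ e = 0 → q d2 χ = 0 := fun he =>
      hzero d2 (Or.inr (Or.inl rfl)) (hb.n2.trans (if_neg he)) χ
    have t1 : (q d1 χ : ℂ) * (((if e < 2 then (ν : ℤ) else 0) : ℤ) : ℂ) = (q d1 χ : ℂ) * ν := by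
      split_ifs with he
      · norm_num
      · rw [z1 he]; simp
    have t2 : (q d2 χ : ℂ) * (((if e = 0 then (ν : ℤ) else 0) : ℤ) : ℂ) = (q d2 χ : ℂ) * ν := by
      split_ifs with he
      · norm_num
      · rw [z2 he]; simp
    push_cast at s1 s2 s3 t1 t2 ⊢
    have hL' : (2 : ℂ) ^ m = L := by simp [hL]
    rw [hL'] at s3
    rw [h3]
    field_simp
    linear_combination (L * (q d1 χ' : ℂ) * (q d1 χ : ℂ) * L) * s1 +
      (L * (q d2 χ' : ℂ) * (q d2 χ : ℂ) * L) * s2 + (ν : ℂ) * ν * (q d3 χ : ℂ) * (q d3 χ' : ℂ) * s3 +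
      (Nat.card (cz z) : ℂ) * L * L * (q d1 χ' : ℂ) * t1 +
      (Nat.card (cz z) : ℂ) * L * L * (q d2 χ' : ℂ) * t2 -
      (Nat.card (cz z) : ℂ) * ν * L *
        ((q d1 χ : ℂ) * (q d1 χ' : ℂ) + (q d2 χ : ℂ) * (q d2 χ' : ℂ)) * hwC
  have hH : cz z = Subgroup.centralizer ({z} : Set G) := cz_eq_centralizer z
  have hdB : blockDefect 2 B = m + 1 := by
    have := natCard_defectGroup hM hB hD
    rw [h.card] at this
    exact (Nat.pow_right_injective le_rfl this).symm
  refine ⟨e, rep, (ν : ℤ), w, q d1, q d2, q d3, C.hf.le_two, ?_, hw,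
    fun χ hχ => ⟨hoff _ (Or.inl rfl) χ hχ, hoff _ (Or.inr (Or.inl rfl)) χ hχ,
      hoff _ (Or.inr (Or.inr rfl)) χ hχ⟩, ?_, ?_, ?_, ?_, ?_, ?_, ?_, ?_, ?_, ?_, ?_, ?_, ?_, ?_, ?_⟩
  · rw [hb.hν]; split_ifs <;> rfl
  · rw [hgram _ (Or.inl rfl) _ (Or.inl rfl), hb.n1]; split_ifs <;> ring
  · rw [hgram _ (Or.inr (Or.inl rfl)) _ (Or.inr (Or.inl rfl)), hb.n2]; split_ifs <;> ring
  · rw [hgram _ (Or.inr (Or.inr rfl)) _ (Or.inr (Or.inr rfl)), hb.n3]; push_cast; rfl
  · rw [hgram _ (Or.inl rfl) _ (Or.inr (Or.inl rfl)), hb.o12, mul_zero]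
  · rw [hgram _ (Or.inl rfl) _ (Or.inr (Or.inr rfl)), hb.o13, mul_zero]
  · rw [hgram _ (Or.inr (Or.inl rfl)) _ (Or.inr (Or.inr rfl)), hb.o23, mul_zero]
  · intro φ e1 e2 e3 t ht
    rw [Finset.sum_congr rfl (g := fun χ =>
      conj (gam b d1 t) / (ν : ℂ) * (φ χ * (q d1 χ : ℂ)) +
      conj (gam b d2 t) / (ν : ℂ) * (φ χ * (q d2 χ : ℂ)) +
      conj (gam b d3 t) / ((2 ^ m : ℕ) : ℂ) * (φ χ * (q d3 χ : ℂ))) fun χ _ => by
        rw [show lval (χ : G → ℂ) (z * (t : G)) f = Sv χ t from rfl, hspan χ t ht]; ring]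
    simp only [Finset.sum_add_distrib, ← Finset.mul_sum, e1, e2, e3, mul_zero, add_zero]
  · intro v hv hne
    have key : ∀ d, (d = d1 ∨ d = d2 ∨ d = d3) → ColZero B D g (fun χ => (q d χ : ℂ)) v := by
      intro d hd t ht
      refine (mul_eq_zero.1 (?_ : (Nat.card (cz z) : ℂ) * _ = 0)).resolve_left hK0
      have e' : ∑ χ ∈ B.toFinite.toFinset, ((Nat.card (cz z) : ℂ) * (q d χ : ℂ)) *
          conj (lval (χ : G → ℂ) (v * (t : G)) (fBelow 2 D g (Subgroup.zpowers v))) = 0 := by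
        rw [Finset.sum_subset (Finset.subset_univ B.toFinite.toFinset) fun χ _ hχ => by
          rw [hoff d hd χ (fun h' => hχ ((Set.Finite.mem_toFinset _).2 h')), Int.cast_zero,
            mul_zero, zero_mul],
          Finset.sum_congr rfl fun χ _ => by rw [← hqform d hd χ, Finset.mul_sum, Finset.sum_mul],
          Finset.sum_comm]
        refine Finset.sum_eq_zero fun a ha => ?_
        rw [Finset.sum_congr rfl (g := fun χ : IrrCharacter G => (2 * gam b d a) * (Sv χ a *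
          conj (lval (χ : G → ℂ) (v * (t : G)) (fBelow 2 D g (Subgroup.zpowers v)))))
          fun χ _ => by ring, ← Finset.mul_sum,
          pair_orth hM hB hmax hzD hv hne (mem_regSet.1 ha) ht, mul_zero]
      have e'' := congrArg conj e'
      rw [map_zero, map_sum] at e''
      rw [← e'', Finset.mul_sum]
      exact Finset.sum_congr rfl fun χ _ => by
        rw [map_mul, map_mul, map_natCast, map_intCast, Complex.conj_conj, mul_assoc]
    exact ⟨key _ (Or.inl rfl), key _ (Or.inr (Or.inl rfl)), key _ (Or.inr (Or.inr rfl))⟩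
  · intro χ₀ hχ₀ h00 χ hχ
    obtain ⟨R, hR⟩ := exists_poly hM hind.1 hH (N := 2) (by rw [pow_two]; exact hzz)
      (ζ := (-1 : ℂ)) (IsPrimitiveRoot.neg_one 0 (by norm_num)) χ₀ χ₀
    have haev : ∀ k : ℤ, aeval (k : ℂ) R = ((R.eval k : ℤ) : ℂ) := fun k => by
      rw [show (k : ℂ) = algebraMap ℤ ℂ k by simp, Polynomial.aeval_algebraMap_apply]
      simp
    set K0 : ℤ := q d3 χ₀ * q d3 χ₀ + w * (q d1 χ₀ * q d1 χ₀ + q d2 χ₀ * q d2 χ₀) with hK0'
    have hK0odd : Odd K0 := by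
      have e0 := hR 0
      have e1 := hR 1
      rw [pow_zero, pow_zero, show (1 : ℂ) = ((1 : ℤ) : ℂ) by norm_num, haev] at e0
      rw [pow_one, pow_one, hkap, show (-1 : ℂ) = ((-1 : ℤ) : ℂ) by norm_num, haev] at e1
      have e1' : K0 = R.eval (-1) := Int.cast_injective e1
      have hdiff : (2 : ℤ) ∣ R.eval 1 - R.eval (-1) := by
        simpa using Polynomial.sub_dvd_eval_sub (1 : ℤ) (-1) R
      have hn0 : ¬ (2 : ℤ) ∣ R.eval 1 := fun hd => by
        refine not_memLocalIdeal_contrib_one hM hind hχ₀ h00 hχ₀ h00 ?_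
        rw [e0]
        exact (DihedralBlk.memLocalIdeal_intCast_iff hM _).2 hd
      rw [Int.odd_iff]
      omega
    obtain ⟨zc, hzc', hzv⟩ := exists_omega_contrib hM hH (exists_orderOf_of_mem hmax hzD) hind.1 χ₀
    have hscale : ∀ ψ ∈ B, ∃ u : ℂ, MemLocalRing M u ∧ ¬ MemLocalIdeal M u ∧
        contrib 2 b z χ₀ ψ =
          ((2 : ℕ) : ℂ) ^ blockHeight 2 B (ψ : G → ℂ) * (u * omega (ψ : G → ℂ) zc) := by
      intro ψ hψ
      obtain ⟨u, hu, hu', he⟩ := exists_unit_scale (p := 2) hM hψ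
      refine ⟨u, hu, hu', ?_⟩
      rw [hzv, hdb, ← hdB, he]
      ring
    obtain ⟨u0, hu0, -, he0⟩ := hscale χ₀ hχ₀
    rw [h00, pow_zero, one_mul, hkap] at he0
    have hω0 : ¬ MemLocalIdeal M (omega (χ₀ : G → ℂ) zc) := fun hI => by
      have h1 : MemLocalIdeal M ((K0 : ℤ) : ℂ) := he0 ▸ memLocalIdeal_mul_left hu0 hI
      rw [DihedralBlk.memLocalIdeal_intCast_iff hM] at h1
      rw [Int.odd_iff] at hK0odd
      omega
    obtain ⟨u1, hu1, hu1', he1⟩ := hscale χ hχ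
    rw [hkap] at he1
    set w1 := u1 * omega (χ : G → ℂ) zc with hw1
    have hw1u : ¬ MemLocalIdeal M w1 := by
      refine not_memLocalIdeal_mul hu1 (memLocalRing_omega hzc' χ) hu1' fun hI => hω0 ?_
      exact (congr_omega_of_sameBlock hzc' (sameBlock_of_mem hB hχ₀ hχ)).mem_iff.2 hI
    obtain ⟨o, ho⟩ := pow_dvd_of_eq_mul hM
      ((localRing M).mul_mem hu1 (memLocalRing_omega hzc' χ)) he1
    refine ⟨o, ?_, by exact_mod_cast ho⟩
    rw [ho] at he1
    push_cast at he1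
    have ho' : (o : ℂ) = w1 := mul_left_cancel₀ (pow_ne_zero _ (two_ne_zero (α := ℂ))) he1
    rw [← ho', DihedralBlk.memLocalIdeal_intCast_iff hM] at hw1u
    rw [Int.odd_iff]
    omega
  · intro he χ
    simp only [hq, ← Finset.sum_add_distrib, ← mul_add]
    exact Finset.dvd_sum fun ξ _ => Dvd.dvd.mul_left (Finset.dvd_sum fun η _ =>
      Dvd.dvd.mul_left (hb.even he η) _) _
  · -- covering
    intro j
    by_cases hj : x ^ j * y * (x ^ j * y) = 1
    · have hK := hsqK j hj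
      rcases C.hf.cover j with ⟨w', hw', hc⟩ | ⟨i, hc⟩
      · exfalso
        have hw2 := hc.sq.1 hK
        have hw1' : w' ≠ 1 := fun e1 => by
          obtain ⟨t, ht, -⟩ := hc
          rw [e1] at ht
          exact hgenK.refl_ne_one j (by simpa using ht)
        obtain ⟨t, ht, -⟩ := hc
        rw [hgenK.eq_of_sq_one hw' hw2 hw1', hzK] at ht
        have e2 : xK ^ j * yK = zK := by
          calc xK ^ j * yK = t⁻¹ * (t * (xK ^ j * yK) * t⁻¹) * t := by group
            _ = t⁻¹ * zK * t := by rw [ht]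
            _ = zK := by rw [mul_assoc, ← Subgroup.mem_center_iff.1 hzcK t, inv_mul_cancel_left]
        exact hgenK.zpow_mul_y_ne j _ (e2.trans (hzK.symm.trans hgenK.z_zpow))
      · have hi : x ^ rep i * y * (x ^ rep i * y) = 1 := by
          have := congrArg Subtype.val (hc.sq.1 hK)
          rwa [Subgroup.coe_mul, hcj, OneMemClass.coe_one] at this
        exact Or.inr ⟨i, (pairConj_y_of_sq_one hmax h hj).trans
          (pairConj_y_of_sq_one hmax h hi).symm⟩
    · have hz2 : x ^ j * y * (x ^ j * y) = z := (h.sq_refl j).resolve_left hj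
      rcases C.hf.cover j with ⟨w', hw', hc⟩ | ⟨i, hc⟩
      · refine Or.inl ⟨(w' : G), ?_, ?_⟩
        · obtain ⟨k, rfl⟩ := hw'
          exact ⟨k, (hco k).symm⟩
        · rw [← hcj]
          exact hup _ _ (hgenK.refl_mem j) ((Subgroup.zpowers_le.2 hgenK.x_mem) hw')
            (by rw [hcj]; exact hz2) hc
      · refine Or.inr ⟨i, ?_⟩
        rw [← hcj, ← hcj]
        exact hup _ _ (hgenK.refl_mem j) (hgenK.refl_mem _) (by rw [hcj]; exact hz2) hc
  · -- a class outside joins `z` or stays outside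
    intro i
    by_cases hi : Fused D g x y (rep i)
    swap
    · exact Or.inr hi
    obtain ⟨w', hw', hc⟩ := hi
    obtain ⟨t, ht, -⟩ := id hc
    have hw1 : w' ≠ 1 := fun e1 => by
      rw [e1] at ht
      exact h.refl_ne_one (rep i) (by simpa using ht)
    rcases h.sq_refl (rep i) with hsq | hsq
    · exact Or.inl (h.eq_of_sq_one hw' (hc.sq.1 hsq) hw1 ▸ hc)
    exfalso
    obtain ⟨k, rfl⟩ := hw'
    replace ht : t * (x ^ rep i * y) * t⁻¹ = x ^ k := ht
    have hww : x ^ k * x ^ k = z := by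
      refine h.eq_of_sq_one ⟨k + k, zpow_add x k k⟩ ?_ fun e1 => hz1 ?_
      · calc x ^ k * x ^ k * (x ^ k * x ^ k) =
            t * ((x ^ rep i * y * (x ^ rep i * y)) * (x ^ rep i * y * (x ^ rep i * y))) * t⁻¹ := by
              rw [← ht]; group
          _ = 1 := by rw [hsq, hzz]; simp
      · have := hc.sq.2 e1
        rw [hsq] at this
        exact this
    refine C.hf.unfused i ⟨xK ^ k, ⟨k, rfl⟩, hdown _ _ (hgenK.refl_mem _)
      (P.zpow_mem hgenK.x_mem k) (by rw [hcj]; exact hsq) (by rw [hco]; exact hww) ?_⟩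
    rw [hcj, hco]
    exact hc
  · -- separation
    intro i k hik hc
    rcases h.sq_refl (rep i) with hi | hi
    · have hk := hc.sq.1 hi
      exact C.hf.sep i k hik ((pairConj_y_of_sq_one hmaxb hgenK (hsqK _ hi)).trans
        (pairConj_y_of_sq_one hmaxb hgenK (hsqK _ hk)).symm)
    · have hk : x ^ rep k * y * (x ^ rep k * y) = z :=
        (h.sq_refl (rep k)).resolve_left fun e1 => hz1 (by
          have := hc.sq.2 e1
          rwa [hi] at this)
      refine C.hf.sep i k hik (hdown _ _ (hgenK.refl_mem _) (hgenK.refl_mem _)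
        (by rw [hcj]; exact hi) (by rw [hcj]; exact hk) ?_)
      rw [hcj, hcj]
      exact hc
  · intro i k hi hk
    by_contra hik
    exact C.hf.sep i k hik ((pairConj_y_of_sq_one hmaxb hgenK (hsqK _ hi)).trans
      (pairConj_y_of_sq_one hmaxb hgenK (hsqK _ hk)).symm)
  · intro j hj
    have hK := hsqK j hj
    rcases C.hf.cover j with ⟨w', hw', hc⟩ | ⟨i, hc⟩
    · exfalso
      have hw2 := hc.sq.1 hK
      have hw1' : w' ≠ 1 := fun e1 => by
        obtain ⟨t, ht, -⟩ := hc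
        rw [e1] at ht
        exact hgenK.refl_ne_one j (by simpa using ht)
      obtain ⟨t, ht, -⟩ := hc
      rw [hgenK.eq_of_sq_one hw' hw2 hw1', hzK] at ht
      have e2 : xK ^ j * yK = zK := by
        calc xK ^ j * yK = t⁻¹ * (t * (xK ^ j * yK) * t⁻¹) * t := by group
          _ = t⁻¹ * zK * t := by rw [ht]
          _ = zK := by rw [mul_assoc, ← Subgroup.mem_center_iff.1 hzcK t, inv_mul_cancel_left]
      exact hgenK.zpow_mul_y_ne j _ (e2.trans (hzK.symm.trans hgenK.z_zpow))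
    · refine ⟨i, ?_⟩
      have := congrArg Subtype.val (hc.sq.1 hK)
      rwa [Subgroup.coe_mul, hcj, OneMemClass.coe_one] at this

end CfsgLib.Blocks.TwoGen
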